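import Mathlib
import Cfsg.Agent.Cl.WittForms
import Cfsg.Agent.Cl.CharCuspA
import Cfsg.Agent.Ch.Mackey
import Cfsg.Agent.Perm.PermChar

/-!
# Degree graph of the symplectic and orthogonal groups: definitions

Abstract part: parabolic data `IsPar`, the vanishing datum `Van`, the Hecke function `SE`.
Geometric part: formed spaces `Fm` (symplectic or orthogonal, nondegenerate), their isometry groups,
hyperbolic extensions `hyp k`, parabolic subgroups, types `Ty d e`.
-/

set_option autoImplicit false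

namespace Cfsg.Agent.DG

open Module Matrix Finset
open scoped ComplexConjugate

/-! ## Abstract part -/

section Abs

variable {G : Type} [Group G]

/-- `P = U ⋊ L`, `n` normalises `L` and `P ∩ n⁻¹ P n = L`. -/
structure IsPar (P U L : Subgroup G) (n : G) : Prop where
  UP : U ≤ P
  LP : L ≤ P
  dec : ∀ g ∈ P, ∃ u ∈ U, ∃ l ∈ L, g = u * l
  nU : ∀ g ∈ P, ∀ u ∈ U, g * u * g⁻¹ ∈ U
  UL : ∀ g ∈ U, g ∈ L → g = 1
  nL : ∀ l ∈ L, n * l * n⁻¹ ∈ L
  nL' : ∀ l ∈ L, n⁻¹ * l * n ∈ L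
  cap : ∀ g ∈ P, n * g * n⁻¹ ∈ P → g ∈ L
  nP : n ∉ P

/-- The datum that kills the Mackey term of `x`: `c φ = ∑ F j` on `P`, each `F j` is right invariant under a
nonempty finite family `α j i` of elements of `K ∩ P ∩ x⁻¹ P x`, and the conjugated family kills `φ`. -/
def Van (K P : Subgroup G) (φ : G → ℂ) (x : G) : Prop :=
  ∃ (J : Type) (_ : Fintype J) (c : ℂ) (F : J → G → ℂ) (I : J → Type) (_ : ∀ j, Fintype (I j))
    (α : ∀ j, I j → G), c ≠ 0 ∧ (∀ j, Nonempty (I j)) ∧ (∀ g ∈ P, c * φ g = ∑ j, F j g) ∧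
    (∀ j i, α j i ∈ K ∧ α j i ∈ P ∧ x * α j i * x⁻¹ ∈ P) ∧ (∀ j i, ∀ g ∈ P, F j (g * α j i) = F j g) ∧
    ∀ j, ∀ g ∈ P, ∑ i, φ (g * (x * α j i * x⁻¹)) = 0

/-- Every element lies in `P`, in `P n P`, or its Mackey term is killed. -/
def Tri (K P : Subgroup G) (n : G) (φ : G → ℂ) : Prop :=
  ∀ x, x ∈ P ∨ (∃ g ∈ P, ∃ g' ∈ P, x = g * n * g') ∨ Van K P φ x

/-- `χ (x E)` for the idempotent `E` of `φ`. -/
noncomputable def SE (P : Subgroup G) [Fintype P] (φ χ : G → ℂ) (x : G) : ℂ :=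
  φ 1 / Nat.card P * ∑ h : P, conj (φ h) * χ (x * h)

/-- The hypotheses of the two-constituent situation. -/
structure HS (K P U L : Subgroup G) (n : G) (φ : G → ℂ) : Prop where
  par : IsPar P U L n
  irr : IsIrrCharacter P fun g => φ g
  triv : ∀ u ∈ U, φ u = φ 1
  comm : ∀ l ∈ L, φ (l⁻¹ * (n * l * n⁻¹)) = φ 1
  tri : Tri K P n φ

/-- A constituent `χ` of multiplicity one with Hecke eigenvalue `y`. -/
structure HC (K P U : Subgroup G) [Fintype P] (n : G) (φ χ : G → ℂ) (y : ℂ) : Prop where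
  irr : IsIrrCharacter G χ
  inP : ∀ g ∈ P, SE P φ χ g = φ g
  big : ∀ g ∈ P, ∀ g' ∈ P, SE P φ χ (g * n * g') = y / Nat.card U * φ (g' * g)
  van : ∀ x, Van K P φ x → SE P φ χ x = 0
  int : IsIntegral ℤ y

/-- The outcome: `Ind φ = χ₁ + χ₂`, `χ₂(1) = p ^ c χ₁(1)`, where `|U| = p ^ a`. -/
structure HO [Fintype G] (K P U : Subgroup G) [Fintype P] (n : G) (φ : G → ℂ) (p a : ℕ) (χ₁ χ₂ : G → ℂ)
    (y₁ y₂ : ℂ) (c : ℕ) : Prop where
  h₁ : HC K P U n φ χ₁ y₁
  h₂ : HC K P U n φ χ₂ y₂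
  ne : χ₁ ≠ χ₂
  sum : indFun P (fun g => φ g) = χ₁ + χ₂
  deg : charDegree χ₂ = p ^ c * charDegree χ₁
  y₁ : y₁ * conj y₁ = (p : ℂ) ^ (a + c)
  y₂ : y₂ * conj y₂ * (p : ℂ) ^ c = (p : ℂ) ^ a

/-- Integer valued. -/
def IntV {X : Type} (χ : X → ℂ) : Prop := ∀ g, ∃ m : ℤ, χ g = m

end Abs

/-- A cuspidal irreducible character of `GL_k(F)` of degree `∏ (q^i - 1)`. -/
structure Cusp (F : Type) [Field F] (k : ℕ) (θ : GL (Fin k) F → ℂ) : Prop where
  irr : IsIrrCharacter (GL (Fin k) F) θ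
  deg : charDegree θ = ∏ i ∈ Ico 1 k, (Nat.card F ^ i - 1)
  cusp : ∀ A : Submodule F (Fin k → F), A ≠ ⊥ → A ≠ ⊤ → ∀ [Fintype (Cl.Cu.rad A)]
    (u : Cl.Cu.rad A → GL (Fin k) F), (∀ b x, (u b : Matrix (Fin k) (Fin k) F) *ᵥ x = x + b.1 x) →
    ∀ g, ∑ b, θ (g * u b) = 0

/-- The inverse transpose. -/
def itr {F : Type} [Field F] {k : ℕ} (a : GL (Fin k) F) : GL (Fin k) F :=
  ⟨((a⁻¹ : GL (Fin k) F) : Matrix (Fin k) (Fin k) F)ᵀ, (a : Matrix (Fin k) (Fin k) F)ᵀ,
    by rw [← transpose_mul, Units.mul_inv, transpose_one], by rw [← transpose_mul, Units.inv_mul, transpose_one]⟩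

theorem coe_itr {F : Type} [Field F] {k : ℕ} (a : GL (Fin k) F) :
    (itr a : Matrix (Fin k) (Fin k) F) = ((a⁻¹ : GL (Fin k) F) : Matrix (Fin k) (Fin k) F)ᵀ := rfl

/-- `∏_{d ≤ i < d + k} (q^(i+1) - 1)(q^(i+e) + 1)`. -/
def NN (q e d k : ℕ) : ℕ := ∏ i ∈ range k, ((q ^ (d + i + 1) - 1) * (q ^ (d + i + e) + 1))

/-! ## Formed spaces -/

/-- A nondegenerate symplectic (`o = false`, `Q = 0`) or orthogonal (`o = true`, `B` the polar form) space. -/
structure Fm (F V : Type) [Field F] [AddCommGroup V] [Module F V] where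
  B : LinearMap.BilinForm F V
  Q : QuadraticForm F V
  o : Bool
  nd : ∀ x, (∀ y, B x y = 0) → x = 0
  ho : o = true → ∀ x y, B x y = QuadraticMap.polar Q x y
  hs : o = false → (∀ x, B x x = 0) ∧ ∀ x, Q x = 0

namespace Fm

variable {F V V' : Type} [Field F] [AddCommGroup V] [Module F V] [AddCommGroup V'] [Module F V'] (S : Fm F V)

/-- `1` for orthogonal, `0` for symplectic. -/
def δ : F := if S.o then 1 else 0
/-- `1` for orthogonal, `-1` for symplectic. -/
def ε : F := if S.o then 1 else -1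

theorem Q_add (x y : V) : S.Q (x + y) = S.Q x + S.Q y + S.δ * S.B x y := by
  cases h : S.o
  · simp [δ, h, (S.hs h).2]
  · simp [δ, h, S.ho h, QuadraticMap.polar]

theorem Q_smul (a : F) (x : V) : S.Q (a • x) = a ^ 2 * S.Q x := by
  rw [QuadraticMap.map_smul, smul_eq_mul, sq]

theorem Q_neg (x : V) : S.Q (-x) = S.Q x := QuadraticMap.map_neg _ _

theorem B_swap (x y : V) : S.B y x = S.ε * S.B x y := by
  cases h : S.o
  · have := (S.hs h).1 (x + y)
    simp only [map_add, LinearMap.add_apply, (S.hs h).1] at this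
    simp only [ε, h]
    simp
    linear_combination this
  · simp [ε, h, S.ho h, QuadraticMap.polar_comm]

theorem B_self (x : V) : S.B x x = 2 * S.Q x := by
  cases h : S.o
  · simp [(S.hs h).1, (S.hs h).2]
  · simp [S.ho h, QuadraticMap.polar_self, two_mul, two_smul]

theorem δ_Q (x : V) : S.δ * S.Q x = S.Q x := by
  cases h : S.o
  · simp [(S.hs h).2]
  · simp [δ, h]

theorem ε_Q (x : V) : S.ε * S.Q x = S.Q x := by
  cases h : S.o
  · simp [(S.hs h).2]
  · simp [ε, h]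

theorem ε_sq : S.ε * S.ε = 1 := by cases h : S.o <;> simp [ε, h]
theorem δ_ε : S.δ * S.ε = S.δ := by cases h : S.o <;> simp [ε, δ, h]
theorem δ_sq : S.δ * S.δ = S.δ := by cases h : S.o <;> simp [δ, h]
theorem ε_eq : S.ε = 2 * S.δ - 1 := by cases h : S.o <;> simp [ε, δ, h]; norm_num

theorem Q_sub (x y : V) : S.Q (x - y) = S.Q x + S.Q y - S.δ * S.B x y := by
  rw [sub_eq_add_neg, Q_add, Q_neg, map_neg]; ring

theorem B_refl {x y : V} (h : S.B x y = 0) : S.B y x = 0 := by rw [S.B_swap, h, mul_zero]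

theorem witt : Cl.WittData (σ := RingHom.id F) S.B S.Q (AddMonoidHom.mulLeft S.δ) where
  surj := Function.surjective_id
  symm := fun x y x' y' h => by rw [S.B_swap x y, S.B_swap x' y', h]
  add := S.Q_add
  smul := fun a x y h => by rw [Q_smul, Q_smul, h]
  self := fun x y h => by rw [B_self, B_self, h]
  trace := fun x => ⟨S.Q x, (S.δ_Q x).symm⟩

/-- The isometry group. -/
def G : Subgroup (V ≃ₗ[F] V) where
  carrier := {g | (∀ x y, S.B (g x) (g y) = S.B x y) ∧ ∀ x, S.Q (g x) = S.Q x}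
  mul_mem' {a b} ha hb := ⟨fun x y => by rw [LinearEquiv.mul_apply, LinearEquiv.mul_apply, ha.1, hb.1],
    fun x => by rw [LinearEquiv.mul_apply, ha.2, hb.2]⟩
  one_mem' := ⟨fun _ _ => rfl, fun _ => rfl⟩
  inv_mem' {a} ha := ⟨fun x y => by
      have h := ha.1 (a.symm x) (a.symm y)
      rw [a.apply_symm_apply, a.apply_symm_apply] at h
      exact h.symm, fun x => by
      have h := ha.2 (a.symm x)
      rw [a.apply_symm_apply] at h
      exact h.symm⟩

variable {S}

@[simp] theorem B_app (g : S.G) (x y : V) : S.B (g.1 x) (g.1 y) = S.B x y := g.2.1 x y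
@[simp] theorem Q_app (g : S.G) (x : V) : S.Q (g.1 x) = S.Q x := g.2.2 x
@[simp] theorem mul_app (g h : S.G) (x : V) : (g * h).1 x = g.1 (h.1 x) := rfl
@[simp] theorem one_app (x : V) : (1 : S.G).1 x = x := rfl
@[simp] theorem app_inv_app (g : S.G) (x : V) : g.1 ((g⁻¹).1 x) = x := g.1.apply_symm_apply x
@[simp] theorem inv_app_app (g : S.G) (x : V) : (g⁻¹).1 (g.1 x) = x := g.1.symm_apply_apply x
theorem G_ext {g h : S.G} (H : ∀ x, g.1 x = h.1 x) : g = h := Subtype.ext (LinearEquiv.ext H)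

variable (S)

instance finiteG [Finite V] : Finite S.G :=
  Finite.of_injective (fun g : S.G => (g.1 : V → V)) fun _ _ h => G_ext fun x => congrFun h x

noncomputable instance fintypeG [Finite V] : Fintype S.G := Fintype.ofFinite _

noncomputable instance fintypeSub [Finite V] (H : Subgroup S.G) : Fintype H := Fintype.ofFinite _

/-- An isometry from a linear map preserving the forms. -/
noncomputable def mk' [Finite V] (f : V →ₗ[F] V) (hB : ∀ x y, S.B (f x) (f y) = S.B x y)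
    (hQ : ∀ x, S.Q (f x) = S.Q x) : S.G :=
  ⟨LinearEquiv.ofBijective f (Finite.injective_iff_bijective.1 ((injective_iff_map_eq_zero f).2 fun x hx =>
    S.nd x fun y => by rw [← hB, hx, map_zero, LinearMap.zero_apply])), hB, hQ⟩

@[simp] theorem mk'_app [Finite V] (f : V →ₗ[F] V) (hB : ∀ x y, S.B (f x) (f y) = S.B x y)
    (hQ : ∀ x, S.Q (f x) = S.Q x) (x : V) : (S.mk' f hB hQ).1 x = f x := rfl

/-- `-1`. -/
def neg : S.G := ⟨LinearEquiv.neg F, fun x y => by simp, fun x => S.Q_neg x⟩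

@[simp] theorem neg_app (x : V) : S.neg.1 x = -x := rfl

/-- The linear map `v ↦ v + B(v,y) a - B(a,v) y - Q(y) B(a,v) a`. -/
def eichL (a y : V) : V →ₗ[F] V :=
  LinearMap.id + (S.B.flip y).smulRight a - (S.B a).smulRight y - (S.B a).smulRight (S.Q y • a)

theorem eichL_app (a y v : V) :
    S.eichL a y v = v + S.B v y • a - S.B a v • y - (S.Q y * S.B a v) • a := by
  simp [eichL, smul_smul, mul_comm]

/-- The Eichler transformation. -/
noncomputable def eich [Finite V] (a y : V) (ha : S.Q a = 0) (hy : S.B a y = 0) : S.G :=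
  S.mk' (S.eichL a y) (fun v w => by
      have h1 : S.B a a = 0 := by rw [B_self, ha, mul_zero]
      have h2 := S.B_refl hy
      simp only [eichL_app, map_add, map_sub, map_smul, LinearMap.add_apply, LinearMap.sub_apply,
        LinearMap.smul_apply, smul_eq_mul, h1, h2, hy, S.B_self y, S.B_swap a v, S.B_swap w y]
      have := S.ε_Q y
      linear_combination (-(S.B a v * S.B a w)) * this)
    fun v => by
      have h2 := S.B_refl hy
      have h1 : S.B a a = 0 := by rw [B_self, ha, mul_zero]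
      simp only [eichL_app, Q_add, Q_sub, Q_smul, map_add, map_sub, map_smul, LinearMap.add_apply,
        LinearMap.sub_apply, LinearMap.smul_apply, smul_eq_mul, h1, h2, hy, ha, S.B_swap a v]
      have h3 := S.δ_Q y
      have h4 := S.δ_ε
      linear_combination (S.B v y * S.B a v - S.Q y * S.B a v ^ 2) * h4 - S.B a v ^ 2 * h3

theorem eich_app [Finite V] {a y : V} (ha : S.Q a = 0) (hy : S.B a y = 0) (v : V) :
    (S.eich a y ha hy).1 v = v + S.B v y • a - S.B a v • y - (S.Q y * S.B a v) • a := S.eichL_app a y v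

/-- The reflection in `w` (the identity if `Q w = 0`). -/
noncomputable def refl [Finite V] (w : V) : S.G :=
  S.mk' (LinearMap.id - (S.B.flip w).smulRight ((S.Q w)⁻¹ • w)) (fun x y => by
      by_cases h : S.Q w = 0
      · simp [h]
      have he : S.ε = 1 := mul_right_cancel₀ h (by rw [ε_Q, one_mul])
      simp only [LinearMap.sub_apply, LinearMap.id_apply, LinearMap.smulRight_apply, LinearMap.BilinForm.flip_apply,
        map_sub, map_smul, LinearMap.smul_apply, smul_eq_mul, S.B_self w, S.B_swap y w, he]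
      field_simp
      ring)
    fun x => by
      by_cases h : S.Q w = 0
      · simp [h]
      have he : S.δ = 1 := mul_right_cancel₀ h (by rw [δ_Q, one_mul])
      simp only [LinearMap.sub_apply, LinearMap.id_apply, LinearMap.smulRight_apply, LinearMap.BilinForm.flip_apply,
        Q_sub, Q_smul, map_smul, smul_eq_mul, he]
      field_simp
      ring

theorem refl_app [Finite V] (w x : V) : (S.refl w).1 x = x - (S.B x w * (S.Q w)⁻¹) • w := by
  simp [refl, smul_smul]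

/-- The symplectic transvection `x ↦ x + c B(x,w) w`. -/
noncomputable def tv [Finite V] (h : S.o = false) (w : V) (c : F) : S.G :=
  S.mk' (LinearMap.id + (S.B.flip w).smulRight (c • w)) (fun x y => by
      have he : S.ε = -1 := by simp [ε, h]
      simp only [LinearMap.add_apply, LinearMap.id_apply, LinearMap.smulRight_apply, LinearMap.BilinForm.flip_apply,
        map_add, map_smul, LinearMap.smul_apply, smul_eq_mul, (S.hs h).1 w, S.B_swap y w, he]
      ring)
    fun x => by rw [(S.hs h).2, (S.hs h).2]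

theorem tv_app [Finite V] (h : S.o = false) (w : V) (c : F) (x : V) :
    (S.tv h w c).1 x = x + (c * S.B x w) • w := by
  simp [tv, smul_smul, mul_comm]

/-- The stabiliser of a subspace. -/
def St (T : Submodule F V) : Subgroup S.G where
  carrier := {g | ∀ z, z ∈ T ↔ g.1 z ∈ T}
  mul_mem' {a b} ha hb := fun z => (hb z).trans (ha _)
  one_mem' := fun _ => Iff.rfl
  inv_mem' {a} ha := fun z => by rw [ha ((a⁻¹).1 z), app_inv_app]

/-- The isometries that are trivial on `T` and on `T^⊥ / T`. -/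
def Ur (T : Submodule F V) : Subgroup S.G where
  carrier := {g | (∀ z ∈ T, g.1 z = z) ∧ ∀ z, (∀ t ∈ T, S.B t z = 0) → g.1 z - z ∈ T}
  mul_mem' {a b} ha hb := ⟨fun z hz => by rw [mul_app, hb.1 z hz, ha.1 z hz], fun z hz => by
    have h1 := ha.1 _ (hb.2 z hz)
    rw [map_sub] at h1
    have : (a * b).1 z - z = (b.1 z - z) + (a.1 z - z) := by rw [mul_app, ← h1]; abel
    rw [this]
    exact T.add_mem (hb.2 z hz) (ha.2 z hz)⟩
  one_mem' := ⟨fun _ _ => rfl, fun z _ => by simp⟩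
  inv_mem' {a} ha := ⟨fun z hz => by conv_lhs => rw [← ha.1 z hz, inv_app_app], fun z hz => by
    have h1 := ha.1 _ (ha.2 z hz)
    have h2 : (a⁻¹).1 z = z - (a.1 z - z) := by
      apply a.1.injective
      rw [app_inv_app, map_sub, h1]
      abel
    rw [h2, sub_sub_cancel_left]
    exact T.neg_mem (ha.2 z hz)⟩

theorem mem_St {T : Submodule F V} {g : S.G} : g ∈ S.St T ↔ ∀ z, z ∈ T ↔ g.1 z ∈ T := Iff.rfl

theorem mem_Ur {T : Submodule F V} {g : S.G} :
    g ∈ S.Ur T ↔ (∀ z ∈ T, g.1 z = z) ∧ ∀ z, (∀ t ∈ T, S.B t z = 0) → g.1 z - z ∈ T := Iff.rfl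

/-- Isometric spaces. -/
def Iso (S : Fm F V) (S' : Fm F V') : Prop :=
  S.o = S'.o ∧ ∃ e : V ≃ₗ[F] V', (∀ x y, S'.B (e x) (e y) = S.B x y) ∧ ∀ x, S'.Q (e x) = S.Q x

/-- The singular points. -/
def Pt : Type := {W : Submodule F V // finrank F W = 1 ∧ ∀ v ∈ W, S.Q v = 0}

instance finitePt [Finite V] : Finite S.Pt :=
  @Subtype.finite _ (Finite.of_injective (fun W : Submodule F V => (W : Set V)) SetLike.coe_injective) _

instance actPt : MulAction S.G S.Pt where
  smul g W := ⟨W.1.map (g.1 : V →ₗ[F] V), by rw [LinearEquiv.finrank_map_eq]; exact W.2.1, by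
    rintro _ ⟨v, hv, rfl⟩
    exact (Q_app g v).trans (W.2.2 v hv)⟩
  one_smul W := Subtype.ext (Submodule.map_id _)
  mul_smul g h W := Subtype.ext (Submodule.map_comp (h.1 : V →ₗ[F] V) (g.1 : V →ₗ[F] V) W.1)

theorem smul_Pt (g : S.G) (W : S.Pt) : (g • W).1 = W.1.map (g.1 : V →ₗ[F] V) := rfl

/-- An irreducible constituent of the permutation character on the singular points. -/
def PC [Finite V] (χ : S.G → ℂ) : Prop :=
  IsIrrCharacter S.G χ ∧ classInner (Perm.permChar S.G S.Pt) χ ≠ 0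

/-- `ψ` is a sum of functions each right invariant under the stabiliser of a vector. -/
def SplV (ψ : S.G → ℂ) : Prop :=
  ∃ (J : Type) (_ : Fintype J) (c : ℂ) (f : J → S.G → ℂ) (z : J → V), c ≠ 0 ∧ (∀ g, c * ψ g = ∑ j, f j g) ∧
    ∀ j g s, s.1 (z j) = z j → f j (g * s) = f j g

/-- `ψ` is a sum of functions each right invariant under the stabiliser of a singular point. -/
def SplP (ψ : S.G → ℂ) : Prop :=
  ∃ (J : Type) (_ : Fintype J) (c : ℂ) (f : J → S.G → ℂ) (z : J → V), c ≠ 0 ∧ (∀ g, c * ψ g = ∑ j, f j g) ∧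
    (∀ j, S.Q (z j) = 0) ∧ ∀ j g s, (∃ t : F, s.1 (z j) = t • z j) → f j (g * s) = f j g

/-- `-1` must act trivially. -/
def CZ : Prop := S.o = true → S.neg ∈ commutator S.G

/-- `χ` does not vanish off the commutator subgroup. -/
def NV (χ : S.G → ℂ) : Prop := ∃ g, g ∉ commutator S.G ∧ χ g ≠ 0

/-- There is an irreducible character of degree `n` of the isometry group, trivial on `-1` if needed. -/
def Out (n : ℕ) : Prop := ∃ χ, IsIrrCharacter S.G χ ∧ charDegree χ = n ∧ (S.CZ → χ S.neg = χ 1)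

/-- `Out` by a character not vanishing off the commutator subgroup (orthogonal case). -/
def OutN (n : ℕ) : Prop :=
  ∃ χ, IsIrrCharacter S.G χ ∧ charDegree χ = n ∧ (S.CZ → χ S.neg = χ 1) ∧ (S.o = true → S.NV χ)

/-- `n` divides an irreducible character degree of the projective group `PSp` or `PΩ`. -/
def Tg (n : ℕ) : Prop :=
  (S.o = false → ∃ χ, IsIrrCharacter (S.G ⧸ Subgroup.center S.G) χ ∧ n ∣ charDegree χ) ∧
  (S.o = true → ∃ χ, IsIrrCharacter (commutator S.G ⧸ Subgroup.center (commutator S.G)) χ ∧ n ∣ charDegree χ)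

/-- The index of `Ω` (of `Sp`) in the isometry group. -/
noncomputable def idx : ℕ := by classical exact if S.o then (if (2 : F) = 0 then 2 else 4) else 1

/-! ## Hyperbolic extensions and their parabolic subgroups -/

/-- The underlying space of `S.hyp k`. -/
abbrev HV (F : Type) (k : ℕ) (V : Type) : Type := ((Fin k → F) × (Fin k → F)) × V

/-- The orthogonal sum of `k` hyperbolic planes and `S`. -/
noncomputable def hyp (k : ℕ) : Fm F (HV F k V) where
  B := LinearMap.mk₂ F (fun z z' => z.1.1 ⬝ᵥ z'.1.2 + S.ε * (z.1.2 ⬝ᵥ z'.1.1) + S.B z.2 z'.2)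
    (fun _ _ _ => by simp; ring) (fun _ _ _ => by simp; ring) (fun _ _ _ => by simp; ring)
    (fun _ _ _ => by simp; ring)
  Q := LinearMap.BilinMap.toQuadraticMap (LinearMap.mk₂ F (fun z z' : HV F k V => S.δ * (z.1.1 ⬝ᵥ z'.1.2))
    (fun _ _ _ => by simp; ring) (fun _ _ _ => by simp; ring) (fun _ _ _ => by simp; ring)
    (fun _ _ _ => by simp; ring)) + S.Q.comp (LinearMap.snd F _ _)
  o := S.o
  nd := fun z h => by
    have hε : S.ε ≠ 0 := left_ne_zero_of_mul_eq_one S.ε_sq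
    refine Prod.ext (Prod.ext (funext fun i => ?_) (funext fun i => ?_)) (S.nd _ fun y => ?_)
    · simpa using h ((0, Pi.single i 1), 0)
    · simpa [hε] using h ((Pi.single i 1, 0), 0)
    · simpa using h (0, y)
  ho := fun h z z' => by
    simp [QuadraticMap.polar, S.Q_add, δ, ε, h, dotProduct_comm z.1.2]
    ring
  hs := fun h => ⟨fun z => by simp [ε, h, (S.hs h).1, dotProduct_comm z.1.2], fun z => by simp [δ, h, (S.hs h).2]⟩

variable {k : ℕ}

theorem hyp_B (z z' : HV F k V) :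
    (S.hyp k).B z z' = z.1.1 ⬝ᵥ z'.1.2 + S.ε * (z.1.2 ⬝ᵥ z'.1.1) + S.B z.2 z'.2 := rfl

theorem hyp_Q (z : HV F k V) : (S.hyp k).Q z = S.δ * (z.1.1 ⬝ᵥ z.1.2) + S.Q z.2 := rfl

@[simp] theorem hyp_o : (S.hyp k).o = S.o := rfl
@[simp] theorem hyp_δ : (S.hyp k).δ = S.δ := rfl
@[simp] theorem hyp_ε : (S.hyp k).ε = S.ε := rfl

variable (F V k) in
/-- The standard totally singular subspace. -/
def W : Submodule F (HV F k V) where
  carrier := {z | z.1.2 = 0 ∧ z.2 = 0}
  add_mem' := fun ha hb => ⟨by simp [ha.1, hb.1], by simp [ha.2, hb.2]⟩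
  zero_mem' := ⟨rfl, rfl⟩
  smul_mem' := fun c _ ha => ⟨by simp [ha.1], by simp [ha.2]⟩

theorem mem_W {z : HV F k V} : z ∈ W F V k ↔ z.1.2 = 0 ∧ z.2 = 0 := Iff.rfl

theorem dot_lev (a : GL (Fin k) F) (x y : Fin k → F) :
    ((a : Matrix (Fin k) (Fin k) F) *ᵥ x) ⬝ᵥ (((a⁻¹ : GL (Fin k) F) : Matrix (Fin k) (Fin k) F)ᵀ *ᵥ y) = x ⬝ᵥ y := by
  rw [mulVec_transpose, dotProduct_comm, ← dotProduct_mulVec, mulVec_mulVec, Units.inv_mul, one_mulVec,
    dotProduct_comm]

variable [Finite F] [Finite V]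

variable (k) in
/-- The Levi factor `GL_k × I(V)`. -/
noncomputable def lev : GL (Fin k) F × S.G →* (S.hyp k).G where
  toFun p := (S.hyp k).mk' (((Matrix.toLin' (p.1 : Matrix (Fin k) (Fin k) F)).prodMap
      (Matrix.toLin' ((p.1⁻¹ : GL (Fin k) F) : Matrix (Fin k) (Fin k) F)ᵀ)).prodMap (p.2.1 : V →ₗ[F] V))
    (fun z z' => by
      simp only [hyp_B, LinearMap.prodMap_apply, Matrix.toLin'_apply, dot_lev, LinearEquiv.coe_coe, B_app]
      rw [dotProduct_comm _ (_ *ᵥ z'.1.1), dot_lev, dotProduct_comm z'.1.1])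
    fun z => by
      simp only [hyp_Q, LinearMap.prodMap_apply, Matrix.toLin'_apply, dot_lev, LinearEquiv.coe_coe, Q_app]
  map_one' := G_ext fun z => by simp
  map_mul' p p' := G_ext fun z => by simp [transpose_mul]

theorem lev_app (a : GL (Fin k) F) (g : S.G) (z : HV F k V) : (S.lev k (a, g)).1 z =
    (((a : Matrix (Fin k) (Fin k) F) *ᵥ z.1.1, ((a⁻¹ : GL (Fin k) F) : Matrix (Fin k) (Fin k) F)ᵀ *ᵥ z.1.2),
      g.1 z.2) := rfl

variable (k) in
/-- The element interchanging the two standard totally singular subspaces. -/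
noncomputable def nn : (S.hyp k).G :=
  (S.hyp k).mk' (((S.ε • LinearMap.snd F _ _).prod (LinearMap.fst F _ _)).prodMap LinearMap.id)
    (fun z z' => by
      change (S.ε • z.1.2) ⬝ᵥ z'.1.1 + S.ε * (z.1.1 ⬝ᵥ (S.ε • z'.1.2)) + S.B z.2 z'.2 = _
      simp only [hyp_B, smul_dotProduct, dotProduct_smul, smul_eq_mul, ← mul_assoc, S.ε_sq]
      ring)
    fun z => by
      change S.δ * ((S.ε • z.1.2) ⬝ᵥ z.1.1) + S.Q z.2 = _
      simp only [hyp_Q, smul_dotProduct, smul_eq_mul, ← mul_assoc, S.δ_ε, dotProduct_comm z.1.2]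

theorem nn_app (z : HV F k V) : (S.nn k).1 z = ((S.ε • z.1.2, z.1.1), z.2) := rfl

variable (k)

/-- The parabolic subgroup. -/
noncomputable abbrev P : Subgroup (S.hyp k).G := (S.hyp k).St (W F V k)
/-- Its unipotent radical. -/
noncomputable abbrev U : Subgroup (S.hyp k).G := (S.hyp k).Ur (W F V k)
/-- Its Levi factor. -/
noncomputable abbrev L : Subgroup (S.hyp k).G := (S.lev k).range

/-- `φ` is the inflation of `θ ⊗ ψ` to the parabolic subgroup. -/
def IsPhi (θ : GL (Fin k) F → ℂ) (ψ : S.G → ℂ) (φ : (S.hyp k).G → ℂ) : Prop :=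
  ∀ u ∈ S.U k, ∀ a g, φ (u * S.lev k (a, g)) = θ a * ψ g

/-- `K` contains all Eichler transformations. -/
def EK (K : Subgroup S.G) : Prop := ∀ a y ha hy, S.eich a y ha hy ∈ K

/-- `x W` is orthogonal to `W` and meets it trivially. -/
def Mid (x : (S.hyp k).G) : Prop :=
  (∀ w ∈ W F V k, (x.1 w).1.2 = 0) ∧ ∀ w ∈ W F V k, x.1 w ∈ W F V k → w = 0

/-- There is a non-real cuspidal character of `GL_k`, trivial on `-1` if needed. -/
def AdmK : Prop := 3 ≤ k ∨ (2 ≤ k ∧ 4 ≤ Nat.card F) ∨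
  ((¬ S.CZ ∨ (2 : F) = 0) ∧ ((2 ≤ k ∧ 3 ≤ Nat.card F) ∨ (1 ≤ k ∧ 4 ≤ Nat.card F)))

/-- Witt index `d` and anisotropic kernel of type `e`: `e = 0, 1, 2` for `O⁺`; `O` in odd dimension and `Sp`;
`O⁻`. -/
def Ty (d e : ℕ) : Prop :=
  ∃ (V₀ : Type) (_ : AddCommGroup V₀) (_ : Module F V₀) (_ : Finite V₀) (S₀ : Fm F V₀),
    (∀ v, S₀.Q v = 0 → v = 0) ∧ e = finrank F V₀ + (if S₀.o then 0 else 1) ∧ S.Iso (S₀.hyp d)

end Fm

end Cfsg.Agent.DG
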