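import Mathlib
import Cfsg.Agent.DG.Defs
import Cfsg.Agent.Ch.Decomp
import Cfsg.Agent.Ch.Galois
import Cfsg.Agent.Perm.Isotypic

/-! Small character-theoretic tools. -/

set_option autoImplicit false

namespace Cfsg.Agent.DG

open Module Matrix Finset
open scoped ComplexConjugate

variable {G : Type} [Group G] [Finite G] {χ : G → ℂ}

/-- The homomorphism attached to an additive family. -/
def toolsHom {A : Type} [AddGroup A] (f : A → G) (hf : ∀ a b, f (a + b) = f a * f b) : Multiplicative A →* G :=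
  MonoidHom.mk' (fun a => f a.toAdd) fun a b => hf _ _

theorem kill_add (hχ : IsCharacter G χ) {A : Type} [AddGroup A] [Fintype A] (f : A → G)
    (hf : ∀ a b, f (a + b) = f a * f b) (h0 : ∑ a, χ (f a) = 0) (g : G) : ∑ a, χ (g * f a) = 0 := by
  obtain ⟨ρ, hρ⟩ := hχ.exists_rep
  generalize charDegree χ = d at ρ hρ
  subst hρ
  have h1 : Perm.isoProj (ρ.comp (toolsHom f hf)) (fun _ => 1) = 0 := by
    refine Perm.isoProj_eq_zero _ IsIrrCharacter.one ?_
    rw [Ch.classInner_one_right]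
    exact mul_eq_zero_of_right _ ((Equiv.sum_comp Multiplicative.ofAdd _).symm.trans h0)
  have h2 : ∑ a, ρ (f a) = 0 := by
    simp only [Perm.isoProj, map_one, one_smul, smul_eq_zero, div_eq_zero_iff, one_ne_zero, false_or] at h1
    exact (Equiv.sum_comp Multiplicative.ofAdd fun a => ρ (toolsHom f hf a)).trans
      (h1.resolve_left (Ch.natCard_ne_zero _))
  have h3 := congrArg (fun T => LinearMap.trace ℂ _ (ρ g * T)) h2
  simpa only [Representation.character, mul_sum, map_sum, mul_zero, map_zero, ← map_mul] using h3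

theorem nat_avg (hχ : IsCharacter G χ) {A : Type} [AddGroup A] [Fintype A] (f : A → G)
    (hf : ∀ a b, f (a + b) = f a * f b) : ∃ m : ℕ, ∑ a, χ (f a) = Nat.card A * m := by
  obtain ⟨m, hm⟩ := (hχ.comp (toolsHom f hf)).exists_nat_classInner IsCharacter.one
  refine ⟨m, ?_⟩
  rw [Ch.classInner_one_right] at hm
  have h0 : (Nat.card A : ℂ) ≠ 0 := Ch.natCard_ne_zero (Multiplicative A)
  rw [← hm, ← mul_assoc]
  change _ = (Nat.card A : ℂ) * (Nat.card A : ℂ)⁻¹ * _
  rw [mul_inv_cancel₀ h0, one_mul]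
  exact Equiv.sum_comp Multiplicative.ofAdd fun a => χ (toolsHom f hf a)

theorem pm_of_central (hχ : IsIrrCharacter G χ) {z : G} (hz : ∀ g, g * z = z * g) (h2 : z * z = 1) :
    χ z = χ 1 ∨ χ z = -χ 1 := by
  classical
  have := Fintype.ofFinite G
  have hc : IsClassFunction G fun g => if g = z then (1 : ℂ) else 0 := fun g x => by
    have : x * g * x⁻¹ = z ↔ g = z := by
      rw [mul_inv_eq_iff_eq_mul, ← hz, mul_right_inj]
    simp only [this]
  have h1 := hχ.sum_mul_apply_mul hc z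
  simp only [ite_mul, one_mul, zero_mul, sum_ite_eq', mem_univ, if_true, h2] at h1
  have h0 := hχ.apply_one_ne_zero
  have h3 : (χ z - χ 1) * (χ z + χ 1) = 0 := by
    field_simp at h1
    linear_combination -h1
  rcases mul_eq_zero.1 h3 with h | h
  · exact Or.inl (sub_eq_zero.1 h)
  · exact Or.inr (eq_neg_of_add_eq_zero_left h)

theorem exists_sign {z : G} (hz : ∀ g, g * z = z * g) (h2 : z * z = 1) (h1 : z ≠ 1) :
    ∃ ψ, IsIrrCharacter G ψ ∧ ψ z = -ψ 1 := by
  by_contra h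
  push Not at h
  have h3 := Ch.sum_degree_mul_apply_of_ne h1
  rw [sum_congr rfl fun ψ _ => by rw [(pm_of_central ψ.2 hz h2).resolve_right (h _ ψ.2), ← sq],
    Ch.sum_sq_degree] at h3
  exact Ch.natCard_ne_zero G h3

theorem ker_of_add {ψ : G → ℂ} (hχ : IsCharacter G χ) (hψ : IsCharacter G ψ) {z : G}
    (h : χ z + ψ z = χ 1 + ψ 1) : χ z = χ 1 ∧ ψ z = ψ 1 := by
  have h1 := hχ.re_le z
  have h2 := hψ.re_le z
  have h3 := congrArg Complex.re h
  simp only [Complex.add_re] at h3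
  exact ⟨hχ.eq_apply_one_of_re_eq (by linarith), hψ.eq_apply_one_of_re_eq (by linarith)⟩

theorem ker_of_const {G : Type} [Group G] [Fintype G] {Φ χ : G → ℂ} (hΦ : IsCharacter G Φ)
    (hχ : IsIrrCharacter G χ) (h : classInner Φ χ ≠ 0) {z : G} (hz : Φ z = Φ 1) : χ z = χ 1 := by
  obtain ⟨ψ, hψ, rfl⟩ := hΦ.exists_eq_irr_add hχ h
  exact (ker_of_add hχ.isCharacter hψ hz).1

theorem mul_of_ker (hχ : IsCharacter G χ) {z : G} (hz : χ z = χ 1) (g : G) :
    χ (g * z) = χ g ∧ χ (z * g) = χ g := by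
  obtain ⟨ρ, hρ⟩ := hχ.exists_rep
  have h1 : ρ z = LinearMap.id := by
    rw [← Ch.character_eq_finrank_iff ρ (isOfFinOrder_of_finite z), hρ, hz, ← hχ.coe_charDegree]
    simp
  have h2 : χ (g * z) = χ g := by
    rw [← hρ]
    simp only [Representation.character, map_mul, h1]
    rfl
  exact ⟨h2, by rw [hχ.isClassFunction.mul_comm, h2]⟩

theorem inner_ne_zero_of_const {G : Type} [Group G] [Fintype G] {Φ Ψ χ : G → ℂ} (hΦ : IsCharacter G Φ)
    (hΨ : IsCharacter G Ψ) (hχ : IsIrrCharacter G χ) (h : classInner Φ χ ≠ 0) (h' : classInner Ψ χ ≠ 0) :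
    classInner Φ Ψ ≠ 0 := hΦ.classInner_ne_zero_of_common hΨ hχ h h'

theorem intV_of_fixed (hχ : IsCharacter G χ) (h : ∀ (σ : ℂ →+* ℂ) g, σ (χ g) = χ g) : IntV χ := fun g => by
  obtain ⟨m, hm⟩ := hχ.isGeneralizedCharacter.exists_int_of_apply_pow_eq (g := g) fun k hk => by
    obtain ⟨σ, hσ⟩ := Ch.galois_exists_aut_char hk
    rw [← hσ χ hχ.isGeneralizedCharacter g]
    exact h σ.toRingHom g
  exact ⟨m, hm.symm⟩

end Cfsg.Agent.DG
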