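import Mathlib
import Cfsg.Agent.DG.Tools
import Cfsg.Agent.Ch.Linear

/-!
# Mackey's formula for the parabolic data `IsPar` under the trichotomy `Tri`
-/

set_option autoImplicit false

namespace Cfsg.Agent.DG

open Module Matrix Finset Cfsg.Agent.Ch
open scoped ComplexConjugate

section Aux

variable {G : Type} [Group G] {K P U L : Subgroup G} {n : G} {φ : G → ℂ}

/-- The Mackey term of `x`. -/
noncomputable def absM_T (P : Subgroup G) [Fintype P] (a φ : G → ℂ) (x : G) : ℂ :=
  ∑ g : P, a g * conj (extendByZero P (fun g : P => φ g) (x * g * x⁻¹))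

theorem absM_sum_P [Fintype P] [Fintype U] [Fintype L] (hP : IsPar P U L n) (F : G → ℂ) :
    ∑ g : P, F g = ∑ u : U, ∑ l : L, F (u * l) := by
  rw [← Fintype.sum_prod_type']
  symm
  refine Fintype.sum_bijective (fun p : U × L => (⟨p.1 * p.2, P.mul_mem (hP.UP p.1.2) (hP.LP p.2.2)⟩ : P))
    ⟨?_, ?_⟩ _ _ fun _ => rfl
  · rintro ⟨u, l⟩ ⟨u', l'⟩ h
    have h1 : (u : G) * l = u' * l' := congrArg Subtype.val h
    have h2 : (u' : G)⁻¹ * u = l' * (l : G)⁻¹ := by
      rw [inv_mul_eq_iff_eq_mul, ← mul_assoc, ← h1, mul_inv_cancel_right]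
    have h3 : (u' : G)⁻¹ * u = 1 :=
      hP.UL _ (U.mul_mem (U.inv_mem u'.2) u.2) (h2 ▸ L.mul_mem l'.2 (L.inv_mem l.2))
    have h4 : (u' : G) = u := inv_mul_eq_one.1 h3
    rw [h4] at h1
    exact Prod.ext (Subtype.ext h4.symm) (Subtype.ext (mul_left_cancel h1))
  · intro g
    obtain ⟨u, hu, l, hl, h⟩ := hP.dec g g.2
    exact ⟨(⟨u, hu⟩, ⟨l, hl⟩), Subtype.ext h.symm⟩

theorem absM_card_P [Finite G] (hP : IsPar P U L n) : (Nat.card P : ℂ) = Nat.card U * Nat.card L := by
  let _ := Fintype.ofFinite P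
  let _ := Fintype.ofFinite U
  let _ := Fintype.ofFinite L
  have := absM_sum_P hP fun _ => 1
  simpa [Nat.card_eq_fintype_card] using this

theorem absM_T_mem [Fintype P] (hφ : IsClassFunction P fun g => φ g) (a : G → ℂ) {x : G} (hx : x ∈ P) :
    absM_T P a φ x = ∑ g : P, a g * conj (φ g) := by
  refine Finset.sum_congr rfl fun g _ => ?_
  rw [extendByZero_conj_of_mem P hφ hx, extendByZero_coe]

theorem absM_T_big [Fintype P] [Fintype L] (hP : IsPar P U L n) (hφ : IsClassFunction P fun g => φ g) {a : G → ℂ}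
    (ha : IsClassFunction P fun g => a g) {g g' : G} (hg : g ∈ P) (hg' : g' ∈ P) :
    absM_T P a φ (g * n * g') = ∑ l : L, a l * conj (φ (n * l * n⁻¹)) := by
  classical
  have h1 : absM_T P a φ (g * n * g') =
      ∑ h : P, a h * conj (extendByZero P (fun g : P => φ g) (n * h * n⁻¹)) := by
    refine Fintype.sum_equiv (MulAut.conj (⟨g', hg'⟩ : P)).toEquiv _ _ fun h => ?_
    have e1 : g * n * g' * h * (g * n * g')⁻¹ = g * (n * (g' * h * g'⁻¹) * n⁻¹) * g⁻¹ := by group
    rw [e1, extendByZero_conj_of_mem P hφ hg]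
    congr 1
    exact (ha.conj_eq h ⟨g', hg'⟩).symm
  rw [h1]
  symm
  refine Finset.sum_of_injOn (fun l : L => (⟨l, hP.LP l.2⟩ : P)) (fun l _ l' _ h => Subtype.ext ?_)
    (fun _ _ => Finset.mem_univ _) (fun h _ hh => ?_) fun l _ => ?_
  · exact congrArg (fun z : P => (z : G)) h
  · rw [extendByZero_of_not_mem, map_zero, mul_zero]
    intro hc
    exact hh ⟨⟨h, hP.cap h h.2 hc⟩, Finset.mem_coe.2 (Finset.mem_univ _), rfl⟩
  · rw [extendByZero_of_mem P _ (hP.LP (hP.nL l l.2))]

theorem absM_T_van [Fintype P] (ε : G →* ℂˣ) (hK : ∀ g ∈ K, ε g = 1) {x : G} (hx : Van K P φ x) :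
    absM_T P (fun g => φ g * ε g) φ x = 0 := by
  obtain ⟨J, _, c, F, I, _, α, hc, hI, hF, hα, hFα, hs⟩ := hx
  have hj : ∀ j, absM_T P (fun g => F j g * ε g) φ x = 0 := by
    intro j
    have h1 : ∀ i, absM_T P (fun g => F j g * ε g) φ x = ∑ g : P, F j g * ε g *
        conj (extendByZero P (fun g : P => φ g) (x * g * x⁻¹ * (x * α j i * x⁻¹))) := by
      intro i
      symm
      refine Fintype.sum_equiv (Equiv.mulRight (⟨α j i, (hα j i).2.1⟩ : P)) _ _ fun g => ?_
      have e1 : x * g * x⁻¹ * (x * α j i * x⁻¹) = x * (g * α j i) * x⁻¹ := by group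
      simp only [Equiv.coe_mulRight, Subgroup.coe_mul, hFα j i g g.2, map_mul, hK _ (hα j i).1, mul_one, e1]
    have h2 : (Fintype.card (I j) : ℂ) * absM_T P (fun g => F j g * ε g) φ x = 0 := by
      have h3 : (Fintype.card (I j) : ℂ) * absM_T P (fun g => F j g * ε g) φ x =
          ∑ _i : I j, absM_T P (fun g => F j g * ε g) φ x := by simp
      rw [h3, Finset.sum_congr rfl fun i _ => h1 i, Finset.sum_comm]
      refine Finset.sum_eq_zero fun g _ => ?_
      rw [← Finset.mul_sum, ← map_sum]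
      by_cases hy : x * g * x⁻¹ ∈ P
      · rw [Finset.sum_congr rfl fun i _ => extendByZero_of_mem P _ (P.mul_mem hy (hα j i).2.2), hs j _ hy,
          map_zero, mul_zero]
      · rw [Finset.sum_eq_zero fun i _ => extendByZero_of_not_mem P _ fun h =>
          hy ((P.mul_mem_cancel_right (hα j i).2.2).1 h), map_zero, mul_zero]
    have := hI j
    exact (mul_eq_zero.1 h2).resolve_left (Nat.cast_ne_zero.2 Fintype.card_ne_zero)
  have h3 : c * absM_T P (fun g => φ g * ε g) φ x = ∑ j, absM_T P (fun g => F j g * ε g) φ x := by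
    unfold absM_T
    rw [Finset.mul_sum, Finset.sum_comm]
    refine Finset.sum_congr rfl fun g _ => ?_
    rw [← Finset.sum_mul, ← Finset.sum_mul, ← hF g g.2]
    ring
  rw [Finset.sum_eq_zero fun j _ => hj j] at h3
  exact (mul_eq_zero.1 h3).resolve_left hc

open Classical in
/-- A function that is constant on `P` and on `P n P` and vanishes on the `Van` elements. -/
theorem absM_sum_tri [Fintype G] (hP : IsPar P U L n) (ht : Tri K P n φ) (T : G → ℂ) {A B : ℂ}
    (h1 : ∀ x ∈ P, T x = A) (h2 : ∀ g ∈ P, ∀ g' ∈ P, T (g * n * g') = B) (h3 : ∀ x, Van K P φ x → T x = 0) :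
    ∑ x, T x = Nat.card P * A + Nat.card P * Nat.card U * B := by
  let _ := Fintype.ofFinite P
  set S : Finset G := Finset.univ.filter fun x => ∃ h ∈ P, ∃ k ∈ P, x = h * n * k with hS
  have hS' : ∀ x, x ∈ S ↔ ∃ h ∈ P, ∃ k ∈ P, x = h * n * k := by simp [hS]
  have hc := sum_doubleCoset_aux P P n (fun _ => 1) S hS'
  have hm : Nat.card (mackeySub P P n) = Nat.card L := by
    have : mackeySub P P n = L.subgroupOf P := by
      ext k
      rw [mem_mackeySub, Subgroup.mem_subgroupOf]
      exact ⟨hP.cap k k.2, fun h => hP.LP (hP.nL _ h)⟩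
    rw [this]
    exact Nat.card_congr (Subgroup.subgroupOfEquivOfLe hP.LP).toEquiv
  have hSc : (S.card : ℂ) = Nat.card P * Nat.card U := by
    simp only [Finset.sum_const, Finset.card_univ, nsmul_eq_mul, mul_one, hm, ← Nat.card_eq_fintype_card] at hc
    refine mul_left_cancel₀ (natCard_ne_zero L) ?_
    rw [← hc]
    nth_rewrite 2 [absM_card_P hP]
    ring
  have hT : ∀ x, T x = (if x ∈ P then A else 0) + if x ∈ S then B else 0 := by
    intro x
    by_cases hx : x ∈ P
    · have : x ∉ S := by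
        rw [hS']
        rintro ⟨g, hg, g', hg', rfl⟩
        exact hP.nP ((P.mul_mem_cancel_left hg).1 ((P.mul_mem_cancel_right hg').1 hx))
      rw [if_pos hx, if_neg this, add_zero, h1 x hx]
    by_cases hx' : x ∈ S
    · rw [if_neg hx, if_pos hx', zero_add]
      obtain ⟨g, hg, g', hg', rfl⟩ := (hS' x).1 hx'
      exact h2 g hg g' hg'
    rw [if_neg hx, if_neg hx', add_zero]
    rcases ht x with h | h | h
    · exact absurd h hx
    · exact absurd ((hS' x).2 h) hx'
    · exact h3 x h
  rw [Finset.sum_congr rfl fun x _ => hT x, Finset.sum_add_distrib, Finset.sum_ite_mem, Finset.univ_inter,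
    Finset.sum_const, nsmul_eq_mul, hSc, ← Finset.sum_filter, Finset.sum_const, nsmul_eq_mul]
  congr 2
  rw [Nat.card_eq_fintype_card, Fintype.card_subtype]

end Aux

variable {G : Type} [Group G] [Fintype G] {K P U L : Subgroup G} [Fintype P] [Fintype L] {n : G} {φ : G → ℂ}

theorem mackey_inner (hP : IsPar P U L n) (hφ : IsClassFunction P fun g => φ g) (ht : Tri K P n φ)
    (ε : G →* ℂˣ) (hK : ∀ g ∈ K, ε g = 1) :
    classInner (indFun P fun g => φ g * ε g) (indFun P fun g => φ g) =
      classInner (fun g : P => φ g * ε g) (fun g => φ g) +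
        classInner (fun l : L => φ l * ε l) fun l => φ (n * l * n⁻¹) := by
  have ha : IsClassFunction P fun g => φ g * ε g :=
    hφ.mul ((isIrrCharacter_monoidHom_units ε).isClassFunction.restrict P)
  have h1 : classInner (indFun P fun g => φ g * ε g) (indFun P fun g => φ g) =
      (Nat.card P : ℂ)⁻¹ * ((Nat.card P : ℂ)⁻¹ * ∑ x, absM_T P (fun g => φ g * ε g) φ x) := by
    rw [classInner_indFun_left P _ (indFun_isClassFunction P _), classInner_def]
    congr 1
    unfold absM_T
    rw [Finset.sum_comm, Finset.mul_sum]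
    refine Finset.sum_congr rfl fun g _ => ?_
    rw [indFun_apply, map_mul, map_inv₀, map_natCast, map_sum, ← Finset.mul_sum, mul_left_comm]
    congr 2
    refine Fintype.sum_equiv (Equiv.inv G) _ _ fun x => ?_
    simp
  rw [h1, absM_sum_tri hP ht _ (fun x hx => absM_T_mem hφ _ hx) (fun g hg g' hg' => absM_T_big hP hφ ha hg hg')
    (fun x hx => absM_T_van ε hK hx), classInner_def, classInner_def, absM_card_P hP]
  have h2 := natCard_ne_zero U
  have h3 := natCard_ne_zero L
  field_simp

theorem irr_ind (hP : IsPar P U L n) (hφ : IsIrrCharacter P fun g => φ g) (ht : Tri K P n φ)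
    (h0 : classInner (fun l : L => φ l) (fun l => φ (n * l * n⁻¹)) = 0) :
    IsIrrCharacter G (indFun P fun g => φ g) := by
  have h := mackey_inner hP hφ.isClassFunction ht 1 fun _ _ => rfl
  simp only [MonoidHom.one_apply, Units.val_one, mul_one] at h
  rw [h0, hφ.classInner_self, add_zero] at h
  exact (isCharacter_indFun P hφ.isCharacter).isIrr_of_classInner_self h

theorem HS.irr_L (h : HS K P U L n φ) : IsIrrCharacter L fun l => φ l := by
  let _ := Fintype.ofFinite U
  have hc : IsCharacter L fun l => φ l := h.irr.isCharacter.comp (Subgroup.inclusion h.par.LP)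
  refine hc.isIrr_of_classInner_self ?_
  have h1 := h.irr.classInner_self
  rw [classInner_def, absM_sum_P h.par fun g => φ g * conj (φ g), absM_card_P h.par] at h1
  have h2 : ∀ (u : U) (l : L), φ (u * l) = φ l := fun u l =>
    (mul_of_ker h.irr.isCharacter (z := ⟨u, h.par.UP u.2⟩) (h.triv u u.2) ⟨l, h.par.LP l.2⟩).2
  simp only [h2, Finset.sum_const, Finset.card_univ, nsmul_eq_mul, ← Nat.card_eq_fintype_card] at h1
  rw [classInner_def, ← h1]
  have h3 := natCard_ne_zero U
  have h4 := natCard_ne_zero L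
  field_simp

theorem HS.conj_n (h : HS K P U L n φ) {l : G} (hl : l ∈ L) : φ (n * l * n⁻¹) = φ l := by
  have h1 := (mul_of_ker h.irr.isCharacter
    (z := ⟨l⁻¹ * (n * l * n⁻¹), h.par.LP (L.mul_mem (L.inv_mem hl) (h.par.nL l hl))⟩) (h.comm l hl)
    ⟨l, h.par.LP hl⟩).1
  simpa only [Subgroup.coe_mul, mul_inv_cancel_left] using h1

theorem HS.norm_two (h : HS K P U L n φ) :
    classInner (indFun P fun g => φ g) (indFun P fun g => φ g) = 2 := by
  have h1 := mackey_inner h.par h.irr.isClassFunction h.tri 1 fun _ _ => rfl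
  simp only [MonoidHom.one_apply, Units.val_one, mul_one] at h1
  have h2 : (fun l : L => φ (n * l * n⁻¹)) = fun l : L => φ l := funext fun l => h.conj_n l.2
  rw [h1, h2, h.irr.classInner_self, h.irr_L.classInner_self]
  norm_num

theorem HS.nv (h : HS K P U L n φ) (ε : G →* ℂˣ) (hK : ∀ g ∈ K, ε g = 1) {l : G} (hl : l ∈ L) (hε : ε l ≠ 1)
    (hφ : φ l ≠ 0) {χ : G → ℂ} (hχ : IsIrrCharacter G χ) (hc : classInner (indFun P fun g => φ g) χ ≠ 0) :
    ∃ g, ε g ≠ 1 ∧ χ g ≠ 0 := by
  by_contra hn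
  push Not at hn
  have hne : φ l * ε l ≠ φ l := fun e => hε (Units.val_eq_one.1 (mul_left_cancel₀ hφ (e.trans (mul_one _).symm)))
  have hP : IsIrrCharacter P fun g => φ g * ε g := h.irr.mul_monoidHom (ε.comp P.subtype)
  have hL : IsIrrCharacter L fun g => φ g * ε g := h.irr_L.mul_monoidHom (ε.comp L.subtype)
  have h1 := mackey_inner h.par h.irr.isClassFunction h.tri ε hK
  have h2 : (fun l : L => φ (n * l * n⁻¹)) = fun l : L => φ l := funext fun l => h.conj_n l.2
  rw [h2, hP.classInner_eq_zero h.irr (fun e => hne (congrFun e ⟨l, h.par.LP hl⟩)),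
    hL.classInner_eq_zero h.irr_L (fun e => hne (congrFun e ⟨l, hl⟩)), add_zero] at h1
  refine (isCharacter_indFun P hP.isCharacter).classInner_ne_zero_of_common
    (isCharacter_indFun P h.irr.isCharacter) hχ ?_ hc h1
  rw [indFun_mul_res P (fun g => φ g) (isIrrCharacter_monoidHom_units ε).isClassFunction,
    classInner_congr_left (φ' := indFun P fun g => φ g) fun g hg => ?_]
  · exact hc
  · have : ε g = 1 := by
      by_contra h3
      exact hg (hn g h3)
    rw [this, Units.val_one, mul_one]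

end Cfsg.Agent.DG
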