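import Mathlib
import Cfsg.Agent.DG.AbsM
import Cfsg.Agent.Perm.Isotypic
import Cfsg.Agent.Ch.Integrality

/-! The Hecke eigenvalue of a constituent of multiplicity one. -/

set_option autoImplicit false

namespace Cfsg.Agent.DG

open Module Matrix Finset
open scoped ComplexConjugate

theorem h1_conv {P : Type} [Group P] [Fintype P] {φ ξ : P → ℂ} (hφ : IsIrrCharacter P φ) (hξ : IsCharacter P ξ)
    (g : P) : φ 1 / Nat.card P * ∑ h, conj (φ h) * ξ (g * h) = classInner ξ φ * φ g := by
  refine hξ.induction_on (P := fun ξ => φ 1 / Nat.card P * ∑ h, conj (φ h) * ξ (g * h) = classInner ξ φ * φ g)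
    (by simp) (fun ξ hξ => ?_) fun a b _ _ ha hb => ?_
  · simp only [fun h => hξ.isClassFunction.mul_comm g h]
    rw [hξ.sum_conj_mul_apply_mul hφ.isClassFunction]
    by_cases h : ξ = φ
    · subst h
      have h0 := hξ.apply_one_ne_zero
      have h1 := Ch.natCard_ne_zero P
      field_simp
    · simp [hξ.classInner_eq_zero hφ h]
  · simp only [Pi.add_apply, mul_add, sum_add_distrib, ha, hb, Ch.classInner_add_left, add_mul]

variable {G : Type} [Group G] [Fintype G] {K P U L : Subgroup G} [Fintype P] {n : G} {φ : G → ℂ}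

theorem HS.exists_HC (h : HS K P U L n φ) {χ : G → ℂ} (hχ : IsIrrCharacter G χ)
    (h1 : classInner (fun g : P => χ g) (fun g => φ g) = 1) : ∃ y, HC K P U n φ χ y := by
  classical
  have := Fintype.ofFinite U
  obtain ⟨ρ, hρ⟩ := hχ.isCharacter.exists_rep
  generalize charDegree χ = d at ρ hρ
  have hφ := h.irr.isCharacter
  let σ : Representation ℂ P (Fin d → ℂ) := ρ.comp P.subtype
  let e := Perm.isoProj σ fun g => φ g
  have he : e = (φ 1 / Nat.card P) • ∑ g : P, conj (φ g) • ρ g := rfl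
  have hee : e * e = e := by simpa using Perm.isoProj_mul σ h.irr h.irr
  have hec : ∀ g ∈ P, e * ρ g = ρ g * e := fun g hg => Perm.isoProj_comm_rep σ h.irr.isClassFunction ⟨g, hg⟩
  have hSE : ∀ x, SE P φ χ x = LinearMap.trace ℂ _ (ρ x * e) := fun x => by
    simp only [he, SE, ← hρ, Representation.character, mul_smul_comm, mul_sum, map_smul, map_sum, map_mul,
      smul_eq_mul]
  have hk : ∀ k ∈ P, φ k = φ 1 → ρ k * e = e := fun k hk h0 => by
    simp only [he, mul_smul_comm, mul_sum, ← map_mul]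
    congr 1
    refine Fintype.sum_equiv (Equiv.mulLeft (⟨k, hk⟩ : P)) _ _ fun g => ?_
    rw [← (mul_of_ker hφ (z := ⟨k, hk⟩) h0 g).2]
    rfl
  have hu : ∀ u ∈ U, ρ u * e = e := fun u hu => hk u (h.par.UP hu) (h.triv u hu)
  have hl : ∀ l ∈ L, ρ (n⁻¹ * l * n) * e = ρ l * e := fun l hl => by
    have h2 := h.par.nL' l hl
    have h3 := hk _ (P.mul_mem (P.inv_mem (h.par.LP h2)) (h.par.LP (h.par.nL _ h2))) (h.comm _ h2)
    conv_lhs => rw [← h3, ← mul_assoc, ← map_mul]
    congr 2
    group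
  let N : End ℂ (Fin d → ℂ) := ∑ u : U, ρ u
  have hNc : ∀ g ∈ P, N * ρ g = ρ g * N := fun g hg => by
    simp only [N, mul_sum, sum_mul, ← map_mul]
    refine (Fintype.sum_bijective (fun u : U => (⟨g * u * g⁻¹, h.par.nU g hg u u.2⟩ : U))
      (Finite.injective_iff_bijective.1 fun a b hab => Subtype.ext (by simpa using hab)) _ _ fun u => ?_).symm
    simp
  have hNu : ∀ u ∈ U, ρ u * N = N := fun u hu => by
    simp only [N, mul_sum, ← map_mul]
    exact Fintype.sum_equiv (Equiv.mulLeft (⟨u, hu⟩ : U)) _ _ fun _ => rfl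
  let B := N * ρ n * e
  have hB : ∀ g : P, B * σ g = σ g * B := fun g => by
    obtain ⟨u, hu', l, hl', hg⟩ := h.par.dec g g.2
    have e1 : B * ρ u = ρ u * B := by
      simp only [B, ← mul_assoc, hNu u hu']
      rw [mul_assoc _ e, hec u (h.par.UP hu'), hu u hu']
    have e2 : B * ρ l = ρ l * B := by
      simp only [B, ← mul_assoc, ← hNc l (h.par.LP hl')]
      rw [mul_assoc _ e, hec l (h.par.LP hl'), ← hl l hl']
      simp only [mul_assoc, ← map_mul, ← mul_assoc (ρ _) (ρ _)]
      congr 3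
      group
    change B * ρ g = ρ g * B
    rw [hg, map_mul, ← mul_assoc, e1, mul_assoc, e2, mul_assoc]
  have hBe : B * e = B := by simp only [B, mul_assoc, hee]
  have heB : e * B = B := by rw [← Perm.isoProj_comm_of_comm σ _ hB, hBe]
  obtain ⟨s, θ, hθ, hs, ht⟩ := Perm.exists_eigen_decomp σ hB
  choose m hm using fun μ => (hθ μ).exists_nat_classInner hφ
  have hy : ∀ x ∈ P, (Nat.card U : ℂ) * SE P φ χ (n * x) = (∑ μ ∈ s, μ * m μ) * φ x := fun x hx => by
    have e1 : LinearMap.trace ℂ _ (B * ρ x * e) = Nat.card U * SE P φ χ (n * x) := by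
      rw [hSE, mul_assoc B, ← hec x hx, ← mul_assoc, hBe]
      simp only [B, N, sum_mul, map_sum]
      rw [sum_congr rfl (g := fun _ => LinearMap.trace ℂ _ (ρ (n * x) * e)) fun u _ => ?_]
      · simp
      · rw [mul_assoc, mul_assoc, LinearMap.trace_mul_comm, mul_assoc, mul_assoc, ← map_mul,
          hec _ (P.mul_mem hx (h.par.UP u.2)), map_mul ρ, mul_assoc, hu u u.2, map_mul ρ, mul_assoc]
    rw [← e1, he]
    simp only [mul_smul_comm, mul_sum, map_smul, map_sum, smul_eq_mul, mul_assoc B, ← map_mul]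
    have e2 : ∀ g : P, LinearMap.trace ℂ _ (B * ρ (x * g)) = ∑ μ ∈ s, μ * θ μ (⟨x, hx⟩ * g) := fun g => by
      have := ht 1 (⟨x, hx⟩ * g)
      simp only [pow_one] at this
      exact this
    simp only [e2, mul_sum, sum_mul]
    rw [sum_comm]
    refine sum_congr rfl fun μ _ => ?_
    have e3 := h1_conv h.irr (hθ μ) ⟨x, hx⟩
    rw [hm, mul_sum] at e3
    rw [mul_assoc, ← e3, mul_sum]
    refine sum_congr rfl fun g _ => ?_
    simp only [OneMemClass.coe_one]
    ring
  refine ⟨∑ μ ∈ s, μ * m μ, hχ, fun g hg => ?_, fun g hg g' hg' => ?_, ?_, ?_⟩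
  · have := h1_conv h.irr (hχ.isCharacter.restrict P) ⟨g, hg⟩
    rw [h1, one_mul] at this
    exact this
  · have h0 : (Nat.card U : ℂ) ≠ 0 := Ch.natCard_ne_zero U
    have e1 : SE P φ χ (g * n * g') = SE P φ χ (n * (g' * g)) := by
      rw [hSE, hSE, mul_assoc g, map_mul ρ, mul_assoc, LinearMap.trace_mul_comm, mul_assoc, hec g hg, ← mul_assoc,
        ← map_mul, mul_assoc]
    rw [e1, div_mul_eq_mul_div, ← hy _ (P.mul_mem hg' hg)]
    field_simp
  · rintro x ⟨J, _, c, F, I, _, α, hc, hI, hF, hα, hFα, hv⟩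
    let E : J → End ℂ (Fin d → ℂ) := fun j => ∑ g : P, F j (g : G)⁻¹ • ρ g
    have e1 : c • e = (φ 1 / Nat.card P) • ∑ j, E j := by
      rw [he, smul_comm, sum_comm, smul_sum]
      congr 1
      refine sum_congr rfl fun g _ => ?_
      rw [← sum_smul, ← hF _ (P.inv_mem g.2), smul_smul, hφ.conj_apply g]
      rfl
    have e2 : ∀ j i, ρ (α j i) * E j = E j := fun j i => by
      simp only [E, mul_sum, mul_smul_comm, ← map_mul]
      refine Fintype.sum_equiv (Equiv.mulLeft (⟨α j i, (hα j i).2.1⟩ : P)) _ _ fun g => ?_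
      rw [← hFα j i _ (P.inv_mem (Equiv.mulLeft (⟨α j i, (hα j i).2.1⟩ : P) g).2)]
      simp
    have e3 : ∀ j, ∑ i, e * ρ (x * α j i * x⁻¹) = 0 := fun j => by
      simp only [he, smul_mul_assoc, sum_mul, ← map_mul, ← smul_sum]
      refine smul_eq_zero_of_right _ ?_
      rw [sum_congr rfl (g := fun i => ∑ g : P, φ ((g : G)⁻¹ * (x * α j i * x⁻¹)) • ρ g) fun i _ => ?_, sum_comm]
      · exact sum_eq_zero fun g _ => by rw [← sum_smul, hv j _ (P.inv_mem g.2), zero_smul]
      · refine Fintype.sum_equiv (Equiv.mulRight (⟨_, (hα j i).2.2⟩ : P)) _ _ fun g => ?_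
        rw [hφ.conj_apply g, ← h.irr.isClassFunction.conj_eq' g⁻¹ ⟨_, (hα j i).2.2⟩]
        simp [mul_assoc]
    have e4 : ∀ j, e * ρ x * E j = 0 := fun j => by
      have := hI j
      have e5 : ∑ i : I j, e * ρ x * E j = 0 := by
        rw [← zero_mul (ρ x * E j), ← e3 j, sum_mul]
        refine sum_congr rfl fun i _ => ?_
        conv_lhs => rw [← e2 j i]
        simp only [mul_assoc, ← map_mul, ← mul_assoc (ρ _) (ρ _)]
        congr 3
        group
      rw [sum_const, card_univ, ← Nat.cast_smul_eq_nsmul ℂ, smul_eq_zero] at e5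
      exact e5.resolve_left (Nat.cast_ne_zero.2 Fintype.card_ne_zero)
    have e6 : c • (e * ρ x * e) = 0 := by
      rw [← mul_smul_comm, e1, mul_smul_comm, mul_sum, sum_eq_zero fun j _ => e4 j, smul_zero]
    rw [hSE, ← hee, ← mul_assoc, LinearMap.trace_mul_comm, ← mul_assoc, (smul_eq_zero.1 e6).resolve_left hc,
      map_zero]
  · refine IsIntegral.sum _ fun μ hμ => IsIntegral.mul ?_ (Ch.integral_natCast _)
    by_cases h0 : μ = 0
    · exact h0 ▸ isIntegral_zero
    obtain ⟨v, hv⟩ := (hs μ hμ).exists_hasEigenvector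
    have e1 := hv.apply_eq_smul
    have e2 : e v = v := by
      have := LinearMap.congr_fun heB v
      rw [End.mul_apply, e1, map_smul] at this
      exact smul_right_injective _ h0 this
    refine Ch.integral_eigenvalue (Ch.integral_sum_smul_rep ρ univ (fun _ : U => 1) (fun _ _ => isIntegral_one)
      fun u => u * n) hv.2 ?_
    rw [← e1]
    simp only [B, N, End.mul_apply, e2, one_smul, map_mul, LinearMap.sum_apply]

end Cfsg.Agent.DG
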