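import Mathlib
import Cfsg.Agent.DG.AbsH1
import Cfsg.Agent.Cl.CharTools
import Cfsg.Agent.Ch.Galois
import Cfsg.Agent.Ch.Integrality

/-!
# The two-constituent situation: degrees and Hecke eigenvalues
-/

set_option autoImplicit false

namespace Cfsg.Agent.DG

open Module Matrix Finset Cfsg.Agent.Ch
open scoped ComplexConjugate

variable {G : Type} [Group G] [Fintype G] {K P U L : Subgroup G} [Fintype P] {n : G} {φ χ χ₁ χ₂ : G → ℂ}
  {y y₁ y₂ : ℂ} {p a c : ℕ}

open Classical in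
theorem absH2_sum_tri (hP : IsPar P U L n) (ht : Tri K P n φ) (T : G → ℂ) (h3 : ∀ x, Van K P φ x → T x = 0) :
    (Nat.card L : ℂ) * ∑ x, T x = Nat.card L * ∑ g : P, T g + ∑ h : P, ∑ k : P, T (h * n * k) := by
  set S : Finset G := Finset.univ.filter fun x => ∃ h ∈ P, ∃ k ∈ P, x = h * n * k with hS
  have hS' : ∀ x, x ∈ S ↔ ∃ h ∈ P, ∃ k ∈ P, x = h * n * k := by simp [hS]
  have hm : Nat.card (mackeySub P P n) = Nat.card L := by
    have : mackeySub P P n = L.subgroupOf P := by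
      ext k
      rw [mem_mackeySub, Subgroup.mem_subgroupOf]
      exact ⟨hP.cap k k.2, fun h => hP.LP (hP.nL _ h)⟩
    rw [this]
    exact Nat.card_congr (Subgroup.subgroupOfEquivOfLe hP.LP).toEquiv
  rw [sum_doubleCoset_aux P P n T S hS', hm, ← mul_add]
  congr 1
  have hT : ∀ x, T x = (if x ∈ P then T x else 0) + if x ∈ S then T x else 0 := by
    intro x
    by_cases hx : x ∈ P
    · have : x ∉ S := by
        rw [hS']
        rintro ⟨g, hg, g', hg', rfl⟩
        exact hP.nP ((P.mul_mem_cancel_left hg).1 ((P.mul_mem_cancel_right hg').1 hx))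
      rw [if_pos hx, if_neg this, add_zero]
    by_cases hx' : x ∈ S
    · rw [if_neg hx, if_pos hx', zero_add]
    rw [if_neg hx, if_neg hx', add_zero]
    rcases ht x with h | h | h
    · exact absurd h hx
    · exact absurd ((hS' x).2 h) hx'
    · exact h3 x h
  rw [Finset.sum_congr rfl fun x _ => hT x, Finset.sum_add_distrib, Finset.sum_ite_mem, Finset.univ_inter,
    ← Finset.sum_filter]
  congr 1
  exact Finset.sum_subtype _ (fun x => by simp) _

theorem absH2_norm (hφ : IsIrrCharacter P fun g => φ g) (h : HC K P U n φ χ y) :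
    ∑ x, SE P φ χ x * conj (SE P φ χ x) = Nat.card G * φ 1 / χ 1 := by
  have h1 : ∀ h k : G, ∑ x, χ (x * h) * conj (χ (x * k)) = Nat.card G / χ 1 * χ (k⁻¹ * h) := by
    intro g k
    have := h.irr.sum_conj_mul_apply_mul h.irr.isClassFunction (k⁻¹ * g)
    rw [h.irr.classInner_self, mul_one] at this
    rw [← this]
    refine Fintype.sum_equiv (Equiv.mulRight k) _ _ fun x => ?_
    simp only [Equiv.coe_mulRight]
    rw [mul_comm, mul_assoc, mul_inv_cancel_left]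
  have h2 : ∀ k : P, ∑ x, SE P φ χ x * conj (χ (x * k)) = Nat.card G / χ 1 * conj (φ k) := by
    intro k
    have e1 : conj (φ k) = SE P φ χ (k : G)⁻¹ := by
      rw [h.inP _ (P.inv_mem k.2)]
      exact hφ.isCharacter.conj_apply k
    rw [e1]
    unfold SE
    simp only [mul_assoc, Finset.sum_mul]
    rw [← Finset.mul_sum, Finset.sum_comm, mul_left_comm]
    congr 1
    rw [Finset.mul_sum]
    refine Finset.sum_congr rfl fun g _ => ?_
    rw [← Finset.mul_sum, h1]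
    ring
  have hr : conj (φ 1) = φ 1 := hφ.isCharacter.conj_apply_one
  have h3 : ∀ x, SE P φ χ x * conj (SE P φ χ x) =
      φ 1 / Nat.card P * ∑ k : P, φ k * (SE P φ χ x * conj (χ (x * k))) := by
    intro x
    have : conj (SE P φ χ x) = φ 1 / Nat.card P * ∑ k : P, φ k * conj (χ (x * k)) := by
      unfold SE
      simp only [map_mul, map_div₀, map_natCast, map_sum, hr, Complex.conj_conj]
    rw [this, mul_left_comm, Finset.mul_sum]
    congr 1
    exact Finset.sum_congr rfl fun k _ => by ring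
  have h4 := card_mul_classInner (fun g : P => φ g) fun g => φ g
  rw [hφ.classInner_self, mul_one] at h4
  rw [Finset.sum_congr rfl fun x _ => h3 x, ← Finset.mul_sum, Finset.sum_comm]
  simp only [← Finset.mul_sum, h2]
  rw [Finset.sum_congr rfl fun (k : P) _ => mul_left_comm (φ k) _ (conj (φ k)), ← Finset.mul_sum, ← h4]
  have := natCard_ne_zero P
  field_simp

theorem absH2_deg (hs : HS K P U L n φ) (h : HC K P U n φ χ y) :
    (Nat.card U + y * conj y) * χ 1 = Nat.card U * (P.index * φ 1) := by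
  have h1 := absH2_sum_tri hs.par hs.tri (fun x => SE P φ χ x * conj (SE P φ χ x))
    fun x hx => by rw [h.van x hx, zero_mul]
  have h4 := card_mul_classInner (fun g : P => φ g) fun g => φ g
  rw [hs.irr.classInner_self, mul_one] at h4
  have h2 : ∑ g : P, SE P φ χ g * conj (SE P φ χ g) = Nat.card P := by
    rw [h4]
    exact Finset.sum_congr rfl fun g _ => by rw [h.inP g g.2]
  have h3 : ∀ g : P, ∑ k : P, SE P φ χ (g * n * k) * conj (SE P φ χ (g * n * k)) =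
      y * conj y / Nat.card U ^ 2 * Nat.card P := by
    intro g
    rw [h4, Finset.mul_sum]
    refine Fintype.sum_equiv (Equiv.mulRight g) _ _ fun k => ?_
    rw [h.big g g.2 k k.2]
    simp only [Equiv.coe_mulRight, Subgroup.coe_mul, map_mul, map_div₀, map_natCast]
    ring
  rw [absH2_norm hs.irr h, h2, Finset.sum_congr rfl fun g _ => h3 g, Finset.sum_const, Finset.card_univ,
    nsmul_eq_mul, ← Nat.card_eq_fintype_card, ← P.card_mul_index, Nat.cast_mul, absM_card_P hs.par] at h1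
  have e1 := natCard_ne_zero U
  have e2 := natCard_ne_zero L
  have e3 := h.irr.apply_one_ne_zero
  field_simp at h1
  linear_combination -h1

theorem absH2_mk (h₁ : HC K P U n φ χ₁ y₁) (h₂ : HC K P U n φ χ₂ y₂) (hne : χ₁ ≠ χ₂)
    (hsum : indFun P (fun g => φ g) = χ₁ + χ₂) (hp : p.Prime) (e₁ : y₁ * conj y₁ * χ₁ 1 = (p : ℂ) ^ a * χ₂ 1)
    (e₂ : y₂ * conj y₂ * χ₂ 1 = (p : ℂ) ^ a * χ₁ 1) (e : y₁ * conj y₁ = (p : ℂ) ^ (a + c)) :
    HO K P U n φ p a χ₁ χ₂ y₁ y₂ c := by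
  have hp0 : (p : ℂ) ^ a ≠ 0 := pow_ne_zero _ (Nat.cast_ne_zero.2 hp.ne_zero)
  have hd : χ₂ 1 = (p : ℂ) ^ c * χ₁ 1 := by
    rw [e, pow_add, mul_assoc] at e₁
    exact (mul_left_cancel₀ hp0 e₁).symm
  refine ⟨h₁, h₂, hne, hsum, ?_, e, ?_⟩
  · rw [← h₁.irr.coe_charDegree, ← h₂.irr.coe_charDegree] at hd
    exact_mod_cast hd
  · rw [hd, ← mul_assoc] at e₂
    exact mul_right_cancel₀ h₁.irr.apply_one_ne_zero e₂

theorem HS.exists_HO (h : HS K P U L n φ) (hp : p.Prime) (hU : Nat.card U = p ^ a) :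
    ∃ χ₁ χ₂ y₁ y₂ c, HO K P U n φ p a χ₁ χ₂ y₁ y₂ c := by
  let _ := Fintype.ofFinite L
  obtain ⟨χ₁, χ₂, i₁, i₂, hne, hsum⟩ :=
    Cl.CT.exists_eq_add_of_norm_two (isCharacter_indFun P h.irr.isCharacter) h.norm_two
  obtain ⟨y₁, h₁⟩ := h.exists_HC i₁ (by
    rw [← classInner_indFun_right P _ i₁.isClassFunction, hsum, classInner_add_right, i₁.classInner_self,
      i₁.classInner_eq_zero i₂ hne, add_zero])
  obtain ⟨y₂, h₂⟩ := h.exists_HC i₂ (by
    rw [← classInner_indFun_right P _ i₂.isClassFunction, hsum, classInner_add_right, i₂.classInner_self,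
      i₂.classInner_eq_zero i₁ hne.symm, zero_add])
  have hd : (P.index : ℂ) * φ 1 = χ₁ 1 + χ₂ 1 := by
    have := congrFun hsum 1
    rwa [indFun_one] at this
  have e₁ : y₁ * conj y₁ * χ₁ 1 = (p : ℂ) ^ a * χ₂ 1 := by
    have := absH2_deg h h₁
    rw [hd, hU, Nat.cast_pow] at this
    linear_combination this
  have e₂ : y₂ * conj y₂ * χ₂ 1 = (p : ℂ) ^ a * χ₁ 1 := by
    have := absH2_deg h h₂
    rw [hd, hU, Nat.cast_pow] at this
    linear_combination this
  have key : ∀ {χ χ' : G → ℂ} {y : ℂ}, IsIrrCharacter G χ → IsIrrCharacter G χ' → IsIntegral ℤ y →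
      y * conj y * χ 1 = (p : ℂ) ^ a * χ' 1 → ∃ m : ℕ, y * conj y = m := by
    intro χ χ' y i i' hy e
    rw [← i.coe_charDegree, ← i'.coe_charDegree] at e
    obtain ⟨m, hm⟩ : charDegree χ ∣ p ^ a * charDegree χ' :=
      integral_nat_dvd_of_eq_mul (hy.mul (integral_conj hy)) (by push_cast; rw [← e, mul_comm])
    refine ⟨m, mul_right_cancel₀ (Nat.cast_ne_zero.2 i.charDegree_pos.ne') ?_⟩
    rw [e]
    exact_mod_cast hm.trans (mul_comm _ _)
  obtain ⟨m₁, hm₁⟩ := key i₁ i₂ h₁.int e₁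
  obtain ⟨m₂, hm₂⟩ := key i₂ i₁ h₂.int e₂
  have hm : m₁ * m₂ = p ^ (a + a) := by
    have e3 : (m₁ : ℂ) * m₂ * (χ₁ 1 * χ₂ 1) = (p : ℂ) ^ (a + a) * (χ₁ 1 * χ₂ 1) := by
      rw [← hm₁, ← hm₂, pow_add]
      linear_combination (y₂ * conj y₂ * χ₂ 1) * e₁ + ((p : ℂ) ^ a * χ₂ 1) * e₂
    exact_mod_cast mul_right_cancel₀ (mul_ne_zero i₁.apply_one_ne_zero i₂.apply_one_ne_zero) e3
  obtain ⟨b₁, -, hb₁⟩ := (Nat.dvd_prime_pow hp).1 (Dvd.intro _ hm)
  obtain ⟨b₂, -, hb₂⟩ := (Nat.dvd_prime_pow hp).1 (Dvd.intro_left _ hm)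
  have hb : b₁ + b₂ = a + a := by
    rw [hb₁, hb₂, ← pow_add] at hm
    exact Nat.pow_right_injective hp.two_le hm
  by_cases hab : a ≤ b₁
  · obtain ⟨c, rfl⟩ := Nat.exists_eq_add_of_le hab
    exact ⟨χ₁, χ₂, y₁, y₂, c, absH2_mk h₁ h₂ hne hsum hp e₁ e₂ (by rw [hm₁, hb₁, Nat.cast_pow])⟩
  · obtain ⟨c, rfl⟩ := Nat.exists_eq_add_of_le (show a ≤ b₂ by omega)
    exact ⟨χ₂, χ₁, y₂, y₁, c, absH2_mk h₂ h₁ hne.symm (hsum.trans (add_comm _ _)) hp e₂ e₁
      (by rw [hm₂, hb₂, Nat.cast_pow])⟩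

theorem HC.ksum (h : HC K P U n φ χ y) {I : Type} [Fintype I] (t : I → G)
    (ht : ∀ g, ∃ σ : I ≃ I, ∀ i, t (σ i) = g * t i * g⁻¹) :
    (∑ i, χ (t i)) * φ 1 = χ 1 * ∑ i, SE P φ χ (t i) := by
  classical
  set κ : G → ℂ := fun x => ∑ i, if t i = x then 1 else 0 with hκ
  have hc : IsClassFunction G κ := by
    refine IsClassFunction.of_isConj fun x x' hx => ?_
    obtain ⟨g, rfl⟩ := isConj_iff.1 hx
    obtain ⟨σ, hσ⟩ := ht g
    refine Fintype.sum_equiv σ _ _ fun i => ?_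
    rw [hσ]
    simp only [mul_left_inj, mul_right_inj]
  have hs : ∀ f : G → ℂ, ∑ g, κ g * f g = ∑ i, f (t i) := by
    intro f
    simp only [hκ, Finset.sum_mul]
    rw [Finset.sum_comm]
    refine Finset.sum_congr rfl fun i _ => ?_
    simp
  have h1 : ∀ x, ∑ i, χ (t i * x) = (∑ i, χ (t i)) / χ 1 * χ x := by
    intro x
    rw [← hs χ, ← hs fun g => χ (g * x)]
    exact h.irr.sum_mul_apply_mul hc x
  have h2 : ∑ i, SE P φ χ (t i) = (∑ i, χ (t i)) / χ 1 * SE P φ χ 1 := by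
    unfold SE
    rw [← Finset.mul_sum, Finset.sum_comm, mul_left_comm]
    congr 1
    rw [Finset.mul_sum]
    refine Finset.sum_congr rfl fun g _ => ?_
    rw [← Finset.mul_sum, h1, one_mul]
    ring
  rw [h2, h.inP 1 P.one_mem]
  have := h.irr.apply_one_ne_zero
  field_simp

theorem HO.deg_sum (h : HO K P U n φ p a χ₁ χ₂ y₁ y₂ c) :
    ((charDegree χ₁ * (1 + p ^ c) : ℕ) : ℂ) = P.index * φ 1 := by
  have h1 := congrFun h.sum 1
  rw [indFun_one, Pi.add_apply, ← h.h₁.irr.coe_charDegree, ← h.h₂.irr.coe_charDegree, h.deg] at h1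
  refine Eq.trans ?_ h1.symm
  push_cast
  ring

theorem HO.central (hs : HS K P U L n φ) (h : HO K P U n φ p a χ₁ χ₂ y₁ y₂ c) {z : G} (hz : ∀ g, g * z = z * g)
    (hP : z ∈ P) (h1 : φ z = φ 1) : χ₁ z = χ₁ 1 ∧ χ₂ z = χ₂ 1 := by
  refine ker_of_add h.h₁.irr.isCharacter h.h₂.irr.isCharacter ?_
  have e1 := congrFun h.sum 1
  have e2 := congrFun h.sum z
  rw [indFun_one] at e1
  rw [Cl.CT.indFun_of_mem_center P _ (Subgroup.mem_center_iff.2 hz) hP] at e2
  simp only [Pi.add_apply, OneMemClass.coe_one] at e1 e2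
  rw [← e1, ← e2, h1]

theorem HO.even_of_rat (h : HO K P U n φ p a χ₁ χ₂ y₁ y₂ c) (hp : p.Prime) {r : ℚ} (hr : y₁ = r) :
    Even (a + c) := by
  obtain ⟨m, rfl⟩ := integral_exists_int_of_rat (hr ▸ h.h₁.int)
  have h1 := h.y₁
  rw [hr, Rat.cast_intCast, map_intCast] at h1
  have h2 : m * m = (p : ℤ) ^ (a + c) := by exact_mod_cast h1
  have h3 : m.natAbs * m.natAbs = p ^ (a + c) := by
    rw [← Int.natAbs_mul, h2, Int.natAbs_pow, Int.natAbs_natCast]
  obtain ⟨b, -, hb⟩ := (Nat.dvd_prime_pow hp).1 (Dvd.intro _ h3)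
  rw [hb, ← pow_add] at h3
  exact ⟨b, (Nat.pow_right_injective hp.two_le h3).symm⟩

theorem absH2_fix (h : HO K P U n φ p a χ₁ χ₂ y₁ y₂ c) (hp : p.Prime) (hc : c ≠ 0) {ψ₁ ψ₂ : G → ℂ}
    (i₁ : IsIrrCharacter G ψ₁) (i₂ : IsCharacter G ψ₂) (he : χ₁ + χ₂ = ψ₁ + ψ₂) (h1 : ψ₁ 1 = χ₁ 1) : ψ₁ = χ₁ := by
  have h2 : classInner (χ₁ + χ₂) ψ₁ ≠ 0 := by
    rw [he, i₁.isCharacter.classInner_add_ne_zero_iff i₂ i₁.isCharacter, i₁.classInner_self]
    exact Or.inl one_ne_zero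
  rcases Cl.CT.eq_or_eq_of_classInner_add i₁ h.h₁.irr h.h₂.irr h2 with e | e
  · exact e
  · exfalso
    have h3 : charDegree χ₂ = charDegree χ₁ := charDegree_congr (e ▸ h1)
    have h4 := h.deg
    have h5 := h.h₁.irr.charDegree_pos
    have h6 : 1 < p ^ c := Nat.one_lt_pow hc hp.one_lt
    rw [h3] at h4
    nlinarith

theorem HO.even_of_int (hs : HS K P U L n φ) (h : HO K P U n φ p a χ₁ χ₂ y₁ y₂ c) (hp : p.Prime) (hc : c ≠ 0)
    (hi : IntV fun g : P => φ g) : Even (a + c) := by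
  have h1 : IntV χ₁ := by
    refine intV_of_fixed h.h₁.irr.isCharacter fun σ g => ?_
    refine congrFun (absH2_fix h hp hc (h.h₁.irr.galois σ) (h.h₂.irr.isCharacter.galois σ) ?_
      (h.h₁.irr.isCharacter.galois_apply_one σ)) g
    funext x
    have e : σ (indFun P (fun g => φ g) x) = indFun P (fun g => φ g) x := by
      rw [indFun_apply, map_mul, map_inv₀, map_natCast, map_sum]
      congr 1
      refine Finset.sum_congr rfl fun z _ => ?_
      by_cases hz : z⁻¹ * x * z ∈ P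
      · obtain ⟨m, hm⟩ := hi ⟨_, hz⟩
        beta_reduce at hm
        rw [extendByZero_of_mem P _ hz, hm, map_intCast]
      · rw [extendByZero_of_not_mem P _ hz, map_zero]
    rw [h.sum, Pi.add_apply, map_add] at e
    exact e.symm
  choose f hf using hi
  choose f₁ hf₁ using h1
  have h2 := h.h₁.big 1 P.one_mem 1 P.one_mem
  refine h.even_of_rat hp (r := Nat.card U / Nat.card P * ∑ g : P, f g * f₁ (n * g)) ?_
  have h3 : φ 1 ≠ 0 := hs.irr.apply_one_ne_zero
  unfold SE at h2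
  simp only [one_mul, mul_one, hf₁] at h2
  have h4 : ∀ g : P, conj (φ g) = f g := fun g => by
    have := hf g
    simp only at this
    rw [this, map_intCast]
  simp only [h4] at h2
  have e1 := natCard_ne_zero U
  have e2 := natCard_ne_zero P
  push_cast
  field_simp at h2 ⊢
  linear_combination -h2

theorem HO.tau (hs : HS K P U L n φ) (h : HO K P U n φ p a χ₁ χ₂ y₁ y₂ c) (hp : p.Prime) (τ : G ≃* G)
    (hP : ∀ g, g ∈ P ↔ τ g ∈ P) (hφ : ∀ g ∈ P, φ (τ g) = φ g) {t : G} (ht : t ∈ P) (hn : τ n = n * t)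
    (h1 : φ t = -φ 1) : c = 0 := by
  by_contra hc
  have h2 : (fun g => χ₁ (τ g)) = χ₁ := by
    refine absH2_fix h hp hc (h.h₁.irr.comp_mulEquiv τ) (h.h₂.irr.isCharacter.comp_mulEquiv τ) ?_
      (by simp only [map_one])
    funext x
    have e := indFun_mulEquiv τ P P hP (fun g => φ g) (fun g => φ g) (fun x => (hφ x x.2).symm) x
    rw [h.sum] at e
    exact e.symm
  have h3 : SE P φ χ₁ (τ n) = SE P φ χ₁ n := by
    unfold SE
    congr 1
    symm
    refine Fintype.sum_equiv (τ.toEquiv.subtypeEquiv hP) _ _ fun g => ?_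
    change _ = conj (φ (τ g)) * χ₁ (τ n * τ g)
    rw [hφ g g.2, ← map_mul, congrFun h2 (n * g)]
  have h4 := h.h₁.big 1 P.one_mem 1 P.one_mem
  have h5 := h.h₁.big 1 P.one_mem t ht
  simp only [one_mul, mul_one] at h4 h5
  rw [hn, h4, h5, h1] at h3
  have h6 : φ 1 ≠ 0 := hs.irr.apply_one_ne_zero
  have e1 := natCard_ne_zero U
  have h7 : y₁ = 0 := by
    field_simp at h3
    linear_combination (-1 / 2 : ℂ) * h3
  have h8 := h.y₁
  rw [h7, zero_mul] at h8
  exact pow_ne_zero _ (Nat.cast_ne_zero.2 hp.ne_zero) h8.symm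

end Cfsg.Agent.DG
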