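import Mathlib
import Cfsg.Agent.DG.Tools
import Cfsg.Agent.Ch.Linear

/-! The parabolic subgroup `P = U ⋊ L` and inflated characters. -/

set_option autoImplicit false
set_option linter.unusedSectionVars false

namespace Cfsg.Agent.DG

open Module Matrix Finset
open scoped ComplexConjugate

theorem par_itr_itr {F : Type} [Field F] {k : ℕ} (a : GL (Fin k) F) : itr (itr a) = a :=
  Units.ext (transpose_transpose _)

namespace Fm

variable {F V : Type} [Field F] [Finite F] [AddCommGroup V] [Module F V] [Finite V] {S : Fm F V} {k d e : ℕ}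

theorem par_mem_St {T : Submodule F V} {g : S.G} (h : ∀ z ∈ T, g.1 z ∈ T) : g ∈ S.St T := fun z => by
  refine ⟨h z, fun hz => ?_⟩
  have e : T.map (g.1 : V →ₗ[F] V) = T := Submodule.eq_of_le_of_finrank_eq
    (Submodule.map_le_iff_le_comap.2 h) (LinearEquiv.finrank_map_eq _ _)
  rw [← e] at hz
  obtain ⟨y, hy, e1⟩ := hz
  rwa [← g.1.injective e1]

theorem par_perp {T : Submodule F V} {g : S.G} (h : g ∈ S.St T) {z : V} (hz : ∀ t ∈ T, S.B t z = 0) :
    ∀ t ∈ T, S.B t (g.1 z) = 0 := fun t ht => by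
  rw [← app_inv_app g t, B_app]
  exact hz _ ((inv_mem h t).1 ht)

theorem par_UP {T : Submodule F V} : S.Ur T ≤ S.St T := fun _ hu =>
  par_mem_St fun z hz => by rwa [hu.1 z hz]

theorem par_nU {T : Submodule F V} {g u : S.G} (h : g ∈ S.St T) (hu : u ∈ S.Ur T) :
    g * u * g⁻¹ ∈ S.Ur T := by
  refine ⟨fun z hz => ?_, fun z hz => ?_⟩
  · rw [mul_app, mul_app, hu.1 _ ((inv_mem h z).1 hz), app_inv_app]
  · have := (h _).1 (hu.2 _ (par_perp (inv_mem h) hz))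
    rwa [map_sub, app_inv_app] at this

theorem perp_W {z : HV F k V} : (∀ t ∈ W F V k, (S.hyp k).B t z = 0) ↔ z.1.2 = 0 := by
  refine ⟨fun h => funext fun i => ?_, fun h t ht => ?_⟩
  · simpa [hyp_B] using h ((Pi.single i 1, 0), 0) ⟨rfl, rfl⟩
  · simp [hyp_B, h, ht.1, ht.2]

theorem finrank_W : finrank F (W F V k) = k := by
  let f : (Fin k → F) →ₗ[F] HV F k V := (LinearMap.inl F _ _).comp (LinearMap.inl F _ _)
  have e : W F V k = LinearMap.range f := by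
    ext z
    exact ⟨fun h => ⟨z.1.1, Prod.ext (Prod.ext rfl h.1.symm) h.2.symm⟩, by rintro ⟨x, rfl⟩; exact ⟨rfl, rfl⟩⟩
  rw [e, LinearMap.finrank_range_of_inj (f := f) (LinearMap.inl_injective.comp LinearMap.inl_injective),
    finrank_fin_fun]

theorem par_gl_ext {a b : GL (Fin k) F}
    (h : ∀ x, (a : Matrix (Fin k) (Fin k) F) *ᵥ x = (b : Matrix (Fin k) (Fin k) F) *ᵥ x) : a = b :=
  Units.ext (Matrix.toLin'.injective (LinearMap.ext h))

theorem lev_injective : Function.Injective (S.lev k) := fun _ _ h =>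
  Prod.ext (par_gl_ext fun x => congrArg (fun g : (S.hyp k).G => (g.1 ((x, 0), 0)).1.1) h)
    (G_ext fun v => congrArg (fun g : (S.hyp k).G => (g.1 (0, v)).2) h)

theorem lev_mem_P (a : GL (Fin k) F) (g : S.G) : S.lev k (a, g) ∈ S.P k :=
  par_mem_St fun z hz => by simp [mem_W, lev_app, hz.1, hz.2]

theorem nn_lev (a : GL (Fin k) F) (g : S.G) : S.nn k * S.lev k (a, g) * (S.nn k)⁻¹ = S.lev k (itr a, g) := by
  rw [mul_inv_eq_iff_eq_mul]
  refine G_ext fun z => ?_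
  rw [mul_app, mul_app, lev_app, nn_app, nn_app, lev_app, mulVec_smul]
  exact Prod.ext (Prod.ext rfl (congrArg (· *ᵥ z.1.1) (transpose_transpose _).symm)) rfl

theorem neg_eq_lev : (S.hyp k).neg = S.lev k (-1, S.neg) := G_ext fun z => by
  rw [lev_app, neg_app, neg_app, inv_neg_one, Units.val_neg, Units.val_one, transpose_neg, transpose_one,
    neg_mulVec, neg_mulVec, one_mulVec, one_mulVec]
  rfl

theorem refl_eq_lev (v : V) : (S.hyp k).refl (0, v) = S.lev k (1, S.refl v) := G_ext fun z => by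
  rw [lev_app, refl_app, refl_app]
  refine Prod.ext (by simp) ?_
  simp [hyp_B, hyp_Q]

theorem par_mem_U {γ : (S.hyp k).G} (h1 : ∀ x, γ.1 ((x, 0), 0) = ((x, 0), 0))
    (h2 : ∀ v, (γ.1 (0, v)).2 = v) : γ ∈ S.U k := by
  have h3 : ∀ z ∈ W F V k, γ.1 z = z := fun z hz => by
    rw [show z = ((z.1.1, 0), 0) from Prod.ext (Prod.ext rfl hz.1) hz.2, h1]
  refine ⟨h3, fun z hz => ⟨?_, ?_⟩⟩
  · have := perp_W.1 (par_perp (par_mem_St fun z hz => by rwa [h3 z hz]) hz)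
    rw [Prod.fst_sub, Prod.snd_sub, this, perp_W.1 hz, sub_zero]
  · have e : z = ((z.1.1, 0), 0) + (0, z.2) := Prod.ext (Prod.ext (by simp) (by simp [perp_W.1 hz])) (by simp)
    rw [Prod.snd_sub, sub_eq_zero]
    conv_lhs => rw [e, map_add, h1, Prod.snd_add, h2, zero_add]

theorem mem_U_of {β : (S.hyp k).G} {a : GL (Fin k) F} {g : S.G}
    (ha : ∀ x, β.1 ((x, 0), 0) = (((a : Matrix (Fin k) (Fin k) F) *ᵥ x, 0), 0))
    (hg : ∀ v, (β.1 (0, v)).2 = g.1 v) : β * (S.lev k (a, g))⁻¹ ∈ S.U k := by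
  rw [← map_inv, Prod.inv_mk]
  refine par_mem_U (fun x => ?_) fun v => ?_
  · rw [mul_app, lev_app]
    simp only [mulVec_zero, map_zero]
    rw [ha, mulVec_mulVec, Units.mul_inv, one_mulVec]
  · rw [mul_app, lev_app]
    simp only [Prod.fst_zero, Prod.snd_zero, mulVec_zero]
    rw [show ((0, 0) : (Fin k → F) × (Fin k → F)) = 0 from rfl, hg, app_inv_app]

theorem exists_dec {β : (S.hyp k).G} (h : β ∈ S.P k) : ∃ u ∈ S.U k, ∃ a g, β = u * S.lev k (a, g) := by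
  let f : (Fin k → F) →ₗ[F] (Fin k → F) := (LinearMap.fst F _ _).comp ((LinearMap.fst F _ _).comp
    ((β.1 : HV F k V →ₗ[F] HV F k V).comp ((LinearMap.inl F _ _).comp (LinearMap.inl F _ _))))
  have hf : ∀ x, β.1 ((x, 0), 0) = ((f x, 0), 0) := fun x =>
    have := (h ((x, 0), 0)).1 ⟨rfl, rfl⟩
    Prod.ext (Prod.ext rfl this.1) this.2
  have hu : IsUnit (LinearMap.toMatrix' f) := mulVec_injective_iff_isUnit.1 fun x y e => by
    simp only [LinearMap.toMatrix'_mulVec] at e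
    have := β.1.injective ((hf x).trans (e ▸ (hf y).symm))
    exact congrArg (fun z : HV F k V => z.1.1) this
  have hp : ∀ v, (β.1 (0, v)).1.2 = 0 := fun v => perp_W.1 (par_perp h (perp_W.2 rfl))
  let g : S.G := S.mk' ((LinearMap.snd F _ _).comp ((β.1 : HV F k V →ₗ[F] HV F k V).comp (LinearMap.inr F _ _)))
    (fun v w => by
      have := B_app β (0, v) (0, w)
      rw [hyp_B, hyp_B, hp, hp] at this
      simpa using this)
    fun v => by
      have := Q_app β (0, v)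
      rw [hyp_Q, hyp_Q, hp] at this
      simpa using this
  refine ⟨_, mem_U_of (β := β) (a := hu.unit) (g := g) (fun x => ?_) fun v => rfl, _, _,
    (inv_mul_cancel_right _ _).symm⟩
  rw [hf, IsUnit.unit_spec, LinearMap.toMatrix'_mulVec]

theorem par_UL {p : GL (Fin k) F × S.G} (h : S.lev k p ∈ S.U k) : p = 1 := by
  refine Prod.ext (par_gl_ext fun x => ?_) (G_ext fun v => ?_)
  · rw [Prod.fst_one, Units.val_one, one_mulVec]
    exact congrArg (fun z : HV F k V => z.1.1) (h.1 ((x, 0), 0) ⟨rfl, rfl⟩)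
  · exact sub_eq_zero.1 (h.2 (0, v) (perp_W.2 rfl)).2

theorem par_uniq {u u' : (S.hyp k).G} (hu : u ∈ S.U k) (hu' : u' ∈ S.U k) {p p' : GL (Fin k) F × S.G}
    (h : u * S.lev k p = u' * S.lev k p') : p = p' := by
  have e : S.lev k (p * p'⁻¹) = u⁻¹ * u' := by
    rw [map_mul, map_inv, mul_inv_eq_iff_eq_mul, mul_assoc, ← h, inv_mul_cancel_left]
  exact mul_inv_eq_one.1 (par_UL (e ▸ mul_mem (inv_mem hu) hu'))

theorem par_cap {u : (S.hyp k).G} (hu : u ∈ S.U k) (h : S.nn k * u * (S.nn k)⁻¹ ∈ S.P k) : u = 1 := by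
  have hε : S.ε ≠ 0 := left_ne_zero_of_mul_eq_one S.ε_sq
  have h1 : ∀ x, u.1 ((x, 0), 0) = ((x, 0), 0) := fun x => hu.1 _ ⟨rfl, rfl⟩
  have h2 : ∀ y, u.1 ((0, y), 0) = ((0, y), 0) := fun y => by
    have a := (h ((S.nn k).1 ((0, y), 0))).1 ⟨rfl, rfl⟩
    rw [mul_app, mul_app, inv_app_app] at a
    refine Prod.ext (Prod.ext a.1 (funext fun i => ?_)) a.2
    have b := B_app u ((Pi.single i 1, 0), 0) ((0, y), 0)
    rw [h1] at b
    simpa [hyp_B] using b
  have h3 : ∀ v, u.1 (0, v) = (0, v) := fun v => by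
    have a := hu.2 (0, v) (perp_W.2 rfl)
    refine Prod.ext (Prod.ext (funext fun i => ?_) (by simpa using a.1)) (sub_eq_zero.1 a.2)
    have b := B_app u (0, v) ((0, Pi.single i 1), 0)
    rw [h2] at b
    simpa [hyp_B] using b
  refine G_ext fun z => ?_
  have e : z = ((z.1.1, 0), 0) + ((0, z.1.2), 0) + (0, z.2) := by simp
  rw [one_app]
  conv_lhs => rw [e, map_add, map_add, h1, h2, h3, ← e]

theorem isPar (hk : 0 < k) : IsPar (S.P k) (S.U k) (S.L k) (S.nn k) where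
  UP := par_UP
  LP := by rintro _ ⟨p, rfl⟩; exact lev_mem_P _ _
  dec := fun g hg => by
    obtain ⟨u, hu, a, b, e⟩ := exists_dec hg
    exact ⟨u, hu, _, ⟨_, rfl⟩, e⟩
  nU := fun _ hg _ hu => par_nU hg hu
  UL := by rintro _ h ⟨p, rfl⟩; rw [par_UL h, map_one]
  nL := by rintro _ ⟨p, rfl⟩; exact ⟨_, (nn_lev p.1 p.2).symm⟩
  nL' := by
    rintro _ ⟨p, rfl⟩
    refine ⟨(itr p.1, p.2), ?_⟩
    have := nn_lev (S := S) (itr p.1) p.2
    rw [par_itr_itr] at this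
    rw [← this]; group
  cap := fun g hg h => by
    obtain ⟨u, hu, a, b, rfl⟩ := exists_dec hg
    have := mul_mem h (inv_mem (nn_lev (S := S) a b ▸ lev_mem_P (itr a) b))
    rw [par_cap hu (by convert this using 1; group), one_mul]
    exact ⟨_, rfl⟩
  nP := fun h => by
    have := ((h ((Pi.single ⟨0, hk⟩ 1, 0), 0)).1 ⟨rfl, rfl⟩).1
    simpa [nn_app] using congrFun this ⟨0, hk⟩

theorem par_exists_pi : ∃ π : S.P k →* GL (Fin k) F × S.G,
    ∀ (β : S.P k), ∀ u ∈ S.U k, ∀ p, β = u * S.lev k p → π β = p := by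
  have h : ∀ β : S.P k, ∃ p, ∃ u ∈ S.U k, β = u * S.lev k p := fun β => by
    obtain ⟨u, hu, a, b, e⟩ := exists_dec β.2
    exact ⟨_, u, hu, e⟩
  choose π u hu e using h
  have key : ∀ (β : S.P k), ∀ u ∈ S.U k, ∀ p, β = u * S.lev k p → π β = p := fun β v hv p e' =>
    par_uniq (hu β) hv ((e β).symm.trans e')
  refine ⟨MonoidHom.mk' π fun a b => key _ _ (mul_mem (hu a) (par_nU (lev_mem_P (π a).1 (π a).2) (hu b))) _ ?_,
    key⟩
  rw [Subgroup.coe_mul, e a, e b, map_mul, ← e a, ← e b]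
  conv_lhs => rw [e a, e b]
  group

theorem card_P : Nat.card (S.P k) = Nat.card (S.U k) * (Nat.card (GL (Fin k) F) * Nat.card S.G) := by
  rw [← Nat.card_prod, ← Nat.card_prod]
  refine (Nat.card_eq_of_bijective (fun q : S.U k × (GL (Fin k) F × S.G) =>
    (⟨q.1 * S.lev k q.2, mul_mem (par_UP q.1.2) (lev_mem_P _ _)⟩ : S.P k)) ⟨fun q q' e => ?_, fun β => ?_⟩).symm
  · have e1 : (q.1 : (S.hyp k).G) * S.lev k q.2 = q'.1 * S.lev k q'.2 := congrArg Subtype.val e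
    have e2 := par_uniq q.1.2 q'.1.2 e1
    rw [e2, mul_left_inj] at e1
    exact Prod.ext (Subtype.ext e1) e2
  · obtain ⟨u, hu, a, b, e⟩ := exists_dec β.2
    exact ⟨(⟨u, hu⟩, a, b), Subtype.ext e.symm⟩

theorem exists_isPhi (θ : GL (Fin k) F → ℂ) (ψ : S.G → ℂ) : ∃ φ, S.IsPhi k θ ψ φ := by
  classical
  obtain ⟨π, hπ⟩ := par_exists_pi (S := S) (k := k)
  refine ⟨fun β => if h : β ∈ S.P k then θ (π ⟨β, h⟩).1 * ψ (π ⟨β, h⟩).2 else 0, fun u hu a g => ?_⟩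
  have m := mul_mem (par_UP hu) (lev_mem_P a g)
  simp only [dif_pos m]
  rw [hπ ⟨_, m⟩ u hu (a, g) rfl]

variable {θ : GL (Fin k) F → ℂ} {ψ : S.G → ℂ} {φ : (S.hyp k).G → ℂ}

theorem IsPhi.lev (h : S.IsPhi k θ ψ φ) (a : GL (Fin k) F) (g : S.G) : φ (S.lev k (a, g)) = θ a * ψ g := by
  rw [← h 1 (one_mem _), one_mul]

theorem IsPhi.one (h : S.IsPhi k θ ψ φ) : φ 1 = θ 1 * ψ 1 := by
  rw [← h.lev]
  exact congrArg φ (map_one _).symm

theorem IsPhi.triv (h : S.IsPhi k θ ψ φ) {u : (S.hyp k).G} (hu : u ∈ S.U k) : φ u = φ 1 := by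
  rw [h.one, ← h u hu, show S.lev k (1, 1) = 1 from map_one _, mul_one]

theorem IsPhi.mul (h : S.IsPhi k θ ψ φ) {u β : (S.hyp k).G} (hu : u ∈ S.U k) (a : GL (Fin k) F) (g : S.G)
    {a' : GL (Fin k) F} {g' : S.G} (hβ : β * (S.lev k (a', g'))⁻¹ ∈ S.U k) :
    φ (u * S.lev k (a, g) * β) = θ (a * a') * ψ (g * g') := by
  rw [← h _ (mul_mem hu (par_nU (lev_mem_P a g) hβ)), ← Prod.mk_mul_mk, map_mul]
  congr 1
  group

theorem IsPhi.irr (h : S.IsPhi k θ ψ φ) (hθ : IsIrrCharacter _ θ) (hψ : IsIrrCharacter _ ψ) :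
    IsIrrCharacter (S.P k) fun g => φ g := by
  obtain ⟨π, hπ⟩ := par_exists_pi (S := S) (k := k)
  have := (Ch.isIrrCharacter_prod hθ hψ).comp_surjective π fun p =>
    ⟨⟨_, lev_mem_P p.1 p.2⟩, hπ _ 1 (one_mem _) p (one_mul _).symm⟩
  convert this using 2 with β
  obtain ⟨u, hu, a, b, e⟩ := exists_dec β.2
  rw [hπ β u hu _ e, e, h u hu]

theorem IsPhi.intV (h : S.IsPhi k θ ψ φ) (hθ : IntV θ) (hψ : IntV ψ) : IntV fun g : S.P k => φ g := fun β => by
  obtain ⟨u, hu, a, b, e⟩ := exists_dec β.2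
  obtain ⟨m, hm⟩ := hθ a
  obtain ⟨n, hn⟩ := hψ b
  exact ⟨m * n, by simp only [e, h u hu, hm, hn, Int.cast_mul]⟩

theorem IsPhi.hs (h : S.IsPhi k θ ψ φ) (hk : 0 < k) (hθ : IsIrrCharacter _ θ) (hψ : IsIrrCharacter _ ψ)
    (hc : ∀ a, θ (a⁻¹ * itr a) = θ 1) {K : Subgroup (S.hyp k).G} (ht : Tri K (S.P k) (S.nn k) φ) :
    HS K (S.P k) (S.U k) (S.L k) (S.nn k) φ where
  par := isPar hk
  irr := h.irr hθ hψ
  triv := fun _ hu => h.triv hu
  comm := by
    rintro _ ⟨⟨a, g⟩, rfl⟩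
    rw [nn_lev, ← map_inv, ← map_mul, Prod.inv_mk, Prod.mk_mul_mk, h.lev, hc, inv_mul_cancel, h.one]
  tri := ht

end Fm

end Cfsg.Agent.DG
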