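import Mathlib
import Cfsg.Agent.DG.Par

/-! DG-CardU: the order of the unipotent radical. -/

set_option autoImplicit false
set_option linter.unusedSectionVars false

namespace Cfsg.Agent.DG

open Module Matrix Finset
open scoped ComplexConjugate

namespace Fm

variable {F V : Type} [Field F] [Finite F] [AddCommGroup V] [Module F V] [Finite V] {S : Fm F V} {k d e : ℕ}

/-- The relations between the coordinates of an element of the unipotent radical. -/
def CardURel (S : Fm F V) (T : Fin k → V) (M : Matrix (Fin k) (Fin k) F) : Prop :=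
  (∀ i j, M j i + S.ε * M i j + S.B (T i) (T j) = 0) ∧ ∀ j, S.δ * M j j + S.Q (T j) = 0

theorem cardU_B {T : Fin k → V} {M : Matrix (Fin k) (Fin k) F} (h : S.CardURel T M) (y y' : Fin k → F) :
    (M *ᵥ y) ⬝ᵥ y' + S.ε * (y ⬝ᵥ M *ᵥ y') +
      S.B (Fintype.linearCombination F T y) (Fintype.linearCombination F T y') = 0 := by
  induction y using Pi.single_induction with
  | zero => simp
  | add a b ha hb =>
    simp only [mulVec_add, add_dotProduct, map_add, LinearMap.add_apply]
    linear_combination ha + hb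
  | single i a =>
    induction y' using Pi.single_induction with
    | zero => simp
    | add a b ha hb =>
      simp only [mulVec_add, dotProduct_add, map_add]
      linear_combination ha + hb
    | single j b =>
      simp only [mulVec_single, dotProduct_single, single_dotProduct, Fintype.linearCombination_apply_single,
        map_smul, LinearMap.smul_apply, smul_eq_mul, Pi.smul_apply, col_apply, MulOpposite.smul_eq_mul_unop,
        MulOpposite.unop_op]
      linear_combination a * b * h.1 i j

theorem cardU_Q {T : Fin k → V} {M : Matrix (Fin k) (Fin k) F} (h : S.CardURel T M) (y : Fin k → F) :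
    S.δ * ((M *ᵥ y) ⬝ᵥ y) + S.Q (Fintype.linearCombination F T y) = 0 := by
  induction y using Pi.single_induction with
  | zero => simp
  | add a b ha hb =>
    simp only [mulVec_add, add_dotProduct, dotProduct_add, map_add (Fintype.linearCombination F T), Q_add]
    have h1 := cardU_B h a b
    rw [dotProduct_comm a] at h1
    linear_combination ha + hb + S.δ * h1 - ((M *ᵥ b) ⬝ᵥ a) * S.δ_ε
  | single i a =>
    simp only [mulVec_single, dotProduct_single, Fintype.linearCombination_apply_single, Q_smul, Pi.smul_apply,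
      col_apply, MulOpposite.smul_eq_mul_unop, MulOpposite.unop_op]
    linear_combination a ^ 2 * h.2 i

theorem cardU_N (T : Fin k → V) (v : V) (y : Fin k → F) :
    (fun j => -S.B v (T j)) ⬝ᵥ y = -S.B v (Fintype.linearCombination F T y) := by
  simp [dotProduct, Fintype.linearCombination_apply, mul_comm]

theorem cardU_exists {T : Fin k → V} {M : Matrix (Fin k) (Fin k) F} (h : S.CardURel T M) :
    ∃ u ∈ S.U k, ∀ j, u.1 ((0, Pi.single j 1), 0) = ((fun i => M i j, Pi.single j 1), T j) := by
  let f : HV F k V →ₗ[F] HV F k V :=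
    { toFun := fun z => ((z.1.1 + M *ᵥ z.1.2 + fun j => -S.B z.2 (T j), z.1.2),
        z.2 + Fintype.linearCombination F T z.1.2)
      map_add' := fun z z' => Prod.ext (Prod.ext (funext fun j => by simp [mulVec_add]; ring) rfl) (by simp; abel)
      map_smul' := fun c z => Prod.ext (Prod.ext (funext fun j => by simp [mulVec_smul, mul_add]) rfl) (by simp) }
  have hf : ∀ z, f z = ((z.1.1 + M *ᵥ z.1.2 + fun j => -S.B z.2 (T j), z.1.2),
      z.2 + Fintype.linearCombination F T z.1.2) := fun _ => rfl
  refine ⟨(S.hyp k).mk' f (fun z z' => ?_) fun z => ?_, ⟨fun z hz => ?_, fun z hz => ?_⟩, fun j => ?_⟩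
  · simp only [hf, hyp_B, add_dotProduct, dotProduct_add, map_add, LinearMap.add_apply, cardU_N,
      dotProduct_comm z.1.2 fun j => -S.B z'.2 (T j)]
    linear_combination cardU_B h z.1.2 z'.1.2 + S.B_swap z'.2 (Fintype.linearCombination F T z.1.2)
  · simp only [hf, hyp_Q, add_dotProduct, Q_add, cardU_N]
    linear_combination cardU_Q h z.1.2
  · rw [mk'_app, hf]
    refine Prod.ext (Prod.ext (funext fun j => ?_) rfl) ?_ <;> simp [hz.1, hz.2]
  · rw [mk'_app, hf, mem_W]
    simp [perp_W.1 hz]
  · rw [mk'_app, hf]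
    refine Prod.ext (Prod.ext (funext fun i => ?_) rfl) ?_ <;> simp

theorem cardU_snd {u : (S.hyp k).G} (hu : u ∈ S.U k) (z : HV F k V) : (u.1 z).1.2 = z.1.2 := funext fun i => by
  have h := B_app u ((Pi.single i 1, 0), 0) z
  rw [hu.1 _ ⟨rfl, rfl⟩] at h
  simpa [hyp_B] using h

theorem cardU_rel {u : (S.hyp k).G} (hu : u ∈ S.U k) :
    S.CardURel (fun j => (u.1 ((0, Pi.single j 1), 0)).2) (of fun i j => (u.1 ((0, Pi.single j 1), 0)).1.1 i) :=
  ⟨fun i j => by
    have h := B_app u ((0, Pi.single i 1), 0) ((0, Pi.single j 1), 0)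
    rw [hyp_B, hyp_B, cardU_snd hu, cardU_snd hu] at h
    simpa using h, fun j => by
    have h := Q_app u ((0, Pi.single j 1), 0)
    rw [hyp_Q, hyp_Q, cardU_snd hu] at h
    simpa using h⟩

theorem cardU_one {u : (S.hyp k).G} (hu : u ∈ S.U k)
    (h : ∀ j, u.1 ((0, Pi.single j 1), 0) = ((0, Pi.single j 1), 0)) : u = 1 := by
  have h1 : ∀ z, (u.1 z).1.1 = z.1.1 := fun z => funext fun i => by
    have k := B_app u z ((0, Pi.single i 1), 0)
    rw [h] at k
    simpa [hyp_B] using k
  refine G_ext fun z => Prod.ext (Prod.ext (h1 z) (cardU_snd hu z)) (sub_eq_zero.1 (S.nd _ fun v => ?_))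
  have h2 : u.1 (0, v) = (0, v) :=
    Prod.ext (Prod.ext (h1 _) (cardU_snd hu _)) (sub_eq_zero.1 (hu.2 (0, v) (perp_W.2 rfl)).2)
  have k := B_app u z (0, v)
  rw [h2] at k
  simpa [hyp_B, sub_eq_zero] using k

theorem cardU_ext {T : Fin k → V} {M M' : Matrix (Fin k) (Fin k) F} (h : S.CardURel T M) (h' : S.CardURel T M')
    (h1 : ∀ i j, i < j → M i j = M' i j) (h2 : ∀ j, M j j = M' j j) : M = M' := by
  ext i j
  rcases lt_trichotomy i j with k | rfl | k
  exacts [h1 i j k, h2 i, by linear_combination h.1 j i - h'.1 j i - S.ε * h1 j i k]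

theorem cardU_mk (T : Fin k → V) (m : {p : Fin k × Fin k // p.1 < p.2} → F) {c : Fin k → F}
    (hc : S.o = true → c = 0) : ∃ M, S.CardURel T M ∧ (∀ p, M p.1.1 p.1.2 = m p) ∧ ∀ j, M j j + S.Q (T j) = c j := by
  have h0 : ∀ j, S.δ * c j = 0 := fun j => by
    cases ho : S.o
    · simp [δ, ho]
    · simp [hc ho]
  refine ⟨of fun i j => if h : i < j then m ⟨(i, j), h⟩ else if h' : j < i then
    -S.ε * m ⟨(j, i), h'⟩ - S.B (T j) (T i) else c j - S.Q (T j), ⟨fun i j => ?_, fun j => ?_⟩, fun p => ?_, fun j => ?_⟩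
  · rcases lt_trichotomy i j with h | rfl | h
    · simp only [of_apply, h, h.not_gt, dif_pos, dif_neg, not_false_eq_true]
      ring
    · simp only [of_apply, lt_irrefl, dif_neg, not_false_eq_true, B_self, S.ε_eq]
      linear_combination 2 * h0 i - 2 * S.δ_Q (T i)
    · simp only [of_apply, h, h.not_gt, dif_pos, dif_neg, not_false_eq_true]
      linear_combination S.B_swap (T j) (T i) - m ⟨(j, i), h⟩ * S.ε_sq
  · simp only [of_apply, lt_irrefl, dif_neg, not_false_eq_true]
    linear_combination h0 j - S.δ_Q (T j)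
  · simp only [of_apply, p.2, dif_pos]
  · simp

theorem card_U : Nat.card (S.U k) =
    Nat.card F ^ (k * finrank F V + k.choose 2 + if S.o then 0 else k) := by
  let Ψ : S.U k → (Fin k → V) × ({p : Fin k × Fin k // p.1 < p.2} → F) × {c : Fin k → F // S.o = true → c = 0} :=
    fun u => (fun j => (u.1.1 ((0, Pi.single j 1), 0)).2, fun p => (u.1.1 ((0, Pi.single p.1.2 1), 0)).1.1 p.1.1,
      ⟨fun j => (u.1.1 ((0, Pi.single j 1), 0)).1.1 j + S.Q (u.1.1 ((0, Pi.single j 1), 0)).2, fun ho =>
        funext fun j => by simpa [δ, ho] using (cardU_rel u.2).2 j⟩)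
  have hΨ : Function.Bijective Ψ := by
    refine ⟨fun u u' h => ?_, fun ⟨T, m, c, hc⟩ => ?_⟩
    · have h1 := congrArg Prod.fst h
      have h2 := congrFun (congrArg (fun x => x.2.1) h)
      have h3 := congrFun (congrArg (fun x => x.2.2.1) h)
      have h4 := cardU_ext (cardU_rel u.2) (Eq.mpr (congrArg (S.CardURel · _) h1) (cardU_rel u'.2))
        (fun i j l => h2 ⟨(i, j), l⟩) fun j => add_right_cancel ((h3 j).trans (congrArg (_ + S.Q ·) (congrFun h1 j).symm))
      refine Subtype.ext (inv_mul_eq_one.1 (cardU_one (mul_mem (inv_mem u.2) u'.2) fun j => ?_))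
      have h5 : u'.1.1 ((0, Pi.single j 1), 0) = u.1.1 ((0, Pi.single j 1), 0) :=
        Prod.ext (Prod.ext (funext fun i => (congrFun (congrFun h4 i) j).symm)
          ((cardU_snd u'.2 _).trans (cardU_snd u.2 _).symm)) (congrFun h1 j).symm
      rw [mul_app, h5, inv_app_app]
    · obtain ⟨M, hM, h1, h2⟩ := cardU_mk T m hc
      obtain ⟨u, hu, h3⟩ := cardU_exists hM
      refine ⟨⟨u, hu⟩, Prod.ext (funext fun j => ?_) (Prod.ext (funext fun p => ?_) (Subtype.ext (funext fun j => ?_)))⟩
      · simp only [Ψ, h3]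
      · simp only [Ψ, h3, h1]
      · simp only [Ψ, h3, h2]
  have c1 : Nat.card {p : Fin k × Fin k // p.1 < p.2} = k.choose 2 := by
    rw [Nat.card_eq_fintype_card, Fintype.card_subtype, ← univ_product_univ, card_product_filter_lt, card_univ,
      Fintype.card_fin]
  have c2 : Nat.card {c : Fin k → F // S.o = true → c = 0} = Nat.card F ^ (if S.o then 0 else k) := by
    cases S.o <;> simp [Nat.card_pi]
  rw [Nat.card_congr (Equiv.ofBijective Ψ hΨ), Nat.card_prod, Nat.card_prod, Nat.card_fun, Nat.card_fun, c1, c2,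
    Module.natCard_eq_pow_finrank (K := F) (V := V), Nat.card_fin, ← pow_mul, ← pow_add, ← pow_add, mul_comm _ k,
    add_assoc]

end Fm

end Cfsg.Agent.DG
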