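import Mathlib
import Cfsg.Agent.DG.Tools
import Cfsg.Agent.Cl.CharCuspD
import Cfsg.Agent.Cl.ClassMat
import Cfsg.Agent.Cl.LinearBasic

set_option autoImplicit false

namespace Cfsg.Agent.DG

open Module Matrix Finset
open scoped ComplexConjugate

variable {F : Type} [Field F] [Finite F] {k : ℕ}

namespace CuspAux

open Cfsg.Agent.Cl Cfsg.Agent.Cl.Cu Polynomial

omit [Finite F] in
theorem J_neg {s : F[X] → ℂ} (hs : ∀ m : ℕ, s ((X - C (-1)) ^ m) = s ((X - 1) ^ m)) {V : Type} [AddCommGroup V]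
    [Module F V] [Finite V] : J s V (-1) = J s V 1 := by
  classical
  induction hn : finrank F V using Nat.strong_induction_on generalizing V with
  | _ n ih =>
  have := Module.Finite.of_finite (R := F) (M := V)
  have h1 : ∀ W : Submodule F V, W ≤ W.comap (-1 : End F V) := fun W _ h => W.neg_mem h
  have e1 : invs (1 : End F V) = univ := eq_univ_of_forall fun W => mem_invs.2 fun _ h => h
  have e2 : invs (-1 : End F V) = univ := eq_univ_of_forall fun W => mem_invs.2 (h1 W)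
  have e3 : (-1 : End F V).charpoly = (X - C (-1)) ^ finrank F V := by
    rw [← LinearMap.charpoly_toMatrix _ (finBasis F V), map_neg, LinearMap.toMatrix_one, ← diagonal_one,
      diagonal_neg, charpoly_diagonal, prod_const, card_univ, Fintype.card_fin]
  rw [J_eq, J_eq, e1, e2, e3, LinearMap.charpoly_one, hs]
  refine congrArg _ (sum_congr rfl fun W hW => ?_)
  have e4 : res (1 : End F V) W = 1 := by
    ext v
    rw [coe_res fun _ h => h]
    rfl
  have e5 : res (-1 : End F V) W = -1 := by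
    ext v
    rw [coe_res (h1 W)]
    rfl
  rw [e4, e5]
  exact ih _ (hn ▸ Submodule.finrank_lt (ne_of_mem_erase hW)) rfl

theorem exists_cusp {n : ℕ} (hn : 1 ≤ n) (k₀ : ℕ)
    (hg : ∀ i, 0 < i → i < n → ¬ k₀ ≡ k₀ * Nat.card F ^ i [MOD Nat.card F ^ n - 1]) :
    ∃ θ, Cusp F n θ ∧
      ((∀ i < n, ¬ Nat.card F ^ n - 1 ∣ k₀ * (Nat.card F ^ i + 1)) → θ ≠ fun g => conj (θ g)) ∧
      (Even k₀ → θ (-1) = θ 1) := by
  classical
  have := Fintype.ofFinite F
  obtain ⟨p, _, f, hp, hf⟩ := FiniteField.card' F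
  have := Fact.mk hp
  simp only [← Nat.card_eq_fintype_card] at hf
  have hq : 1 < Nat.card F := Finite.one_lt_card
  let D := ∏ i ∈ range n, (Nat.card F ^ (i + 1) - 1)
  have hD : (Nat.card F).Coprime D := Nat.Coprime.prod_right fun i _ =>
    Nat.Coprime.of_dvd_left (dvd_pow_self _ i.succ_ne_zero) ((Nat.coprime_self_sub_right (by
      exact Nat.one_le_pow _ _ (by omega))).2 (Nat.coprime_one_right _))
  have hD0 : 0 < D := prod_pos fun i _ => Nat.sub_pos_of_lt (Nat.one_lt_pow i.succ_ne_zero hq)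
  have : NeZero D.totient := ⟨(Nat.totient_pos.2 hD0).ne'⟩
  let K := FiniteField.Extension F p D.totient
  have : CharP K p := charP_of_injective_algebraMap (algebraMap F K).injective p
  have : Fintype Kˣ := Fintype.ofFinite _
  have hK : D ∣ Nat.card K - 1 := by
    rw [FiniteField.natCard_extension]
    exact (Nat.modEq_iff_dvd' (Nat.one_le_pow _ _ (by omega))).1 (Nat.ModEq.pow_totient hD).symm
  have hM : Nat.card F ^ n - 1 ∣ Nat.card K - 1 := by
    refine Dvd.dvd.trans ?_ hK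
    have := dvd_prod_of_mem (fun i => Nat.card F ^ (i + 1) - 1) (mem_range.2 (by omega : n - 1 < n))
    rwa [Nat.sub_add_cancel (by omega)] at this
  have : NeZero (Nat.card Kˣ) := ⟨Nat.card_pos.ne'⟩
  let θ : Kˣ →* ℂˣ := (rootsOfUnity (Nat.card Kˣ) ℂ).subtype.comp
    (mulEquivOfCyclicCardEq (Complex.card_rootsOfUnity _).symm).toMonoidHom
  have hθ : Function.Injective θ := Subtype.val_injective.comp (MulEquiv.injective _)
  let ψ : ℕ → (End F (Fin n → F))ˣ → ℂ := fun k g => J (sL fun α : Kˣ => θ (α ^ k)) _ g.1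
  let χ : ℕ → GL (Fin n) F → ℂ := fun k g => (-1) ^ (n - 1) * ψ k (Matrix.GeneralLinearGroup.toLin g)
  have h1 : ∀ k, IsGeneralizedCharacter _ (χ k) := fun k => by
    have := isGen_J (F := F) (V := Fin n → F) (s := sL fun α : Kˣ => θ (α ^ k)) (n := n) (fun V _ _ _ hV => ?_)
      (by simp)
    · convert (this.comp Matrix.GeneralLinearGroup.toLin.toMonoidHom).intCast_smul ((-1) ^ (n - 1)) using 1
      ext g
      simp [χ, ψ]
    · have := Module.Finite.of_finite (R := F) (M := V)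
      refine isGen_sL hp (Ch.isCharacter_monoidHom_units (θ.comp (powMonoidHom k))).isGeneralizedCharacter
        (a := f * (finrank F V * (finrank F V - 1) / 2)) ?_
      rw [← Nat.card_congr (Matrix.GeneralLinearGroup.toLin' (finBasis F V)).toEquiv, card_gl', Fintype.card_fin,
        pow_mul, ← hf]
      exact mul_dvd_mul_left _ ((prod_dvd_prod_of_subset _ _ _ (range_subset_range.2 hV)).trans hK)
  have h2 : ∀ k k', classInner (χ k) (χ k') =
      #{i ∈ range n | k ≡ k' * Nat.card F ^ i [MOD Nat.card F ^ n - 1]} := fun k k' => by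
    rw [← classInner_J_sL (by omega) hM θ hθ, ← @Ch.classInner_comp_mulEquiv _ _ (_) _ _ _
      (Matrix.GeneralLinearGroup.toLin (n := Fin n) (R := F))]
    refine congrArg _ (sum_congr rfl fun g _ => ?_)
    simp only [χ, ψ, map_mul, map_pow, map_neg, map_one]
    rw [mul_mul_mul_comm, ← mul_pow]
    simp
  have h3 : χ k₀ 1 = ((∏ i ∈ Ico 1 n, (Nat.card F ^ i - 1) : ℕ) : ℂ) := by
    rw [Nat.cast_prod, prod_congr rfl (g := fun i => (Nat.card F : ℂ) ^ i - 1) fun i _ => by
      rw [Nat.cast_pred (by positivity), Nat.cast_pow]]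
    simp only [χ, ψ, map_one, Units.val_one]
    rw [J_one (isAdd_sL _), finrank_fin_fun, if_neg (by omega), ← Nat.card_Ico 1 n, ← prod_const,
      ← prod_mul_distrib]
    · simp
    · rw [sL_of_map_eq _ (S := univ) (a := fun _ : Unit => 1) (by simp)]
      simp
  have h4 : classInner (χ k₀) (χ k₀) = 1 := by
    rw [h2, Nat.cast_eq_one, card_eq_one]
    refine ⟨0, eq_singleton_iff_unique_mem.2 ⟨by simp [Nat.ModEq.refl]; omega, fun i hi => ?_⟩⟩
    obtain ⟨hi, hi'⟩ := mem_filter.1 hi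
    by_contra h0
    exact hg i (Nat.pos_of_ne_zero h0) (mem_range.1 hi) hi'
  have h5 : IsIrrCharacter _ (χ k₀) := (h1 k₀).isIrr_of_norm_one h4 (by rw [h3]; exact Nat.cast_nonneg _)
  refine ⟨χ k₀, ⟨h5, Ch.charDegree_of_apply_one h3, fun A h0 hT _ u hu => ?_⟩, fun h e => ?_, ?_⟩
  · have hu' : ∀ b, (Matrix.GeneralLinearGroup.toLin (u b)).1 = 1 + b.1 := fun b => LinearMap.ext (hu b)
    refine kill_add h5.isCharacter u (fun a b => Matrix.GeneralLinearGroup.toLin.injective (Units.ext ?_)) ?_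
    · rw [map_mul, Units.val_mul, hu', hu', hu']
      refine LinearMap.ext fun x => ?_
      simp [a.2.2 _ (b.2.1 x), add_assoc, add_comm, add_left_comm]
    · simp only [χ, ψ, hu', ← mul_sum]
      rw [mul_eq_zero]
      right
      convert sum_J_rad (isAdd_sL (F := F) fun α : Kˣ => θ (α ^ k₀)) h0 hT (g := 1) fun _ h => h
  · obtain ⟨N, hN⟩ : ∃ N, Nat.card K - 1 = N + 1 := ⟨Nat.card K - 2, by
      have : 1 < Nat.card K := Finite.one_lt_card
      omega⟩
    have e1 : (fun g => conj (χ k₀ g)) = χ (N * k₀) := by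
      ext g
      simp only [χ, ψ, map_mul, map_pow (starRingEnd ℂ), map_neg, map_one, conj_J]
      congr 3
      ext h
      simp only [sL, map_sum, map_mul, map_natCast]
      refine sum_congr rfl fun α _ => congrArg (· * _) ?_
      rw [Ch.conj_monoidHom_units, ← Units.val_inv_eq_inv_val, ← map_inv, inv_eq_of_mul_eq_one_right
        (show α ^ k₀ * α ^ (N * k₀) = 1 by
          rw [← pow_add, add_comm, ← Nat.succ_mul, pow_mul, Nat.succ_eq_add_one, ← hN, ← Nat.card_units,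
            pow_card_eq_one', one_pow])]
    nth_rewrite 2 [e] at h4
    rw [e1, h2, Nat.cast_eq_one] at h4
    obtain ⟨i, hi⟩ := card_pos.1 (h4 ▸ one_pos)
    obtain ⟨hi, hi'⟩ := mem_filter.1 hi
    refine h i (mem_range.1 hi) ((Nat.modEq_zero_iff_dvd).1 ?_)
    have h6 := hi'.add_left (k₀ * Nat.card F ^ i)
    rw [mul_add, mul_one]
    refine h6.trans ((Nat.modEq_zero_iff_dvd).2 (hM.trans ⟨k₀ * Nat.card F ^ i, ?_⟩))
    rw [hN]
    ring
  · rintro ⟨j, rfl⟩
    have e : (Matrix.GeneralLinearGroup.toLin (-1 : GL (Fin n) F)).1 = -1 :=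
      LinearMap.ext fun x => by simp
    simp only [χ, ψ, e, map_one, Units.val_one]
    rw [J_neg fun m => ?_]
    rw [sL_of_map_eq _ (S := range m) (a := fun _ => -1) (by simp),
      sL_of_map_eq _ (S := range m) (a := fun _ => 1) (by simp)]
    simp [← two_mul, pow_mul]

theorem not_dvd {a b : ℕ} (h0 : 0 < a) (h : a < b) : ¬ b ∣ a := fun e => (Nat.le_of_dvd h0 e).not_gt h

theorem gen {q n c i : ℕ} (hq : 2 ≤ q) (hc : 0 < c) (hi : 0 < i) (h : c * q ^ i < q ^ n + c - 1) :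
    ¬ c ≡ c * q ^ i [MOD q ^ n - 1] := fun e => by
  have h1 : 1 < q ^ i := Nat.one_lt_pow hi.ne' hq
  have h2 : c * 1 < c * q ^ i := Nat.mul_lt_mul_of_pos_left h1 hc
  exact not_dvd (by omega) (by omega) ((Nat.modEq_iff_dvd' (by omega)).1 e)

theorem pow_step {q n i : ℕ} (hq : 2 ≤ q) (hi : i < n) :
    ∃ x, q ^ i ≤ x ∧ q ^ (n - 1) = x ∧ q ^ n = x * q :=
  ⟨_, Nat.pow_le_pow_right (by omega) (by omega), rfl, by rw [← pow_succ]; congr 1; omega⟩

theorem cusp_lin {θ : GL (Fin 1) F → ℂ} (h : IsCharacter _ θ) (h1 : θ 1 = 1) : Cusp F 1 θ :=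
  ⟨h.isIrr_of_apply_one h1, by simpa using h.charDegree_eq_one_iff.2 h1, fun A h0 hT => absurd (by
    have h2 := Submodule.finrank_lt hT
    rwa [finrank_fin_fun, Nat.lt_one_iff, Submodule.finrank_eq_zero] at h2) h0⟩

theorem pow_eq_one {x : F} (hx : x ≠ 0) : x ^ (Nat.card F - 1) = 1 := by
  have := Fintype.ofFinite F
  rw [Nat.card_eq_fintype_card]
  exact FiniteField.pow_card_sub_one_eq_one x hx

end CuspAux

open CuspAux

theorem char_itr {θ : GL (Fin k) F → ℂ} (hθ : IsCharacter (GL (Fin k) F) θ) (a : GL (Fin k) F) :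
    θ (itr a) = conj (θ a) := by
  rw [← hθ.apply_inv]
  exact (hθ.isClassFunction.eq_of_isConj (Cl.Cls.isConj_units_iff.2 (Cl.Cls.isConj_transpose _))).symm

theorem cusp_a (h : 3 ≤ k ∨ (2 ≤ k ∧ 3 ≤ Nat.card F) ∨ (1 ≤ k ∧ 4 ≤ Nat.card F)) :
    ∃ θ, Cusp F k θ ∧ θ ≠ fun g => conj (θ g) := by
  have hq : 2 ≤ Nat.card F := Finite.one_lt_card
  obtain ⟨θ, h1, h2, -⟩ := exists_cusp (F := F) (n := k) (by omega) 1 fun i h0 hi =>
    gen hq one_pos h0 (by have := Nat.pow_lt_pow_right hq hi; omega)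
  refine ⟨θ, h1, h2 fun i hi => not_dvd (by positivity) ?_⟩
  obtain ⟨x, e1, e2, e3⟩ := pow_step hq hi
  generalize Nat.card F = q at *
  have : x + 2 < x * q := by
    rcases h with h | h | h
    · have : q ^ 2 ≤ x := e2 ▸ Nat.pow_le_pow_right (by omega) (by omega)
      nlinarith
    · have : q ^ 1 ≤ x := e2 ▸ Nat.pow_le_pow_right (by omega) (by omega)
      nlinarith
    · have : 0 < x := e2 ▸ by positivity
      nlinarith
  omega

theorem cusp_z (h : 3 ≤ k ∨ (2 ≤ k ∧ 4 ≤ Nat.card F)) :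
    ∃ θ, Cusp F k θ ∧ (θ ≠ fun g => conj (θ g)) ∧ θ (-1) = θ 1 := by
  have hq : 2 ≤ Nat.card F := Finite.one_lt_card
  rcases hq.eq_or_lt with h2 | h2
  · obtain ⟨θ, h3, h4⟩ := cusp_a (F := F) (k := k) (by omega)
    have e := pow_eq_one (neg_ne_zero.2 (one_ne_zero (α := F)))
    rw [← h2, pow_one] at e
    refine ⟨θ, h3, h4, congrArg θ (Units.ext ?_)⟩
    rw [Units.val_neg, ← neg_one_smul F, e, one_smul]
  have key : ∀ i < k, 2 * (Nat.card F ^ i + 1) < Nat.card F ^ k - 1 := fun i hi => by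
    obtain ⟨x, e1, e2, e3⟩ := pow_step hq hi
    generalize Nat.card F = q at *
    have : 2 * x + 3 < x * q := by
      rcases h with h | h
      · have : q ^ 2 ≤ x := e2 ▸ Nat.pow_le_pow_right (by omega) (by omega)
        nlinarith
      · have : q ^ 1 ≤ x := e2 ▸ Nat.pow_le_pow_right (by omega) (by omega)
        nlinarith
    omega
  obtain ⟨θ, h3, h4, h5⟩ := exists_cusp (F := F) (n := k) (by omega) 2 fun i h0 hi =>
    gen hq two_pos h0 (by have := key i hi; omega)
  exact ⟨θ, h3, h4 fun i hi => not_dvd (by positivity) (key i hi), h5 even_two⟩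

theorem cusp_two : ∃ θ, Cusp F 2 θ ∧ θ (-1) = θ 1 := by
  have hq : 2 ≤ Nat.card F := Finite.one_lt_card
  obtain ⟨θ, h1, -, h2⟩ := exists_cusp (F := F) (n := 2) one_le_two 2 fun i h0 hi => gen hq two_pos h0 (by
    obtain rfl : i = 1 := by omega
    have : 2 * Nat.card F ^ 1 < Nat.card F ^ 2 + 1 := by nlinarith
    omega)
  exact ⟨θ, h1, h2 even_two⟩

theorem cusp_one : Cusp F 1 fun _ => 1 := cusp_lin IsCharacter.one rfl

theorem cusp_sgn (hq : Nat.card F = 3) :
    ∃ θ, Cusp F 1 θ ∧ θ 1 = 1 ∧ θ (-1) = -1 ∧ ∀ a, θ (a⁻¹ * itr a) = 1 := by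
  obtain ⟨θ, h, e⟩ := exists_sign (G := GL (Fin 1) F) (z := -1) (fun g => by simp) (by simp) fun e => by
    have h1 : (-1 : F) = 1 := by
      simpa using congrArg (fun g : GL (Fin 1) F => (g : Matrix (Fin 1) (Fin 1) F) 0 0) e
    have := Fintype.ofFinite F
    have h2 := FiniteField.cast_card_eq_zero F
    rw [← Nat.card_eq_fintype_card, hq] at h2
    exact one_ne_zero (α := F) (by push_cast at h2; linear_combination h2 + h1)
  have h1 : θ 1 = 1 := h.apply_one_eq_one_of_comm fun a b => Units.ext (by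
    ext i j
    simp [mul_apply, Subsingleton.elim i 0, Subsingleton.elim j 0, mul_comm])
  refine ⟨θ, cusp_lin h.isCharacter h1, h1, by rw [e, h1], fun a => h1 ▸ congrArg θ (Units.ext ?_)⟩
  have h2 := pow_eq_one (a⁻¹).det_ne_zero
  rw [hq, det_fin_one, sq] at h2
  ext i j
  rw [Subsingleton.elim i 0, Subsingleton.elim j 0, Units.val_mul, coe_itr, mul_apply, Fin.sum_univ_one]
  exact h2

theorem Cusp.lin2 (hq : Nat.card F = 2) {θ : GL (Fin 2) F → ℂ} (hθ : Cusp F 2 θ) :
    θ 1 = 1 ∧ IntV θ ∧ ∀ a, θ (a⁻¹ * itr a) = 1 := by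
  have h := hθ.irr.isCharacter
  have h1 : θ 1 = 1 := h.charDegree_eq_one_iff.1 (by simpa [hq] using hθ.deg)
  have h2 : ∀ a, θ (itr a) = θ a := fun a => by
    have hd := pow_eq_one a.det_ne_zero
    rw [hq, pow_one, det_fin_two] at hd
    let j : GL (Fin 2) F := Matrix.GeneralLinearGroup.mkOfDetNeZero !![0, 1; -1, 0] (by simp)
    refine (h.isClassFunction.eq_of_isConj (isConj_iff.2 ⟨j, ?_⟩)).symm
    rw [mul_inv_eq_iff_eq_mul, ← inv_mul_eq_iff_eq_mul]
    refine Units.ext ?_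
    change (a : Matrix (Fin 2) (Fin 2) F)ᵀ * (!![0, 1; -1, 0] * (a : Matrix (Fin 2) (Fin 2) F)) = !![0, 1; -1, 0]
    ext r s
    fin_cases r <;> fin_cases s <;> simp [mul_apply, vecMul, dotProduct, Fin.sum_univ_two] <;>
      first | ring1 | linear_combination hd | linear_combination -hd
  have h3 : ∀ a, θ a⁻¹ * θ a = 1 := fun a => by
    rw [← h.map_mul_of_apply_one h1, inv_mul_cancel, h1]
  refine ⟨h1, fun a => ?_, fun a => by rw [h.map_mul_of_apply_one h1, h2, h3]⟩
  have h4 := h3 a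
  rw [h.apply_inv, ← char_itr h, h2, mul_self_eq_one_iff] at h4
  exact h4.elim (fun e => ⟨1, by simpa using e⟩) fun e => ⟨-1, by simpa using e⟩

end Cfsg.Agent.DG
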