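import Mathlib
import Cfsg.Agent.DG.Defs
import Cfsg.Agent.Cl.OrthCard

/-! Isometric spaces, Witt index and the number of singular vectors. -/

set_option autoImplicit false
set_option linter.unusedSectionVars false

namespace Cfsg.Agent.DG

open Module Matrix Finset
open scoped ComplexConjugate

namespace Fm

variable {F V : Type} [Field F] [Finite F] [AddCommGroup V] [Module F V] [Finite V] {S : Fm F V} {k d e : ℕ}

variable {V' V'' : Type} [AddCommGroup V'] [Module F V'] [Finite V'] [AddCommGroup V''] [Module F V''] [Finite V'']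
  {S' : Fm F V'} {S'' : Fm F V''}

theorem Iso.refl (S : Fm F V) : S.Iso S := ⟨rfl, LinearEquiv.refl F V, fun _ _ => rfl, fun _ => rfl⟩

theorem Iso.symm (h : S.Iso S') : S'.Iso S := by
  obtain ⟨ho, e, hB, hQ⟩ := h
  exact ⟨ho.symm, e.symm, fun x y => by rw [← hB, e.apply_symm_apply, e.apply_symm_apply],
    fun x => by rw [← hQ, e.apply_symm_apply]⟩

theorem Iso.trans (h : S.Iso S') (h' : S'.Iso S'') : S.Iso S'' := by
  obtain ⟨ho, e, hB, hQ⟩ := h
  obtain ⟨ho', e', hB', hQ'⟩ := h'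
  exact ⟨ho.trans ho', e.trans e', fun x y => (hB' _ _).trans (hB x y), fun x => (hQ' _).trans (hQ x)⟩

theorem Iso.hyp (h : S.Iso S') (k : ℕ) : (S.hyp k).Iso (S'.hyp k) := by
  obtain ⟨ho, e, hB, hQ⟩ := h
  refine ⟨ho, (LinearEquiv.refl F _).prodCongr e, fun x y => ?_, fun x => ?_⟩
  · simp [hyp_B, hB, ε, ho]
  · simp [hyp_Q, hQ, δ, ho]

theorem iso_hyp_zero : S.Iso (S.hyp 0) :=
  ⟨rfl, { LinearMap.inr F _ V with
      invFun := fun z => z.2
      left_inv := fun _ => rfl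
      right_inv := fun _ => Prod.ext (Subsingleton.elim _ _) rfl },
    fun x y => by simp only [hyp_B, dotProduct, univ_eq_empty, sum_empty, mul_zero, zero_add]; rfl,
    fun x => by simp only [hyp_Q, dotProduct, univ_eq_empty, sum_empty, mul_zero, zero_add]; rfl⟩

theorem iso_hyp_hyp (d k : ℕ) : ((S.hyp d).hyp k).Iso (S.hyp (d + k)) := by
  refine Iso.symm ⟨rfl,
    { toFun := fun z => ((fun i => z.1.1 (Fin.natAdd d i), fun i => z.1.2 (Fin.natAdd d i)),
        ((fun i => z.1.1 (Fin.castAdd k i), fun i => z.1.2 (Fin.castAdd k i)), z.2))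
      map_add' := fun _ _ => rfl
      map_smul' := fun _ _ => rfl
      invFun := fun z => ((Fin.append z.2.1.1 z.1.1, Fin.append z.2.1.2 z.1.2), z.2.2)
      left_inv := fun z => by simp [Fin.append_castAdd_natAdd]
      right_inv := fun z => by simp }, fun x y => ?_, fun x => ?_⟩
  · simp only [hyp_B, hyp_ε, dotProduct, Fin.sum_univ_add, LinearEquiv.coe_mk, LinearMap.coe_mk,
      AddHom.coe_mk]
    ring
  · simp only [hyp_Q, hyp_δ, dotProduct, Fin.sum_univ_add, LinearEquiv.coe_mk, LinearMap.coe_mk,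
      AddHom.coe_mk]
    ring

theorem Iso.exists_equiv (h : S.Iso S') : ∃ (e : V ≃ₗ[F] V') (Φ : S.G ≃* S'.G),
    (∀ x y, S'.B (e x) (e y) = S.B x y) ∧ (∀ x, S'.Q (e x) = S.Q x) ∧ ∀ g x, (Φ g).1 (e x) = e (g.1 x) := by
  obtain ⟨-, e, hB, hQ⟩ := h
  have hB' : ∀ x y, S.B (e.symm x) (e.symm y) = S'.B x y := fun x y => by
    rw [← hB, e.apply_symm_apply, e.apply_symm_apply]
  have hQ' : ∀ x, S.Q (e.symm x) = S'.Q x := fun x => by rw [← hQ, e.apply_symm_apply]
  exact ⟨e,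
    { toFun := fun g => ⟨e.symm.trans (g.1.trans e), fun x y => by simp [hB, hB'],
        fun x => by simp [hQ, hQ']⟩
      invFun := fun g => ⟨e.trans (g.1.trans e.symm), fun x y => by simp [hB, hB'],
        fun x => by simp [hQ, hQ']⟩
      left_inv := fun g => G_ext fun x => by simp
      right_inv := fun g => G_ext fun x => by simp
      map_mul' := fun g g' => G_ext fun x => by simp }, hB, hQ, fun g x => by simp⟩

theorem Iso.card_G (h : S.Iso S') : Nat.card S.G = Nat.card S'.G := by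
  obtain ⟨-, Φ, -⟩ := h.exists_equiv
  exact Nat.card_congr Φ.toEquiv

theorem ty_comm {A B : Type} [Group A] [Group B] (Φ : A ≃* B) (x : A) :
    Φ x ∈ commutator B ↔ x ∈ commutator A := by
  have key : ∀ {A B : Type} [Group A] [Group B] (Φ : A ≃* B) (x : A),
      x ∈ commutator A → Φ x ∈ commutator B := fun Φ x hx => by
    have : (commutator _).map Φ.toMonoidHom ≤ commutator _ := by
      rw [commutator_def, Subgroup.map_commutator]
      exact Subgroup.commutator_mono le_top le_top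
    exact this (Subgroup.mem_map_of_mem _ hx)
  exact ⟨fun h => by simpa using key Φ.symm _ h, key Φ x⟩

theorem Iso.ty_neg (h : S.Iso S') : ∃ Φ : S.G ≃* S'.G, Φ S.neg = S'.neg := by
  obtain ⟨e, Φ, -, -, hΦ⟩ := h.exists_equiv
  refine ⟨Φ, G_ext fun x => ?_⟩
  obtain ⟨y, rfl⟩ := e.surjective x
  rw [hΦ, neg_app, neg_app, map_neg]

theorem Iso.cz (h : S.Iso S') : S.CZ ↔ S'.CZ := by
  obtain ⟨Φ, hΦ⟩ := h.ty_neg
  rw [CZ, CZ, h.1, ← hΦ, ty_comm]

theorem Iso.out (h : S.Iso S') {n : ℕ} (ho : S'.Out n) : S.Out n := by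
  obtain ⟨Φ, hΦ⟩ := h.ty_neg
  obtain ⟨χ, h1, h2, h3⟩ := ho
  exact ⟨_, h1.comp_mulEquiv Φ, (Ch.charDegree_comp χ Φ.toMonoidHom).trans h2, fun hc => by
    rw [hΦ, map_one, h3 (h.cz.1 hc)]⟩

theorem Iso.outN (h : S.Iso S') {n : ℕ} (ho : S'.OutN n) : S.OutN n := by
  obtain ⟨Φ, hΦ⟩ := h.ty_neg
  obtain ⟨χ, h1, h2, h3, h4⟩ := ho
  refine ⟨_, h1.comp_mulEquiv Φ, (Ch.charDegree_comp χ Φ.toMonoidHom).trans h2, fun hc => by
    rw [hΦ, map_one, h3 (h.cz.1 hc)], fun hc => ?_⟩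
  obtain ⟨g, hg, hg'⟩ := h4 (h.1 ▸ hc)
  obtain ⟨g, rfl⟩ := Φ.surjective g
  exact ⟨g, fun hm => hg ((ty_comm Φ g).2 hm), hg'⟩

theorem OutN.out {n : ℕ} (ho : S.OutN n) : S.Out n :=
  let ⟨χ, h1, h2, h3, _⟩ := ho; ⟨χ, h1, h2, h3⟩

theorem SplP.splV {ψ : S.G → ℂ} (h : S.SplP ψ) : S.SplV ψ :=
  let ⟨J, i, c, f, z, h1, h2, _, h4⟩ := h
  ⟨J, i, c, f, z, h1, h2, fun j g s hs => h4 j g s ⟨1, by rw [hs, one_smul]⟩⟩

theorem splP_one : S.SplP fun _ => 1 :=
  ⟨Unit, inferInstance, 1, fun _ _ => 1, fun _ => 0, one_ne_zero, fun _ => by simp,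
    fun _ => map_zero _, fun _ _ _ _ => rfl⟩

theorem Ty.of_iso (h : S.Iso S') (hT : S'.Ty d e) : S.Ty d e := by
  obtain ⟨V₀, _, _, _, S₀, h1, h2, h3⟩ := hT
  exact ⟨V₀, _, _, inferInstance, S₀, h1, h2, h.trans h3⟩

theorem Ty.hyp (hT : S.Ty d e) (k : ℕ) : (S.hyp k).Ty (d + k) e := by
  obtain ⟨V₀, _, _, _, S₀, h1, h2, h3⟩ := hT
  exact ⟨V₀, _, _, inferInstance, S₀, h1, h2, (h3.hyp k).trans (iso_hyp_hyp d k)⟩

theorem Ty.split (hT : S.Ty (d + k) e) : ∃ (V' : Type) (_ : AddCommGroup V') (_ : Module F V') (_ : Finite V')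
    (S' : Fm F V'), S'.Ty d e ∧ S'.o = S.o ∧ S.Iso (S'.hyp k) := by
  obtain ⟨V₀, _, _, _, S₀, h1, h2, h3⟩ := hT
  exact ⟨_, _, _, inferInstance, S₀.hyp d, ⟨V₀, _, _, inferInstance, S₀, h1, h2, Iso.refl _⟩, h3.1.symm,
    h3.trans (iso_hyp_hyp d k).symm⟩

theorem Ty.finrank_eq (hT : S.Ty d e) : finrank F V + (if S.o then 0 else 1) = 2 * d + e := by
  obtain ⟨V₀, _, _, _, S₀, -, h2, ho, f, -⟩ := hT
  have : Module.Finite F V₀ := Module.Finite.of_finite
  rw [f.finrank_eq, ho, hyp_o, h2]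
  simp only [finrank_prod, finrank_fintype_fun_eq_card, Fintype.card_fin]
  ring

theorem Ty.o_of_ne (hT : S.Ty d e) (he : e ≠ 1) : S.o = true := by
  obtain ⟨V₀, _, _, _, S₀, h1, h2, ho, -⟩ := hT
  rw [ho, hyp_o]
  by_contra h
  rw [Bool.not_eq_true] at h
  have : Subsingleton V₀ := subsingleton_of_forall_eq 0 fun v => h1 v ((S₀.hs h).2 v)
  rw [finrank_zero_of_subsingleton, h] at h2
  exact he h2

theorem ty_witt (h1 : ∀ v, S.Q v = 0 → v = 0) (T : Submodule F (HV F d V))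
    (hB : ∀ x ∈ T, ∀ y ∈ T, (S.hyp d).B x y = 0) (hQ : ∀ x ∈ T, (S.hyp d).Q x = 0) :
    finrank F T ≤ d := by
  have : Module.Finite F V := Module.Finite.of_finite
  let f : T →ₗ[F] Fin d → F := ((LinearMap.snd F _ _).comp (LinearMap.fst F _ V)).comp T.subtype
  have hk : ∀ z : LinearMap.ker f, z.1.1.1.2 = 0 ∧ z.1.1.2 = 0 := fun z => by
    have h2 : z.1.1.1.2 = 0 := z.2
    refine ⟨h2, h1 _ ?_⟩
    have := hQ _ z.1.2
    rwa [hyp_Q, h2, dotProduct_zero, mul_zero, zero_add] at this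
  let g : LinearMap.ker f →ₗ[F] Dual F (Fin d → F) := (dotProductBilin F F).comp
    ((((LinearMap.fst F _ _).comp (LinearMap.fst F _ V)).comp T.subtype).comp (LinearMap.ker f).subtype)
  have hg : ∀ z, g z ∈ (LinearMap.range f).dualAnnihilator := fun z =>
    (Submodule.mem_dualAnnihilator _).2 (by
      rintro _ ⟨w, rfl⟩
      have := hB _ z.1.2 _ w.2
      rw [hyp_B, (hk z).1, (hk z).2, zero_dotProduct, mul_zero, add_zero, map_zero,
        LinearMap.zero_apply, add_zero] at this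
      exact this)
  have h3 : finrank F (LinearMap.ker f) ≤ finrank F (LinearMap.range f).dualAnnihilator :=
    LinearMap.finrank_le_finrank_of_injective (f := g.codRestrict _ hg)
      ((injective_iff_map_eq_zero _).2 fun z hz => by
        have h4 : z.1.1.1.1 = 0 := dotProduct_eq_zero _ fun w =>
          LinearMap.congr_fun (congrArg Subtype.val hz) w
        exact Subtype.ext (Subtype.ext (Prod.ext (Prod.ext h4 (hk z).1) (hk z).2)))
  have h5 := Subspace.finrank_add_finrank_dualAnnihilator_eq (LinearMap.range f)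
  have h6 := f.finrank_range_add_finrank_ker
  rw [finrank_fintype_fun_eq_card, Fintype.card_fin] at h5
  omega

theorem Ty.witt_le (hT : S.Ty d e) (T : Submodule F V) (hB : ∀ x ∈ T, ∀ y ∈ T, S.B x y = 0)
    (hQ : ∀ x ∈ T, S.Q x = 0) : finrank F T ≤ d := by
  obtain ⟨V₀, _, _, _, S₀, h1, -, -, f, fB, fQ⟩ := hT
  rw [← LinearEquiv.finrank_map_eq f T]
  refine ty_witt h1 _ ?_ ?_
  · rintro _ ⟨x, hx, rfl⟩ _ ⟨y, hy, rfl⟩
    exact (fB x y).trans (hB x hx y hy)
  · rintro _ ⟨x, hx, rfl⟩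
    exact (fQ x).trans (hQ x hx)

theorem ty_zeros_sp (h : S.o = false) : Nat.card {v // S.Q v = 0} = Nat.card V :=
  Nat.card_congr (Equiv.subtypeUnivEquiv (S.hs h).2)

theorem zeros_hyp_one : Nat.card {v // (S.hyp 1).Q v = 0} =
    if S.o then (Nat.card F - 1) * Nat.card V + Nat.card F * Nat.card {v // S.Q v = 0}
    else Nat.card F ^ 2 * Nat.card V := by
  split_ifs with h
  · refine Eq.trans ?_ (Cl.ozeros_ohyp_prod (Q := S.Q))
    refine Nat.card_congr (Equiv.subtypeEquiv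
      (((Equiv.funUnique (Fin 1) F).prodCongr (Equiv.funUnique (Fin 1) F)).prodCongr (Equiv.refl V))
      fun z => ?_)
    simp [hyp_Q, δ, h, dotProduct]
  · rw [ty_zeros_sp (S := S.hyp 1) (Bool.not_eq_true _ ▸ h)]
    simp [sq, Nat.card_fun]

theorem Iso.ty_zeros (h : S.Iso S') : Nat.card {v // S.Q v = 0} = Nat.card {v // S'.Q v = 0} := by
  obtain ⟨-, f, -, fQ⟩ := h
  exact Nat.card_congr (f.toEquiv.subtypeEquiv fun v => by rw [← fQ]; rfl)

theorem Ty.zeros (hT : S.Ty d e) : Nat.card {v // S.Q v = 0} * Nat.card F =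
    Nat.card F + (Nat.card F ^ d - 1) * (Nat.card F ^ (d + e) + Nat.card F) := by
  have q1 : 1 ≤ Nat.card F := Nat.card_pos
  induction d generalizing V with
  | zero =>
    obtain ⟨V₀, _, _, _, S₀, h1, -, h3⟩ := hT
    have h4 : Nat.card {v // S₀.Q v = 0} = 1 :=
      Nat.card_eq_one_iff_exists.2 ⟨⟨0, map_zero _⟩, fun x => Subtype.ext (h1 x x.2)⟩
    rw [(h3.trans iso_hyp_zero.symm).ty_zeros, h4]
    simp
  | succ d ih =>
    obtain ⟨V', _, _, _, S', h1, -, h3⟩ := hT.split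
    have : Module.Finite F V' := Module.Finite.of_finite
    have h4 := ih h1
    have h5 := h1.finrank_eq
    have h6 : Nat.card V' = Nat.card F ^ finrank F V' := Module.natCard_eq_pow_finrank
    have p1 := Nat.one_le_pow d _ q1
    have p2 := Nat.one_le_pow (d + 1) _ q1
    rw [h3.ty_zeros, zeros_hyp_one]
    split_ifs at h5 ⊢ with h
    · rw [h6, ← add_zero (finrank F V'), h5]
      zify [q1, p1, p2] at h4 ⊢
      linear_combination (Nat.card F : ℤ) * h4
    · obtain rfl : e = 1 := by_contra fun he => h (h1.o_of_ne he)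
      rw [h6, show finrank F V' = 2 * d by omega]
      zify [p2]
      ring

theorem ty_gen (x : S.Pt) : ∃ v, v ≠ 0 ∧ x.1 = Submodule.span F {v} := by
  obtain ⟨v, hv, h⟩ := finrank_eq_one_iff'.1 x.2.1
  refine ⟨v, fun e => hv (Subtype.ext e), le_antisymm (fun w hw => ?_)
    ((Submodule.span_singleton_le_iff_mem _ _).2 v.2)⟩
  obtain ⟨c, hc⟩ := h ⟨w, hw⟩
  exact Submodule.mem_span_singleton.2 ⟨c, congrArg Subtype.val hc⟩

theorem card_Pt : Nat.card S.Pt * (Nat.card F - 1) + 1 = Nat.card {v // S.Q v = 0} := by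
  choose u u0 hu using ty_gen (S := S)
  have hm : ∀ x (c : F), c • u x ∈ x.1 := fun x c =>
    hu x ▸ Submodule.smul_mem _ c (Submodule.mem_span_singleton_self _)
  let f : Option (S.Pt × Fˣ) → {v // S.Q v = 0} := fun p =>
    p.elim ⟨0, map_zero _⟩ fun p => ⟨(p.2 : F) • u p.1, p.1.2.2 _ (hm _ _)⟩
  have ne : ∀ p : S.Pt × Fˣ, (p.2 : F) • u p.1 ≠ 0 := fun p => smul_ne_zero p.2.ne_zero (u0 _)
  rw [← Nat.card_units, ← Nat.card_prod, ← Finite.card_option]
  refine Nat.card_eq_of_bijective f ⟨?_, fun v => ?_⟩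
  · rintro (_ | p) (_ | p') h
    · rfl
    · exact absurd (congrArg Subtype.val h).symm (ne p')
    · exact absurd (congrArg Subtype.val h) (ne p)
    · have h : (p.2 : F) • u p.1 = (p'.2 : F) • u p'.1 := congrArg Subtype.val h
      have h1 : p.1 = p'.1 := Subtype.ext (by
        rw [hu p.1, hu p'.1, ← Submodule.span_singleton_smul_eq p.2.isUnit, h,
          Submodule.span_singleton_smul_eq p'.2.isUnit])
      rw [h1] at h
      exact congrArg some (Prod.ext h1 (Units.ext (smul_left_injective F (u0 _) h)))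
  · by_cases h : v.1 = 0
    · exact ⟨none, Subtype.ext h.symm⟩
    · let x : S.Pt := ⟨Submodule.span F {v.1}, finrank_span_singleton h, fun w hw => by
        obtain ⟨c, rfl⟩ := Submodule.mem_span_singleton.1 hw
        rw [Q_smul, v.2, mul_zero]⟩
      have hv : v.1 ∈ x.1 := Submodule.mem_span_singleton_self _
      rw [hu x] at hv
      obtain ⟨c, hc⟩ := Submodule.mem_span_singleton.1 hv
      exact ⟨some (x, Units.mk0 c fun e => h (by rw [← hc, e, zero_smul])), Subtype.ext hc⟩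

end Fm

end Cfsg.Agent.DG
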