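import Mathlib
import Cfsg.Agent.DG.CardU
import Cfsg.Agent.DG.Ty
import Cfsg.Agent.Cl.LinearBasic

/-! Orders of the isometry groups of hyperbolic extensions and indices of parabolic subgroups. -/

set_option autoImplicit false

namespace Cfsg.Agent.DG

open Module Matrix Finset
open scoped ComplexConjugate

namespace Fm

variable {F V : Type} [Field F] [Finite F] [AddCommGroup V] [Module F V] [Finite V] {S : Fm F V} {k d e : ℕ}

theorem Ty.card_U (hT : S.Ty d e) (k : ℕ) :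
    Nat.card (S.U k) = Nat.card F ^ (k * (2 * d + e) + k.choose 2) := by
  rw [Fm.card_U, ← hT.finrank_eq]
  congr 1
  split_ifs <;> ring

theorem ord_gen (x : S.Pt) : ∃ v, v ≠ 0 ∧ S.Q v = 0 ∧ x.1 = Submodule.span F {v} := by
  obtain ⟨v, hv, h⟩ := finrank_eq_one_iff'.1 x.2.1
  refine ⟨v, fun e => hv (Subtype.ext e), x.2.2 _ v.2, le_antisymm (fun w hw => ?_)
    ((Submodule.span_singleton_le_iff_mem _ _).2 v.2)⟩
  obtain ⟨c, hc⟩ := h ⟨w, hw⟩
  exact Submodule.mem_span_singleton.2 ⟨c, congrArg Subtype.val hc⟩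

theorem ord_trans : MulAction.IsPretransitive S.G S.Pt := ⟨fun x y => by
  obtain ⟨u, u0, hu, eu⟩ := ord_gen x
  obtain ⟨v, v0, hv, ev⟩ := ord_gen y
  obtain ⟨g, h1, h2, h3⟩ := S.witt.extend_family S.nd (fun _ : Unit => u) (fun _ => v)
    (linearIndependent_unique_iff.2 u0) (linearIndependent_unique_iff.2 v0)
    (fun _ _ => by rw [B_self, B_self, hu, hv]) fun _ => by rw [hu, hv]
  refine ⟨⟨g, h1, h2⟩, Subtype.ext ?_⟩
  rw [smul_Pt, eu, ev, Submodule.map_span, Set.image_singleton]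
  exact congrArg (fun z => Submodule.span F {z}) (h3 ())⟩

theorem ord_index_one : (S.P 1).index = Nat.card (S.hyp 1).Pt := by
  have := ord_trans (S := S.hyp 1)
  let x : (S.hyp 1).Pt := ⟨W F V 1, finrank_W, fun z hz => by
    rw [hyp_Q, hz.1, hz.2]; simp⟩
  rw [← MulAction.index_stabilizer_of_transitive (S.hyp 1).G x]
  congr 1
  ext g
  rw [MulAction.mem_stabilizer_iff, mem_St]
  refine Iff.trans ?_ Subtype.ext_iff.symm
  change _ ↔ (W F V 1).map (g.1 : HV F 1 V →ₗ[F] HV F 1 V) = W F V 1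
  constructor
  · intro h
    refine le_antisymm ?_ fun z hz => ⟨(g⁻¹).1 z, (h _).2 (by rwa [app_inv_app]), app_inv_app g z⟩
    rintro _ ⟨z, hz, rfl⟩
    exact (h z).1 hz
  · intro h z
    conv_rhs => rw [← h]
    refine ⟨fun hz => ⟨z, hz, rfl⟩, ?_⟩
    rintro ⟨w, hw, e⟩
    exact g.1.injective e ▸ hw

theorem Ty.ord_card_Pt (hT : S.Ty (d + 1) e) : Nat.card S.Pt * (Nat.card F - 1) =
    (Nat.card F ^ (d + 1) - 1) * (Nat.card F ^ (d + e) + 1) := by
  have h := hT.zeros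
  rw [← card_Pt, add_mul, one_mul, add_comm, Nat.add_left_cancel_iff,
    show Nat.card F ^ (d + 1 + e) + Nat.card F = (Nat.card F ^ (d + e) + 1) * Nat.card F by ring,
    ← mul_assoc] at h
  exact Nat.eq_of_mul_eq_mul_right Nat.card_pos h

theorem Ty.ord_one (hT : S.Ty d e) : Nat.card (S.hyp 1).G = Nat.card S.G *
    ((Nat.card F ^ (d + 1) - 1) * (Nat.card F ^ (d + e) + 1)) * Nat.card F ^ (2 * d + e) := by
  rw [← (S.P 1).index_mul_card, ord_index_one, card_P, hT.card_U, Cl.card_gl',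
    ← (hT.hyp 1).ord_card_Pt]
  simp
  ring

theorem Ty.card_hyp (hT : S.Ty d e) (k : ℕ) : Nat.card (S.hyp k).G =
    Nat.card S.G * NN (Nat.card F) e d k * Nat.card F ^ (k * (2 * d + e) + 2 * k.choose 2) := by
  induction k with
  | zero => rw [← (iso_hyp_zero (S := S)).card_G]; simp [NN]
  | succ k ih =>
    rw [← (iso_hyp_hyp (S := S) k 1).card_G, (hT.hyp k).ord_one, ih, NN, NN, prod_range_succ,
      Nat.choose_succ_succ' k 1, Nat.choose_one_right]
    ring

theorem Ty.index_P (hT : S.Ty d e) (hk : 0 < k) :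
    (S.P k).index * (∏ i ∈ Ico 1 k, (Nat.card F ^ i - 1)) * (Nat.card F ^ k - 1) = NN (Nat.card F) e d k := by
  have h := (S.P k).index_mul_card
  rw [card_P, hT.card_U, Cl.card_gl', hT.card_hyp, Fintype.card_fin, ← Nat.choose_two_right] at h
  have e1 : ∏ i ∈ range k, (Nat.card F ^ (i + 1) - 1) =
      (∏ i ∈ Ico 1 k, (Nat.card F ^ i - 1)) * (Nat.card F ^ k - 1) := by
    obtain ⟨m, rfl⟩ := Nat.exists_eq_succ_of_ne_zero hk.ne'
    rw [prod_range_succ, prod_Ico_eq_prod_range]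
    simp [add_comm]
  refine Nat.eq_of_mul_eq_mul_right (Nat.mul_pos (Nat.card_pos (α := S.G))
    (pow_pos (Nat.card_pos (α := F)) (k * (2 * d + e) + 2 * k.choose 2))) ?_
  rw [e1] at h
  rw [mul_comm (NN _ _ _ _), mul_right_comm (Nat.card S.G), ← h]
  ring

end Fm

end Cfsg.Agent.DG
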