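import Mathlib
import Cfsg.Agent.DG.Tools
import Cfsg.Agent.Cl.CharTools
import Cfsg.Agent.Ch.Linear

/-! Permutation characters of rank two and three. -/

set_option autoImplicit false
set_option linter.unusedSectionVars false
set_option linter.unusedVariables false

namespace Cfsg.Agent.DG

open Module Matrix Finset
open scoped ComplexConjugate

variable {G X : Type} [Group G] [Fintype G] [Finite X] [MulAction G X]

omit [Fintype G] in
theorem r3_rank {Y T : Type} [MulAction G Y] (f : Y → T) (hs : Function.Surjective f)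
    (h : ∀ a b, f a = f b ↔ ∃ g : G, g • b = a) : Nat.card (MulAction.orbitRel.Quotient G Y) = Nat.card T :=
  Nat.card_congr ((Quotient.congrRight (r' := Setoid.ker f) fun a b => (h a b).symm).trans
    (Setoid.quotientKerEquivOfSurjective f hs))

theorem r3_char : IsCharacter G (Perm.permChar G X) := Ch.isCharacter_permChar X

theorem r3_sub [Nonempty X] [MulAction.IsPretransitive G X] : IsCharacter G (Perm.permChar G X - 1) ∧
    classInner (Perm.permChar G X - 1) (Perm.permChar G X - 1) =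
      classInner (Perm.permChar G X) (Perm.permChar G X) - 1 ∧ classInner (Perm.permChar G X - 1) 1 = 0 := by
  have a : classInner (Perm.permChar G X) 1 = 1 := Perm.classInner_permChar_one
  have b : classInner (1 : G → ℂ) 1 = 1 := IsIrrCharacter.one'.classInner_self
  refine ⟨r3_char.sub_irr IsIrrCharacter.one' (a ▸ one_ne_zero), ?_, by rw [Ch.classInner_sub_left, a, b, sub_self]⟩
  rw [Ch.classInner_sub_sub_self, IsCharacter.one'.classInner_comm r3_char, a, b]
  ring

omit [Fintype G] in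
open Classical in
theorem r3_sum [Fintype X] (g : G) : Perm.permChar G X g = ∑ x : X, if g • x = x then (1 : ℂ) else 0 := by
  rw [Finset.sum_boole, Perm.permChar, ← Fintype.card_subtype, Nat.card_eq_fintype_card]
  rfl

omit [Finite X] in
theorem r3_one [Fintype X] [DecidableEq X] [MulAction.IsPretransitive G X] (x y : X) :
    (Fintype.card X : ℂ) * Perm.isoMat G X (fun _ => 1) x y = 1 := by
  have h : ∑ z, Perm.isoMat G X (fun _ => 1) z y = 1 := by
    simp only [Perm.isoMat_apply, ← Finset.mul_sum]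
    rw [Finset.sum_comm]
    simp
  rw [Finset.sum_congr rfl fun z _ => Perm.isoMat_one_apply_eq z x y] at h
  simpa using h

omit [Finite X] in
/-- the eigenvalues of an invariant matrix -/
theorem r3_eig [Fintype X] [DecidableEq X] [MulAction.IsPretransitive G X] {χ ξ : G → ℂ} (h₁ : IsIrrCharacter G χ)
    (h₂ : IsIrrCharacter G ξ) (n1 : χ ≠ 1) (n2 : ξ ≠ 1) (h12 : χ ≠ ξ) (hπ : Perm.permChar G X = 1 + χ + ξ)
    {A : Matrix X X ℂ} (hA : Perm.IsInvMat G A) {k α β γ : ℂ} (hk : ∀ x, ∑ y, A x y = k)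
    (hsq : ∀ x y, (A * A) x y = α * (1 : Matrix X X ℂ) x y + β * A x y + γ) :
    ∃ r s : ℂ, k * k = α + β * k + γ * Fintype.card X ∧ r * r = α + β * r ∧ s * s = α + β * s ∧
      A.trace = k + χ 1 * r + ξ 1 * s ∧ (r = s → ∀ x y x' y', x ≠ y → x' ≠ y' → A x y = A x' y') := by
  have h0 : IsIrrCharacter G (fun _ => (1 : ℂ)) := IsIrrCharacter.one
  have h01 : (fun _ => (1 : ℂ)) ≠ χ := n1.symm
  have h02 : (fun _ => (1 : ℂ)) ≠ ξ := n2.symm
  have hmult : ∀ η, IsIrrCharacter G η → classInner (Perm.permChar G X) η =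
      (if (fun _ => 1) = η then 1 else 0) + (if χ = η then 1 else 0) + (if ξ = η then 1 else 0) := by
    intro η hη
    rw [hπ, Ch.classInner_add_left, Ch.classInner_add_left, ← h0.classInner_eq_ite hη,
      ← h₁.classInner_eq_ite hη, ← h₂.classInner_eq_ite hη]
    rfl
  have hm0 : classInner (Perm.permChar G X) (fun _ => 1) = 1 := by
    rw [hmult _ h0, if_pos rfl, if_neg h01.symm, if_neg h02.symm]; simp
  have hm1 : classInner (Perm.permChar G X) χ = 1 := by
    rw [hmult _ h₁, if_neg h01, if_pos rfl, if_neg h12.symm]; simp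
  have hm2 : classInner (Perm.permChar G X) ξ = 1 := by
    rw [hmult _ h₂, if_neg h02, if_pos rfl, if_neg h12]; simp
  have hm3 : ∀ η, IsIrrCharacter G η → (fun _ => 1) ≠ η → χ ≠ η → ξ ≠ η →
      classInner (Perm.permChar G X) η = 0 := by
    intro η hη e0 e1 e2
    rw [hmult _ hη, if_neg e0, if_neg e1, if_neg e2]; simp
  set E0 := Perm.isoMat G X (fun _ => 1) with hE0
  set E1 := Perm.isoMat G X χ with hE1
  set E2 := Perm.isoMat G X ξ with hE2
  have hsum3 : ∀ c : IrrCharacter G → ℂ, ∑ η : IrrCharacter G, c η • Perm.isoMat G X η =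
      c ⟨_, h0⟩ • E0 + c ⟨_, h₁⟩ • E1 + c ⟨_, h₂⟩ • E2 := by
    intro c
    classical
    rw [← Finset.sum_subset (Finset.subset_univ {⟨_, h0⟩, ⟨_, h₁⟩, ⟨_, h₂⟩}),
      Finset.sum_insert, Finset.sum_pair, add_assoc]
    · exact fun e => h12 (congrArg Subtype.val e)
    · simp only [Finset.mem_insert, Finset.mem_singleton, not_or]
      exact ⟨fun e => h01 (congrArg Subtype.val e), fun e => h02 (congrArg Subtype.val e)⟩
    · intro η _ hη
      simp only [Finset.mem_insert, Finset.mem_singleton, not_or] at hη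
      rw [Perm.isoMat_eq_zero η.2 (hm3 _ η.2 (fun e => hη.1 (Subtype.ext e.symm))
        (fun e => hη.2.1 (Subtype.ext e.symm)) (fun e => hη.2.2 (Subtype.ext e.symm))), smul_zero]
  have hI : E0 + E1 + E2 = 1 := by
    have := hsum3 1
    simp only [Pi.one_apply, one_smul, Perm.sum_isoMat] at this
    exact this.symm
  have t0 : E0.trace = 1 := by rw [Perm.trace_isoMat, hm0, mul_one]
  have t1 : E1.trace = χ 1 := by rw [Perm.trace_isoMat, hm1, mul_one]
  have t2 : E2.trace = ξ 1 := by rw [Perm.trace_isoMat, hm2, mul_one]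
  have z0 : E0 ≠ 0 := fun e => by simp [e] at t0
  have z1 : E1 ≠ 0 := fun e => h₁.apply_one_ne_zero (by rw [← t1, e, Matrix.trace_zero])
  have z2 : E2 ≠ 0 := fun e => h₂.apply_one_ne_zero (by rw [← t2, e, Matrix.trace_zero])
  have p00 : E0 * E0 = E0 := Perm.isoMat_mul_self h0
  have p11 : E1 * E1 = E1 := Perm.isoMat_mul_self h₁
  have p22 : E2 * E2 = E2 := Perm.isoMat_mul_self h₂
  have p01 : E0 * E1 = 0 := Perm.isoMat_mul_of_ne h0 h₁ h01
  have p02 : E0 * E2 = 0 := Perm.isoMat_mul_of_ne h0 h₂ h02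
  have p10 : E1 * E0 = 0 := Perm.isoMat_mul_of_ne h₁ h0 h01.symm
  have p20 : E2 * E0 = 0 := Perm.isoMat_mul_of_ne h₂ h0 h02.symm
  have p12 : E1 * E2 = 0 := Perm.isoMat_mul_of_ne h₁ h₂ h12
  have p21 : E2 * E1 = 0 := Perm.isoMat_mul_of_ne h₂ h₁ h12.symm
  obtain ⟨c, hc⟩ := hA.exists_eq_sum_isoMat (fun η hη => by
    by_cases e0 : (fun _ => 1) = η
    · exact Or.inr (e0 ▸ hm0)
    by_cases e1 : χ = η
    · exact Or.inr (e1 ▸ hm1)
    by_cases e2 : ξ = η
    · exact Or.inr (e2 ▸ hm2)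
    exact Or.inl (hm3 η hη e0 e1 e2))
  rw [hsum3] at hc
  generalize c ⟨_, h0⟩ = c0, c ⟨_, h₁⟩ = r, c ⟨_, h₂⟩ = s at hc
  have hA0 : A * E0 = k • E0 := Perm.mul_isoMat_one hk
  have hc0 : c0 = k := by
    have := hA0
    rw [hc] at this
    simp only [add_mul, smul_mul_assoc, p00, p10, p20, smul_zero, add_zero] at this
    exact smul_left_injective ℂ z0 this
  subst hc0
  have hA1 : A * E1 = r • E1 := by
    rw [hc]; simp only [add_mul, smul_mul_assoc, p01, p11, p21, smul_zero, add_zero, zero_add]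
  have hA2 : A * E2 = s • E2 := by
    rw [hc]; simp only [add_mul, smul_mul_assoc, p02, p12, p22, smul_zero, add_zero, zero_add]
  have sq : A * A = α • (1 : Matrix X X ℂ) + β • A + (γ * Fintype.card X) • E0 := by
    ext x y
    simp only [Matrix.add_apply, Matrix.smul_apply, smul_eq_mul, mul_assoc, hE0, r3_one, mul_one, hsq]
  refine ⟨r, s, ?_, ?_, ?_, ?_, fun e x y x' y' h h' => ?_⟩
  · have := congrArg (· * E0) sq
    simp only [mul_assoc, hA0, mul_smul_comm, add_mul, smul_mul_assoc, one_mul, p00, smul_smul, ← add_smul] at this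
    exact smul_left_injective ℂ z0 this
  · have := congrArg (· * E1) sq
    simp only [mul_assoc, hA1, mul_smul_comm, add_mul, smul_mul_assoc, one_mul, p01, smul_zero,
      add_zero, smul_smul, ← add_smul] at this
    exact smul_left_injective ℂ z1 this
  · have := congrArg (· * E2) sq
    simp only [mul_assoc, hA2, mul_smul_comm, add_mul, smul_mul_assoc, one_mul, p02, smul_zero,
      add_zero, smul_smul, ← add_smul] at this
    exact smul_left_injective ℂ z2 this
  · rw [hc]
    simp only [Matrix.trace_add, Matrix.trace_smul, t0, t1, t2, smul_eq_mul]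
    ring
  · subst e
    have e : A = (c0 - r) • E0 + r • (1 : Matrix X X ℂ) := by rw [hc, ← hI]; module
    have : Nonempty X := ⟨x⟩
    have e3 : E0 x y = E0 x' y' := mul_left_cancel₀ (by exact_mod_cast Fintype.card_ne_zero)
      ((r3_one x y).trans (r3_one x' y').symm)
    rw [e]
    simp only [Matrix.add_apply, Matrix.smul_apply, Matrix.one_apply_ne h, Matrix.one_apply_ne h', e3]

theorem r3_card {P : X → Prop} [Fintype X] [DecidablePred P] :
    (Nat.card {y // P y} : ℂ) = ∑ y, if P y then (1 : ℂ) else 0 := by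
  rw [Finset.sum_boole, ← Fintype.card_subtype, Nat.card_eq_fintype_card]

theorem rank3 (adj : X → X → Prop) (hsym : ∀ x y, adj x y → adj y x) (hirr : ∀ x, ¬ adj x x)
    (hinv : ∀ (g : G) x y, adj x y → adj (g • x) (g • y))
    (h1 : ∀ x y x' y', adj x y → adj x' y' → ∃ g : G, g • x = x' ∧ g • y = y')
    (h2 : ∀ x y x' y', x ≠ y → ¬ adj x y → x' ≠ y' → ¬ adj x' y' → ∃ g : G, g • x = x' ∧ g • y = y')
    {x₀ y₀ : X} (hne : x₀ ≠ y₀) (hna : ¬ adj x₀ y₀) {k l μ : ℕ} (hk : Nat.card {y // adj x₀ y} = k)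
    (hl : Nat.card {y // x₀ ≠ y ∧ ¬ adj x₀ y} = l) (hμ : Nat.card {z // adj x₀ z ∧ adj y₀ z} = μ) (hk0 : 0 < k)
    {r s : ℤ} (hrs : r ≠ s) (hp : r * s = μ - k) (hs : k * (r + s + μ) = k ^ 2 - k - μ * l) :
    ∃ χ ξ : G → ℂ, IsIrrCharacter G χ ∧ IsIrrCharacter G ξ ∧ χ ≠ 1 ∧ ξ ≠ 1 ∧ χ ≠ ξ ∧
      Perm.permChar G X = 1 + χ + ξ ∧ charDegree χ + charDegree ξ = k + l ∧
      (k : ℤ) + charDegree χ * r + charDegree ξ * s = 0 := by
  classical
  have := Fintype.ofFinite X
  have : Nonempty X := ⟨x₀⟩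
  obtain ⟨⟨x₁, a1⟩⟩ := (Nat.card_pos_iff.1 (hk ▸ hk0)).1
  have n1 : ∀ {x y}, adj x y → x ≠ y := fun h e => hirr _ (e ▸ h)
  have iv : ∀ (g : G) x y, adj (g • x) (g • y) ↔ adj x y := fun g x y =>
    ⟨fun h => by simpa using hinv g⁻¹ _ _ h, hinv g x y⟩
  have tr : MulAction.IsPretransitive G X := ⟨fun x y => by
    by_cases e : x = y
    · exact ⟨1, by rw [one_smul, e]⟩
    by_cases a : adj x y
    · exact (h1 x y y x a (hsym _ _ a)).imp fun _ h => h.1
    · exact (h2 x y y x e a (Ne.symm e) fun b => a (hsym _ _ b)).imp fun _ h => h.1⟩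
  have rk : Nat.card (MulAction.orbitRel.Quotient G (X × X)) = Nat.card (Fin 3) := by
    refine r3_rank (fun p => if p.1 = p.2 then 0 else if adj p.1 p.2 then 1 else 2) (fun i => ?_) ?_
    · fin_cases i
      · exact ⟨(x₀, x₀), by simp⟩
      · exact ⟨(x₀, x₁), by simp [n1 a1, a1]⟩
      · exact ⟨(x₀, y₀), by simp [hne, hna]⟩
    · rintro ⟨x, y⟩ ⟨x', y'⟩
      refine ⟨fun h => ?_, ?_⟩
      · simp only [Prod.smul_mk, Prod.mk.injEq]
        by_cases e : x = y <;> by_cases e' : x' = y' <;> by_cases a : adj x y <;> by_cases a' : adj x' y' <;>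
          simp only [e, e', a, a', if_true, if_false] at h <;> first
          | exact absurd h (by decide)
          | exact h1 _ _ _ _ a' a
          | exact h2 _ _ _ _ e' a' e a
          | exact (MulAction.exists_smul_eq G x' x).imp fun g h => ⟨h, e ▸ e' ▸ h⟩
      · rintro ⟨g, h⟩
        rw [← h]
        simp only [Prod.smul_mk, smul_left_cancel_iff, iv]
  obtain ⟨c1, c2, c3⟩ := r3_sub (G := G) (X := X)
  rw [Perm.classInner_permChar_self, rk, Nat.card_fin] at c2
  obtain ⟨χ, ξ, i1, i2, n12, e⟩ := Cl.CT.exists_eq_add_of_norm_two c1 (c2.trans (by norm_num))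
  have hπ : Perm.permChar G X = 1 + χ + ξ := by rw [add_assoc, ← e, add_sub_cancel]
  rw [e] at c3
  have o := IsIrrCharacter.one' (G := G)
  have k3 := (i1.isCharacter.classInner_add_ne_zero_iff i2.isCharacter o.isCharacter).not.1 (not_not.2 c3)
  have m1 : χ ≠ 1 := fun d => k3 (Or.inl (by rw [d, o.classInner_self]; exact one_ne_zero))
  have m2 : ξ ≠ 1 := fun d => k3 (Or.inr (by rw [d, o.classInner_self]; exact one_ne_zero))
  let A : Matrix X X ℂ := fun x y => if adj x y then 1 else 0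
  have hA : Perm.IsInvMat G A := fun g x y => by simp only [A, iv]
  have row : ∀ x, ∑ y, A x y = k := fun x => by
    obtain ⟨g, rfl⟩ := MulAction.exists_smul_eq G x₀ x
    rw [← hk, r3_card, ← Equiv.sum_comp (MulAction.toPerm g)]
    exact Finset.sum_congr rfl fun y _ => hA g x₀ y
  have AA : ∀ x y, (A * A) x y = ∑ z, if adj x z ∧ adj y z then (1 : ℂ) else 0 := fun x y =>
    Finset.sum_congr rfl fun z _ => by
      have : adj z y ↔ adj y z := ⟨hsym _ _, hsym _ _⟩
      simp only [A, this, ite_and]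
      split_ifs <;> simp
  have v : (Fintype.card X : ℂ) = 1 + k + l := by
    rw [← hk, ← hl, r3_card, r3_card, ← Finset.sum_ite_eq_of_mem univ x₀ (fun _ => (1 : ℂ)) (mem_univ _),
      ← Finset.sum_add_distrib, ← Finset.sum_add_distrib, ← Finset.card_univ, Finset.cast_card]
    refine Finset.sum_congr rfl fun y _ => ?_
    by_cases d : x₀ = y
    · simp [← d, hirr]
    · by_cases a : adj x₀ y <;> simp [d, a]
  obtain ⟨a, b, q0, q1, q2, t, ne⟩ := r3_eig i1 i2 m1 m2 n12 hπ hA (α := k - μ) (β := (A * A) x₀ x₁ - μ) (γ := μ) row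
    fun x y => by
      by_cases d : x = y
      · rw [← d, AA, Matrix.one_apply_eq, ← row x]
        simp [A, hirr]
      rw [Matrix.one_apply_ne d]
      by_cases a : adj x y
      · obtain ⟨g, rfl, rfl⟩ := h1 _ _ _ _ a1 a
        rw [hA.mul hA]
        simp [A, a]
      · obtain ⟨g, rfl, rfl⟩ := h2 _ _ _ _ hne hna d a
        rw [hA.mul hA, AA, ← r3_card, hμ]
        simp [A, a]
  have t0 : A.trace = 0 := Finset.sum_eq_zero fun x _ => if_neg (hirr x)
  have ab : a ≠ b := fun d => by simpa [A, a1, hna] using ne d x₀ x₁ x₀ y₀ (n1 a1) hne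
  have hp' : (r : ℂ) * s = μ - k := by exact_mod_cast hp
  have hs' : (k : ℂ) * (r + s + μ) = k ^ 2 - k - μ * l := by exact_mod_cast hs
  have lam : (A * A) x₀ x₁ - μ = r + s := mul_left_cancel₀ (Nat.cast_ne_zero.2 hk0.ne') (by
    rw [v] at q0
    linear_combination -q0 - hs')
  rw [lam] at q1 q2
  have u1 : (a - r) * (a - s) = 0 := by linear_combination q1 + hp'
  have u2 : (b - r) * (b - s) = 0 := by linear_combination q2 + hp'
  have dg : charDegree χ + charDegree ξ = k + l := by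
    have := congrFun hπ 1
    rw [Perm.permChar_apply_one, Nat.card_eq_fintype_card, v, Pi.add_apply, Pi.add_apply, ← i1.coe_charDegree,
      ← i2.coe_charDegree, Pi.one_apply, add_assoc, add_assoc] at this
    exact_mod_cast (add_left_cancel this).symm
  rw [t0, ← i1.coe_charDegree, ← i2.coe_charDegree] at t
  simp only [mul_eq_zero, sub_eq_zero] at u1 u2
  rcases u1 with rfl | rfl <;> rcases u2 with rfl | rfl
  · exact absurd rfl ab
  · exact ⟨χ, ξ, i1, i2, m1, m2, n12, hπ, dg, by exact_mod_cast t.symm⟩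
  · refine ⟨ξ, χ, i2, i1, m2, m1, n12.symm, hπ.trans (add_right_comm _ _ _), (add_comm _ _).trans dg, ?_⟩
    rw [add_right_comm]
    exact_mod_cast t.symm
  · exact absurd rfl ab

theorem rank2 (h : ∀ x y x' y' : X, x ≠ y → x' ≠ y' → ∃ g : G, g • x = x' ∧ g • y = y') (h2 : 2 ≤ Nat.card X) :
    ∃ χ : G → ℂ, IsIrrCharacter G χ ∧ χ ≠ 1 ∧ Perm.permChar G X = 1 + χ ∧ charDegree χ + 1 = Nat.card X := by
  have : Nontrivial X := Finite.one_lt_card_iff_nontrivial.1 h2
  obtain ⟨x₀, y₀, hne⟩ := exists_pair_ne X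
  have tr : MulAction.IsPretransitive G X := ⟨fun x y => by
    by_cases e : x = y
    · exact ⟨1, by rw [one_smul, e]⟩
    · exact (h x y y x e (Ne.symm e)).imp fun _ h => h.1⟩
  have rk : Nat.card (MulAction.orbitRel.Quotient G (X × X)) = Nat.card Prop := by
    refine r3_rank (fun p => p.1 = p.2) (fun i => ?_) ?_
    · by_cases hi : i
      · exact ⟨(x₀, x₀), by simp [hi]⟩
      · exact ⟨(x₀, y₀), by simp [hi, hne]⟩
    · rintro ⟨x, y⟩ ⟨x', y'⟩
      simp only [Prod.smul_mk, Prod.mk.injEq, eq_iff_iff]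
      refine ⟨fun e => ?_, ?_⟩
      · by_cases d : x = y
        · exact (MulAction.exists_smul_eq G x' x).imp fun g k => ⟨k, d ▸ e.1 d ▸ k⟩
        · exact h _ _ _ _ (fun d' => d (e.2 d')) d
      · rintro ⟨g, rfl, rfl⟩
        exact smul_left_cancel_iff g
  obtain ⟨c1, c2, c3⟩ := r3_sub (G := G) (X := X)
  rw [Perm.classInner_permChar_self, rk, Nat.card_eq_fintype_card, Fintype.card_prop] at c2
  have i := c1.isIrr_of_classInner_self (c2.trans (by norm_num))
  refine ⟨_, i, fun d => ?_, (add_sub_cancel _ _).symm, ?_⟩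
  · rw [d, IsIrrCharacter.one'.classInner_self] at c3
    exact one_ne_zero c3
  · have := i.coe_charDegree
    rw [Pi.sub_apply, Perm.permChar_apply_one, Pi.one_apply, eq_sub_iff_add_eq] at this
    exact_mod_cast this

theorem spl_perm [Fintype X] {ψ : G → ℂ} (hψ : IsIrrCharacter G ψ) (h : classInner (Perm.permChar G X) ψ ≠ 0) :
    ∃ (c : ℂ) (f : X → G → ℂ), c ≠ 0 ∧ (∀ g, c * ψ g = ∑ x, f x g) ∧
      ∀ x g s, s • x = x → f x (g * s) = f x g := by
  classical
  refine ⟨Nat.card G * classInner ψ (Perm.permChar G X) / ψ 1, fun x g => ∑ t, if t • x = x then ψ (g * t) else 0,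
    div_ne_zero (mul_ne_zero (Ch.natCard_ne_zero G) fun e => h (Ch.classInner_eq_zero_comm.1 e))
      hψ.apply_one_ne_zero, fun g => ?_, fun x g s hs => ?_⟩
  · rw [← hψ.sum_conj_mul_apply_mul r3_char.isClassFunction, Finset.sum_comm]
    refine Finset.sum_congr rfl fun t _ => ?_
    rw [Complex.conj_natCast, ← Perm.permChar, r3_sum, Finset.sum_mul, hψ.isClassFunction.mul_comm]
    simp
  · refine Eq.trans (Finset.sum_congr rfl fun t _ => ?_)
      (Equiv.sum_comp (Equiv.mulLeft s) fun t => if t • x = x then ψ (g * t) else 0)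
    have : (s * t) • x = x ↔ t • x = x := by rw [mul_smul, ← smul_left_cancel_iff s (x := t • x), hs]
    simp only [Equiv.coe_mulLeft, this, mul_assoc]

theorem nv_perm {ψ : G → ℂ} (hψ : IsIrrCharacter G ψ) (h : classInner (Perm.permChar G X) ψ ≠ 0) (ε : G →* ℂˣ)
    (hε : ∀ x y : X, ∃ g : G, g • x = x ∧ g • y = y ∧ ε g ≠ 1) : ∃ g, ε g ≠ 1 ∧ ψ g ≠ 0 := by
  classical
  have := Fintype.ofFinite X
  by_contra! H
  have a : classInner (Perm.permChar G X * fun g => (ε g : ℂ)) ψ = classInner (Perm.permChar G X) ψ := by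
    rw [Ch.classInner_def, Ch.classInner_def]
    refine congrArg _ (Finset.sum_congr rfl fun g _ => ?_)
    by_cases e : ε g = 1
    · simp [e]
    · simp [H g e]
  refine inner_ne_zero_of_const (r3_char.mul (Ch.isCharacter_monoidHom_units ε)) r3_char hψ (a ▸ h) h ?_
  have z : ∀ x y : X, ∑ g : G, (if g • x = x ∧ g • y = y then (ε g : ℂ) else 0) = 0 := fun x y => by
    obtain ⟨s, sx, sy, e⟩ := hε x y
    refine ((mul_left_eq_self₀ (a := (ε s : ℂ))).1 ?_).resolve_left fun d => e (Units.ext d)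
    conv_rhs => rw [← Equiv.sum_comp (Equiv.mulRight s)]
    rw [Finset.mul_sum]
    refine Finset.sum_congr rfl fun t _ => ?_
    simp [mul_smul, sx, sy, mul_comm]
  rw [Ch.classInner_def, mul_eq_zero]
  right
  calc _ = ∑ g : G, ∑ x : X, ∑ y : X, (if g • x = x ∧ g • y = y then (ε g : ℂ) else 0) := by
        refine Finset.sum_congr rfl fun g _ => ?_
        rw [Complex.conj_natCast, Pi.mul_apply, ← Perm.permChar, r3_sum, mul_right_comm, Finset.sum_mul_sum,
          Finset.sum_mul]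
        refine Finset.sum_congr rfl fun x _ => ?_
        rw [Finset.sum_mul]
        refine Finset.sum_congr rfl fun y _ => ?_
        by_cases u : g • x = x <;> by_cases v : g • y = y <;> simp [u, v]
    _ = 0 := by
        rw [Finset.sum_comm]
        refine Finset.sum_eq_zero fun x _ => ?_
        rw [Finset.sum_comm]
        exact Finset.sum_eq_zero fun y _ => z x y

theorem ker_perm {ψ : G → ℂ} (hψ : IsIrrCharacter G ψ) (h : classInner (Perm.permChar G X) ψ ≠ 0) {z : G}
    (hz : ∀ x : X, z • x = x) : ψ z = ψ 1 := by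
  have := Fintype.ofFinite X
  exact ker_of_const r3_char hψ h (by simp only [r3_sum, hz, one_smul])

theorem const_three {χ ξ : G → ℂ} (hχ : IsIrrCharacter G χ) (hξ : IsIrrCharacter G ξ) {π : G → ℂ}
    (h : π = 1 + χ + ξ) : classInner π χ ≠ 0 ∧ classInner π ξ ≠ 0 := by
  have a := IsCharacter.one'.add hχ.isCharacter
  rw [h, a.classInner_add_ne_zero_iff hξ.isCharacter hχ.isCharacter,
    a.classInner_add_ne_zero_iff hξ.isCharacter hξ.isCharacter,
    IsCharacter.one'.classInner_add_ne_zero_iff hχ.isCharacter hχ.isCharacter, hχ.classInner_self,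
    hξ.classInner_self]
  exact ⟨Or.inl (Or.inr one_ne_zero), Or.inr one_ne_zero⟩

theorem r3_fix {χ ξ χ' ξ' : G → ℂ} (hχ : IsIrrCharacter G χ) (hξ : IsIrrCharacter G ξ) (hχ' : IsIrrCharacter G χ')
    (hξ' : IsIrrCharacter G ξ') (e : ∀ g, χ' g + ξ' g = χ g + ξ g) (d : charDegree χ' ≠ charDegree ξ) : χ' = χ :=
  (Cl.CT.eq_or_eq_of_classInner_add hχ' hχ hξ (by
    rw [← show χ' + ξ' = χ + ξ from funext e,
      hχ'.isCharacter.classInner_add_ne_zero_iff hξ'.isCharacter hχ'.isCharacter, hχ'.classInner_self]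
    exact Or.inl one_ne_zero)).resolve_right fun k => d (k ▸ rfl)

theorem intV_three {χ ξ : G → ℂ} (hχ : IsIrrCharacter G χ) (hξ : IsIrrCharacter G ξ) (h1 : χ ≠ 1)
    (h : Perm.permChar G X = 1 + χ + ξ) (hd : charDegree χ ≠ charDegree ξ) : IntV χ :=
  intV_of_fixed hχ.isCharacter fun σ => congrFun (r3_fix hχ hξ (hχ.galois σ) (hξ.galois σ) (fun g => by
    have a := congrFun h g
    have b := congrArg σ a
    rw [map_natCast, ← Perm.permChar, a] at b
    simp only [Pi.add_apply, Pi.one_apply, map_add, map_one] at b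
    linear_combination -b) (by rwa [hχ.isCharacter.charDegree_galois]))

theorem aut_three {χ ξ : G → ℂ} (hχ : IsIrrCharacter G χ) (hξ : IsIrrCharacter G ξ) (h1 : χ ≠ 1) {π : G → ℂ}
    (h : π = 1 + χ + ξ) (hd : charDegree χ ≠ charDegree ξ) (α : G ≃* G) (hα : ∀ g, π (α g) = π g) (g : G) :
    χ (α g) = χ g :=
  congrFun (r3_fix hχ hξ (hχ.comp_mulEquiv α) (hξ.comp_mulEquiv α) (fun g => by
    have a := hα g
    simp only [h, Pi.add_apply, Pi.one_apply] at a
    linear_combination a) ((Ch.charDegree_comp χ α.toMonoidHom).trans_ne hd)) g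

end Cfsg.Agent.DG
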