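import Mathlib
import Cfsg.Agent.DG.Tools
import Cfsg.Agent.Cl.OrthCard
import Cfsg.Agent.Cl.OrthOmega
import Cfsg.Agent.Cl.OrthSpinor
import Cfsg.Agent.Cl.SpForm
import Cfsg.Agent.Cl.SpTransv
import Cfsg.Agent.Ch.Clifford
import Cfsg.Agent.Ch.Quotient
import Cfsg.Agent.Ch.AbelianQuot

/-!
# Descent from the isometry group to the projective groups
-/

set_option autoImplicit false

namespace Cfsg.Agent.DG

open Module Matrix Finset
open scoped ComplexConjugate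

namespace Red

theorem dvd_arith {m d n r s : ℕ} (hm : m ∣ 4) (hn : n = m * d) (hr : r.Prime) (hs : s.Prime) (hrs : r ≠ s)
    (hrn : r ∣ n) (hsn : s ∣ n) (h2 : r = 2 ∨ s = 2 → 2 * m ∣ n) : r * s ∣ d := by
  have m0 : 0 < m := Nat.pos_of_dvd_of_pos hm (by norm_num)
  have key : ∀ p : ℕ, p.Prime → p ∣ n → (p = 2 → 2 * m ∣ n) → p ∣ d := by
    intro p hp hpn h
    by_cases h2 : p = 2
    · have h3 := h h2
      rw [hn, mul_comm 2 m] at h3
      exact h2 ▸ Nat.dvd_of_mul_dvd_mul_left m0 h3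
    · refine ((Nat.Prime.dvd_mul hp).1 (hn ▸ hpn)).resolve_left fun h3 => h2 ?_
      have h4 : p ∣ 2 ^ 2 := h3.trans hm
      exact (Nat.prime_dvd_prime_iff_eq hp Nat.prime_two).1 (hp.dvd_of_dvd_pow h4)
  exact Nat.Coprime.mul_dvd_of_dvd_of_dvd ((Nat.coprime_primes hr hs).2 hrs)
    (key r hr hrn fun h => h2 (Or.inl h)) (key s hs hsn fun h => h2 (Or.inr h))

theorem et_arith {e t i : ℕ} (hi : i = 2 ∨ i = 4) (he : 0 < e) (ht : t ∣ i) (h : e ^ 2 * t ≤ i) :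
    e * t ∣ i ∧ (e ^ 2 * t ≠ i → 2 * (e * t) ∣ i) := by
  have t0 : 0 < t := Nat.pos_of_dvd_of_pos ht (by omega)
  have t4 : t ≤ 4 := (Nat.le_of_dvd (by omega) ht).trans (by omega)
  have e2 : e ≤ 2 := by
    by_contra h3
    have h4 : 3 ^ 2 * 1 ≤ e ^ 2 * t := Nat.mul_le_mul (Nat.pow_le_pow_left (by omega) 2) t0
    omega
  rcases hi with rfl | rfl <;> interval_cases e <;> interval_cases t <;> simp_all

/-- Clifford theory for a normal subgroup of index two or four. -/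
theorem exists_under {G : Type} [Group G] [Finite G] (N : Subgroup G) [N.Normal] (hi : N.index = 2 ∨ N.index = 4)
    {χ : G → ℂ} (hχ : IsIrrCharacter G χ) (hc : ∀ z ∈ Subgroup.center N, χ z = χ 1) :
    ∃ (ψ : N ⧸ Subgroup.center N → ℂ) (m : ℕ), IsIrrCharacter _ ψ ∧ charDegree χ = m * charDegree ψ ∧
      m ∣ N.index ∧ ((∃ g, g ∉ N ∧ χ g ≠ 0) → 2 * m ∣ N.index) := by
  classical
  letI : Fintype G := Fintype.ofFinite G
  letI : Fintype N := Fintype.ofFinite N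
  obtain ⟨θ, hθ, h⟩ := Ch.exists_irr_under N hχ
  obtain ⟨e, e0, he, -⟩ := Ch.clifford_nat hχ hθ h
  have h1 := Ch.clifford_apply_one hχ hθ h
  have h2 := Ch.classInner_res_self hχ hθ h
  have h3 := Ch.re_classInner_res_self_le N hχ
  have h4 := Ch.classInner_res_self_eq_index_iff N hχ
  have ht : (Ch.inertia N θ).index ∣ N.index :=
    Subgroup.index_dvd_of_le (Ch.le_inertia hθ.isCharacter.isClassFunction)
  rw [he] at h1 h2
  generalize (Ch.inertia N θ).index = t at h1 h2 ht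
  have h5 : ((e : ℂ) ^ 2 * t) = ((e ^ 2 * t : ℕ) : ℂ) := by push_cast; rfl
  rw [h2, h5] at h3 h4
  rw [Complex.natCast_re] at h3
  obtain ⟨h6, h7⟩ := et_arith hi e0 ht (by exact_mod_cast h3)
  obtain ⟨ψ, hψ, hθψ⟩ := hθ.exists_quotient (Subgroup.center N) fun z hz =>
    ker_of_const (hχ.isCharacter.restrict N) hθ h (hc z hz)
  refine ⟨ψ, e * t, hψ, ?_, h6, fun ⟨g, hg, hg0⟩ => h7 fun h8 => hg0 (h4.1 (by rw [h8]) g hg)⟩
  rw [hχ.isCharacter.charDegree_eq_iff, h1, Nat.cast_mul, Nat.cast_mul, hψ.isCharacter.coe_charDegree, hθψ]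
  rfl

variable {F V : Type} [Field F] [Finite F] [AddCommGroup V] [Module F V] [Finite V]

open QuadraticMap

omit [Finite F] in
theorem exists_dickson {Q : QuadraticForm F V} (hQ : (polarBilin Q).Nondegenerate) (H : Subgroup (V ≃ₗ[F] V))
    (hH : H = Cl.OG Q) : ∃ ε : H →* ℤˣ, (∀ (g : H) u v, g.1 = (Cl.eich Q u v).1 → ε g = 1) ∧
      ∀ (g : H) v, Q v ≠ 0 → g.1 = (Cl.orefl Q v).1 → ε g = -1 := by
  subst hH
  refine ⟨Cl.dickson hQ, fun g u v h => ?_, fun g v hv h => ?_⟩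
  · rw [Subtype.ext h]
    exact Cl.dickson_eich hQ u v
  · rw [Subtype.ext h]
    exact Cl.dickson_orefl hQ hv

theorem omega_facts {Q : QuadraticForm F V} (hQ : (polarBilin Q).Nondegenerate) (hn : 4 < finrank F V)
    (H : Subgroup (V ≃ₗ[F] V)) (hH : H = Cl.OG Q) :
    ((2 : F) = 0 → (commutator H).index = 2) ∧ ((2 : F) ≠ 0 → (commutator H).index = 4) ∧
      ∀ g ∈ Subgroup.center (commutator H), g.1.1 = 1 ∨ g.1.1 = LinearEquiv.neg F := by
  subst hH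
  have hexc : ¬ Cl.OExc Q := Cl.not_oExc_of_finrank (by omega)
  refine ⟨fun h => Cl.index_commutator_OG_of_two_eq_zero hQ hexc h (by omega),
    fun h => Cl.index_commutator_OG_of_two_ne_zero hQ h (by omega), fun g hg => ?_⟩
  rcases (Cl.mem_center_commutator_iff hQ hexc (by omega) (Cl.quad_exists_singular Q (by omega)) g).1 hg with h | h
  · exact Or.inl (by rw [h]; rfl)
  · exact Or.inr (by rw [h]; rfl)

omit [Finite F] in
theorem sp_facts {B : LinearMap.BilinForm F V} (hB : B.Nondegenerate) (hA : B.IsAlt)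
    (H : Subgroup (V ≃ₗ[F] V)) (hH : H = Cl.SpG B) :
    ∀ g ∈ Subgroup.center H, g.1 = 1 ∨ g.1 = LinearEquiv.neg F := by
  subst hH
  intro g hg
  rcases (Cl.sp_mem_center_iff hB hA g).1 hg with h | h
  · exact Or.inl (by rw [h]; rfl)
  · exact Or.inr (by rw [h]; rfl)

end Red

namespace Fm

variable {F V : Type} [Field F] [Finite F] [AddCommGroup V] [Module F V] [Finite V] {S : Fm F V} {k d e : ℕ}

omit [Finite F] [Finite V] in
theorem Red_nd (ho : S.o = true) : (QuadraticMap.polarBilin S.Q).Nondegenerate :=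
  ⟨fun x h => S.nd x fun y => (S.ho ho x y).trans (h y), fun x h => S.nd x fun y =>
    S.B_refl ((S.ho ho y x).trans (h y))⟩

theorem G_eq_OG (ho : S.o = true) : S.G = Cl.OG S.Q := by
  ext g
  refine ⟨fun h => h.2, fun h => ⟨fun x y => ?_, h⟩⟩
  rw [S.ho ho, S.ho ho]
  exact Cl.OG.polar_app (⟨g, h⟩ : Cl.OG S.Q) x y

theorem G_eq_SpG (ho : S.o = false) : S.G = Cl.SpG S.B := by
  ext g
  exact ⟨fun h => h.1, fun h => ⟨h, fun x => by rw [(S.hs ho).2, (S.hs ho).2]⟩⟩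

theorem exists_eps (ho : S.o = true) : ∃ ε : S.G →* ℂˣ, S.EK ε.ker ∧ ∀ v, S.Q v ≠ 0 → ε (S.refl v) ≠ 1 := by
  obtain ⟨ε, h1, h2⟩ := Red.exists_dickson (Red_nd ho) S.G (G_eq_OG ho)
  refine ⟨(Units.map (Int.castRingHom ℂ).toMonoidHom).comp ε, fun a y ha hy => ?_, fun v hv h => ?_⟩
  · have hy' : QuadraticMap.polar S.Q a (-y) = 0 := by rw [← S.ho ho, map_neg, hy, neg_zero]
    rw [MonoidHom.mem_ker, MonoidHom.comp_apply, h1 _ a (-y), map_one]
    refine LinearEquiv.ext fun x => ?_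
    rw [eich_app, Cl.eich_app ha hy', ← S.ho ho, ← S.ho ho, S.Q_neg, map_neg, S.B_swap a x]
    have he : S.ε = 1 := by simp [Fm.ε, ho]
    rw [he, one_mul]
    module
  · rw [MonoidHom.comp_apply, h2 _ v hv] at h
    · have h3 := congrArg Units.val h
      simp at h3
      norm_num at h3
    · refine LinearEquiv.ext fun x => ?_
      rw [refl_app, Cl.orefl_app, S.ho ho, mul_comm]

theorem nv_of_eps {χ : S.G → ℂ} (ε : S.G →* ℂˣ) (h : ∃ g, ε g ≠ 1 ∧ χ g ≠ 0) : S.NV χ := by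
  obtain ⟨g, h1, h2⟩ := h
  exact ⟨g, fun hg => h1 (Abelianization.commutator_subset_ker ε hg), h2⟩

theorem exists_refl_perp (ho : S.o = true) (h : 4 < finrank F V) (x y : V) :
    ∃ v, S.Q v ≠ 0 ∧ S.B x v = 0 ∧ S.B y v = 0 := by
  obtain ⟨v, h1, h2, h3⟩ := Cl.o_exists_nonsingular_perp_pair (Red_nd ho) h x y
  exact ⟨v, h1, (S.ho ho x v).trans h2, (S.ho ho y v).trans h3⟩

theorem exists_Q_ne (ho : S.o = true) (h : 0 < finrank F V) : ∃ v, S.Q v ≠ 0 := by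
  haveI := Module.nontrivial_of_finrank_pos h
  obtain ⟨x, hx⟩ := exists_ne (0 : V)
  exact Cl.o_exists_nonsingular (Red_nd ho) hx

theorem refl_mul_self (v : V) : S.refl v * S.refl v = 1 := by
  refine G_ext fun x => ?_
  rw [mul_app, refl_app, refl_app, one_app]
  by_cases h : S.Q v = 0
  · simp [h]
  have h1 : S.B (x - (S.B x v * (S.Q v)⁻¹) • v) v * (S.Q v)⁻¹ = -(S.B x v * (S.Q v)⁻¹) := by
    rw [map_sub, map_smul, LinearMap.sub_apply, LinearMap.smul_apply, S.B_self, smul_eq_mul]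
    field_simp
    ring
  rw [h1]
  module

theorem Red_sp (ho : S.o = false) {χ : S.G → ℂ} (hχ : IsIrrCharacter S.G χ) (hz : S.CZ → χ S.neg = χ 1) :
    ∃ ψ, IsIrrCharacter (S.G ⧸ Subgroup.center S.G) ψ ∧ charDegree ψ = charDegree χ := by
  have h1 := hz fun h => by rw [ho] at h; exact absurd h (by simp)
  have hB : S.B.Nondegenerate := ⟨S.nd, fun x h => S.nd x fun y => S.B_refl (h y)⟩
  obtain ⟨ψ, hψ, e⟩ := hχ.exists_quotient (Subgroup.center S.G) fun z hz => by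
    rcases Red.sp_facts hB (S.hs ho).1 S.G (G_eq_SpG ho) z hz with h | h
    · rw [show z = 1 from Subtype.ext h]
    · rw [show z = S.neg from Subtype.ext h, h1]
  refine ⟨ψ, hψ, ?_⟩
  rw [e]
  rfl

theorem Red_o (ho : S.o = true) (hd : 4 < finrank F V) {χ : S.G → ℂ} (hχ : IsIrrCharacter S.G χ)
    (hz : S.CZ → χ S.neg = χ 1) :
    ∃ (ψ : commutator S.G ⧸ Subgroup.center (commutator S.G) → ℂ) (m : ℕ), IsIrrCharacter _ ψ ∧
      charDegree χ = m * charDegree ψ ∧ m ∣ 4 ∧ m ∣ S.idx ∧ (S.NV χ → 2 * m ∣ S.idx) := by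
  obtain ⟨h1, h2, h3⟩ := Red.omega_facts (Red_nd ho) hd S.G (G_eq_OG ho)
  have hi : (commutator S.G).index = S.idx := by
    by_cases h : (2 : F) = 0
    · rw [h1 h]; simp [idx, ho, h]
    · rw [h2 h]; simp [idx, ho, h]
  have hi' : (commutator S.G).index = 2 ∨ (commutator S.G).index = 4 := by
    by_cases h : (2 : F) = 0
    · exact Or.inl (h1 h)
    · exact Or.inr (h2 h)
  obtain ⟨ψ, m, hψ, e, hm, hn⟩ := Red.exists_under (commutator S.G) hi' hχ fun z hz' => by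
    rcases h3 z hz' with h | h
    · rw [show (z : S.G) = 1 from Subtype.ext h]
    · have h4 : (z : S.G) = S.neg := Subtype.ext h
      rw [h4]
      exact hz fun _ => h4 ▸ z.2
  refine ⟨ψ, m, hψ, e, hm.trans ?_, hi ▸ hm, fun h => hi ▸ hn h⟩
  rcases hi' with h | h <;> rw [h] <;> norm_num

theorem tg_of_out (hd : S.o = true → 4 < finrank F V) {n r s : ℕ} (h : S.Out n) (hr : r.Prime) (hs : s.Prime)
    (hrs : r ≠ s) (hrn : r ∣ n) (hsn : s ∣ n) (h2 : r = 2 ∨ s = 2 → 2 * S.idx ∣ n) : S.Tg (r * s) := by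
  obtain ⟨χ, hχ, hn, hz⟩ := h
  refine ⟨fun ho => ?_, fun ho => ?_⟩
  · obtain ⟨ψ, hψ, e⟩ := Red_sp ho hχ hz
    exact ⟨ψ, hψ, by
      rw [e, hn]; exact Nat.Coprime.mul_dvd_of_dvd_of_dvd ((Nat.coprime_primes hr hs).2 hrs) hrn hsn⟩
  · obtain ⟨ψ, m, hψ, e, hm, hi, -⟩ := Red_o ho (hd ho) hχ hz
    exact ⟨ψ, hψ, Red.dvd_arith hm (hn.symm.trans e) hr hs hrs hrn hsn fun h =>
      (Nat.mul_dvd_mul_left 2 hi).trans (h2 h)⟩

theorem tg_of_outN (hd : S.o = true → 4 < finrank F V) {n r s : ℕ} (h : S.OutN n) (hr : r.Prime) (hs : s.Prime)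
    (hrs : r ≠ s) (hrn : r ∣ n) (hsn : s ∣ n) (h2 : r = 2 ∨ s = 2 → S.idx ∣ n) : S.Tg (r * s) := by
  obtain ⟨χ, hχ, hn, hz, hv⟩ := h
  refine ⟨fun ho => ?_, fun ho => ?_⟩
  · obtain ⟨ψ, hψ, e⟩ := Red_sp ho hχ hz
    exact ⟨ψ, hψ, by
      rw [e, hn]; exact Nat.Coprime.mul_dvd_of_dvd_of_dvd ((Nat.coprime_primes hr hs).2 hrs) hrn hsn⟩
  · obtain ⟨ψ, m, hψ, e, hm, -, hi⟩ := Red_o ho (hd ho) hχ hz
    exact ⟨ψ, hψ, Red.dvd_arith hm (hn.symm.trans e) hr hs hrs hrn hsn fun h => (hi (hv ho)).trans (h2 h)⟩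

end Fm

end Cfsg.Agent.DG
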