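import Mathlib
import Cfsg.Agent.DG.R3
import Cfsg.Agent.DG.Ty
import Cfsg.Agent.DG.Red
import Cfsg.Agent.DG.Ord

/-! The permutation character on the singular points. -/

set_option autoImplicit false
set_option linter.unusedSectionVars false

namespace Cfsg.Agent.DG

open Module Matrix Finset
open scoped ComplexConjugate

theorem pt_three {X : Type} [Finite X] (x₀ : X) (P : X → Prop) (h : ¬ P x₀) :
    Nat.card X = 1 + Nat.card {y // P y} + Nat.card {y // x₀ ≠ y ∧ ¬ P y} := by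
  classical
  have := Fintype.ofFinite X
  apply Nat.cast_injective (R := ℂ)
  push_cast
  rw [r3_card, r3_card, ← Finset.sum_ite_eq_of_mem univ x₀ (fun _ => (1 : ℂ)) (mem_univ _),
    ← Finset.sum_add_distrib, ← Finset.sum_add_distrib, Nat.card_eq_fintype_card, ← Finset.card_univ,
    Finset.cast_card]
  refine Finset.sum_congr rfl fun y _ => ?_
  by_cases d : x₀ = y
  · simp [← d, h]
  · by_cases a : P y <;> simp [d, a]

namespace Fm

variable {F V : Type} [Field F] [Finite F] [AddCommGroup V] [Module F V] [Finite V] {S : Fm F V} {k d e : ℕ}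

/-- The point spanned by a singular vector. -/
def pt (v : V) (h : v ≠ 0 ∧ S.Q v = 0) : S.Pt :=
  ⟨Submodule.span F {v}, finrank_span_singleton h.1, fun w hw => by
    obtain ⟨a, rfl⟩ := Submodule.mem_span_singleton.1 hw
    rw [Q_smul, h.2, mul_zero]⟩

theorem pt_ex (x : S.Pt) : ∃ v h, x = pt v h := by
  obtain ⟨v, a, b, c⟩ := ord_gen x
  exact ⟨v, ⟨a, b⟩, Subtype.ext c⟩

theorem pt_eq {u v : V} {hu : u ≠ 0 ∧ S.Q u = 0} {hv : v ≠ 0 ∧ S.Q v = 0} :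
    pt u hu = pt v hv ↔ ∃ t : F, t • u = v := by
  refine ⟨fun h => Submodule.mem_span_singleton.1 ?_, ?_⟩
  · rw [show Submodule.span F {u} = Submodule.span F {v} from congrArg Subtype.val h]
    exact Submodule.mem_span_singleton_self v
  · rintro ⟨t, rfl⟩
    exact Subtype.ext (Submodule.span_singleton_smul_eq (IsUnit.mk0 t (left_ne_zero_of_smul hv.1)) u).symm

theorem pt_smul {g : S.G} {u v : V} {hu : u ≠ 0 ∧ S.Q u = 0} {hv : v ≠ 0 ∧ S.Q v = 0} {t : F}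
    (h : g.1 u = t • v) : g • pt u hu = pt v hv := by
  have a : g.1 u ≠ 0 := g.1.map_ne_zero_iff.2 hu.1
  refine Eq.trans (b := pt (g.1 u) ⟨a, (Q_app g u).trans hu.2⟩) (Subtype.ext ?_) (pt_eq.2 ⟨t, h.symm⟩).symm
  rw [smul_Pt]
  exact (Submodule.map_span _ _).trans (by rw [Set.image_singleton]; rfl)

theorem pt_count (R : S.Pt → Prop) (R' : V → Prop) (h : ∀ v hv, R (pt v hv) ↔ R' v) :
    Nat.card {x // R x} * (Nat.card F - 1) = Nat.card {v // (v ≠ 0 ∧ S.Q v = 0) ∧ R' v} := by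
  choose z hz ez using pt_ex (S := S)
  have s : ∀ x (t : Fˣ), (t : F) • z x ≠ 0 ∧ S.Q ((t : F) • z x) = 0 := fun x t =>
    ⟨smul_ne_zero t.ne_zero (hz x).1, by rw [Q_smul, (hz x).2, mul_zero]⟩
  have p : ∀ x (t : Fˣ), x = pt _ (s x t) := fun x t => (ez x).trans (pt_eq.2 ⟨t, rfl⟩)
  rw [← Nat.card_units, ← Nat.card_prod]
  refine Nat.card_congr (Equiv.ofBijective (fun a => ⟨(a.2 : F) • z a.1.1, s _ _, (h _ _).1 (p a.1.1 a.2 ▸ a.1.2)⟩)
    ⟨?_, ?_⟩)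
  · rintro ⟨⟨x, hx⟩, t⟩ ⟨⟨y, hy⟩, r⟩ e
    replace e : (t : F) • z x = (r : F) • z y := congrArg Subtype.val e
    obtain rfl : x = y := (p x t).trans ((pt_eq.2 ⟨1, (one_smul _ _).trans e⟩).trans (p y r).symm)
    rw [Units.ext (smul_left_injective F (hz x).1 e)]
  · rintro ⟨v, hv, r⟩
    obtain ⟨t, ht⟩ := pt_eq.1 (ez (pt v hv)).symm
    exact ⟨⟨⟨pt v hv, (h v hv).2 r⟩, Units.mk0 t (left_ne_zero_of_smul (ht ▸ hv.1))⟩, Subtype.ext ht⟩

/-- orthogonal points -/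
def Pp (x y : S.Pt) : Prop := ∀ u ∈ x.1, ∀ v ∈ y.1, S.B u v = 0

theorem pt_pp {u v : V} {hu : u ≠ 0 ∧ S.Q u = 0} {hv : v ≠ 0 ∧ S.Q v = 0} :
    Pp (pt u hu) (pt v hv) ↔ S.B u v = 0 := by
  refine ⟨fun h => h u (Submodule.mem_span_singleton_self u) v (Submodule.mem_span_singleton_self v),
    fun h a ha b hb => ?_⟩
  obtain ⟨s, rfl⟩ := Submodule.mem_span_singleton.1 ha
  obtain ⟨t, rfl⟩ := Submodule.mem_span_singleton.1 hb
  simp [h]

theorem pt_li {u v : V} {hu : u ≠ 0 ∧ S.Q u = 0} {hv : v ≠ 0 ∧ S.Q v = 0} (h : pt u hu ≠ pt v hv) :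
    LinearIndependent F ![u, v] := (LinearIndependent.pair_iff' hu.1).2 fun a e => h (pt_eq.2 ⟨a, e⟩)

theorem pt_pair {x y x' y' : S.Pt} (h : x ≠ y) (h' : x' ≠ y') (e : Pp x y ↔ Pp x' y') :
    ∃ g : S.G, g • x = x' ∧ g • y = y' := by
  obtain ⟨u, hu, rfl⟩ := pt_ex x
  obtain ⟨v, hv, rfl⟩ := pt_ex y
  obtain ⟨u', hu', rfl⟩ := pt_ex x'
  obtain ⟨v', hv', rfl⟩ := pt_ex y'
  rw [pt_pp, pt_pp] at e
  obtain ⟨t, t0, ht⟩ : ∃ t : F, t ≠ 0 ∧ S.B u' (t • v') = S.B u v := by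
    by_cases a : S.B u v = 0
    · exact ⟨1, one_ne_zero, by rw [one_smul, a, e.1 a]⟩
    · have b := mt e.2 a
      exact ⟨S.B u v / S.B u' v', div_ne_zero a b, by rw [map_smul, smul_eq_mul, div_mul_cancel₀ _ b]⟩
  have s : t • v' ≠ 0 ∧ S.Q (t • v') = 0 := ⟨smul_ne_zero t0 hv'.1, by rw [Q_smul, hv'.2, mul_zero]⟩
  obtain ⟨g, h1, h2, h3⟩ := S.witt.extend_family S.nd ![u, v] ![u', t • v'] (pt_li h)
    (pt_li (hv := s) (h'.trans_eq (pt_eq.2 ⟨t, rfl⟩))) (fun i j => by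
      fin_cases i <;> fin_cases j
      · exact (S.B_self u').trans (hu'.2.trans hu.2.symm ▸ (S.B_self u).symm)
      · exact ht
      · exact (S.B_swap u' _).trans (ht ▸ (S.B_swap u v).symm)
      · exact (S.B_self _).trans (s.2.trans hv.2.symm ▸ (S.B_self v).symm)) fun i => by
      fin_cases i
      · exact hu'.2.trans hu.2.symm
      · exact s.2.trans hv.2.symm
  exact ⟨⟨g, h1, h2⟩, pt_smul ((h3 0).trans (one_smul F _).symm), pt_smul (h3 1)⟩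

theorem PC.splP {χ : S.G → ℂ} (h : S.PC χ) : S.SplP χ := by
  have := Fintype.ofFinite S.Pt
  obtain ⟨c, f, c0, hc, hf⟩ := spl_perm h.1 h.2
  choose z hz ez using pt_ex (S := S)
  refine ⟨S.Pt, this, c, f, z, c0, hc, fun x => (hz x).2, fun x g s ⟨t, ht⟩ => hf x g s ?_⟩
  rw [ez x]
  exact pt_smul ht

theorem PC.neg {χ : S.G → ℂ} (h : S.PC χ) : χ S.neg = χ 1 :=
  ker_perm h.1 h.2 fun x => by
    obtain ⟨v, hv, rfl⟩ := pt_ex x
    exact pt_smul (neg_one_smul F v).symm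

theorem PC.outN {χ : S.G → ℂ} (h : S.PC χ) (hd : S.o = true → 4 < finrank F V) : S.OutN (charDegree χ) := by
  refine ⟨χ, h.1, rfl, fun _ => h.neg, fun ho => ?_⟩
  obtain ⟨ε, -, hε⟩ := exists_eps ho
  refine nv_of_eps ε (nv_perm h.1 h.2 ε fun x y => ?_)
  obtain ⟨u, hu, rfl⟩ := pt_ex x
  obtain ⟨v, hv, rfl⟩ := pt_ex y
  obtain ⟨w, w0, a, b⟩ := exists_refl_perp ho (hd ho) u v
  exact ⟨S.refl w, pt_smul (t := 1) (by simp [refl_app, a]), pt_smul (t := 1) (by simp [refl_app, b]), hε w w0⟩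

theorem p2 (hT : S.Ty 1 e) : ∃ χ, S.PC χ ∧ charDegree χ = Nat.card F ^ e := by
  have q2 : 1 < Nat.card F := Finite.one_lt_card
  have c := Ty.ord_card_Pt (d := 0) hT
  rw [zero_add, zero_add, pow_one, mul_comm] at c
  replace c := Nat.eq_of_mul_eq_mul_left (by omega) c
  have np : ∀ x y : S.Pt, x ≠ y → ¬ Pp x y := fun x y h p => by
    obtain ⟨u, hu, rfl⟩ := pt_ex x
    obtain ⟨v, hv, rfl⟩ := pt_ex y
    rw [pt_pp] at p
    have a := hT.witt_le (Submodule.span F (Set.range ![u, v])) (fun a ha b hb => ?_) fun a ha => ?_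
    · rw [finrank_span_eq_card (pt_li h), Fintype.card_fin] at a
      omega
    · rw [Matrix.range_cons_cons_empty, Submodule.mem_span_pair] at ha hb
      obtain ⟨s, t, rfl⟩ := ha
      obtain ⟨s', t', rfl⟩ := hb
      simp [p, S.B_refl p, B_self, hu.2, hv.2]
    · rw [Matrix.range_cons_cons_empty, Submodule.mem_span_pair] at ha
      obtain ⟨s, t, rfl⟩ := ha
      simp [Q_add, Q_smul, p, hu.2, hv.2]
  obtain ⟨χ, i, -, p, dg⟩ := rank2 (G := S.G) (X := S.Pt)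
    (fun x y x' y' h h' => pt_pair h h' (iff_of_false (np _ _ h) (np _ _ h')))
    (by have := pow_pos (zero_lt_one.trans q2) e; omega)
  refine ⟨χ, ⟨i, ?_⟩, by omega⟩
  rw [p, IsCharacter.one'.classInner_add_ne_zero_iff i.isCharacter i.isCharacter, i.classInner_self]
  exact Or.inr one_ne_zero

/-- a hyperbolic pair with its counts -/
theorem pt_hyp {V' : Type} [AddCommGroup V'] [Module F V'] [Finite V'] {S' : Fm F V'} (h : S.Iso (S'.hyp 1)) :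
    ∃ u v, (u ≠ 0 ∧ S.Q u = 0) ∧ (v ≠ 0 ∧ S.Q v = 0) ∧ S.B u v ≠ 0 ∧
      Nat.card {w // (w ≠ 0 ∧ S.Q w = 0) ∧ (¬ ∃ t : F, t • u = w) ∧ S.B u w = 0} =
        Nat.card F * (Nat.card S'.Pt * (Nat.card F - 1)) ∧
      Nat.card {w // (w ≠ 0 ∧ S.Q w = 0) ∧ S.B u w = 0 ∧ S.B v w = 0} = Nat.card S'.Pt * (Nat.card F - 1) := by
  obtain ⟨-, φ, hB, hQ⟩ := h.symm
  have n : Nat.card S'.Pt * (Nat.card F - 1) = Nat.card {w // w ≠ 0 ∧ S'.Q w = 0} := by
    have := pt_count (S := S') (fun _ => True) (fun _ => True) fun _ _ => Iff.rfl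
    simpa using this
  have ε0 : S'.ε ≠ 0 := left_ne_zero_of_mul_eq_one S'.ε_sq
  have bu : ∀ z : HV F 1 V', S.B (φ ((1, 0), 0)) (φ z) = z.1.2 0 := fun z => by simp [hB, hyp_B, dotProduct]
  have bv : ∀ z : HV F 1 V', S.B (φ ((0, 1), 0)) (φ z) = S'.ε * z.1.1 0 := fun z => by
    simp [hB, hyp_B, dotProduct]
  have z0 : ∀ a : Fin 1 → F, a 0 = 0 → a = 0 := fun a ha => funext fun i => by rwa [Subsingleton.elim i 0]
  refine ⟨φ ((1, 0), 0), φ ((0, 1), 0), ⟨by simp, by simp [hQ, hyp_Q]⟩, ⟨by simp, by simp [hQ, hyp_Q]⟩,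
    by simp [bu], ?_, ?_⟩
  · rw [n, ← Nat.card_prod]
    refine (Nat.card_congr (Equiv.ofBijective (fun a => ⟨φ ((fun _ => a.1, 0), a.2.1), ⟨?_, ?_⟩, ?_, ?_⟩)
      ⟨?_, ?_⟩)).symm
    rotate_left 2
    · simp [a.2.2.1]
    · simp [hQ, hyp_Q, a.2.2.2]
    · rintro ⟨t, ht⟩
      rw [← map_smul] at ht
      exact a.2.2.1 (by simpa using (congrArg Prod.snd (φ.injective ht)).symm)
    · simp [bu]
    · rintro ⟨a, w, hw⟩ ⟨a', w', hw'⟩ e
      have := φ.injective (congrArg Subtype.val e)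
      simp only [Prod.mk.injEq] at this
      exact Prod.ext (congrFun this.1.1 0) (Subtype.ext this.2)
    · rintro ⟨w, ⟨-, h2⟩, h3, h4⟩
      obtain ⟨⟨⟨a, b⟩, w⟩, rfl⟩ := φ.surjective w
      obtain rfl := z0 b ((bu _).symm.trans h4)
      have ea : (fun _ => a 0) = a := funext fun i => by rw [Subsingleton.elim i 0]
      refine ⟨⟨a 0, w, fun w0 => h3 ⟨a 0, ?_⟩, by simpa [hQ, hyp_Q] using h2⟩, Subtype.ext (by simp only [ea])⟩
      rw [← map_smul, w0, ← ea]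
      congr 1
      ext <;> simp
  · rw [n]
    refine (Nat.card_congr (Equiv.ofBijective (fun a => ⟨φ (0, a.1), ⟨?_, ?_⟩, ?_, ?_⟩) ⟨?_, ?_⟩)).symm
    rotate_left 2
    · simp [a.2.1]
    · simp [hQ, hyp_Q, a.2.2]
    · simp [bu]
    · simp [bv]
    · rintro ⟨w, hw⟩ ⟨w', hw'⟩ e
      exact Subtype.ext (congrArg Prod.snd (φ.injective (congrArg Subtype.val e)))
    · rintro ⟨w, ⟨h1, h2⟩, h3, h4⟩
      obtain ⟨⟨⟨a, b⟩, w⟩, rfl⟩ := φ.surjective w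
      obtain rfl := z0 b ((bu _).symm.trans h3)
      obtain rfl := z0 a ((mul_eq_zero.1 ((bv _).symm.trans h4)).resolve_left ε0)
      exact ⟨⟨w, fun w0 => h1 (by rw [w0]; exact map_zero φ), by simpa [hQ, hyp_Q] using h2⟩, rfl⟩

theorem p3 {c : ℕ} (hT : S.Ty (c + 2) e) : ∃ χ ξ, S.PC χ ∧ S.PC ξ ∧ χ ≠ 1 ∧ ξ ≠ 1 ∧
    Perm.permChar S.G S.Pt = 1 + χ + ξ ∧
    charDegree χ * ((Nat.card F - 1) * (Nat.card F ^ e + Nat.card F)) =
      Nat.card F ^ (e + 1) * (Nat.card F ^ (c + 2) - 1) * (Nat.card F ^ (c + e) + 1) ∧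
    charDegree ξ * ((Nat.card F - 1) * (Nat.card F ^ e + Nat.card F)) =
      Nat.card F ^ 2 * (Nat.card F ^ (c + 1) - 1) * (Nat.card F ^ (c + e + 1) + 1) := by
  obtain ⟨V', _, _, _, S', hT', -, iso⟩ := Ty.split (d := c + 1) (k := 1) hT
  obtain ⟨u, v, hu, hv, uv, ck, cm⟩ := pt_hyp iso
  have q2 : 1 < Nat.card F := Finite.one_lt_card
  have uu : S.B u u = 0 := by rw [B_self, hu.2, mul_zero]
  have vv : S.B v v = 0 := by rw [B_self, hv.2, mul_zero]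
  have ne : pt u hu ≠ pt v hv := fun h => by
    obtain ⟨t, rfl⟩ := pt_eq.1 h
    exact uv (by rw [map_smul, uu, smul_zero])
  have k1 := pt_count (fun y => pt u hu ≠ y ∧ Pp (pt u hu) y) (fun w => (¬ ∃ t : F, t • u = w) ∧ S.B u w = 0)
    fun w hw => and_congr pt_eq.not pt_pp
  have m1 := pt_count (fun y => (pt u hu ≠ y ∧ Pp (pt u hu) y) ∧ pt v hv ≠ y ∧ Pp (pt v hv) y)
    (fun w => S.B u w = 0 ∧ S.B v w = 0) fun w hw => by
      rw [pt_pp, pt_pp]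
      refine ⟨fun h => ⟨h.1.2, h.2.2⟩, fun h => ⟨⟨fun a => uv ?_, h.1⟩, fun a => uv ?_, h.2⟩⟩
      · exact S.B_refl (pt_pp.1 (a ▸ pt_pp.2 h.2 : Pp (pt v hv) (pt u hu)))
      · exact pt_pp.1 (a ▸ pt_pp.2 h.1 : Pp (pt u hu) (pt v hv))
  rw [ck, ← mul_assoc] at k1
  rw [cm] at m1
  replace k1 := Nat.eq_of_mul_eq_mul_right (by omega) k1
  replace m1 := Nat.eq_of_mul_eq_mul_right (by omega) m1
  have t := pt_three (pt u hu) (fun y => pt u hu ≠ y ∧ Pp (pt u hu) y) fun h => h.1 rfl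
  rw [k1] at t
  have cN := hT'.ord_card_Pt
  have cT := Ty.ord_card_Pt (d := c + 1) hT
  rw [t] at cT
  generalize Nat.card S'.Pt = N at *
  generalize hl : Nat.card {y // pt u hu ≠ y ∧ ¬(pt u hu ≠ y ∧ Pp (pt u hu) y)} = l at cT
  have o : ∀ n, 1 ≤ Nat.card F ^ n := fun n => Nat.one_le_pow _ _ (zero_lt_one.trans q2)
  have N0 : 0 < N := Nat.pos_of_mul_pos_right (cN ▸ Nat.mul_pos
    (Nat.sub_pos_of_lt (Nat.one_lt_pow c.succ_ne_zero q2)) (Nat.succ_pos _))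
  zify [o, q2.le] at cN cT
  have q1 : (Nat.card F : ℤ) - 1 ≠ 0 := by omega
  have a0 : (0 : ℤ) < (Nat.card F : ℤ) ^ c := by positivity
  have b0 : (0 : ℤ) < (Nat.card F : ℤ) ^ (c + e) := by positivity
  have el : (l : ℤ) = (Nat.card F : ℤ) ^ (2 * c + 2 + e) :=
    mul_right_cancel₀ q1 (by linear_combination cT - (Nat.card F : ℤ) * cN)
  obtain ⟨χ, ξ, i1, i2, n1, n2, -, p, d1, d2⟩ := rank3 (G := S.G) (fun x y : S.Pt => x ≠ y ∧ Pp x y)
    (fun x y h => ⟨h.1.symm, fun a ha b hb => S.B_refl (h.2 b hb a ha)⟩) (fun x h => h.1 rfl)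
    (fun g x y h => ⟨(MulAction.injective g).ne h.1, by
      rintro _ ⟨a, ha, rfl⟩ _ ⟨b, hb, rfl⟩
      exact (B_app g a b).trans (h.2 a ha b hb)⟩)
    (fun x y x' y' h h' => pt_pair h.1 h'.1 (iff_of_true h.2 h'.2))
    (fun x y x' y' h a h' a' => pt_pair h h' (iff_of_false (fun b => a ⟨h, b⟩) fun b => a' ⟨h', b⟩))
    ne (fun h => uv (pt_pp.1 h.2)) k1 hl m1 (Nat.mul_pos (by omega) N0)
    (r := (Nat.card F : ℤ) ^ (c + 1) - 1) (s := -(Nat.card F : ℤ) ^ (c + e) - 1)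
    (by have : (0 : ℤ) < (Nat.card F : ℤ) ^ (c + 1) := by positivity
        omega)
    (by push_cast; linear_combination cN)
    (by push_cast; rw [el]; linear_combination (-(N : ℤ) * Nat.card F) * cN)
  obtain ⟨c1, c2⟩ := const_three i1 i2 p
  refine ⟨χ, ξ, ⟨i1, c1⟩, ⟨i2, c2⟩, n1, n2, p, ?_, ?_⟩
  · zify [o, q2.le] at d1 d2 ⊢
    rw [el] at d1
    refine mul_left_cancel₀ a0.ne' ?_
    linear_combination ((Nat.card F : ℤ) - 1) * d2 + ((Nat.card F : ℤ) - 1) * ((Nat.card F : ℤ) ^ (c + e) + 1) * d1 +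
      (Nat.card F : ℤ) ^ (c + e + 1) * cN
  · zify [o, q2.le] at d1 d2 ⊢
    rw [el] at d1
    refine mul_left_cancel₀ a0.ne' ?_
    linear_combination -((Nat.card F : ℤ) - 1) * d2 + ((Nat.card F : ℤ) - 1) * ((Nat.card F : ℤ) ^ (c + 1) - 1) * d1 +
      (Nat.card F : ℤ) ^ (c + 2) * cN

end Fm

end Cfsg.Agent.DG
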