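import Mathlib
import Cfsg.Agent.DG.Par
import Cfsg.Agent.DG.Ty

/-!
# Double cosets of the parabolic subgroup and lifts by Eichler transformations
-/

set_option autoImplicit false
set_option linter.unusedSectionVars false

namespace Cfsg.Agent.DG

open Module Matrix Finset
open scoped ComplexConjugate

namespace Tri1

open Fm

variable {F V : Type} [Field F] [Finite F] [AddCommGroup V] [Module F V] [Finite V] {S : Fm F V} {k : ℕ}

theorem B_e (a : Fin k → F) (z : HV F k V) : (S.hyp k).B ((a, 0), 0) z = a ⬝ᵥ z.1.2 := by simp [hyp_B]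

theorem Q_e (a : Fin k → F) : (S.hyp k).Q ((a, 0), 0) = 0 := by simp [hyp_Q]

theorem eq_e {z : HV F k V} (hz : z ∈ W F V k) : z = ((z.1.1, 0), 0) := Prod.ext (Prod.ext rfl hz.1) hz.2

theorem e_mem (a : Fin k → F) : (((a, 0), 0) : HV F k V) ∈ W F V k := ⟨rfl, rfl⟩

theorem B_W {z z' : HV F k V} (hz : z ∈ W F V k) (hz' : z'.1.2 = 0) : (S.hyp k).B z z' = 0 := by
  rw [eq_e hz, B_e, hz', dotProduct_zero]

theorem Q_W {z : HV F k V} (hz : z ∈ W F V k) : (S.hyp k).Q z = 0 := by rw [eq_e hz, Q_e]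

variable (F V k) in
/-- The embedding onto the standard totally singular subspace. -/
def emb : (Fin k → F) →ₗ[F] HV F k V := (LinearMap.inl F _ _).comp (LinearMap.inl F _ _)

theorem emb_app (a : Fin k → F) : emb F V k a = ((a, 0), 0) := rfl

variable (F V k) in
/-- The second coordinate. -/
def pr : HV F k V →ₗ[F] (Fin k → F) := (LinearMap.snd F _ _).comp (LinearMap.fst F _ _)

theorem pr_app (z : HV F k V) : pr F V k z = z.1.2 := rfl

theorem mem_St_of {T : Submodule F V} {g : S.G} (h : ∀ z ∈ T, g.1 z ∈ T) : g ∈ S.St T := by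
  refine fun z => ⟨h z, fun hz => ?_⟩
  have hi : Function.Injective (fun t : T => (⟨g.1 t, h t t.2⟩ : T)) := fun a b e =>
    Subtype.ext (g.1.injective (congrArg Subtype.val e))
  obtain ⟨t, ht⟩ := Finite.injective_iff_surjective.1 hi ⟨_, hz⟩
  rw [← g.1.injective (congrArg Subtype.val ht)]
  exact t.2

theorem Ur_le_St (T : Submodule F V) : S.Ur T ≤ S.St T := fun _ hg => mem_St_of fun z hz => (hg.1 z hz).symm ▸ hz

theorem dual {X : Type} [AddCommGroup X] [Module F X] (M : Submodule F V) (j : X →ₗ[F] V) (l : X →ₗ[F] F)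
    (h : ∀ a, j a ∈ M → l a = 0) : ∃ y, (∀ a, S.B (j a) y = l a) ∧ ∀ m ∈ M, S.B m y = 0 := by
  haveI : Module.Finite F V := Module.Finite.of_finite
  obtain ⟨d, hd⟩ := Cl.Cu.exists_comp_eq (M.mkQ.comp j) l fun a ha =>
    h a ((Submodule.Quotient.mk_eq_zero M).1 ha)
  obtain ⟨w, hw⟩ := Cl.exists_rep_of_surjective (σ := RingHom.id F) Function.surjective_id S.B (d.comp M.mkQ)
    fun y hy => by rw [S.nd y fun x => S.B_refl (hy x), map_zero]
  have key : ∀ v, S.B v (S.ε • w) = d (M.mkQ v) := fun v => by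
    rw [map_smul, smul_eq_mul, S.B_swap w v, ← mul_assoc, S.ε_sq, one_mul, hw, LinearMap.comp_apply]
  refine ⟨S.ε • w, fun a => (key _).trans (hd a), fun m hm => ?_⟩
  rw [key, M.mkQ_apply, (Submodule.Quotient.mk_eq_zero M).2 hm, map_zero]

variable (S) in
/-- The orthogonal complement. -/
def perp (T : Submodule F V) : Submodule F V where
  carrier := {y | ∀ t ∈ T, S.B t y = 0}
  add_mem' := fun ha hb t ht => by rw [map_add, ha t ht, hb t ht, add_zero]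
  zero_mem' := fun t _ => map_zero _
  smul_mem' := fun c _ ha t ht => by rw [map_smul, ha t ht, smul_zero]

theorem perp_perp {T : Submodule F V} {y : V} (h : ∀ m ∈ perp S T, S.B m y = 0) : y ∈ T := by
  by_contra hy
  obtain ⟨m, h1, h2⟩ := dual (S := S) T (LinearMap.toSpanSingleton F V y) LinearMap.id fun c hc => by
    by_contra h0
    exact hy ((T.smul_mem_iff h0).1 hc)
  have h3 := h1 1
  rw [LinearMap.toSpanSingleton_apply, one_smul, S.B_refl (h m h2)] at h3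
  exact zero_ne_one h3

theorem eich_mem_Ur {T : Submodule F V} (hT : ∀ z ∈ T, ∀ z' ∈ T, S.B z z' = 0) {a y : V} (ha : S.Q a = 0)
    (hy : S.B a y = 0) (h : (a ∈ T ∧ y ∈ perp S T) ∨ (a ∈ perp S T ∧ y ∈ T ∧ S.Q y = 0)) :
    S.eich a y ha hy ∈ S.Ur T := by
  rcases h with ⟨h1, h2⟩ | ⟨h1, h2, h3⟩
  · refine ⟨fun z hz => ?_, fun z hz => ?_⟩
    · simp [eich_app, h2 z hz, hT a h1 z hz]
    · simpa [eich_app, hz a h1] using T.smul_mem _ h1
  · refine ⟨fun z hz => ?_, fun z hz => ?_⟩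
    · simp [eich_app, hT z hz y h2, S.B_refl (h1 z hz)]
    · simpa [eich_app, h3, S.B_refl (hz y h2)] using T.smul_mem _ h2

/-- `β` acts on `W` as `1 + b` and trivially on `W^⊥ / W`. -/
def Good (H : Subgroup (S.hyp k).G) (b : Module.End F (Fin k → F)) : Prop :=
  ∃ β ∈ H, (∀ x, β.1 ((x, 0), 0) = ((x + b x, 0), 0)) ∧ ∀ v, (β.1 (0, v)).1.2 = 0 ∧ (β.1 (0, v)).2 = v

theorem Good.add {H : Subgroup (S.hyp k).G} {b b' : Module.End F (Fin k → F)} (h : Good H b) (h' : Good H b')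
    (h0 : ∀ x, b (b' x) = 0) : Good H (b + b') := by
  obtain ⟨β, hβ, h1, h2⟩ := h
  obtain ⟨β', hβ', h1', h2'⟩ := h'
  refine ⟨β * β', mul_mem hβ hβ', fun x => ?_, fun v => ?_⟩
  · rw [mul_app, h1', h1, map_add, h0, LinearMap.add_apply]
    congr 2
    abel
  · have e : β'.1 (0, v) = (((β'.1 (0, v)).1.1, 0), 0) + (0, v) :=
      Prod.ext (Prod.ext (by simp) (by simpa using (h2' v).1)) (by simpa using (h2' v).2)
    rw [mul_app, e, map_add, h1]
    simp [h2 v]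

theorem good_eich {H : Subgroup (S.hyp k).G} {a : Fin k → F} {y : HV F k V} {ha hy}
    (h : (S.hyp k).eich ((a, 0), 0) y ha hy ∈ H) {b : Module.End F (Fin k → F)} (hb : ∀ x, b x = (x ⬝ᵥ y.1.2) • a) :
    Good H b := by
  refine ⟨_, h, fun x => ?_, fun v => ?_⟩
  · simp [eich_app, B_e, hb]
  · simp [eich_app, B_e]

end Tri1

namespace Fm

open Tri1

variable {F V : Type} [Field F] [Finite F] [AddCommGroup V] [Module F V] [Finite V] {S : Fm F V} {k d e : ℕ}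

theorem conj_eich (g : S.G) {a y : V} (ha : S.Q a = 0) (hy : S.B a y = 0) :
    g * S.eich a y ha hy * g⁻¹ = S.eich (g.1 a) (g.1 y) (by simpa using ha) (by simpa using hy) := by
  refine G_ext fun v => ?_
  obtain ⟨v, rfl⟩ := g.1.surjective v
  simp [eich_app]

theorem exists_dual (M : Submodule F (HV F k V)) (f : Fin k → F)
    (h : ∀ a : Fin k → F, (((a, 0), 0) : HV F k V) ∈ M → a ⬝ᵥ f = 0) :
    ∃ y : HV F k V, y.1.2 = f ∧ ∀ m ∈ M, (S.hyp k).B m y = 0 := by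
  obtain ⟨y, h1, h2⟩ := dual (S := S.hyp k) M (emb F V k) ((dotProductBilin F F).flip f) h
  refine ⟨y, funext fun i => ?_, h2⟩
  simpa [emb_app, B_e] using h1 (Pi.single i 1)

theorem opp {x : (S.hyp k).G} (h : ∀ w ∈ W F V k, (x.1 w).1.2 = 0 → w = 0) :
    ∃ g ∈ S.P k, ∃ g' ∈ S.P k, x = g * S.nn k * g' := by
  haveI : Module.Finite F (HV F k V) := Module.Finite.of_finite
  let ρ : (Fin k → F) →ₗ[F] (Fin k → F) := (pr F V k).comp ((x.1 : HV F k V →ₗ[F] HV F k V).comp (emb F V k))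
  have hi : Function.Injective ρ := (injective_iff_map_eq_zero ρ).2 fun a ha =>
    congrArg (fun z : HV F k V => z.1.1) (h _ (e_mem a) ha)
  let r := LinearEquiv.ofBijective ρ (Finite.injective_iff_bijective.1 hi)
  have hr : ∀ q, (x.1 ((r.symm q, 0), 0)).1.2 = q := fun q => r.apply_symm_apply q
  let κ : ((Fin k → F) × (Fin k → F)) →ₗ[F] HV F k V := (emb F V k).coprod
    ((x.1 : HV F k V →ₗ[F] HV F k V).comp ((emb F V k).comp (r.symm : (Fin k → F) →ₗ[F] (Fin k → F))))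
  have hκ : ∀ u, κ u = ((u.1, 0), 0) + x.1 ((r.symm u.2, 0), 0) := fun u => rfl
  obtain ⟨g, hB, hQ, hg⟩ := (S.hyp k).witt.extend_pair (S.hyp k).nd (LinearMap.inl F _ V) κ
    LinearMap.inl_injective ((injective_iff_map_eq_zero κ).2 fun u hu => by
      have h2 : u.2 = 0 := by simpa [hκ, hr] using congrArg (fun z : HV F k V => z.1.2) hu
      rw [hκ, h2, map_zero] at hu
      have h3 : x.1 ((0, 0), 0) = 0 := map_zero _
      rw [h3, add_zero] at hu
      exact Prod.ext (congrArg (fun z : HV F k V => z.1.1) hu) h2)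
    (fun u u' => by
      rw [hκ, hκ]
      simp only [map_add, LinearMap.add_apply, B_app, (S.hyp k).B_swap ((u'.1, 0), 0) (x.1 _), B_e, hr]
      simp [hyp_B, dotProduct_comm u.2, add_comm])
    fun u => by
      rw [hκ, Q_add, Q_app, Q_e, Q_e, B_e, hr]
      simp [hyp_Q]
  let g0 : (S.hyp k).G := ⟨g, hB, hQ⟩
  have hg0 : ∀ p q, g0.1 ((p, q), 0) = ((p, 0), 0) + x.1 ((r.symm q, 0), 0) := fun p q => hg (p, q)
  refine ⟨g0, mem_St_of fun z hz => ?_, (g0 * S.nn k)⁻¹ * x, mem_St_of fun z hz => ?_, by group⟩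
  · have h3 : x.1 ((0, 0), 0) = 0 := map_zero _
    rw [eq_e hz, hg0, map_zero, h3, add_zero]
    exact e_mem _
  · have h4 : x.1 z = (g0 * S.nn k).1 ((r z.1.1, 0), 0) := by
      rw [mul_app, nn_app, smul_zero, hg0, r.symm_apply_apply, ← eq_e hz]
      exact (zero_add _).symm
    rw [mul_app, h4, inv_app_app]
    exact e_mem _

theorem not_opp {x : (S.hyp k).G} {w : HV F k V} (hw : w ∈ W F V k) (h0 : w ≠ 0) (h : (x.1 w).1.2 = 0) :
    ¬ ∃ g ∈ S.P k, ∃ g' ∈ S.P k, x = g * S.nn k * g' := by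
  rintro ⟨g, hg, g', hg', rfl⟩
  have h1 : g'.1 w ∈ W F V k := (hg' w).1 hw
  have h2 : ((S.nn k).1 (g'.1 w)).1.2 = 0 := (perp_W (S := S)).1 fun t ht => by
    rw [← B_app g]
    exact B_W ((hg t).1 ht) h
  rw [nn_app] at h2
  have h3 : g'.1 w = 0 := Prod.ext (Prod.ext h2 h1.1) h1.2
  exact h0 (g'.1.injective (h3.trans (map_zero _).symm))

theorem lift (H : Subgroup (S.hyp k).G) (A : Submodule F (Fin k → F)) (Y : Submodule F (HV F k V))
    (hY : ∀ a ∈ A, ∀ y ∈ Y, a ⬝ᵥ y.1.2 = 0)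
    (hf : ∀ f : Fin k → F, (∀ a ∈ A, a ⬝ᵥ f = 0) → ∃ y ∈ Y, y.1.2 = f)
    (hH : ∀ a ∈ A, ∀ y ∈ Y, ∀ ha hy, (S.hyp k).eich ((a, 0), 0) y ha hy ∈ H) (b : Cl.Cu.rad A) :
    ∃ β ∈ H, ∃ u : GL (Fin k) F, (∀ x, (u : Matrix (Fin k) (Fin k) F) *ᵥ x = x + b.1 x) ∧
      β * (S.lev k (u, 1))⁻¹ ∈ S.U k := by
  classical
  let B := Module.finBasis F A
  let l : Fin (finrank F A) → (Fin k → F) →ₗ[F] F := fun i => (B.coord i).comp (b.1.codRestrict A b.2.1)
  have hl : ∀ i, ∀ a ∈ A, l i a = 0 := fun i a ha => by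
    have : b.1.codRestrict A b.2.1 a = 0 := Subtype.ext (b.2.2 a ha)
    simp only [l, LinearMap.comp_apply, this, map_zero]
  let c : Fin (finrank F A) → Module.End F (Fin k → F) := fun i => (l i).smulRight (B i : Fin k → F)
  have hb : b.1 = ∑ i, c i := LinearMap.ext fun x => by
    have := congrArg A.subtype (B.sum_repr (b.1.codRestrict A b.2.1 x))
    rw [map_sum] at this
    rw [LinearMap.sum_apply]
    exact this.symm
  have hc : ∀ i, c i ∈ Cl.Cu.rad A ∧ Good H (c i) := fun i => by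
    refine ⟨⟨fun v => A.smul_mem _ (B i).2, fun v hv => by simp [c, hl i v hv]⟩, ?_⟩
    have hd : ∀ x, x ⬝ᵥ (fun j => l i (Pi.single j 1)) = l i x := fun x => by
      conv_rhs => rw [pi_eq_sum_univ' x, map_sum]
      simp [dotProduct]
    obtain ⟨y, hy, e⟩ := hf (fun j => l i (Pi.single j 1)) fun a ha => by rw [hd, hl i a ha]
    exact good_eich (hH _ (B i).2 y hy (Q_e _) (by rw [B_e, hY _ (B i).2 y hy])) fun x => by
      rw [e, hd]; rfl
  have hg : (∑ i, c i) ∈ Cl.Cu.rad A ∧ Good H (∑ i, c i) :=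
    Finset.sum_induction c (fun b => b ∈ Cl.Cu.rad A ∧ Good H b)
      (fun b b' h h' => ⟨add_mem h.1 h'.1, h.2.add h'.2 fun x => h.1.2 _ (h'.1.1 x)⟩)
      ⟨zero_mem _, 1, one_mem _, fun x => by simp, fun v => by simp⟩ fun i _ => hc i
  rw [← hb] at hg
  obtain ⟨β, hβ, h1, h2⟩ := hg.2
  have hbb : LinearMap.toMatrix' b.1 * LinearMap.toMatrix' b.1 = 0 := by
    rw [← LinearMap.toMatrix'_mul, show b.1 * b.1 = 0 from LinearMap.ext fun x => b.2.2 _ (b.2.1 x), map_zero]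
  let u : GL (Fin k) F := ⟨1 + LinearMap.toMatrix' b.1, 1 - LinearMap.toMatrix' b.1,
    by rw [mul_sub, add_mul, add_mul, hbb]; simp, by rw [mul_add, sub_mul, sub_mul, hbb]; simp⟩
  have hu : ∀ x, (u : Matrix (Fin k) (Fin k) F) *ᵥ x = x + b.1 x := fun x => by
    change (1 + LinearMap.toMatrix' b.1) *ᵥ x = _
    rw [add_mulVec, one_mulVec, LinearMap.toMatrix'_mulVec]
  exact ⟨β, hβ, u, hu, mem_U_of (fun x => by rw [h1, hu]) fun v => (h2 v).2⟩

theorem tri1_van {θ : GL (Fin k) F → ℂ} {ψ : S.G → ℂ} {φ : (S.hyp k).G → ℂ} (hθ : Cusp F k θ)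
    (hφ : S.IsPhi k θ ψ φ) {K : Subgroup (S.hyp k).G} (hK : (S.hyp k).EK K) (x : (S.hyp k).G)
    (A : Submodule F (Fin k → F)) (h0 : A ≠ ⊥) (h1 : A ≠ ⊤) (Y : Submodule F (HV F k V))
    (hY : ∀ a ∈ A, ∀ y ∈ Y, a ⬝ᵥ y.1.2 = 0)
    (hf : ∀ f : Fin k → F, (∀ a ∈ A, a ⬝ᵥ f = 0) → ∃ y ∈ Y, y.1.2 = f)
    (hU : ∀ a ∈ A, ∀ y ∈ Y, ((x⁻¹).1 ((a, 0), 0) ∈ W F V k ∧ (x⁻¹).1 y ∈ perp (S.hyp k) (W F V k)) ∨
      ((x⁻¹).1 ((a, 0), 0) ∈ perp (S.hyp k) (W F V k) ∧ (x⁻¹).1 y ∈ W F V k ∧ (S.hyp k).Q ((x⁻¹).1 y) = 0)) :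
    Van K (S.P k) φ x := by
  classical
  have hl := lift (S := S) ((K ⊓ S.U k).comap (MulAut.conj x⁻¹).toMonoidHom) A Y hY hf fun a ha y hy h2 h3 => by
    change x⁻¹ * _ * x⁻¹⁻¹ ∈ K ⊓ S.U k
    rw [conj_eich]
    exact ⟨hK _ _ _ _, eich_mem_Ur (fun z hz z' hz' => B_W hz hz'.1) _ _ (hU a ha y hy)⟩
  choose β hβ u hu hβu using hl
  haveI : Finite (Module.End F (Fin k → F)) := Finite.of_injective _ DFunLike.coe_injective
  letI : Fintype (Cl.Cu.rad A) := Fintype.ofFinite _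
  have hx : ∀ b, x * (x⁻¹ * β b * x⁻¹⁻¹) * x⁻¹ = β b := fun b => by group
  refine ⟨Unit, inferInstance, 1, fun _ => φ, fun _ => Cl.Cu.rad A, fun _ => inferInstance,
    fun _ b => x⁻¹ * β b * x⁻¹⁻¹, one_ne_zero, fun _ => ⟨0⟩, fun g _ => by simp,
    fun _ b => ⟨(hβ b).1, Ur_le_St _ (hβ b).2, ?_⟩, fun _ b g hg => ?_, fun _ g hg => ?_⟩
  · rw [hx]
    have := mul_mem (Ur_le_St _ (hβu b)) (lev_mem_P (S := S) (u b) 1)
    rwa [inv_mul_cancel_right] at this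
  · obtain ⟨v, hv, a, g0, rfl⟩ := exists_dec hg
    have h3 : x⁻¹ * β b * x⁻¹⁻¹ * (S.lev k (1, 1))⁻¹ ∈ S.U k := by
      rw [show ((1 : GL (Fin k) F), (1 : S.G)) = 1 from rfl, map_one, inv_one, mul_one]
      exact (hβ b).2
    exact (hφ.mul hv a g0 h3).trans (by rw [mul_one, mul_one]; exact (hφ v hv a g0).symm)
  · obtain ⟨v, hv, a, g0, rfl⟩ := exists_dec hg
    simp only [hx, hφ.mul hv a g0 (hβu _)]
    rw [← Finset.sum_mul, hθ.cusp A h0 h1 u hu, zero_mul]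

theorem tri_base {θ : GL (Fin k) F → ℂ} {ψ : S.G → ℂ} {φ : (S.hyp k).G → ℂ} (hθ : Cusp F k θ)
    (hφ : S.IsPhi k θ ψ φ) {K : Subgroup (S.hyp k).G} (hK : (S.hyp k).EK K) (x : (S.hyp k).G) :
    x ∈ S.P k ∨ (∃ g ∈ S.P k, ∃ g' ∈ S.P k, x = g * S.nn k * g') ∨ Van K (S.P k) φ x ∨ S.Mid k x := by
  let T : Submodule F (HV F k V) := (W F V k).comap ((x⁻¹).1 : HV F k V →ₗ[F] HV F k V)
  have hT : ∀ z, z ∈ T ↔ (x⁻¹).1 z ∈ W F V k := fun z => Iff.rfl
  have hT' : ∀ w ∈ W F V k, x.1 w ∈ T := fun w hw => by rwa [hT, inv_app_app]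
  have hp : ∀ y ∈ perp (S.hyp k) T, (x⁻¹).1 y ∈ perp (S.hyp k) (W F V k) := fun y hy t ht => by
    rw [← B_app x, app_inv_app]
    exact hy _ (hT' t ht)
  by_cases hA1 : T.comap (emb F V k) = ⊤
  · refine .inl (inv_mem_iff.1 (mem_St_of fun z hz => ?_))
    rw [eq_e hz]
    exact (hA1.ge Submodule.mem_top : z.1.1 ∈ T.comap (emb F V k))
  by_cases hA0 : T.comap (emb F V k) = ⊥
  swap
  · refine .inr (.inr (.inl (tri1_van hθ hφ hK x _ hA0 hA1 (perp (S.hyp k) T) (fun a ha y hy => ?_)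
      (fun f hf => ?_) fun a ha y hy => .inl ⟨ha, hp y hy⟩)))
    · rw [← B_e (S := S)]
      exact hy _ ha
    · obtain ⟨y, h1, h2⟩ := exists_dual (S := S) T f hf
      exact ⟨y, h2, h1⟩
  have hf : ∀ f : Fin k → F, (∀ a ∈ (perp (S.hyp k) T).comap (emb F V k), a ⬝ᵥ f = 0) → ∃ y ∈ T, y.1.2 = f :=
    fun f hf => by
      obtain ⟨y, h1, h2⟩ := exists_dual (S := S) (perp (S.hyp k) T) f hf
      exact ⟨y, perp_perp h2, h1⟩
  by_cases hC0 : (perp (S.hyp k) T).comap (emb F V k) = ⊥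
  · refine .inr (.inl (opp fun w hw h => ?_))
    let ρ : (Fin k → F) →ₗ[F] (Fin k → F) := (pr F V k).comp ((x.1 : HV F k V →ₗ[F] HV F k V).comp (emb F V k))
    have hs : Function.Surjective ρ := fun f => by
      obtain ⟨y, hy, e⟩ := hf f fun a ha => by rw [(Submodule.mem_bot F).1 (hC0.le ha), zero_dotProduct]
      refine ⟨((x⁻¹).1 y).1.1, ?_⟩
      change (x.1 ((((x⁻¹).1 y).1.1, 0), 0)).1.2 = f
      rw [← eq_e ((hT y).1 hy), app_inv_app, e]
    have h2 : w.1.1 = 0 := (injective_iff_map_eq_zero ρ).1 (Finite.injective_iff_surjective.2 hs) _ (by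
      change (x.1 ((w.1.1, 0), 0)).1.2 = 0
      rw [← eq_e hw, h])
    exact Prod.ext (Prod.ext h2 hw.1) hw.2
  by_cases hC1 : (perp (S.hyp k) T).comap (emb F V k) = ⊤
  · refine .inr (.inr (.inr ⟨fun w hw => (perp_W (S := S)).1 fun t ht => ?_, fun w hw h => ?_⟩))
    · rw [eq_e ht]
      exact (S.hyp k).B_refl ((hC1.ge Submodule.mem_top : t.1.1 ∈ (perp (S.hyp k) T).comap (emb F V k)) _ (hT' w hw))
    · have h2 : (x.1 w).1.1 ∈ T.comap (emb F V k) := by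
        change (((x.1 w).1.1, 0), 0) ∈ T
        rw [← eq_e h]
        exact hT' w hw
      have h3 : x.1 w = 0 := Prod.ext (Prod.ext ((Submodule.mem_bot F).1 (hA0.le h2)) h.1) h.2
      exact x.1.injective (h3.trans (map_zero _).symm)
  refine .inr (.inr (.inl (tri1_van hθ hφ hK x _ hC0 hC1 T (fun a ha y hy => ?_) hf
    fun a ha y hy => .inr ⟨hp _ ha, hy, Q_W hy⟩)))
  rw [← B_e (S := S)]
  exact (S.hyp k).B_refl (ha y hy)

theorem Ty.not_mid (hT : S.Ty d e) (h : d < k) (x : (S.hyp k).G) : ¬ S.Mid k x := by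
  rintro ⟨h1, h2⟩
  let κ : ((Fin k → F) × (Fin k → F)) →ₗ[F] HV F k V :=
    (emb F V k).coprod ((x.1 : HV F k V →ₗ[F] HV F k V).comp (emb F V k))
  have hκ : ∀ u, κ u = ((u.1, 0), 0) + x.1 ((u.2, 0), 0) := fun u => rfl
  have hi : Function.Injective κ := (injective_iff_map_eq_zero κ).2 fun u hu => by
    rw [hκ] at hu
    have h3 := h2 _ (e_mem u.2) (by rw [← neg_eq_of_add_eq_zero_right hu]; exact neg_mem (e_mem _))
    rw [h3, map_zero, add_zero] at hu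
    exact Prod.ext (congrArg (fun z : HV F k V => z.1.1) hu) (congrArg (fun z : HV F k V => z.1.1) h3)
  have h4 := (hT.hyp k).witt_le (LinearMap.range κ) (by
    rintro _ ⟨u, rfl⟩ _ ⟨u', rfl⟩
    rw [hκ, hκ]
    simp only [map_add, LinearMap.add_apply, B_app, (S.hyp k).B_swap ((u'.1, 0), 0) (x.1 _), B_e,
      h1 _ (e_mem _)]
    simp) (by
    rintro _ ⟨u, rfl⟩
    rw [hκ, Q_add, Q_app, Q_e, Q_e, B_e, h1 _ (e_mem _)]
    simp)
  rw [LinearMap.finrank_range_of_inj hi] at h4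
  simp only [finrank_prod, finrank_fintype_fun_eq_card, Fintype.card_fin] at h4
  omega

end Fm

end Cfsg.Agent.DG
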