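import Mathlib
import Cfsg.Agent.DG.Tri1

set_option autoImplicit false

namespace Cfsg.Agent.DG

open Module Matrix Finset
open scoped ComplexConjugate

namespace Fm

variable {F V : Type} [Field F] [Finite F] [AddCommGroup V] [Module F V] [Finite V] {S : Fm F V} {k d e : ℕ}

theorem tri2_P (hk : 0 < k) {β : (S.hyp k).G} {a : GL (Fin k) F} {g : S.G}
    (h : β * (S.lev k (a, g))⁻¹ ∈ S.U k) : β ∈ S.P k := by
  have := mul_mem ((isPar hk).UP h) (lev_mem_P a g)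
  rwa [inv_mul_cancel_right] at this

/-- The general shape of the vanishing data. -/
theorem tri2_van (hk : 0 < k) {θ : GL (Fin k) F → ℂ} {ψ : S.G → ℂ} {φ : (S.hyp k).G → ℂ} (hφ : S.IsPhi k θ ψ φ)
    {K : Subgroup (S.hyp k).G} {x : (S.hyp k).G} {J : Type} [Fintype J] {c : ℂ} (hc : c ≠ 0) {f : J → S.G → ℂ}
    (hf : ∀ g, c * ψ g = ∑ j, f j g)
    (h : ∀ j, ∃ (I : Type) (_ : Fintype I) (_ : Nonempty I) (β : I → (S.hyp k).G) (a : I → GL (Fin k) F)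
      (b : I → S.G), (∀ i, x⁻¹ * β i * x ∈ K ∧ β i * (S.lev k (a i, b i))⁻¹ ∈ S.U k ∧
        ∃ s, x⁻¹ * β i * x * (S.lev k (1, s))⁻¹ ∈ S.U k ∧ ∀ g, f j (g * s) = f j g) ∧
      ∀ a' g, ∑ i, θ (a' * a i) * ψ (g * b i) = 0) : Van K (S.P k) φ x := by
  choose I hI hN β a b h1 h2 using h
  choose Φ hΦ using fun j => exists_isPhi (k := k) θ (f j)
  have e : ∀ j i, x * (x⁻¹ * β j i * x) * x⁻¹ = β j i := fun j i => by group
  refine ⟨J, inferInstance, c, Φ, I, hI, fun j i => x⁻¹ * β j i * x, hc, hN, fun g hg => ?_,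
    fun j i => ⟨(h1 j i).1, tri2_P hk (h1 j i).2.2.choose_spec.1, (e j i).symm ▸ tri2_P hk (h1 j i).2.1⟩,
    fun j i g hg => ?_, fun j g hg => ?_⟩ <;> obtain ⟨u, hu, a', g', rfl⟩ := exists_dec hg
  · rw [hφ u hu, mul_left_comm, hf, mul_sum]
    exact sum_congr rfl fun j _ => (hΦ j u hu a' g').symm
  · obtain ⟨s, k1, k2⟩ := (h1 j i).2.2
    rw [(hΦ j).mul hu a' g' k1, mul_one, k2, hΦ j u hu]
  · rw [← h2 j a' g']
    exact sum_congr rfl fun i _ => by rw [e, hφ.mul hu a' g' (h1 j i).2.1]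

/-- An element fixing `W` pointwise. -/
theorem tri2_dec {α : (S.hyp k).G} (h : ∀ w ∈ W F V k, α.1 w = w) :
    ∃ s, α * (S.lev k (1, s))⁻¹ ∈ S.U k ∧ ∀ v, (α.1 (0, v)).2 = s.1 v := by
  obtain ⟨u, hu, a, s, e⟩ := exists_dec (β := α) fun z => ⟨fun hz => (h z hz).symm ▸ hz, fun hz =>
    α.1.injective (h _ hz) ▸ hz⟩
  have h2 : ∀ v, (α.1 (0, v)).2 = s.1 v := fun v => by
    have h1 := (hu.2 (0, s.1 v) (perp_W.2 rfl)).2
    rw [e, mul_app, lev_app]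
    simpa [sub_eq_zero, Prod.mk_zero_zero] using h1
  exact ⟨s, mem_U_of (fun y => by rw [h _ ⟨rfl, rfl⟩]; simp) h2, h2⟩

/-- The pointwise stabiliser of a set. -/
def tri2_fix (S : Fm F V) (X : Set V) : Subgroup S.G where
  carrier := {g | ∀ z ∈ X, g.1 z = z}
  mul_mem' {a b} ha hb := fun z hz => by rw [mul_app, hb z hz, ha z hz]
  one_mem' := fun _ _ => rfl
  inv_mem' {a} ha := fun z hz => by conv_lhs => rw [← ha z hz, inv_app_app]

theorem tri2_B (a : Fin k → F) (y : HV F k V) : (S.hyp k).B ((a, 0), 0) y = a ⬝ᵥ y.1.2 := by simp [hyp_B]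

theorem tri2_a (hk : 2 ≤ k) {T : Submodule F (HV F k V)} (h1 : ∀ t ∈ T, t.1.2 = 0)
    (h2 : ∀ t ∈ T, t ∈ W F V k → t = 0) (z : HV F k V) : ∃ a : Fin k → F, a ≠ 0 ∧ a ⬝ᵥ z.1.2 = 0 ∧
      ∀ w ∈ W F V k, w ∈ T ⊔ Submodule.span F {((a, 0), 0), z} → ∃ c : F, w = c • ((a, 0), 0) := by
  by_cases h : ∃ w ∈ W F V k, w ≠ 0 ∧ ∃ t ∈ T, z = w + t
  · obtain ⟨⟨⟨a, b⟩, v⟩, ⟨rfl, rfl⟩, h0, t, ht, rfl⟩ := h
    refine ⟨a, fun e => h0 (by rw [e]; rfl), by simp [h1 t ht], fun w hw hm => ?_⟩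
    obtain ⟨t', ht', y, hy, rfl⟩ := Submodule.mem_sup.1 hm
    obtain ⟨p, q, rfl⟩ := Submodule.mem_span_pair.1 hy
    have h3 := h2 _ (T.add_mem ht' (T.smul_mem q ht)) (by
      have := (W F V k).sub_mem hw ((W F V k).smul_mem (p + q) (x := ((a, 0), 0)) ⟨rfl, rfl⟩)
      convert this using 1
      module)
    exact ⟨p + q, by linear_combination (norm := module) h3⟩
  · obtain ⟨a, ha, h0⟩ := (Submodule.ne_bot_iff _).1 (LinearMap.ker_ne_bot_of_finrank_lt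
      (f := (dotProductBilin F F).flip z.1.2) (by simp; omega))
    refine ⟨a, h0, ha, fun w hw hm => ?_⟩
    obtain ⟨t', ht', y, hy, rfl⟩ := Submodule.mem_sup.1 hm
    obtain ⟨p, q, rfl⟩ := Submodule.mem_span_pair.1 hy
    have h4 := (W F V k).sub_mem hw ((W F V k).smul_mem p (x := ((a, 0), 0)) ⟨rfl, rfl⟩)
    rw [show t' + (p • ((a, 0), 0) + q • z) - p • ((a, 0), 0) = t' + q • z by module] at h4
    refine ⟨p, ?_⟩
    suffices t' + q • z = 0 by linear_combination (norm := module) this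
    by_cases hq : q = 0
    · rw [hq, zero_smul, add_zero] at h4 ⊢
      exact h2 _ ht' h4
    · by_contra h5
      exact h ⟨_, (W F V k).smul_mem q⁻¹ h4, smul_ne_zero (inv_ne_zero hq) h5, _, T.smul_mem (-q⁻¹) ht', by
        rw [smul_add, smul_smul, inv_mul_cancel₀ hq]; module⟩

theorem van_V {θ : GL (Fin k) F → ℂ} {ψ : S.G → ℂ} {φ : (S.hyp k).G → ℂ} (hθ : Cusp F k θ)
    (hφ : S.IsPhi k θ ψ φ) {K : Subgroup (S.hyp k).G} (hK : (S.hyp k).EK K) (hk : 2 ≤ k) (hψ : S.SplV ψ)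
    {x : (S.hyp k).G} (hx : S.Mid k x) : Van K (S.P k) φ x := by
  obtain ⟨J, _, c, f, z, hc, hf, hz⟩ := hψ
  refine tri2_van (by omega) hφ hc hf fun j => ?_
  let T := (W F V k).map (x.1 : HV F k V →ₗ[F] HV F k V)
  have h1 : ∀ t ∈ T, t.1.2 = 0 := by
    rintro _ ⟨w, hw, rfl⟩
    exact hx.1 w hw
  obtain ⟨a, a0, a1, a2⟩ := tri2_a hk h1 (by
    rintro _ ⟨w, hw, rfl⟩ h
    rw [hx.2 w hw h, map_zero]) (x.1 (0, z j))
  let M := T ⊔ Submodule.span F {((a, 0), 0), x.1 (0, z j)}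
  let A := Submodule.span F {a}
  let Y : Submodule F (HV F k V) := ⨅ m ∈ M, LinearMap.ker ((S.hyp k).B m)
  have hY : ∀ {y}, y ∈ Y ↔ ∀ m ∈ M, (S.hyp k).B m y = 0 := by simp [Y]
  let H := K.comap (MulAut.conj x⁻¹).toMonoidHom ⊓ tri2_fix (S.hyp k) (T ∪ {x.1 (0, z j)})
  have hA : ∀ a' ∈ A, ∃ c : F, a' = c • a := fun a' h => by
    obtain ⟨c, rfl⟩ := Submodule.mem_span_singleton.1 h
    exact ⟨c, rfl⟩
  have m1 : (((a, 0), 0) : HV F k V) ∈ M := Submodule.mem_sup_right (Submodule.subset_span (by simp))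
  have m2 : x.1 (0, z j) ∈ M := Submodule.mem_sup_right (Submodule.subset_span (by simp))
  choose β hβ u hu hU using lift (S := S) H A Y (fun a' ha' y hy => by
      obtain ⟨c, rfl⟩ := hA a' ha'
      rw [smul_dotProduct, ← tri2_B (S := S), hY.1 hy _ m1, smul_zero])
    (fun g hg => by
      obtain ⟨y, e, hy⟩ := exists_dual (S := S) M g fun a' ha' => by
        obtain ⟨c, e⟩ := a2 _ ⟨rfl, rfl⟩ ha'
        exact hg _ (Submodule.mem_span_singleton.2 ⟨c, (congrArg (·.1.1) e).symm⟩)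
      exact ⟨y, hY.2 hy, e⟩)
    (fun a' ha' y hy q1 q2 => by
      obtain ⟨c, rfl⟩ := hA a' ha'
      refine ⟨?_, fun v hv => ?_⟩
      · exact (show x⁻¹ * _ * x⁻¹⁻¹ ∈ K from (conj_eich x⁻¹ q1 q2).symm ▸ hK _ _ _ _)
      · have e1 : (S.hyp k).B v y = 0 := hY.1 hy v (hv.elim (fun h => Submodule.mem_sup_left h) fun h => h ▸ m2)
        have e2 : (S.hyp k).B ((c • a, 0), 0) v = 0 := by
          rw [tri2_B, smul_dotProduct]
          rcases hv with h | h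
          · rw [h1 v h, dotProduct_zero, smul_zero]
          · rw [h, a1, smul_zero]
        rw [eich_app, e1, e2]
        simp)
  haveI : Finite (Module.End F (Fin k → F)) := Finite.of_injective _ DFunLike.coe_injective
  letI : Fintype (Cl.Cu.rad A) := Fintype.ofFinite _
  refine ⟨Cl.Cu.rad A, inferInstance, ⟨0⟩, β, u, fun _ => 1, fun b => ⟨by simpa using (hβ b).1, hU b, ?_⟩,
    fun a' g => ?_⟩
  · obtain ⟨s, s1, s2⟩ := tri2_dec (α := x⁻¹ * β b * x) fun w hw => by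
      rw [mul_app, mul_app, (hβ b).2 (x.1 w) (Or.inl ⟨w, hw, rfl⟩), inv_app_app]
    refine ⟨s, s1, fun g => hz j g s ?_⟩
    rw [← s2, mul_app, mul_app, (hβ b).2 _ (Or.inr rfl), inv_app_app]
  · rw [← sum_mul, hθ.cusp A (by simpa [A] using a0) (fun e => ?_) u hu, zero_mul]
    have := finrank_span_singleton (K := F) a0
    rw [show Submodule.span F {a} = ⊤ from e, finrank_top, finrank_fin_fun] at this
    omega

/-- The basis vector of `W` for `k = 1`. -/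
def tri2_e (F V : Type) [Field F] [AddCommGroup V] : HV F 1 V := ((fun _ => 1, 0), 0)

theorem tri2_eW : tri2_e F V ∈ W F V 1 := ⟨rfl, rfl⟩

theorem tri2_e_ne : tri2_e F V ≠ 0 := fun h => one_ne_zero (congrArg (·.1.1 0) h)

theorem tri2_eq {w : HV F 1 V} (h : w ∈ W F V 1) : w = w.1.1 0 • tri2_e F V := by
  obtain ⟨⟨a, b⟩, v⟩ := w
  obtain ⟨rfl, rfl⟩ := h
  refine Prod.ext (Prod.ext (funext fun i => ?_) (by simp [tri2_e])) (by simp [tri2_e])
  simp [tri2_e, Subsingleton.elim i 0]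

theorem tri2_Be (y : HV F 1 V) : (S.hyp 1).B (tri2_e F V) y = y.1.2 0 := by
  rw [tri2_e, tri2_B]; simp [dotProduct]

theorem tri2_Qe : (S.hyp 1).Q (tri2_e F V) = 0 := by simp [tri2_e, hyp_Q]

theorem tri2_f (M : Submodule F (HV F 1 V)) (h1 : ∀ m ∈ M, m.1.2 = 0) (h2 : ∀ m ∈ M, m ∈ W F V 1 → m = 0) :
    ∃ f, (S.hyp 1).B (tri2_e F V) f = 1 ∧ (S.hyp 1).Q f = 0 ∧ ∀ m ∈ M, (S.hyp 1).B m f = 0 := by
  obtain ⟨y, e1, hy⟩ := exists_dual (S := S) M (fun _ => 1) fun a ha => by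
    rw [show a = 0 from congrArg (·.1.1) (h2 _ ha ⟨rfl, rfl⟩), zero_dotProduct]
  have e2 : (S.hyp 1).B (tri2_e F V) y = 1 := by rw [tri2_Be, e1]
  refine ⟨y - (S.hyp 1).Q y • tri2_e F V, ?_, ?_, fun m hm => ?_⟩
  · rw [map_sub, map_smul, e2, B_self, tri2_Qe]; simp
  · rw [Q_sub, Q_smul, tri2_Qe, map_smul, B_swap, e2, smul_eq_mul]
    linear_combination (-(S.hyp 1).Q y) * (S.hyp 1).δ_ε - (S.hyp 1).δ_Q y
  · rw [map_sub, map_smul, hy m hm, (S.hyp 1).B_refl (x := tri2_e F V) (by rw [tri2_Be, h1 m hm]; rfl)]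
    simp

/-- The torus of a hyperbolic pair. -/
theorem tri2_tor (S : Fm F V) {p q : V} (h : S.B p q = 1) (hp : S.Q p = 0) (hq : S.Q q = 0) {t t' : F}
    (ht : t * t' = 1) : ∃ β : S.G, ∀ v, β.1 v = v + ((t - 1) * S.B v q) • p + ((t' - 1) * S.B p v) • q := by
  have h1 : S.B p p = 0 := by rw [B_self, hp, mul_zero]
  have h2 : S.B q q = 0 := by rw [B_self, hq, mul_zero]
  obtain ⟨L, e⟩ : ∃ L : V →ₗ[F] V, ∀ v, L v = v + ((t - 1) * S.B v q) • p + ((t' - 1) * S.B p v) • q :=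
    ⟨LinearMap.id + (S.B.flip q).smulRight ((t - 1) • p) + (S.B p).smulRight ((t' - 1) • q), fun v => by
      simp [smul_smul, mul_comm]⟩
  refine ⟨S.mk' L (fun v w => ?_) (fun v => ?_), e⟩
  · simp only [e, map_add, map_smul, LinearMap.add_apply, LinearMap.smul_apply, smul_eq_mul, h, h1, h2,
      S.B_swap p v, S.B_swap w q, S.B_swap p q]
    linear_combination (S.B v q * S.B p w + S.ε * S.B p v * S.B w q) * ht
  · simp only [e, Q_add, Q_smul, map_add, map_smul, LinearMap.add_apply, LinearMap.smul_apply, smul_eq_mul, h,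
      hp, hq, S.B_swap p v]
    linear_combination (S.δ * S.B v q * S.B p v) * ht + ((t - 1) * S.B v q * S.B p v) * S.δ_ε

theorem van_P {θ : GL (Fin 1) F → ℂ} {ψ : S.G → ℂ} {φ : (S.hyp 1).G → ℂ} (hθ : IsIrrCharacter _ θ)
    (h1 : θ ≠ fun _ => 1) (hφ : S.IsPhi 1 θ ψ φ) (hψ : S.SplP ψ) {x : (S.hyp 1).G} (hx : S.Mid 1 x) :
    Van ⊤ (S.P 1) φ x := by
  obtain ⟨J, _, c, f, z, hc, hf, hQ, hz⟩ := hψ
  refine tri2_van one_pos hφ hc hf fun j => ?_
  obtain ⟨t, ht⟩ : ∃ t, t = x.1 (tri2_e F V) := ⟨_, rfl⟩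
  obtain ⟨y, hy⟩ : ∃ y, y = x.1 (0, z j) := ⟨_, rfl⟩
  have t1 : t.1.2 = 0 := ht ▸ hx.1 _ tri2_eW
  have t2 : ∀ a : F, a • t ∈ W F V 1 → a • t = 0 := fun a h => by
    rw [ht, ← map_smul] at h ⊢
    rw [hx.2 _ (Submodule.smul_mem _ _ tri2_eW) h, map_zero]
  have t3 : (S.hyp 1).B (tri2_e F V) t = 0 := by rw [tri2_Be, t1]; rfl
  have y1 : (S.hyp 1).Q y = 0 := by rw [hy, Q_app, hyp_Q, hQ]; simp
  have y2 : (S.hyp 1).B t y = 0 := by rw [ht, hy, B_app, tri2_Be]; rfl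
  obtain ⟨q, q1, q2, q3, q4⟩ : ∃ q, (S.hyp 1).B (tri2_e F V) q = 1 ∧ (S.hyp 1).Q q = 0 ∧ (S.hyp 1).B t q = 0 ∧
      ∀ a b : F, ∃ m n : F, y + (a * (S.hyp 1).B y q) • tri2_e F V + (b * (S.hyp 1).B (tri2_e F V) y) • q =
        m • y + n • t := by
    by_cases e1 : (S.hyp 1).B (tri2_e F V) y = 0
    · by_cases e2 : ∃ m n : F, y = m • tri2_e F V + n • t
      · obtain ⟨m, n, e2⟩ := e2
        obtain ⟨q, q1, q2, q3⟩ := tri2_f (S := S) (Submodule.span F {t}) (fun w hw => by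
          obtain ⟨a, rfl⟩ := Submodule.mem_span_singleton.1 hw
          simp [t1]) fun w hw h => by
          obtain ⟨a, rfl⟩ := Submodule.mem_span_singleton.1 hw
          exact t2 a h
        have q4 := q3 t (Submodule.mem_span_singleton_self t)
        refine ⟨q, q1, q2, q4, fun a b => ⟨1 + a, -(a * n), ?_⟩⟩
        rw [e1, show (S.hyp 1).B y q = m by rw [e2]; simp [q1, q4], e2]
        module
      · obtain ⟨q, q1, q2, q3⟩ := tri2_f (S := S) (Submodule.span F {t, y}) (fun w hw => by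
          obtain ⟨a, b, rfl⟩ := Submodule.mem_span_pair.1 hw
          have : y.1.2 = 0 := funext fun i => by rw [Subsingleton.elim i 0, ← tri2_Be (S := S), e1]; rfl
          simp [t1, this]) fun w hw h => by
          obtain ⟨a, b, rfl⟩ := Submodule.mem_span_pair.1 hw
          by_cases hb : b = 0
          · rw [hb, zero_smul, add_zero] at h ⊢
            exact t2 a h
          · refine absurd ⟨b⁻¹ * (a • t + b • y).1.1 0, -(b⁻¹ * a), ?_⟩ e2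
            rw [mul_smul, ← tri2_eq h, smul_add, smul_smul b⁻¹ b, inv_mul_cancel₀ hb]
            module
        refine ⟨q, q1, q2, q3 t (Submodule.subset_span (by simp)), fun a b => ⟨1, 0, ?_⟩⟩
        rw [e1, q3 y (Submodule.subset_span (by simp))]
        module
    · refine ⟨((S.hyp 1).B (tri2_e F V) y)⁻¹ • y, by simp [e1], by rw [Q_smul, y1, mul_zero], by simp [y2],
        fun a b => ⟨1 + b, 0, ?_⟩⟩
      rw [map_smul, B_self, y1, smul_smul, mul_assoc b, mul_inv_cancel₀ e1]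
      simp [add_smul]
  have inv : ∀ a : GL (Fin 1) F, a 0 0 * a⁻¹ 0 0 = 1 := fun a => by
    simpa [Matrix.mul_apply] using congrFun (congrFun a.mul_inv 0) 0
  choose β hβ using fun a : GL (Fin 1) F => tri2_tor (S.hyp 1) q1 tri2_Qe q2 (inv a)
  have ee : (S.hyp 1).B (tri2_e F V) (tri2_e F V) = 0 := by rw [tri2_Be]; rfl
  letI : Fintype (GL (Fin 1) F) := Fintype.ofFinite _
  refine ⟨GL (Fin 1) F, inferInstance, ⟨1⟩, β, id, fun _ => 1, fun a => ⟨trivial, mem_U_of (fun v => ?_) fun v => ?_,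
    ?_⟩, fun a g => ?_⟩
  · rw [tri2_eq (w := ((v, 0), 0)) ⟨rfl, rfl⟩, tri2_eq (w := ((_ *ᵥ v, 0), 0)) ⟨rfl, rfl⟩, map_smul, hβ, q1, ee]
    simp only [mulVec, dotProduct, Fin.sum_univ_one, id]
    module
  · rw [hβ, tri2_Be]
    simp [tri2_e]
  · obtain ⟨s, s1, s2⟩ := tri2_dec (α := x⁻¹ * β a * x) fun w hw => by
      rw [tri2_eq hw, map_smul, mul_app, mul_app, ← ht, hβ, q3, t3]
      simp [ht]
    obtain ⟨m, n, e⟩ := q4 (a 0 0 - 1) (a⁻¹ 0 0 - 1)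
    refine ⟨s, s1, fun g => hz j g s ⟨m, ?_⟩⟩
    rw [← s2, mul_app, mul_app, ← hy, hβ, e, hy, ht, map_add, map_smul, map_smul, inv_app_app, inv_app_app]
    simp [tri2_e]
  · rw [← sum_mul, ← zero_mul (ψ (g * 1)), ← hθ.sum_eq_zero h1]
    exact congrArg (· * _) (Equiv.sum_comp (Equiv.mulLeft a) θ)

theorem van_T [Fintype F] (ho : S.o = false) {θ : GL (Fin 1) F → ℂ} {ψ : S.G → ℂ} {φ : (S.hyp 1).G → ℂ}
    (hφ : S.IsPhi 1 θ ψ φ) (hψ : ∀ v, v ≠ 0 → ∀ g, ∑ c, ψ (g * S.tv ho v c) = 0) {x : (S.hyp 1).G}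
    (hx : S.Mid 1 x) : Van ⊤ (S.P 1) φ x := by
  refine tri2_van one_pos hφ (J := Unit) (f := fun _ => ψ) one_ne_zero (by simp) fun _ => ?_
  obtain ⟨t, ht⟩ : ∃ t, t = x.1 (tri2_e F V) := ⟨_, rfl⟩
  have t1 : t.1.2 = 0 := ht ▸ hx.1 _ tri2_eW
  have t2 : t.2 ≠ 0 := fun h => tri2_e_ne (hx.2 _ tri2_eW (ht ▸ ⟨t1, h⟩))
  have ho' : (S.hyp 1).o = false := ho
  refine ⟨F, inferInstance, ⟨0⟩, fun c => (S.hyp 1).tv ho' t c, fun _ => 1, fun c => S.tv ho t.2 c,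
    fun c => ⟨trivial, mem_U_of (fun v => ?_) fun v => ?_, 1, ?_, fun g => by rw [mul_one]⟩, fun a g => ?_⟩
  · rw [tv_app, tri2_B, t1]; simp
  · rw [tv_app, tv_app, hyp_B]; simp
  · have e : ∀ v, (x⁻¹ * (S.hyp 1).tv ho' t c * x).1 v = v + (c * (S.hyp 1).B v (tri2_e F V)) • tri2_e F V :=
      fun v => by rw [mul_app, mul_app, tv_app, ht, B_app, map_add, map_smul, inv_app_app, inv_app_app]
    refine mem_U_of (fun v => ?_) fun v => ?_
    · rw [e, tri2_B]; simp [tri2_e]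
    · rw [e]; simp [tri2_e]
  · rw [← mul_sum, hψ _ t2, mul_zero]

end Fm

end Cfsg.Agent.DG
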