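import Mathlib
import Cfsg.Agent.DG.AbsM
import Cfsg.Agent.DG.Cusp
import Cfsg.Agent.DG.Ord
import Cfsg.Agent.DG.Tri2
import Cfsg.Agent.DG.Pt
import Cfsg.Agent.Cl.CharTools

/-! Irreducible characters induced from a non-real cuspidal character of the Levi factor. -/

set_option autoImplicit false

namespace Cfsg.Agent.DG

open Module Matrix Finset Cfsg.Agent.Ch
open scoped ComplexConjugate

namespace Fm

variable {F V : Type} [Field F] [Finite F] [AddCommGroup V] [Module F V] [Finite V] {S : Fm F V} {k d e : ℕ}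

omit [Finite F] [Finite V] in
theorem toolA_neg_comm (g : S.G) : g * S.neg = S.neg * g := G_ext fun x => by simp

omit [Finite F] [Finite V] in
theorem toolA_neg_neg : S.neg * S.neg = 1 := G_ext fun x => by simp

omit [Finite F] in
theorem toolA_neg_one (h : (2 : F) = 0) : (-1 : GL (Fin k) F) = 1 := by
  have h1 : (-1 : F) = 1 := by linear_combination -h
  refine Units.ext ?_
  rw [Units.val_neg, Units.val_one, ← neg_one_smul F (1 : Matrix (Fin k) (Fin k) F), h1, one_smul]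

theorem tri_of {θ : GL (Fin k) F → ℂ} {ψ : S.G → ℂ} {φ : (S.hyp k).G → ℂ} (hT : S.Ty d e) (hθ : Cusp F k θ)
    (hφ : S.IsPhi k θ ψ φ) {K : Subgroup (S.hyp k).G} (hK : (S.hyp k).EK K) (h : d < k ∨ (2 ≤ k ∧ S.SplV ψ)) :
    Tri K (S.P k) (S.nn k) φ := by
  intro x
  rcases tri_base hθ hφ hK x with h1 | h1 | h1 | h1
  · exact Or.inl h1
  · exact Or.inr (Or.inl h1)
  · exact Or.inr (Or.inr h1)
  · rcases h with h | h
    · exact absurd h1 (hT.not_mid h x)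
    · exact Or.inr (Or.inr (van_V hθ hφ hK h.1 h.2 h1))

theorem toolA (hT : S.Ty d e) (hk : 0 < k) {θ : GL (Fin k) F → ℂ} (hθ : Cusp F k θ)
    (hnr : θ ≠ fun g => conj (θ g)) {ψ : S.G → ℂ} (hψ : IsIrrCharacter _ ψ) (h : d < k ∨ S.SplP ψ) :
    ∃ χ N, IsIrrCharacter (S.hyp k).G χ ∧ N * (Nat.card F ^ k - 1) = NN (Nat.card F) e d k ∧
      charDegree χ = charDegree ψ * N ∧ (θ (-1) * ψ S.neg = θ 1 * ψ 1 → χ (S.hyp k).neg = χ 1) := by
  obtain ⟨φ, hφ⟩ := exists_isPhi θ ψ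
  have hK : (S.hyp k).EK ⊤ := fun _ _ _ _ => Subgroup.mem_top _
  have ht : Tri ⊤ (S.P k) (S.nn k) φ := by
    rcases h with h | h
    · exact tri_of hT hθ hφ hK (Or.inl h)
    by_cases h2 : 2 ≤ k
    · exact tri_of hT hθ hφ hK (Or.inr ⟨h2, h.splV⟩)
    obtain rfl : k = 1 := by omega
    intro x
    rcases tri_base hθ hφ hK x with h1 | h1 | h1 | h1
    · exact Or.inl h1
    · exact Or.inr (Or.inl h1)
    · exact Or.inr (Or.inr h1)
    · refine Or.inr (Or.inr (van_P hθ.irr (fun e => hnr ?_) hφ h h1))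
      rw [e]
      funext g
      simp
  have h0 : classInner (fun l : S.L k => φ l) (fun l => φ (S.nn k * l * (S.nn k)⁻¹)) = 0 := by
    let _ := Fintype.ofFinite (GL (Fin k) F)
    rw [← classInner_comp_mulEquiv (MonoidHom.ofInjective (lev_injective (S := S) (k := k)))]
    have e1 : (fun x : GL (Fin k) F × S.G => φ (MonoidHom.ofInjective (lev_injective (S := S) (k := k)) x)) =
        fun x => θ x.1 * ψ x.2 := funext fun x => hφ.lev x.1 x.2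
    have e2 : (fun x : GL (Fin k) F × S.G =>
        φ (S.nn k * (MonoidHom.ofInjective (lev_injective (S := S) (k := k)) x) * (S.nn k)⁻¹)) =
        fun x => conj (θ x.1) * ψ x.2 := funext fun x => by
      change φ (S.nn k * S.lev k (x.1, x.2) * (S.nn k)⁻¹) = _
      rw [nn_lev, hφ.lev, char_itr hθ.irr.isCharacter]
    rw [e1, e2, classInner_prod θ (fun g => conj (θ g)) ψ ψ, hθ.irr.classInner_eq_zero hθ.irr.complexConj hnr,
      zero_mul]
  have h1 : indFun (S.P k) (fun g => φ g) 1 = (S.P k).index * (θ 1 * ψ 1) := by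
    rw [indFun_one, OneMemClass.coe_one, hφ.one]
  refine ⟨_, (S.P k).index * charDegree θ, irr_ind (isPar hk) (hφ.irr hθ.irr hψ) ht h0, ?_, ?_, fun hn => ?_⟩
  · rw [hθ.deg, hT.index_P hk]
  · refine charDegree_of_apply_one ?_
    rw [h1, ← hθ.irr.coe_charDegree, ← hψ.coe_charDegree]
    push_cast
    ring
  · have h2 : (S.hyp k).neg ∈ S.P k := neg_eq_lev (S := S) (k := k) ▸ lev_mem_P _ _
    rw [Cl.CT.indFun_of_mem_center _ _ (Subgroup.mem_center_iff.2 toolA_neg_comm) h2, h1, ← hn]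
    change _ * φ (S.hyp k).neg = _
    rw [neg_eq_lev, hφ.lev]

theorem toolA_gen (hT : S.Ty (d + k) e) (hk : S.AdmK k) (R : ℕ → Prop)
    (h : ∀ (V' : Type) [AddCommGroup V'] [Module F V'] [Finite V'] (S' : Fm F V'), S'.Ty d e → S'.o = S.o →
      ∃ ψ, IsIrrCharacter S'.G ψ ∧ R (charDegree ψ) ∧ ψ S'.neg = ψ 1 ∧ (d < k ∨ S'.SplP ψ)) :
    ∃ m N, R m ∧ N * (Nat.card F ^ k - 1) = NN (Nat.card F) e d k ∧ S.Out (m * N) := by
  obtain ⟨V', _, _, _, S', hT', ho, hI⟩ := hT.split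
  obtain ⟨ψ, hψ, hR, hn, hs⟩ := h V' S' hT' ho
  have hθ : 0 < k ∧ ∃ θ, Cusp F k θ ∧ (θ ≠ fun g => conj (θ g)) ∧ (S.CZ → θ (-1) = θ 1) := by
    rcases hk with hk | hk | ⟨h1, hk⟩
    · obtain ⟨θ, h1, h2, h3⟩ := cusp_z (F := F) (Or.inl hk)
      exact ⟨by omega, θ, h1, h2, fun _ => h3⟩
    · obtain ⟨θ, h1, h2, h3⟩ := cusp_z (F := F) (Or.inr hk)
      exact ⟨by omega, θ, h1, h2, fun _ => h3⟩
    · obtain ⟨θ, h2, h3⟩ := cusp_a (F := F) (Or.inr hk)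
      refine ⟨by omega, θ, h2, h3, fun hz => ?_⟩
      rw [toolA_neg_one (h1.resolve_left fun h4 => h4 hz)]
  obtain ⟨hk0, θ, h1, h2, h3⟩ := hθ
  obtain ⟨χ, N, hχ, hN, hd, hz⟩ := toolA hT' hk0 h1 h2 hψ hs
  exact ⟨_, N, hR, hN, hI.out ⟨χ, hχ, hd, fun hc => hz (by rw [h3 (hI.cz.2 hc), hn])⟩⟩

theorem toolA_one (hT : S.Ty (d + k) e) (hk : S.AdmK k) :
    ∃ N, N * (Nat.card F ^ k - 1) = NN (Nat.card F) e d k ∧ S.Out N := by
  obtain ⟨m, N, rfl, hN, ho⟩ := toolA_gen hT hk (· = 1) fun V' _ _ _ S' _ _ =>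
    ⟨fun _ => 1, IsIrrCharacter.one, charDegree_one, rfl, Or.inr splP_one⟩
  exact ⟨N, hN, one_mul N ▸ ho⟩

theorem toolA_p2 (hT : S.Ty (1 + k) e) (hk : S.AdmK k) :
    ∃ N, N * (Nat.card F ^ k - 1) = NN (Nat.card F) e 1 k ∧ S.Out (Nat.card F ^ e * N) := by
  obtain ⟨m, N, rfl, hN, ho⟩ := toolA_gen hT hk (· = Nat.card F ^ e) fun V' _ _ _ S' hT' _ => by
    obtain ⟨χ, h1, h2⟩ := p2 hT'
    exact ⟨χ, h1.1, h2, h1.neg, Or.inr h1.splP⟩
  exact ⟨N, hN, ho⟩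

theorem toolA_f {c : ℕ} (hT : S.Ty (c + 2 + k) e) (hk : S.AdmK k) :
    ∃ m N, m * ((Nat.card F - 1) * (Nat.card F ^ e + Nat.card F)) =
      Nat.card F ^ (e + 1) * (Nat.card F ^ (c + 2) - 1) * (Nat.card F ^ (c + e) + 1) ∧
      N * (Nat.card F ^ k - 1) = NN (Nat.card F) e (c + 2) k ∧ S.Out (m * N) :=
  toolA_gen hT hk _ fun V' _ _ _ S' hT' _ => by
    obtain ⟨χ, ξ, h1, -, -, -, -, h2, -⟩ := p3 hT'
    exact ⟨χ, h1.1, h2, h1.neg, Or.inr h1.splP⟩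

theorem toolA_g {c : ℕ} (hT : S.Ty (c + 2 + k) e) (hk : S.AdmK k) :
    ∃ m N, m * ((Nat.card F - 1) * (Nat.card F ^ e + Nat.card F)) =
      Nat.card F ^ 2 * (Nat.card F ^ (c + 1) - 1) * (Nat.card F ^ (c + e + 1) + 1) ∧
      N * (Nat.card F ^ k - 1) = NN (Nat.card F) e (c + 2) k ∧ S.Out (m * N) :=
  toolA_gen hT hk _ fun V' _ _ _ S' hT' _ => by
    obtain ⟨χ, ξ, -, h1, -, -, -, -, h2⟩ := p3 hT'
    exact ⟨ξ, h1.1, h2, h1.neg, Or.inr h1.splP⟩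

theorem toolA_sg (hT : S.Ty (d + k) e) (hd : 0 < d) (hdk : d < k) (hq : 3 ≤ Nat.card F) :
    ∃ m N, N * (Nat.card F ^ k - 1) = NN (Nat.card F) e d k ∧ S.Out (m * N) := by
  obtain ⟨V', _, _, _, S', hT', ho, hI⟩ := hT.split
  obtain ⟨θ, hθ, hnr⟩ := cusp_a (F := F) (k := k) (Or.inr (Or.inl ⟨by omega, hq⟩))
  have hψ : ∃ ψ, IsIrrCharacter S'.G ψ ∧ θ (-1) * ψ S'.neg = θ 1 * ψ 1 := by
    rcases pm_of_central hθ.irr (z := -1) (fun g => by rw [mul_neg_one, neg_one_mul]) (by simp) with h | h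
    · exact ⟨fun _ => 1, IsIrrCharacter.one, by rw [h]⟩
    have h2 : (2 : F) ≠ 0 := by
      intro h2
      rw [toolA_neg_one h2] at h
      exact hθ.irr.apply_one_ne_zero (by linear_combination (1 / 2 : ℂ) * h)
    have h3 : 0 < finrank F V' := by
      have := hT'.finrank_eq
      split_ifs at this <;> omega
    obtain ⟨v, hv⟩ := finrank_pos_iff_exists_ne_zero.1 h3
    obtain ⟨ψ, h4, h5⟩ := exists_sign (z := S'.neg) toolA_neg_comm toolA_neg_neg fun e => hv (by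
      have h6 : -v = v := congrArg (fun g : S'.G => g.1 v) e
      have h7 : (2 : F) • v = 0 := by rw [two_smul]; nth_rewrite 1 [← h6]; exact neg_add_cancel v
      exact (smul_eq_zero.1 h7).resolve_left h2)
    exact ⟨ψ, h4, by rw [h, h5, neg_mul_neg]⟩
  obtain ⟨ψ, hψ, hn⟩ := hψ
  obtain ⟨χ, N, hχ, hN, hd, hz⟩ := toolA hT' (by omega) hθ hnr hψ (Or.inl hdk)
  exact ⟨_, N, hN, hI.out ⟨χ, hχ, hd, fun _ => hz hn⟩⟩

end Fm

end Cfsg.Agent.DG
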