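import Mathlib
import Cfsg.Agent.DG.ToolA

/-! Arithmetic shared by the three main cases. -/

set_option autoImplicit false
set_option linter.unusedSectionVars false

namespace Cfsg.Agent.DG

open Module Matrix Finset

namespace MainA

/-- `r` divides `q ^ j - 1`. -/
def A (r q j : ℕ) : Prop := r ∣ q ^ j - 1

/-- `r` divides `q ^ j + 1`. -/
def B (r q j : ℕ) : Prop := r ∣ q ^ j + 1

variable {r s q j k c d e N m X : ℕ}

theorem A.dvd (h : A r q j) (hj : j ∣ k) : A r q k := by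
  obtain ⟨m, rfl⟩ := hj
  exact Dvd.dvd.trans h (by rw [pow_mul]; exact Nat.sub_one_dvd_pow_sub_one _ _)

theorem B.odd (h : B r q j) (hm : Odd m) : B r q (j * m) :=
  Dvd.dvd.trans h (by simpa [pow_mul] using hm.nat_add_dvd_pow_add_pow (q ^ j) 1)

theorem sq_sub (q j : ℕ) : q ^ (2 * j) - 1 = (q ^ j - 1) * (q ^ j + 1) := by
  rw [mul_comm 2, pow_mul, mul_comm]
  simpa using Nat.sq_sub_sq (q ^ j) 1

theorem B.dvd (h : B r q j) (hj : 2 * j ∣ k) : A r q k :=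
  A.dvd (show A r q (2 * j) from Dvd.dvd.trans h (sq_sub q j ▸ Dvd.intro_left _ rfl)) hj

theorem A.half (hr : r.Prime) (h : A r q k) (hk : k = 2 * j) : A r q j ∨ B r q j := by
  subst hk
  rw [A, sq_sub] at h
  exact hr.dvd_mul.1 h

theorem A.two (h1 : A r q j) (h2 : B r q j) (hq : 2 ≤ q) (hr : r.Prime) : r = 2 := by
  have h := Nat.dvd_sub h2 h1
  have := Nat.one_le_pow j q (by omega)
  rw [show q ^ j + 1 - (q ^ j - 1) = 2 by omega] at h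
  exact (Nat.prime_dvd_prime_iff_eq hr Nat.prime_two).1 h

theorem A_two (h : ¬ 2 ∣ q) (j : ℕ) : A 2 q j :=
  A.dvd (j := 1) (by rw [A, pow_one]; omega) (one_dvd j)

theorem B.zero (hr : r.Prime) (hq : ¬ r ∣ q) (h : B r q 0) (j : ℕ) : A r q j := by
  obtain rfl := (Nat.prime_dvd_prime_iff_eq hr Nat.prime_two).1 h
  exact A_two hq j

theorem eight (h : ¬ 2 ∣ q) (hj : 2 ∣ j) : 8 ∣ q ^ j - 1 := by
  refine A.dvd (j := 2) ?_ hj
  have := Nat.eight_dvd_sq_sub_one_of_odd (Nat.odd_iff.2 (by omega) : Odd q)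
  exact this

theorem of_NN (hr : r.Prime) (hq : ¬ r ∣ q) (h : r ∣ q * NN q e 0 d) :
    (∃ j, 1 ≤ j ∧ j ≤ d ∧ A r q j) ∨ ∃ j, e ≤ j ∧ j < d + e ∧ B r q j := by
  obtain ⟨i, hi, h⟩ := (hr.prime.dvd_finsetProd_iff _).1 ((hr.dvd_mul.1 h).resolve_left hq)
  rw [mem_range] at hi
  rcases hr.dvd_mul.1 h with h | h
  · exact Or.inl ⟨_, by omega, by omega, h⟩
  · exact Or.inr ⟨_, by omega, by omega, h⟩

theorem pos (hq : 2 ≤ q) (hk : 0 < k) : 0 < q ^ k - 1 := by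
  have := Nat.one_lt_pow hk.ne' (by omega : 1 < q)
  omega

theorem N_eq (hq : 2 ≤ q) (hN : N * (q ^ k - 1) = NN q e c k) (hc : c < k) :
    N = (q ^ (k - 1 + e) + 1) * ∏ i ∈ (range k).erase (k - c - 1),
      ((q ^ (c + i + 1) - 1) * (q ^ (c + i + e) + 1)) := by
  refine Nat.eq_of_mul_eq_mul_right (pos hq (by omega : 0 < k)) ?_
  rw [hN, NN, ← mul_prod_erase _ _ (mem_range.2 (by omega : k - c - 1 < k)),
    show c + (k - c - 1) + 1 = k by omega, show c + (k - c - 1) + e = k - 1 + e by omega]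
  ring

theorem N_AB (hq : 2 ≤ q) (hN : N * (q ^ k - 1) = NN q e c k) (hc : c < k) (h1 : c < j) (h2 : j ≤ c + k)
    (h3 : j ≠ k) : (q ^ j - 1) * (q ^ (j - 1 + e) + 1) ∣ N := by
  rw [N_eq hq hN hc]
  refine Dvd.dvd.mul_left ?_ _
  have := dvd_prod_of_mem (fun i => (q ^ (c + i + 1) - 1) * (q ^ (c + i + e) + 1))
    (mem_erase.2 ⟨by omega, mem_range.2 (by omega)⟩ : j - c - 1 ∈ (range k).erase (k - c - 1))
  rwa [show c + (j - c - 1) + 1 = j by omega, show c + (j - c - 1) + e = j - 1 + e by omega] at this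

theorem N_A (hq : 2 ≤ q) (hN : N * (q ^ k - 1) = NN q e c k) (hc : c < k) (j : ℕ) (h1 : c < j) (h2 : j ≤ c + k)
    (h3 : j ≠ k) (h : A r q j) : r ∣ N :=
  Dvd.dvd.trans h ((Dvd.intro _ rfl).trans (N_AB hq hN hc h1 h2 h3))

theorem N_B (hq : 2 ≤ q) (hN : N * (q ^ k - 1) = NN q e c k) (hc : c < k) (j : ℕ) (h1 : c + e ≤ j)
    (h2 : j < c + k + e) (h : B r q j) : r ∣ N := by
  refine Dvd.dvd.trans h ?_
  by_cases h3 : j = k - 1 + e
  · rw [N_eq hq hN hc, h3]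
    exact Dvd.intro _ rfl
  · have := N_AB (j := j - e + 1) hq hN hc (by omega) (by omega) (by omega)
    rw [show j - e + 1 - 1 + e = j by omega] at this
    exact (Dvd.intro_left _ rfl).trans this

theorem cop_sub (hq : 2 ≤ q) : q.Coprime (q - 1) := by
  obtain ⟨t, rfl⟩ : ∃ t, q = t + 1 := ⟨q - 1, by omega⟩
  simp

/-- `e = 0`. -/
theorem dvd0 (hq : 2 ≤ q) (h : m * ((q - 1) * (q ^ 0 + q)) = q ^ j * X) : q ^ j ∣ m :=
  (Nat.Coprime.pow_left j ((cop_sub hq).mul_right (by simp))).dvd_of_dvd_mul_right ⟨X, h⟩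

/-- `e = 2`. -/
theorem dvd2 (hq : 2 ≤ q) (h : m * ((q - 1) * (q ^ 2 + q)) = q ^ (j + 1) * X) : q ^ j ∣ m := by
  refine dvd0 (X := X) hq (Nat.eq_of_mul_eq_mul_left (by omega : 0 < q) ?_)
  rw [← mul_assoc q (q ^ j), ← pow_succ', ← h]
  ring

/-- `e = 1`. -/
theorem dvd1 (hq : 2 ≤ q) (h4 : 2 ∣ q → 4 ∣ q) (h : m * ((q - 1) * (q ^ 1 + q)) = q ^ 2 * X) (hr : r.Prime)
    (hrq : r ∣ q) : r ∣ m := by
  have h1 : q ∣ m * 2 := (cop_sub hq).dvd_of_dvd_mul_right ⟨X, Nat.eq_of_mul_eq_mul_left (by omega : 0 < q) (by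
    rw [← mul_assoc q q, ← sq, ← h]
    ring)⟩
  by_cases h2 : r = 2
  · subst h2
    have := (h4 hrq).trans h1
    omega
  · exact (hr.dvd_mul.1 (hrq.trans h1)).resolve_right fun h => h2 ((Nat.prime_dvd_prime_iff_eq hr Nat.prime_two).1 h)

theorem dv0 (hr : r.Prime) (h1 : ¬ A r q 1) (h2 : ¬ B r q 1) (h : r ∣ m * ((q - 1) * (q ^ 0 + q))) : r ∣ m :=
  (hr.dvd_mul.1 h).resolve_right fun h => (hr.dvd_mul.1 h).elim (fun h => h1 (by simpa [A] using h))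
    fun h => h2 (by simpa [B, add_comm] using h)

theorem dv2 (hr : r.Prime) (h0 : ¬ r ∣ q) (h1 : ¬ A r q 1) (h2 : ¬ B r q 1)
    (h : r ∣ m * ((q - 1) * (q ^ 2 + q))) : r ∣ m := by
  rw [show m * ((q - 1) * (q ^ 2 + q)) = q * (m * ((q - 1) * (q ^ 0 + q))) by ring] at h
  exact dv0 hr h1 h2 ((hr.dvd_mul.1 h).resolve_left h0)

theorem dv1 (hr : r.Prime) (h0 : ¬ r ∣ q) (h1 : ¬ A r q 1) (h : r ∣ m * ((q - 1) * (q ^ 1 + q))) : r ∣ m := by
  rw [show m * ((q - 1) * (q ^ 1 + q)) = q * (2 * ((q - 1) * m)) by ring] at h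
  refine (hr.dvd_mul.1 ((hr.dvd_mul.1 ((hr.dvd_mul.1 h).resolve_left h0)).resolve_left fun h => ?_)).resolve_left
    fun h => h1 (by simpa [A] using h)
  obtain rfl := (Nat.prime_dvd_prime_iff_eq hr Nat.prime_two).1 h
  exact h1 (A_two h0 1)

theorem mem_of (hr : r.Prime) {n : ℕ} (h : r ∣ n) (l : List ℕ) (k : ℕ) (hl : ∀ p ∈ l, p.Prime)
    (hn : n ∣ l.prod ^ k) : r ∈ l := by
  obtain ⟨a, ha, h⟩ := hr.prime.dvd_prod_iff.1 (hr.dvd_of_dvd_pow (h.trans hn))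
  exact (Nat.prime_dvd_prime_iff_eq hr (hl a ha)).1 h ▸ ha

variable (F : Type) [Field F] [Finite F]

theorem two_le : 2 ≤ Nat.card F := Finite.one_lt_card

theorem pp : ∃ p f : ℕ, p.Prime ∧ 0 < f ∧ Nat.card F = p ^ f ∧ ((2 : F) = 0 ↔ p = 2) := by
  have := Fintype.ofFinite F
  obtain ⟨p, hp⟩ := CharP.exists F
  obtain ⟨f, h1, h2⟩ := FiniteField.card F p
  refine ⟨p, f, h1, f.2, Nat.card_eq_fintype_card.trans h2, ?_⟩
  rw [← Nat.prime_dvd_prime_iff_eq h1 Nat.prime_two, ← CharP.cast_eq_zero_iff F p 2, Nat.cast_ofNat]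

theorem two_iff : (2 : F) = 0 ↔ 2 ∣ Nat.card F := by
  obtain ⟨p, f, h1, h2, h3, h4⟩ := pp F
  rw [h4, h3, Nat.prime_two.prime.dvd_pow_iff_dvd h2.ne', Nat.prime_dvd_prime_iff_eq Nat.prime_two h1, eq_comm]

theorem four (h : Nat.card F ≠ 2) (h2 : 2 ∣ Nat.card F) : 4 ∣ Nat.card F := by
  obtain ⟨p, f, h1, h5, h3, h4⟩ := pp F
  obtain rfl := h4.1 ((two_iff F).2 h2)
  rw [h3] at h ⊢
  exact pow_dvd_pow 2 (by by_contra k; exact h (by rw [show f = 1 by omega, pow_one]) : 2 ≤ f)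

variable {F} in
theorem uniq (hr : r.Prime) (hs : s.Prime) (h1 : r ∣ Nat.card F) (h2 : s ∣ Nat.card F) : r = s := by
  obtain ⟨p, f, hp, -, h3, -⟩ := pp F
  rw [h3] at h1 h2
  rw [(Nat.prime_dvd_prime_iff_eq hr hp).1 (hr.dvd_of_dvd_pow h1),
    (Nat.prime_dvd_prime_iff_eq hs hp).1 (hs.dvd_of_dvd_pow h2)]

variable {F} {V : Type} [AddCommGroup V] [Module F V] [Finite V] {S : Fm F V}

theorem rank (hT : S.Ty d e) (h : S.o = true → 4 < 2 * d + e) (ho : S.o = true) : 4 < finrank F V := by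
  have := hT.finrank_eq
  rw [ho] at this
  exact (h ho).trans_eq (by simpa using this.symm)

theorem tgO (hd : S.o = true → 4 < finrank F V) {n : ℕ} (h : S.Out n) (hr : r.Prime) (hs : s.Prime)
    (hrs : r ≠ s) (hrn : r ∣ n) (hsn : s ∣ n)
    (h2 : S.o = true → r = 2 ∨ s = 2 → (2 ∣ Nat.card F → 4 ∣ n) ∧ (¬ 2 ∣ Nat.card F → 8 ∣ n)) : S.Tg (r * s) := by
  refine Fm.tg_of_out hd h hr hs hrs hrn hsn fun k => ?_
  unfold Fm.idx
  split_ifs with h1 h3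
  · exact (h2 h1 k).1 ((two_iff F).1 h3)
  · exact (h2 h1 k).2 fun h => h3 ((two_iff F).2 h)
  · rw [mul_one]
    exact k.elim (fun k => k ▸ hrn) fun k => k ▸ hsn

theorem tgN (hd : S.o = true → 4 < finrank F V) {n : ℕ} (h : S.OutN n) (hr : r.Prime) (hs : s.Prime)
    (hrs : r ≠ s) (hrn : r ∣ n) (hsn : s ∣ n)
    (h2 : S.o = true → r = 2 ∨ s = 2 → ¬ 2 ∣ Nat.card F → 4 ∣ n) : S.Tg (r * s) := by
  refine Fm.tg_of_outN hd h hr hs hrs hrn hsn fun k => ?_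
  unfold Fm.idx
  split_ifs with h1 h3
  · exact k.elim (fun k => k ▸ hrn) fun k => k ▸ hsn
  · exact h2 h1 k fun h => h3 ((two_iff F).2 h)
  · exact one_dvd _

/-- One degree `m * N` where `m` carries the characteristic. -/
theorem tgA (hd : S.o = true → 4 < finrank F V) (h : S.Out (m * N)) (hr : r.Prime) (hs : s.Prime) (hrs : r ≠ s)
    (hp : ∀ p, p.Prime → p ∣ Nat.card F → p ∣ m) (h4 : S.o = true → 2 ∣ Nat.card F → 4 ∣ m)
    (h8 : ¬ 2 ∣ Nat.card F → 8 ∣ N) (h1 : ¬ r ∣ Nat.card F → r ∣ N) (h2 : ¬ s ∣ Nat.card F → s ∣ N) :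
    S.Tg (r * s) :=
  tgO hd h hr hs hrs ((em _).elim (fun k => (hp r hr k).mul_right _) fun k => (h1 k).mul_left _)
    ((em _).elim (fun k => (hp s hs k).mul_right _) fun k => (h2 k).mul_left _)
    fun ho _ => ⟨fun k => (h4 ho k).mul_right _, fun k => (h8 k).mul_left _⟩

/-- Both primes are different from the characteristic. -/
theorem tgB (hd : S.o = true → 4 < finrank F V) (h : S.Out N) (hr : r.Prime) (hs : s.Prime) (hrs : r ≠ s)
    (h8 : ¬ 2 ∣ Nat.card F → 8 ∣ N) (hr' : ¬ r ∣ Nat.card F) (hs' : ¬ s ∣ Nat.card F) (h1 : r ∣ N) (h2 : s ∣ N) :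
    S.Tg (r * s) :=
  tgO hd h hr hs hrs h1 h2 fun _ k => ⟨fun h => (k.elim (fun k => hr' (k ▸ h)) fun k => hs' (k ▸ h)).elim, h8⟩

end MainA

end Cfsg.Agent.DG
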