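import Mathlib
import Cfsg.Agent.DG.Cusp
import Cfsg.Agent.DG.Tri1
import Cfsg.Agent.DG.Tools
import Cfsg.Agent.Ch.Clifford
import Cfsg.Agent.Ch.Integrality

/-! Symplectic transvections: calculus, a cuspidal character of `Sp₂`, two congruences. -/

set_option autoImplicit false

namespace Cfsg.Agent.DG

open Module Matrix Finset
open scoped ComplexConjugate

theorem n1a_sum_coset {G : Type} [Group G] [Fintype G] (H : Subgroup G) [Fintype (G ⧸ H)] (f : G → ℂ)
    (hf : ∀ g, ∀ h ∈ H, f (g * h) = f g) : ∑ g, f g = Nat.card H * ∑ q : G ⧸ H, f q.out := by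
  classical
  have := Fintype.ofFinite H
  have hb : Function.Bijective fun p : (G ⧸ H) × H => p.1.out * (p.2 : G) := by
    constructor
    · rintro ⟨q, h⟩ ⟨q', h'⟩ e
      have e1 : q = q' := by
        have := congrArg (QuotientGroup.mk : G → G ⧸ H) e
        simpa only [QuotientGroup.mk_mul_of_mem _ h.2, QuotientGroup.mk_mul_of_mem _ h'.2,
          QuotientGroup.out_eq'] using this
      subst e1
      exact Prod.ext rfl (Subtype.ext (mul_left_cancel e))
    · intro g
      obtain ⟨h, hh⟩ := QuotientGroup.mk_out_eq_mul H g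
      exact ⟨(QuotientGroup.mk g, h⁻¹), by simp [hh]⟩
  rw [← hb.sum_comp f, Fintype.sum_prod_type, mul_sum]
  refine sum_congr rfl fun q _ => ?_
  rw [sum_congr rfl fun (h : H) _ => hf q.out h h.2, sum_const, card_univ, nsmul_eq_mul, Nat.card_eq_fintype_card]

namespace Fm

variable {F V : Type} [Field F] [Finite F] [AddCommGroup V] [Module F V] [Finite V] {S : Fm F V} {k d e : ℕ}

omit [Finite F] [Finite V] in
theorem n1a_swap (ho : S.o = false) (x y : V) : S.B y x = -S.B x y := by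
  rw [S.B_swap x y]
  simp [ε, ho]

theorem tv_add (ho : S.o = false) (v : V) (c c' : F) : S.tv ho v (c + c') = S.tv ho v c * S.tv ho v c' := by
  refine G_ext fun x => ?_
  simp only [mul_app, tv_app, map_add, map_smul, LinearMap.add_apply, LinearMap.smul_apply, (S.hs ho).1 v,
    smul_eq_mul]
  module

theorem conj_tv (ho : S.o = false) (g : S.G) (v : V) (c : F) :
    g * S.tv ho v c * g⁻¹ = S.tv ho (g.1 v) c := by
  rw [mul_inv_eq_iff_eq_mul]
  refine G_ext fun x => ?_
  simp only [mul_app, tv_app, map_add, map_smul, B_app]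

theorem tv_smul (ho : S.o = false) (v : V) (a c : F) : S.tv ho (a • v) c = S.tv ho v (a ^ 2 * c) := by
  refine G_ext fun x => ?_
  simp only [tv_app, map_smul, smul_eq_mul]
  module

theorem exists_map_vec (ho : S.o = false) {v w : V} (hv : v ≠ 0) (hw : w ≠ 0) : ∃ g : S.G, g.1 v = w := by
  obtain ⟨g, hB, hQ, hg⟩ := S.witt.extend_family S.nd (fun _ : Unit => v) (fun _ : Unit => w)
    (linearIndependent_unique_iff.2 hv) (linearIndependent_unique_iff.2 hw)
    (fun _ _ => by rw [(S.hs ho).1, (S.hs ho).1]) (fun _ => by rw [(S.hs ho).2, (S.hs ho).2])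
  exact ⟨⟨g, hB, hQ⟩, hg ()⟩

omit [Finite F] in
theorem n1a_tv_zero (ho : S.o = false) (v : V) : S.tv ho v 0 = 1 := G_ext fun x => by simp [tv_app]

/-- The matrix of an isometry. -/
noncomputable def n1a_mat (S : Fm F V) (b : Basis (Fin k) F V) : S.G →* GL (Fin k) F :=
  (Units.map (LinearMap.toMatrixAlgEquiv b).toMonoidHom).comp
    ((LinearMap.GeneralLinearGroup.generalLinearEquiv F V).symm.toMonoidHom.comp S.G.subtype)

omit [Finite F] [Finite V] in
theorem n1a_mat_app (b : Basis (Fin k) F V) (g : S.G) (x : V) :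
    (n1a_mat S b g : Matrix (Fin k) (Fin k) F) *ᵥ b.equivFun x = b.equivFun (g.1 x) :=
  LinearMap.toMatrix_mulVec_repr b b (g.1 : V →ₗ[F] V) x

omit [Finite F] [Finite V] in
theorem n1a_mat_inj (b : Basis (Fin k) F V) : Function.Injective (n1a_mat S b) := fun g h e =>
  G_ext fun x => b.equivFun.injective (by rw [← n1a_mat_app, ← n1a_mat_app, e])

omit [Finite F] [Finite V] in
theorem n1a_B_two (ho : S.o = false) (b : Basis (Fin 2) F V) (x y : Fin 2 → F) :
    S.B (b.equivFun.symm x) (b.equivFun.symm y) = S.B (b 0) (b 1) * (x 0 * y 1 - x 1 * y 0) := by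
  simp only [Basis.equivFun_symm_apply, Fin.sum_univ_two, map_add, map_smul, LinearMap.add_apply,
    LinearMap.smul_apply, smul_eq_mul, (S.hs ho).1, n1a_swap ho (b 0) (b 1)]
  ring

omit [Finite F] [Finite V] in
theorem n1a_beta (ho : S.o = false) (b : Basis (Fin 2) F V) : S.B (b 0) (b 1) ≠ 0 := fun h =>
  b.ne_zero 0 (S.nd _ fun y => by
    have := n1a_B_two ho b (b.equivFun (b 0)) (b.equivFun y)
    rwa [LinearEquiv.symm_apply_apply, LinearEquiv.symm_apply_apply, h, zero_mul] at this)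

omit [Finite F] in
theorem n1a_range (ho : S.o = false) (b : Basis (Fin 2) F V) :
    (n1a_mat S b).range = (GeneralLinearGroup.det : GL (Fin 2) F →* Fˣ).ker := by
  have key : ∀ (a : Matrix (Fin 2) (Fin 2) F) (x y : Fin 2 → F), S.B (b.equivFun.symm (a *ᵥ x))
      (b.equivFun.symm (a *ᵥ y)) = a.det * S.B (b.equivFun.symm x) (b.equivFun.symm y) := fun a x y => by
    simp only [n1a_B_two ho, mulVec, dotProduct, Fin.sum_univ_two, det_fin_two]
    ring
  ext a
  rw [MonoidHom.mem_ker, Units.ext_iff, GeneralLinearGroup.val_det_apply, Units.val_one]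
  constructor
  · rintro ⟨g, rfl⟩
    have := key (n1a_mat S b g) (b.equivFun (b 0)) (b.equivFun (b 1))
    simp only [n1a_mat_app, LinearEquiv.symm_apply_apply, B_app] at this
    exact mul_right_cancel₀ (n1a_beta ho b) (by rw [one_mul]; exact this.symm)
  · intro h
    refine ⟨S.mk' (b.equivFun.symm.toLinearMap ∘ₗ (a : Matrix (Fin 2) (Fin 2) F).mulVecLin ∘ₗ
      b.equivFun.toLinearMap) (fun x y => ?_) fun x => by rw [(S.hs ho).2, (S.hs ho).2], ?_⟩
    · have := key a (b.equivFun x) (b.equivFun y)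
      rwa [h, one_mul, LinearEquiv.symm_apply_apply, LinearEquiv.symm_apply_apply] at this
    · refine Units.ext (ext_of_mulVec_single fun i => ?_)
      obtain ⟨x, hx⟩ := b.equivFun.surjective (Pi.single i 1)
      rw [← hx, n1a_mat_app]
      exact b.equivFun.apply_symm_apply _

omit [Finite F] [Finite V] in
theorem n1a_perp (ho : S.o = false) (b : Basis (Fin 2) F V) {v x : V} (hv : v ≠ 0) (h : S.B x v = 0) :
    ∃ t : F, t • v = x := by
  obtain ⟨v, rfl⟩ := b.equivFun.symm.surjective v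
  obtain ⟨x, rfl⟩ := b.equivFun.symm.surjective x
  rw [n1a_B_two ho, mul_eq_zero, or_iff_right (n1a_beta ho b)] at h
  by_cases h0 : v 0 = 0
  · have h1 : v 1 ≠ 0 := fun h1 => hv (by
      rw [show v = 0 from funext fun i => by fin_cases i <;> simpa, map_zero])
    refine ⟨x 1 / v 1, ?_⟩
    rw [← map_smul]
    congr 1
    funext i
    fin_cases i
    · simp only [Fin.zero_eta, Pi.smul_apply, smul_eq_mul]
      field_simp
      linear_combination -h
    · simp only [Fin.mk_one, Pi.smul_apply, smul_eq_mul]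
      field_simp
  · refine ⟨x 0 / v 0, ?_⟩
    rw [← map_smul]
    congr 1
    funext i
    fin_cases i
    · simp only [Fin.zero_eta, Pi.smul_apply, smul_eq_mul]
      field_simp
    · simp only [Fin.mk_one, Pi.smul_apply, smul_eq_mul]
      field_simp
      linear_combination h

theorem n1a_cusp [Fintype F] (ho : S.o = false) (b : Basis (Fin 2) F V) {θ : GL (Fin 2) F → ℂ} (hθ : Cusp F 2 θ)
    {v : V} (hv : v ≠ 0) : ∑ c, θ (n1a_mat S b (S.tv ho v c)) = 0 := by
  classical
  obtain ⟨w, hw⟩ : ∃ w, S.B w v ≠ 0 := by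
    by_contra h
    push Not at h
    exact hv (S.nd v fun y => S.B_refl (h y))
  set A : Submodule F (Fin 2 → F) := Submodule.span F {b.equivFun v} with hA
  have hmem : ∀ x ∈ A, S.B (b.equivFun.symm x) v = 0 := fun x hx => by
    obtain ⟨t, rfl⟩ := Submodule.mem_span_singleton.1 hx
    rw [map_smul, LinearEquiv.symm_apply_apply, map_smul, LinearMap.smul_apply, (S.hs ho).1, smul_zero]
  have h1 : A ≠ ⊥ := fun h => hv (b.equivFun.map_eq_zero_iff.1 (Submodule.span_singleton_eq_bot.1 h))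
  have h2 : A ≠ ⊤ := fun h => hw (by
    have := hmem (b.equivFun w) (h ▸ Submodule.mem_top)
    rwa [LinearEquiv.symm_apply_apply] at this)
  let φ : F → Cl.Cu.rad A := fun c =>
    ⟨((S.B.flip v) ∘ₗ b.equivFun.symm.toLinearMap).smulRight (c • b.equivFun v),
      fun x => A.smul_mem _ (A.smul_mem _ (Submodule.mem_span_singleton_self _)), fun x hx => by
        change S.B (b.equivFun.symm x) v • (c • b.equivFun v) = 0
        rw [hmem x hx, zero_smul]⟩
  have hφ : ∀ c x, (φ c).1 (b.equivFun x) = (c * S.B x v) • b.equivFun v := fun c x => by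
    change S.B (b.equivFun.symm (b.equivFun x)) v • (c • b.equivFun v) = _
    rw [LinearEquiv.symm_apply_apply, smul_smul, mul_comm]
  have hbij : Function.Bijective φ := by
    constructor
    · intro c c' h
      have h3 := hφ c w
      rw [h, hφ] at h3
      have h4 : b.equivFun v ≠ 0 := fun h => hv (b.equivFun.map_eq_zero_iff.1 h)
      exact (mul_right_cancel₀ hw (smul_left_injective F h4 h3)).symm
    · intro r
      obtain ⟨t, ht⟩ := Submodule.mem_span_singleton.1 (r.2.1 (b.equivFun w))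
      refine ⟨t / S.B w v, Subtype.ext (LinearMap.ext fun x => ?_)⟩
      obtain ⟨x, rfl⟩ := b.equivFun.surjective x
      obtain ⟨s, hs⟩ := n1a_perp ho b (x := x - (S.B x v / S.B w v) • w) hv (by
        rw [map_sub, map_smul, LinearMap.sub_apply, LinearMap.smul_apply, smul_eq_mul]
        field_simp
        ring)
      have h3 : r.1 (b.equivFun v) = 0 := r.2.2 _ (Submodule.mem_span_singleton_self _)
      have h4 : x = s • v + (S.B x v / S.B w v) • w := by rw [hs, sub_add_cancel]
      rw [hφ]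
      conv_rhs => rw [h4, map_add, map_smul, map_smul, map_add, map_smul, map_smul, h3, ← ht, smul_zero, zero_add,
        smul_smul]
      congr 1
      field_simp
  have := Fintype.ofBijective φ hbij
  let E := Equiv.ofBijective φ hbij
  have h3 := hθ.cusp A h1 h2 (fun r => n1a_mat S b (S.tv ho v (E.symm r))) (fun r x => by
    obtain ⟨c, rfl⟩ := E.surjective r
    obtain ⟨x, rfl⟩ := b.equivFun.surjective x
    rw [E.symm_apply_apply, n1a_mat_app, tv_app, map_add, map_smul]
    exact congrArg _ (hφ c x).symm) 1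
  simp only [one_mul] at h3
  exact (E.symm.sum_comp fun c => θ (n1a_mat S b (S.tv ho v c))).symm.trans h3

theorem exists_cusp_sp2 [Fintype F] (ho : S.o = false) (hT : S.Ty 1 1) :
    ∃ ψ, IsIrrCharacter S.G ψ ∧ charDegree ψ ∣ Nat.card F - 1 ∧ ψ S.neg = ψ 1 ∧
      ∀ v, v ≠ 0 → ∀ g, ∑ c, ψ (g * S.tv ho v c) = 0 := by
  classical
  have hd : finrank F V = 2 := by
    have := hT.finrank_eq
    simp only [ho] at this
    simpa using this
  let b : Basis (Fin 2) F V := finBasisOfFinrankEq F V hd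
  obtain ⟨θ, hθ, hθ1⟩ := cusp_two (F := F)
  have := Fintype.ofFinite (GL (Fin 2) F)
  have hN : (n1a_mat S b).range.Normal := by rw [n1a_range ho]; infer_instance
  have := Fintype.ofFinite (n1a_mat S b).range
  obtain ⟨ψ, hψ, hne⟩ := Ch.exists_irr_under (n1a_mat S b).range hθ.irr
  let E := MonoidHom.ofInjective (n1a_mat_inj (S := S) b)
  have hE : ∀ g, (E g : GL (Fin 2) F) = n1a_mat S b g := fun _ => rfl
  have hres := hθ.irr.isCharacter.restrict (n1a_mat S b).range
  refine ⟨fun g => ψ (E g), hψ.comp_mulEquiv E, ?_, ?_, fun v hv g => ?_⟩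
  · have h1 := Ch.charDegree_dvd_of_under hθ.irr hψ hne
    rw [hθ.deg] at h1
    rw [Ch.charDegree_congr (ψ := ψ) (by rw [map_one])]
    simpa using h1
  · change ψ (E S.neg) = ψ (E 1)
    rw [map_one]
    refine ker_of_const hres hψ hne ?_
    rw [hE, Subgroup.coe_one, ← hθ1]
    congr 1
    refine Units.ext (ext_of_mulVec_single fun i => ?_)
    obtain ⟨x, hx⟩ := b.equivFun.surjective (Pi.single i 1)
    rw [← hx, n1a_mat_app, neg_app, map_neg, Units.val_neg, Units.val_one, neg_mulVec, one_mulVec]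
  · refine kill_add (hψ.comp_mulEquiv E).isCharacter _ (tv_add ho v) ?_ g
    obtain ⟨ψ', hψ', hs⟩ := hres.exists_eq_irr_add hψ hne
    have hadd : ∀ c c', E (S.tv ho v (c + c')) = E (S.tv ho v c) * E (S.tv ho v c') := fun c c' => by
      rw [tv_add, map_mul]
    obtain ⟨m, hm⟩ := nat_avg hψ.isCharacter (fun c => E (S.tv ho v c)) hadd
    obtain ⟨m', hm'⟩ := nat_avg hψ' (fun c => E (S.tv ho v c)) hadd
    have h1 := n1a_cusp ho b hθ hv
    have h2 : ∀ c, θ (n1a_mat S b (S.tv ho v c)) = ψ (E (S.tv ho v c)) + ψ' (E (S.tv ho v c)) := fun c =>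
      congrFun hs (E (S.tv ho v c))
    rw [sum_congr rfl fun c _ => h2 c, sum_add_distrib, hm, hm', ← mul_add, ← Nat.cast_add, ← Nat.cast_mul,
      Nat.cast_eq_zero, mul_eq_zero, or_iff_right Nat.card_pos.ne'] at h1
    rw [hm, show m = 0 by omega, Nat.cast_zero, mul_zero]

theorem tv_sum_prime [Fintype F] (ho : S.o = false) {χ : S.G → ℂ} (hχ : IsCharacter S.G χ) {v : V} (hv : v ≠ 0)
    {z : ℕ} (hz : ∑ c, χ (S.tv ho v c) = Nat.card F * z) {r : ℕ} (hr : r.Prime) (h2 : r ≠ 2)
    (hq : r ∣ Nat.card F - 1) : (r : ℤ) ∣ (Nat.card F : ℤ) * z - charDegree χ := by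
  classical
  have := Fact.mk hr
  have hsq : ∀ a : Fˣ, ∀ c : F, χ (S.tv ho v ((a : F) ^ 2 * c)) = χ (S.tv ho v c) := fun a c => by
    obtain ⟨g, hg⟩ := exists_map_vec ho hv (smul_ne_zero a.ne_zero hv)
    rw [← tv_smul, ← hg, ← conj_tv, hχ.isClassFunction.conj_eq]
  obtain ⟨b, hb⟩ := exists_prime_orderOf_dvd_card' (G := Fˣ) r (by rwa [Nat.card_units])
  obtain ⟨s, hs⟩ := hr.odd_of_ne_two h2
  have hb2 : (b ^ (s + 1)) ^ 2 = b := by
    rw [← pow_mul, show (s + 1) * 2 = r + 1 by omega, pow_succ, ← hb, pow_orderOf_eq_one, one_mul]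
  have := Fintype.ofFinite (Fˣ ⧸ Subgroup.zpowers b)
  have h1 := n1a_sum_coset (Subgroup.zpowers b) (fun c : Fˣ => χ (S.tv ho v c)) fun c h hh => by
    obtain ⟨n, rfl⟩ := Subgroup.mem_zpowers_iff.1 hh
    rw [← hsq ((b ^ (s + 1)) ^ n) c, ← Units.val_pow_eq_pow_val, ← zpow_natCast, ← _root_.zpow_mul, mul_comm n,
      _root_.zpow_mul, zpow_natCast, hb2, ← Units.val_mul, mul_comm c]
  rw [Nat.card_zpowers, hb] at h1
  rw [Fintype.sum_eq_add_sum_subtype_ne _ 0, n1a_tv_zero, ← hχ.coe_charDegree,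
    ← unitsEquivNeZero.sum_comp fun c : {c : F // c ≠ 0} => χ (S.tv ho v c)] at hz
  refine Ch.integral_int_dvd_of_eq_mul (IsIntegral.sum (s := univ)
    (fun q : Fˣ ⧸ Subgroup.zpowers b => χ (S.tv ho v (q.out : Fˣ))) fun q _ => hχ.isIntegral _) ?_
  push_cast
  rw [← h1, ← hz, add_sub_cancel_left]
  rfl

omit [Finite F] [Finite V] in
theorem n1a_pair (hd : 3 ≤ finrank F V) {v : V} (hv : v ≠ 0) :
    ∃ y₀ y₁, S.B v y₀ = 0 ∧ S.B v y₁ = 0 ∧ S.B y₀ y₁ ≠ 0 := by
  by_contra h
  push Not at h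
  obtain ⟨w, hw⟩ : ∃ w, S.B v w ≠ 0 := by
    by_contra h
    push Not at h
    exact hv (S.nd v h)
  have h1 : ∀ x, S.B v (x - (S.B v x / S.B v w) • w) = 0 := fun x => by
    rw [map_sub, map_smul, smul_eq_mul]
    field_simp
    ring
  have h2 : ∀ y, S.B v y = 0 → y = (S.B y w / S.B v w) • v := fun y hy => sub_eq_zero.1 (S.nd _ fun x => by
    have := h y _ hy (h1 x)
    rw [map_sub, map_smul, smul_eq_mul] at this
    rw [map_sub, map_smul, LinearMap.sub_apply, LinearMap.smul_apply, smul_eq_mul]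
    linear_combination this)
  have h3 : Submodule.span F (Set.range ![v, w]) = ⊤ := by
    refine eq_top_iff.2 fun x _ => ?_
    rw [← sub_add_cancel x ((S.B v x / S.B v w) • w), h2 _ (h1 x)]
    exact add_mem (Submodule.smul_mem _ _ (Submodule.subset_span ⟨0, rfl⟩))
      (Submodule.smul_mem _ _ (Submodule.subset_span ⟨1, rfl⟩))
  have := finrank_le_of_span_eq_top h3
  simp at this
  omega

theorem tv_heis [Fintype F] (ho : S.o = false) (h2 : (2 : F) ≠ 0) (hd : 3 ≤ finrank F V) {χ : S.G → ℂ}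
    (hχ : IsCharacter S.G χ) {v : V} (hv : v ≠ 0) {z : ℕ} (hz : ∑ c, χ (S.tv ho v c) = Nat.card F * z) :
    (Nat.card F : ℤ) ∣ (charDegree χ : ℤ) - z := by
  classical
  obtain ⟨y₀, y₁, h0, h1, hβ⟩ := n1a_pair (S := S) hd hv
  have hB := (S.hs ho).1
  have hQ := (S.hs ho).2
  have h0' := S.B_refl h0
  have h1' := S.B_refl h1
  let g : F × F → S.G := fun p => S.eich v (p.1 • y₀ + p.2 • v) (hQ v) (by simp [h0, hB])
  have hg : ∀ p x, (g p).1 x = x + (p.1 * S.B x y₀ - 2 * p.2 * S.B v x) • v - (p.1 * S.B v x) • y₀ := fun p x => by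
    simp only [g, eich_app, hQ, map_add, map_smul, smul_eq_mul, n1a_swap ho v x]
    module
  have hadd : ∀ p p', g (p + p') = g p * g p' := fun p p' => G_ext fun x => by
    simp only [mul_app, hg, Prod.fst_add, Prod.snd_add, map_add, map_sub, map_smul, LinearMap.add_apply,
      LinearMap.sub_apply, LinearMap.smul_apply, smul_eq_mul, h0, hB]
    module
  have hz0 : ∀ c, g (0, c) = S.tv ho v (2 * c) := fun c => G_ext fun x => by
    simp only [hg, tv_app, n1a_swap ho v x]
    module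
  have hconj : ∀ a, a ≠ 0 → ∀ c, χ (g (a, c)) = χ (g (a, 0)) := fun a ha c => by
    obtain ⟨t, rfl⟩ : ∃ t, c = a * t * S.B y₀ y₁ := ⟨c / (a * S.B y₀ y₁), by field_simp⟩
    let u := S.eich v (t • y₁) (hQ v) (by simp [h1])
    have hu : ∀ x, u.1 x = x + (t * S.B x y₁) • v - (t * S.B v x) • y₁ := fun x => by
      simp only [u, eich_app, hQ, map_smul, smul_eq_mul]
      module
    rw [← hχ.isClassFunction.conj_eq (g (a, 0)) u]
    congr 1
    rw [eq_mul_inv_iff_mul_eq]
    refine G_ext fun x => ?_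
    simp only [mul_app, hg, hu, map_add, map_sub, map_smul, LinearMap.add_apply,
      LinearMap.sub_apply, LinearMap.smul_apply, smul_eq_mul, h0, h1, hB, n1a_swap ho y₀ y₁]
    module
  obtain ⟨n₂, hn₂⟩ := nat_avg hχ g hadd
  obtain ⟨n₁, hn₁⟩ := nat_avg hχ (fun a : F => g (a, 0)) fun a a' => by rw [← hadd, Prod.mk_add_mk, add_zero]
  have hrow : ∀ a, ∑ c, χ (g (a, c)) = Nat.card F * χ (g (a, 0)) +
      if a = 0 then (Nat.card F * z - Nat.card F * charDegree χ : ℂ) else 0 := fun a => by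
    split_ifs with ha
    · subst ha
      simp only [hz0, mul_zero, n1a_tv_zero, hχ.coe_charDegree]
      rw [← hz, add_sub_cancel]
      exact Equiv.sum_comp (Equiv.mulLeft₀ 2 h2) fun c => χ (S.tv ho v c)
    · rw [sum_congr rfl fun c _ => hconj a ha c, sum_const, card_univ, nsmul_eq_mul, Nat.card_eq_fintype_card,
        add_zero]
  rw [Fintype.sum_prod_type, sum_congr rfl fun a _ => hrow a, sum_add_distrib, ← mul_sum, hn₁, sum_ite_eq',
    if_pos (mem_univ _), Nat.card_prod] at hn₂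
  have hq : (Nat.card F : ℂ) ≠ 0 := Nat.cast_ne_zero.2 Nat.card_pos.ne'
  refine ⟨n₁ - n₂, ?_⟩
  have : ((charDegree χ : ℂ) - z) = Nat.card F * (n₁ - n₂) := by
    apply mul_left_cancel₀ hq
    push_cast at hn₂
    linear_combination -hn₂
  exact_mod_cast this

end Fm

end Cfsg.Agent.DG
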