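import Mathlib
import Cfsg.Agent.DG.AbsH2
import Cfsg.Agent.DG.Tri1
import Cfsg.Agent.DG.Ord
import Cfsg.Agent.DG.N1a
import Cfsg.Agent.DG.CardU
import Cfsg.Agent.DG.Par
import Cfsg.Agent.DG.Ty

/-!
# The class sum of the transvections of `Sp₄`
-/

set_option autoImplicit false

namespace Cfsg.Agent.DG

open Module Matrix Finset
open scoped ComplexConjugate

theorem n1b_sum {X : Type} [Fintype X] [DecidableEq X] (x₀ : X) (a b : ℂ) :
    ∑ x, (if x = x₀ then a else b) = a + ((Nat.card X : ℂ) - 1) * b := by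
  have h : ∀ x, (if x = x₀ then a else b) = b + if x = x₀ then a - b else 0 := fun x => by
    split_ifs <;> ring
  simp only [h, sum_add_distrib, sum_const, card_univ, nsmul_eq_mul, sum_ite_eq', mem_univ, if_true,
    Nat.card_eq_fintype_card]
  ring

namespace Fm

variable {F V : Type} [Field F] [Finite F] [AddCommGroup V] [Module F V] [Finite V] {S : Fm F V} {k d e : ℕ}

omit [Finite F] in
theorem n1b_zero (ho : S.o = false) (v : V) : S.tv ho v 0 = 1 :=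
  G_ext fun x => by simp [tv_app]

omit [Finite F] in
theorem n1b_zero' (ho : S.o = false) (c : F) : S.tv ho 0 c = 1 :=
  G_ext fun x => by simp [tv_app]

theorem n1b_app (ho : S.o = false) (w : HV F k V) (c : F) (x : HV F k V) :
    ((S.hyp k).tv ho w c).1 x = x + (c * (S.hyp k).B x w) • w :=
  tv_app (S.hyp k) ho w c x

theorem n1b_conj (ho : S.o = false) (g : (S.hyp k).G) (w : HV F k V) (c : F) :
    (S.hyp k).tv ho (g.1 w) c = g * (S.hyp k).tv ho w c * g⁻¹ :=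
  (conj_tv (S := S.hyp k) ho g w c).symm

theorem n1b_smul (ho : S.o = false) (w : HV F k V) (a c : F) :
    (S.hyp k).tv ho (a • w) c = (S.hyp k).tv ho w (a ^ 2 * c) :=
  tv_smul (S := S.hyp k) ho w a c

theorem n1b_perp (ho : S.o = false) {v : HV F k V} (hv : v.1.2 = 0) (c : F) :
    (S.hyp k).tv ho v c * (S.lev k (1, S.tv ho v.2 c))⁻¹ ∈ S.U k := by
  refine mem_U_of (fun x => ?_) fun w => ?_
  · simp [n1b_app, hyp_B, hv]
  · simp [n1b_app, tv_app, hyp_B]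

theorem n1b_W (ho : S.o = false) (x : Fin k → F) (c : F) : (S.hyp k).tv ho ((x, 0), 0) c ∈ S.U k := by
  have h := n1b_perp (S := S) ho (v := ((x, 0), 0)) rfl c
  rwa [n1b_zero', show ((1 : GL (Fin k) F), (1 : S.G)) = 1 from rfl, map_one, inv_one, mul_one] at h

/-- A scalar of `GL₁`. -/
def n1bSc {s : F} (hs : s ≠ 0) : GL (Fin 1) F :=
  ⟨diagonal fun _ => s, diagonal fun _ => s⁻¹, by simp [hs], by simp [hs]⟩

theorem n1b_dec (ho : S.o = false) {s : F} (hs : s ≠ 0) :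
    (S.hyp 1).tv ho ((0, Pi.single 0 1), 0) s =
      (S.hyp 1).tv ho ((Pi.single 0 1, 0), 0) (-s⁻¹) * S.nn 1 *
        (S.lev 1 (n1bSc hs, 1) * (S.hyp 1).tv ho ((Pi.single 0 1, 0), 0) (-s⁻¹)) := by
  have he : S.ε = -1 := by simp [ε, ho]
  have h1 : ((n1bSc hs : GL (Fin 1) F) : Matrix (Fin 1) (Fin 1) F) = diagonal fun _ => s := rfl
  have h2 : (((n1bSc hs)⁻¹ : GL (Fin 1) F) : Matrix (Fin 1) (Fin 1) F) = diagonal fun _ => s⁻¹ := rfl
  refine G_ext fun z => ?_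
  simp only [mul_app, n1b_app, nn_app, lev_app, hyp_B, he, h1, h2, one_app]
  refine Prod.ext (Prod.ext (funext fun i => ?_) (funext fun i => ?_)) ?_
  · obtain rfl : i = 0 := Subsingleton.elim _ _
    simp [mulVec_diagonal]
    field_simp
    ring
  · obtain rfl : i = 0 := Subsingleton.elim _ _
    simp [mulVec_diagonal]
    field_simp
    ring
  · simp

theorem n1b_move (ho : S.o = false) {v : HV F 1 V} (hv : v.1.2 ≠ 0) :
    ∃ u ∈ S.U 1, ∃ b : F, b ≠ 0 ∧ u.1 (b • ((0, Pi.single 0 1), 0)) = v := by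
  have hb : v.1.2 0 ≠ 0 := fun h => hv (funext fun i => by rw [Subsingleton.elim i 0, h]; rfl)
  have he : S.ε = -1 := by simp [ε, ho]
  have hd : S.δ = 0 := by simp [δ, ho]
  obtain ⟨u, hu, h⟩ := cardU_exists (S := S) (k := 1) (T := fun _ => (v.1.2 0)⁻¹ • v.2)
    (M := of fun _ _ => (v.1.2 0)⁻¹ * v.1.1 0) (by simp [CardURel, he, hd, (S.hs ho).1, (S.hs ho).2])
  refine ⟨u, hu, _, hb, ?_⟩
  rw [map_smul, h 0]
  refine Prod.ext (Prod.ext (funext fun i => ?_) (funext fun i => ?_)) ?_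
  · obtain rfl : i = 0 := Subsingleton.elim _ _
    simp [hb]
  · obtain rfl : i = 0 := Subsingleton.elim _ _
    simp
  · simp [smul_smul, hb]

variable {ψ : S.G → ℂ} {φ χ : (S.hyp 1).G → ℂ} {y : ℂ}

theorem n1b_SE_perp (ho : S.o = false) (hφ : S.IsPhi 1 (fun _ => 1) ψ φ)
    (h : HC ⊤ (S.P 1) (S.U 1) (S.nn 1) φ χ y) {v : HV F 1 V} (hv : v.1.2 = 0) (c : F) :
    SE (S.P 1) φ χ ((S.hyp 1).tv ho v c) = ψ (S.tv ho v.2 c) := by
  have h1 := n1b_perp (S := S) ho hv c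
  have h2 : (S.hyp 1).tv ho v c =
      (S.hyp 1).tv ho v c * (S.lev 1 (1, S.tv ho v.2 c))⁻¹ * S.lev 1 (1, S.tv ho v.2 c) := by group
  have h3 : (S.hyp 1).tv ho v c ∈ S.P 1 := by
    rw [h2]
    exact mul_mem ((isPar one_pos).UP h1) (lev_mem_P _ _)
  rw [h.inP _ h3, h2, hφ _ h1, one_mul]

theorem n1b_SE_big (ho : S.o = false) (hφ : S.IsPhi 1 (fun _ => 1) ψ φ)
    (h : HC ⊤ (S.P 1) (S.U 1) (S.nn 1) φ χ y) {v : HV F 1 V} (hv : v.1.2 ≠ 0) {c : F} (hc : c ≠ 0) :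
    SE (S.P 1) φ χ ((S.hyp 1).tv ho v c) = y / Nat.card (S.U 1) * ψ 1 := by
  obtain ⟨u, hu, b, hb, rfl⟩ := n1b_move (S := S) ho hv
  have hs : b ^ 2 * c ≠ 0 := mul_ne_zero (pow_ne_zero _ hb) hc
  have UP := (isPar (S := S) (k := 1) one_pos).UP
  obtain ⟨β, hβ⟩ : ∃ β, β = (S.hyp 1).tv ho ((Pi.single 0 1, 0), 0) (-(b ^ 2 * c)⁻¹) := ⟨_, rfl⟩
  have βU : β ∈ S.U 1 := hβ ▸ n1b_W ho _ _
  have e : (S.hyp 1).tv ho (u.1 (b • ((0, Pi.single 0 1), 0))) c =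
      u * β * S.nn 1 * (S.lev 1 (n1bSc hs, 1) * β * u⁻¹) := by
    rw [n1b_conj, n1b_smul, n1b_dec ho hs, ← hβ]
    group
  rw [e, h.big _ (UP (mul_mem hu βU)) _ (mul_mem (mul_mem (lev_mem_P _ _) (UP βU)) (UP (inv_mem hu)))]
  have h1 := hφ.mul (one_mem _) (n1bSc hs) 1 (β := β * β) (a' := 1) (g' := 1) (by
    rw [show ((1 : GL (Fin 1) F), (1 : S.G)) = 1 from rfl, map_one, inv_one, mul_one]
    exact mul_mem βU βU)
  rw [show S.lev 1 (n1bSc hs, 1) * β * u⁻¹ * (u * β) = 1 * S.lev 1 (n1bSc hs, 1) * (β * β) by group, h1]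
  simp

theorem n1_ksum [Fintype F] (ho : S.o = false) (hT : S.Ty 1 1) {ψ : S.G → ℂ} (hψ : IsIrrCharacter S.G ψ)
    (hc : ∀ v, v ≠ 0 → ∀ g, ∑ c, ψ (g * S.tv ho v c) = 0) {φ χ : (S.hyp 1).G → ℂ}
    (hφ : S.IsPhi 1 (fun _ => 1) ψ φ) {y : ℂ} (h : HC ⊤ (S.P 1) (S.U 1) (S.nn 1) φ χ y) :
    ∃ (v : HV F 1 V) (z : ℕ), v ≠ 0 ∧ ∑ c, χ ((S.hyp 1).tv ho v c) = Nat.card F * z ∧
      ((Nat.card F : ℂ) + 1) * ((Nat.card F : ℂ) ^ 2 + 1) * Nat.card F * z =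
        charDegree χ * ((Nat.card F : ℂ) ^ 3 + Nat.card F + ((Nat.card F : ℂ) - 1) * y) := by
  classical
  letI : Fintype V := Fintype.ofFinite V
  have hχ := h.irr.isCharacter
  have hd : finrank F V = 2 := by
    have h1 := hT.finrank_eq
    simp [ho] at h1
    exact h1
  have cV : (Nat.card V : ℂ) = (Nat.card F : ℂ) ^ 2 := by
    rw [Module.natCard_eq_pow_finrank (K := F), hd, Nat.cast_pow]
  have cX : (Nat.card (Fin 1 → F) : ℂ) = Nat.card F := by simp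
  have cH : (Nat.card (HV F 1 V) : ℂ) = (Nat.card F : ℂ) ^ 4 := by
    rw [Nat.card_prod, Nat.card_prod, Nat.cast_mul, Nat.cast_mul, cV, cX]; ring
  have cU : (Nat.card (S.U 1) : ℂ) = (Nat.card F : ℂ) ^ 3 := by
    rw [card_U, hd]; simp [ho]
  have q2 : 1 < Nat.card F := Finite.one_lt_card
  have q0 : (Nat.card F : ℂ) ≠ 0 := by exact_mod_cast (by omega : Nat.card F ≠ 0)
  have q1 : (Nat.card F : ℂ) - 1 ≠ 0 := sub_ne_zero.2 (by exact_mod_cast (by omega : Nat.card F ≠ 1))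
  obtain ⟨v₀, hv₀⟩ : ∃ v₀ : HV F 1 V, v₀ ≠ 0 := ⟨((Pi.single 0 1, 0), 0), fun h => by
    simpa using congrFun (congrArg (fun z : HV F 1 V => z.1.1) h) 0⟩
  obtain ⟨z, hz⟩ := nat_avg hχ _ (tv_add (S := S.hyp 1) ho v₀)
  refine ⟨v₀, z, hv₀, hz, ?_⟩
  have hA : ∀ v, ∑ c, χ ((S.hyp 1).tv ho v c) = if v = 0 then Nat.card F * χ 1 else Nat.card F * z := by
    intro v
    split_ifs with h0
    · simp [h0, n1b_zero' (S := S.hyp 1) ho]
    · obtain ⟨g, rfl⟩ := exists_map_vec (S := S.hyp 1) ho hv₀ h0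
      rw [← hz]
      exact sum_congr rfl fun c _ => by rw [n1b_conj, hχ.isClassFunction]
  have φ1 : φ 1 = ψ 1 := by rw [hφ.one, one_mul]
  have hB : ∀ v : HV F 1 V, ∑ c, SE (S.P 1) φ χ ((S.hyp 1).tv ho v c) =
      if v.1.2 = 0 then (if v.2 = 0 then Nat.card F * ψ 1 else 0)
      else ψ 1 + ((Nat.card F : ℂ) - 1) * (y / (Nat.card F : ℂ) ^ 3 * ψ 1) := by
    intro v
    split_ifs with h0 h1
    · simp [n1b_SE_perp ho hφ h h0, h1, n1b_zero']
    · simpa [n1b_SE_perp ho hφ h h0] using hc _ h1 1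
    · rw [← n1b_sum (0 : F)]
      refine sum_congr rfl fun c _ => ?_
      split_ifs with h2
      · rw [h2, n1b_zero (S := S.hyp 1) ho, h.inP _ (one_mem _), φ1]
      · rw [n1b_SE_big ho hφ h h0 h2, cU]
  have key := h.ksum (fun i : HV F 1 V × F => (S.hyp 1).tv ho i.1 i.2) fun g =>
    ⟨g.1.toEquiv.prodCongr (Equiv.refl F), fun i => n1b_conj ho g i.1 i.2⟩
  have hC : ∀ b : Fin 1 → F, ∑ w : V, (if b = 0 then (if w = 0 then Nat.card F * ψ 1 else 0)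
      else ψ 1 + ((Nat.card F : ℂ) - 1) * (y / (Nat.card F : ℂ) ^ 3 * ψ 1)) =
      if b = 0 then Nat.card F * ψ 1 else
        (Nat.card F : ℂ) ^ 2 * (ψ 1 + ((Nat.card F : ℂ) - 1) * (y / (Nat.card F : ℂ) ^ 3 * ψ 1)) := by
    intro b
    split_ifs
    · simp
    · rw [sum_const, card_univ, nsmul_eq_mul, ← cV, ← Nat.card_eq_fintype_card]
  have eA : ∑ i : HV F 1 V × F, χ ((S.hyp 1).tv ho i.1 i.2) =
      Nat.card F * χ 1 + ((Nat.card F : ℂ) ^ 4 - 1) * (Nat.card F * z) := by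
    rw [Fintype.sum_prod_type]
    simp only [hA]
    rw [n1b_sum, cH]
  have eB : ∑ i : HV F 1 V × F, SE (S.P 1) φ χ ((S.hyp 1).tv ho i.1 i.2) =
      Nat.card F * (Nat.card F * ψ 1 + ((Nat.card F : ℂ) - 1) *
        ((Nat.card F : ℂ) ^ 2 * (ψ 1 + ((Nat.card F : ℂ) - 1) * (y / (Nat.card F : ℂ) ^ 3 * ψ 1)))) := by
    rw [Fintype.sum_prod_type]
    simp only [hB]
    rw [Fintype.sum_prod_type, Fintype.sum_prod_type]
    simp only [hC, n1b_sum]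
    rw [sum_const, card_univ, nsmul_eq_mul, ← Nat.card_eq_fintype_card, cX]
  rw [eA, eB, φ1, ← hχ.coe_charDegree] at key
  have ψ0 : ψ 1 ≠ 0 := hψ.apply_one_ne_zero
  generalize (Nat.card F : ℂ) = q at key q0 q1 ⊢
  generalize (charDegree χ : ℂ) = D at key ⊢
  apply mul_left_cancel₀ q1
  field_simp at key
  linear_combination key

end Fm

end Cfsg.Agent.DG
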