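import Mathlib
import Cfsg.Agent.DG.N1b
import Cfsg.Agent.DG.Tri2

set_option autoImplicit false

namespace Cfsg.Agent.DG

open Module Matrix Finset
open scoped ComplexConjugate

namespace N1c

/-- An algebraic integer satisfying a linear equation over the naturals is an integer. -/
theorem int_of_lin {y : ℂ} (hy : IsIntegral ℤ y) {q z d : ℕ} (hq : 2 ≤ q) (hd : 0 < d)
    (h : ((q : ℂ) + 1) * ((q : ℂ) ^ 2 + 1) * q * z = d * ((q : ℂ) ^ 3 + q + ((q : ℂ) - 1) * y)) :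
    ∃ m : ℤ, y = m ∧ ((q : ℤ) + 1) * ((q : ℤ) ^ 2 + 1) * q * z = d * ((q : ℤ) ^ 3 + q + ((q : ℤ) - 1) * m) := by
  have h1 : (q : ℂ) - 1 ≠ 0 := by
    rw [sub_ne_zero]
    exact_mod_cast (show q ≠ 1 by omega)
  have h2 : (d : ℂ) ≠ 0 := by exact_mod_cast hd.ne'
  have h3 : y = (((((q : ℚ) + 1) * ((q : ℚ) ^ 2 + 1) * q * z / d - q ^ 3 - q) / (q - 1) : ℚ) : ℂ) := by
    push_cast
    rw [h]
    field_simp
    ring
  obtain ⟨m, hm⟩ := Ch.integral_exists_int_of_rat (h3 ▸ hy)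
  have h4 : y = m := by rw [h3, ← hm, Rat.cast_intCast]
  refine ⟨m, h4, ?_⟩
  rw [h4] at h
  exact_mod_cast h

theorem dvd_deg {q z d r : ℕ} {m : ℤ} (hq : 2 ≤ q) (hr : r.Prime) (h2 : r ≠ 2) (h1 : r ∣ q - 1)
    (h3 : (r : ℤ) ∣ (q : ℤ) * z - d)
    (h : ((q : ℤ) + 1) * ((q : ℤ) ^ 2 + 1) * q * z = d * ((q : ℤ) ^ 3 + q + ((q : ℤ) - 1) * m)) : r ∣ d := by
  have h4 : (r : ℤ) ∣ (q : ℤ) - 1 := by
    have := Int.natCast_dvd_natCast.2 h1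
    rwa [Nat.cast_sub (by omega), Nat.cast_one] at this
  obtain ⟨s, hs⟩ := h4
  obtain ⟨t, ht⟩ := h3
  have h5 : (r : ℤ) ∣ 2 * d := by
    have e1 : (q : ℤ) = 1 + r * s := by linear_combination hs
    have e2 : (q : ℤ) * z = d + r * t := by linear_combination ht
    rw [mul_assoc _ (q : ℤ) z, e2, e1] at h
    refine ⟨-(t * ((1 + r * s + 1) * ((1 + r * s) ^ 2 + 1))) + d * s * (m - 2 - r * s), ?_⟩
    linear_combination h
  have h6 : r ∣ 2 * d := by exact_mod_cast h5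
  exact ((Nat.Prime.dvd_mul hr).1 h6).resolve_left fun e => h2 ((Nat.prime_dvd_prime_iff_eq hr Nat.prime_two).1 e)

theorem not_equal {q z d s : ℕ} {m : ℤ} (hq : 2 ≤ q) (hs : s ∣ q - 1) (hd : d * 2 = (q + 1) * (q ^ 2 + 1) * s)
    (hm : m * m = (q : ℤ) ^ 3) (h3 : (q : ℤ) ∣ (d : ℤ) - z)
    (h : ((q : ℤ) + 1) * ((q : ℤ) ^ 2 + 1) * q * z = d * ((q : ℤ) ^ 3 + q + ((q : ℤ) - 1) * m)) : False := by
  have hd' : (d : ℤ) * 2 = ((q : ℤ) + 1) * ((q : ℤ) ^ 2 + 1) * s := by exact_mod_cast hd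
  have hN : ((q : ℤ) + 1) * ((q : ℤ) ^ 2 + 1) ≠ 0 := by positivity
  have e1 : 2 * (q : ℤ) * z = s * ((q : ℤ) ^ 3 + q + ((q : ℤ) - 1) * m) := by
    refine mul_left_cancel₀ hN ?_
    linear_combination 2 * h + ((q : ℤ) ^ 3 + q + ((q : ℤ) - 1) * m) * hd'
  obtain ⟨t, ht⟩ := h3
  have e2 : (q : ℤ) ^ 2 ∣ (s * ((q : ℤ) - 1)) * m :=
    ⟨s * ((q : ℤ) ^ 2 + 1) - 2 * t, by linear_combination -e1 + (q : ℤ) * hd' - 2 * (q : ℤ) * ht⟩
  have c1 : IsCoprime (q : ℤ) ((q : ℤ) - 1) := ⟨1, -1, by ring⟩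
  have c2 : IsCoprime (q : ℤ) (s : ℤ) := by
    refine c1.of_isCoprime_of_dvd_right ?_
    have := Int.natCast_dvd_natCast.2 hs
    rwa [Nat.cast_sub (by omega), Nat.cast_one] at this
  obtain ⟨u, rfl⟩ := (IsCoprime.pow_left (m := 2) (c2.mul_right c1)).dvd_of_dvd_mul_left e2
  have h0 : (q : ℤ) ^ 3 ≠ 0 := by positivity
  have e3 : (q : ℤ) * (u * u) = 1 := mul_left_cancel₀ h0 (by linear_combination hm)
  have := Int.eq_one_of_mul_eq_one_right (by positivity) e3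
  omega

theorem ten_dvd {d c s : ℕ} (hc : Odd c) (hs : s ∣ 2) (h : d * (1 + 3 ^ c) = 40 * s) : 10 ∣ d := by
  have h1 : s = 1 ∨ s = 2 := (Nat.dvd_prime Nat.prime_two).1 hs
  have h2 : c < 5 := by
    by_contra h3
    have h4 : 3 ^ 5 ≤ 3 ^ c := Nat.pow_le_pow_right (by norm_num) (by omega)
    have h5 : 0 < d := Nat.pos_of_ne_zero (by rintro rfl; omega)
    have h6 : 1 + 3 ^ c ≤ d * (1 + 3 ^ c) := Nat.le_mul_of_pos_left _ h5
    omega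
  have h3 := Nat.odd_iff.1 hc
  interval_cases c <;> omega

end N1c

namespace Fm

variable {F V : Type} [Field F] [Finite F] [AddCommGroup V] [Module F V] [Finite V] {S : Fm F V} {k d e : ℕ}

theorem n1c_hyp (ho : S.o = false) (hT : S.Ty 1 1) :
    (∃ n, (S.hyp 1).Out n ∧ (∀ p : ℕ, p.Prime → p ∣ Nat.card F → p ∣ n) ∧
      ∀ r : ℕ, r.Prime → r ≠ 2 → r ∣ Nat.card F - 1 → r ∣ n) ∧
    (Nat.card F = 3 → ∃ n, (S.hyp 1).Out n ∧ 10 ∣ n) := by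
  have := Fintype.ofFinite F
  obtain ⟨p, hch, f, hp, hf⟩ := FiniteField.card' F
  rw [← Nat.card_eq_fintype_card] at hf
  have hq : 2 ≤ Nat.card F := Finite.one_lt_card
  obtain ⟨ψ, hψ, hdv, hneg, hc⟩ := exists_cusp_sp2 ho hT
  obtain ⟨φ, hφ⟩ := exists_isPhi (S := S) (k := 1) (fun _ => 1) ψ
  have ht : Tri ⊤ (S.P 1) (S.nn 1) φ := fun x =>
    (tri_base cusp_one hφ (fun _ _ _ _ => Subgroup.mem_top _) x).imp_right fun h => h.imp_right fun h =>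
      h.elim id (van_T ho hφ hc)
  have hs := hφ.hs one_pos (cusp_one (F := F)).irr hψ (fun _ => rfl) ht
  have hU : Nat.card (S.U 1) = p ^ ((f : ℕ) * 3) := by rw [hT.card_U, hf, ← pow_mul]; rfl
  obtain ⟨χ₁, χ₂, y₁, y₂, c, hO⟩ := hs.exists_HO hp hU
  have hi : (S.P 1).index = (Nat.card F + 1) * (Nat.card F ^ 2 + 1) := by
    have e3 := hT.index_P one_pos
    simp only [Ico_self, prod_empty, mul_one, pow_one, NN, prod_range_one] at e3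
    refine Nat.eq_of_mul_eq_mul_right (show 0 < Nat.card F - 1 by omega) (e3.trans ?_)
    obtain ⟨q, hq'⟩ : ∃ q, Nat.card F = q + 1 := ⟨Nat.card F - 1, by omega⟩
    rw [hq', show (q + 1) ^ (1 + 0 + 1) - 1 = (q + 1 + 1) * q from Nat.sub_eq_of_eq_add (by ring)]
    simp only [Nat.add_sub_cancel]
    ring
  have hd : charDegree χ₁ * (1 + p ^ c) = (Nat.card F + 1) * (Nat.card F ^ 2 + 1) * charDegree ψ := by
    have e1 := hO.deg_sum
    rw [hφ.one, one_mul, ← hψ.coe_charDegree, hi] at e1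
    exact_mod_cast e1
  obtain ⟨z1, z2⟩ := hO.central hs (z := (S.hyp 1).neg) (fun g => G_ext fun x => by simp)
    (by rw [neg_eq_lev]; exact lev_mem_P _ _) (by rw [neg_eq_lev, hφ.lev, hφ.one, hneg])
  obtain ⟨v₁, w₁, hv₁, s₁, k₁⟩ := n1_ksum ho hT hψ hc hφ hO.h₁
  obtain ⟨v₂, w₂, hv₂, s₂, k₂⟩ := n1_ksum ho hT hψ hc hφ hO.h₂
  obtain ⟨m₁, e₁, l₁⟩ := N1c.int_of_lin hO.h₁.int hq hO.h₁.irr.charDegree_pos k₁
  obtain ⟨m₂, -, l₂⟩ := N1c.int_of_lin hO.h₂.int hq hO.h₂.irr.charDegree_pos k₂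
  refine ⟨⟨_, ⟨χ₂, hO.h₂.irr, rfl, fun _ => z2⟩, fun p' hp' h => ?_, fun r hr h2 h => ?_⟩, fun h3 => ?_⟩
  · rw [hf] at h
    obtain rfl := (Nat.prime_dvd_prime_iff_eq hp' hp).1 (hp'.dvd_of_dvd_pow h)
    rw [hO.deg]
    refine (dvd_pow_self _ ?_).mul_right _
    rintro rfl
    rw [pow_zero] at hd
    by_cases h2 : (2 : F) = 0
    · have e2 : p' = 2 := (Nat.prime_dvd_prime_iff_eq hp Nat.prime_two).1
        ((CharP.cast_eq_zero_iff F p' 2).1 (by exact_mod_cast h2))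
      have e3 : Even (Nat.card F) := by rw [hf, e2]; exact (Nat.even_pow' f.ne_zero).2 even_two
      have e4 : Odd (charDegree ψ) := (Nat.Even.sub_odd (by omega) e3 odd_one).of_dvd_nat hdv
      have e5 := (e3.add_one.mul ((Nat.even_pow' two_ne_zero).2 e3).add_one).mul e4
      rw [← hd, Nat.odd_iff] at e5
      omega
    · have e2 := (hT.hyp 1).finrank_eq
      rw [hyp_o, ho] at e2
      refine N1c.not_equal hq hdv hd ?_
        (tv_heis (S := S.hyp 1) ho h2 (by simp at e2 ⊢; omega) hO.h₁.irr.isCharacter hv₁ s₁) l₁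
      have e3 := hO.y₁
      rw [e₁, map_intCast, add_zero, pow_mul] at e3
      rw [hf]
      exact_mod_cast e3
  · exact N1c.dvd_deg hq hr h2 h (tv_sum_prime (S := S.hyp 1) ho hO.h₂.irr.isCharacter hv₂ s₂ hr h2 h) l₂
  · refine ⟨_, ⟨χ₁, hO.h₁.irr, rfl, fun _ => z1⟩, ?_⟩
    obtain ⟨e2, e3⟩ := (Nat.Prime.pow_eq_iff Nat.prime_three).1 (hf.symm.trans h3)
    have e4 := hO.even_of_rat hp (r := m₁) (by rw [e₁, Rat.cast_intCast])
    rw [e3, Nat.even_iff] at e4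
    rw [h3] at hdv
    rw [h3, e2] at hd
    exact N1c.ten_dvd (Nat.odd_iff.2 (by omega)) hdv hd

theorem n1s (ho : S.o = false) (hT : S.Ty 2 1) :
    (∃ n, S.Out n ∧ (∀ p : ℕ, p.Prime → p ∣ Nat.card F → p ∣ n) ∧
      ∀ r : ℕ, r.Prime → r ≠ 2 → r ∣ Nat.card F - 1 → r ∣ n) ∧
    (Nat.card F = 3 → ∃ n, S.Out n ∧ 10 ∣ n) := by
  obtain ⟨V', _, _, _, S', hT', ho', hI⟩ := Ty.split (d := 1) (k := 1) hT
  obtain ⟨⟨n, h1, h2⟩, h3⟩ := n1c_hyp (ho'.trans ho) hT'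
  exact ⟨⟨n, hI.out h1, h2⟩, fun h => (h3 h).imp fun _ h => ⟨hI.out h.1, h.2⟩⟩

end Fm

end Cfsg.Agent.DG
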