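import Mathlib
import Cfsg.Agent.DG.R3
import Cfsg.Agent.DG.Ty

/-! The rank three action on the nonsingular vectors over the field of two elements. -/

set_option autoImplicit false
set_option linter.unusedSectionVars false

namespace Cfsg.Agent.DG

open Module Matrix Finset
open scoped ComplexConjugate

namespace Fm

variable {F V : Type} [Field F] [Finite F] [AddCommGroup V] [Module F V] [Finite V] {S : Fm F V} {k d e : ℕ}

open Classical in
/-- The sign of a field element. -/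
noncomputable def nsgS (a : F) : ℤ := if a = 0 then 1 else -1

theorem nsgS_zero : nsgS (0 : F) = 1 := if_pos rfl
theorem nsgS_one : nsgS (1 : F) = -1 := if_neg one_ne_zero

theorem nsg_cases (hq : Nat.card F = 2) (a : F) : a = 0 ∨ a = 1 := by
  obtain ⟨y, -, hu⟩ := (Nat.card_eq_two_iff' (0 : F)).1 hq
  exact or_iff_not_imp_left.2 fun h => (hu a h).trans (hu 1 one_ne_zero).symm

theorem nsg_two (hq : Nat.card F = 2) : (1 + 1 : F) = 0 :=
  (nsg_cases hq _).resolve_right (by simp)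

theorem nsgS_add (hq : Nat.card F = 2) (a b : F) : nsgS (a + b) = nsgS a * nsgS b := by
  rcases nsg_cases hq a with rfl | rfl <;> rcases nsg_cases hq b with rfl | rfl <;>
    simp [nsg_two hq, nsgS_zero, nsgS_one]

variable (S) in
/-- The nonsingular vectors. -/
def Ns : Type := {v : V // S.Q v = 1}

instance : Finite S.Ns := inferInstanceAs (Finite {v : V // S.Q v = 1})

instance : MulAction S.G S.Ns where
  smul g v := ⟨g.1 v.1, (Q_app g _).trans v.2⟩
  one_smul _ := rfl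
  mul_smul _ _ _ := rfl

theorem Ns.ne (x : S.Ns) : x.1 ≠ 0 := fun h => by
  have := x.2
  rw [h, map_zero] at this
  exact zero_ne_one this

theorem nsg_card [Fintype V] (P : S.Ns → Prop) (R : V → Prop) [∀ z, Decidable (S.Q z = 1 ∧ R z)]
    (h : ∀ x, P x ↔ R x.1) :
    (Nat.card {y // P y} : ℤ) = ∑ z, if S.Q z = 1 ∧ R z then 1 else 0 := by
  rw [Finset.sum_boole, ← Fintype.card_subtype, ← Nat.card_eq_fintype_card]
  exact congrArg _ (Nat.card_congr ⟨fun y => ⟨y.1.1, y.1.2, (h _).1 y.2⟩,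
    fun z => ⟨⟨z.1, z.2.1⟩, (h _).2 z.2.2⟩, fun _ => rfl, fun _ => rfl⟩)

section

variable (hq : Nat.card F = 2) (ho : S.o = true)
include hq

theorem nsg_sum1 [Fintype V] {u : V} (hu : u ≠ 0) : ∑ z, nsgS (S.B u z) = 0 := by
  obtain ⟨y, hy⟩ := not_forall.1 fun h => hu (S.nd u h)
  have := Equiv.sum_comp (Equiv.addRight y) fun z => nsgS (S.B u z)
  simp only [Equiv.coe_addRight, map_add, nsgS_add hq, (nsg_cases hq _).resolve_left hy, nsgS_one,
    ← Finset.sum_mul] at this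
  linarith

include ho

theorem nsg_swap (x y : V) : S.B y x = S.B x y := by rw [S.B_swap, ε, ho]; simp

theorem nsg_add (x y : V) : S.Q (x + y) = S.Q x + S.Q y + S.B x y := by rw [S.Q_add, δ, ho]; simp

theorem nsg_self (x : V) : S.B x x = 0 := by rw [S.B_self, ← one_add_one_eq_two, nsg_two hq, zero_mul]

theorem nsg_sum2 [Fintype V] {u : V} (hu : S.Q u = 1) :
    ∑ z, nsgS (S.Q z) * nsgS (S.B u z) = -∑ z, nsgS (S.Q z) := by
  rw [← Equiv.sum_comp (Equiv.addLeft u) fun z => nsgS (S.Q z), ← Finset.sum_neg_distrib]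
  refine Finset.sum_congr rfl fun z _ => ?_
  rw [Equiv.coe_addLeft, nsg_add hq ho, nsgS_add hq, nsgS_add hq, hu, nsgS_one]
  ring

theorem nsg_pair {x y x' y' : S.Ns} (h : x ≠ y) (h' : x' ≠ y') (hB : S.B x.1 y.1 = S.B x'.1 y'.1) :
    ∃ g : S.G, g • x = x' ∧ g • y = y' := by
  have li : ∀ {x y : S.Ns}, x ≠ y → LinearIndependent F ![x.1, y.1] := fun {x y} h =>
    (LinearIndependent.pair_iff' x.ne).2 fun a e => by
      rcases nsg_cases hq a with rfl | rfl
      · exact y.ne (by rw [← e, zero_smul])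
      · exact h (Subtype.ext (by rw [← e, one_smul]))
  obtain ⟨g, g1, g2, g3⟩ := S.witt.extend_family S.nd _ _ (li h) (li h')
    (fun i j => by
      fin_cases i <;> fin_cases j
      · simp [nsg_self hq ho]
      · simp [hB]
      · simpa [nsg_swap hq ho x.1, nsg_swap hq ho x'.1] using hB.symm
      · simp [nsg_self hq ho])
    (fun i => by fin_cases i <;> simp [x.2, y.2, x'.2, y'.2])
  exact ⟨⟨g, g1, g2⟩, Subtype.ext (g3 0), Subtype.ext (g3 1)⟩

theorem nsg_core {n Z k l μ : ℕ} (hn : Nat.card V = n) (hZ : Nat.card {v // S.Q v = 0} = Z) (h0 : Z < n)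
    (hk : 4 * (k + 1) = n) (hl : 4 * l + 4 * Z = 3 * n) (hμ : 8 * μ + n = 4 * Z) (k0 : 0 < k) (l0 : 0 < l)
    {r s : ℤ} (hrs : r ≠ s) (hp : r * s = μ - k) (hs : k * (r + s + μ) = k ^ 2 - k - μ * l) :
    ∃ χ ξ : S.G → ℂ, IsIrrCharacter S.G χ ∧ IsIrrCharacter S.G ξ ∧ χ ≠ 1 ∧ ξ ≠ 1 ∧ χ ≠ ξ ∧
      Perm.permChar S.G S.Ns = 1 + χ + ξ ∧ charDegree χ + charDegree ξ = k + l ∧
      (k : ℤ) + charDegree χ * r + charDegree ξ * s = 0 := by
  classical
  have := Fintype.ofFinite V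
  have hn' : ∑ _z : V, (1 : ℤ) = n := by simp [← hn]
  have hγ : ∑ z, nsgS (S.Q z) = 2 * Z - n := by
    rw [← hZ, ← hn', Nat.card_eq_fintype_card, Fintype.card_subtype, ← Finset.sum_boole, Finset.mul_sum,
      ← Finset.sum_sub_distrib]
    refine Finset.sum_congr rfl fun z _ => ?_
    rw [nsgS]
    split_ifs <;> norm_num
  obtain ⟨x, hx⟩ : ∃ x, S.Q x ≠ 0 := not_forall.1 fun h => by
    rw [← hZ, ← hn, Nat.card_congr (Equiv.subtypeUnivEquiv h)] at h0
    exact lt_irrefl _ h0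
  let x₀ : S.Ns := ⟨x, (nsg_cases hq _).resolve_left hx⟩
  have cl : Nat.card {y : S.Ns // x₀ ≠ y ∧ ¬ (x₀ ≠ y ∧ S.B x₀.1 y.1 = 0)} = l := by
    have h1 := nsg_card (fun y : S.Ns => x₀ ≠ y ∧ ¬ (x₀ ≠ y ∧ S.B x₀.1 y.1 = 0)) (fun z => S.B x z = 1)
      fun y => ⟨fun h => (nsg_cases hq _).resolve_left fun e => h.2 ⟨h.1, e⟩, fun h =>
        ⟨fun e => by rw [← e, nsg_self hq ho] at h; exact zero_ne_one h,
          fun e => zero_ne_one (e.2.symm.trans h)⟩⟩
    have h2 : 4 * ∑ z, (if S.Q z = 1 ∧ S.B x z = 1 then (1 : ℤ) else 0) =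
        ∑ z, (1 - nsgS (S.B x z) - nsgS (S.Q z) + nsgS (S.Q z) * nsgS (S.B x z)) := by
      rw [Finset.mul_sum]
      refine Finset.sum_congr rfl fun z _ => ?_
      rcases nsg_cases hq (S.Q z) with a | a <;> rcases nsg_cases hq (S.B x z) with b | b <;>
        simp [a, b, nsgS_zero, nsgS_one]
    rw [Finset.sum_add_distrib, Finset.sum_sub_distrib, Finset.sum_sub_distrib, nsg_sum1 hq x₀.ne,
      nsg_sum2 hq ho x₀.2, hγ, hn'] at h2
    simp only [← h1] at h2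
    omega
  obtain ⟨⟨y₀, hne, hna⟩⟩ := (Nat.card_pos_iff.1 (cl ▸ l0)).1
  have b1 : S.B x y₀.1 = 1 := (nsg_cases hq _).resolve_left fun e => hna ⟨hne, e⟩
  refine rank3 (fun x y : S.Ns => x ≠ y ∧ S.B x.1 y.1 = 0) (fun x y h => ⟨h.1.symm, S.B_refl h.2⟩)
    (fun x h => h.1 rfl) (fun g x y h => ⟨fun e => h.1 (MulAction.injective g e), (B_app g _ _).trans h.2⟩)
    (fun x y x' y' h h' => nsg_pair hq ho h.1 h'.1 (h.2.trans h'.2.symm))
    (fun x y x' y' a b a' b' => nsg_pair hq ho a a' (((nsg_cases hq _).resolve_left fun e => b ⟨a, e⟩).trans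
      ((nsg_cases hq _).resolve_left fun e => b' ⟨a', e⟩).symm)) hne hna ?_ cl ?_ k0 hrs hp hs
  · have h1 := nsg_card (fun y : S.Ns => x₀ ≠ y ∧ S.B x₀.1 y.1 = 0) (fun z => x ≠ z ∧ S.B x z = 0)
      fun y => and_congr_left' Subtype.ext_iff.not
    have h2 : 4 * ∑ z, (if S.Q z = 1 ∧ x ≠ z ∧ S.B x z = 0 then (1 : ℤ) else 0) =
        ∑ z, (1 + nsgS (S.B x z) - nsgS (S.Q z) - nsgS (S.Q z) * nsgS (S.B x z) - if x = z then 4 else 0) := by
      rw [Finset.mul_sum]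
      refine Finset.sum_congr rfl fun z _ => ?_
      by_cases e : x = z
      · have : S.Q x = 1 := x₀.2
        simp [← e, nsg_self hq ho, this, nsgS_zero, nsgS_one]
      rcases nsg_cases hq (S.Q z) with a | a <;> rcases nsg_cases hq (S.B x z) with b | b <;>
        simp [a, b, e, nsgS_zero, nsgS_one]
    rw [Finset.sum_sub_distrib, Finset.sum_sub_distrib, Finset.sum_sub_distrib, Finset.sum_add_distrib,
      nsg_sum1 hq x₀.ne, nsg_sum2 hq ho x₀.2, hγ, hn', Finset.sum_ite_eq, if_pos (Finset.mem_univ _), ← h1] at h2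
    omega
  · have h1 := nsg_card (fun z : S.Ns => (x₀ ≠ z ∧ S.B x₀.1 z.1 = 0) ∧ y₀ ≠ z ∧ S.B y₀.1 z.1 = 0)
      (fun z => S.B x z = 0 ∧ S.B y₀.1 z = 0) fun z => ⟨fun h => ⟨h.1.2, h.2.2⟩, fun h =>
        ⟨⟨fun e => by
          rw [← e] at h
          exact zero_ne_one (h.2.symm.trans ((nsg_swap hq ho _ _).trans b1)), h.1⟩, fun e => zero_ne_one ((e ▸ h.1).symm.trans b1), h.2⟩⟩
    have qs : S.Q (x + y₀.1) = 1 := by
      rw [nsg_add hq ho, b1, y₀.2, show S.Q x = 1 from x₀.2, nsg_two hq, zero_add]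
    have h2 : 8 * ∑ z, (if S.Q z = 1 ∧ S.B x z = 0 ∧ S.B y₀.1 z = 0 then (1 : ℤ) else 0) =
        ∑ z, (1 + nsgS (S.B x z) + nsgS (S.B y₀.1 z) + nsgS (S.B (x + y₀.1) z) - nsgS (S.Q z) -
          nsgS (S.Q z) * nsgS (S.B x z) - nsgS (S.Q z) * nsgS (S.B y₀.1 z) -
          nsgS (S.Q z) * nsgS (S.B (x + y₀.1) z)) := by
      rw [Finset.mul_sum]
      refine Finset.sum_congr rfl fun z _ => ?_
      rw [map_add, LinearMap.add_apply, nsgS_add hq]
      rcases nsg_cases hq (S.Q z) with a | a <;> rcases nsg_cases hq (S.B x z) with b | b <;>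
        rcases nsg_cases hq (S.B y₀.1 z) with c | c <;> simp [a, b, c, nsgS_zero, nsgS_one]
    simp only [Finset.sum_sub_distrib, Finset.sum_add_distrib] at h2
    rw [nsg_sum1 hq x₀.ne, nsg_sum1 hq y₀.ne, nsg_sum1 hq (Ns.ne ⟨_, qs⟩), nsg_sum2 hq ho x₀.2,
      nsg_sum2 hq ho y₀.2, nsg_sum2 hq ho qs, hγ, hn', ← h1] at h2
    omega

end

theorem nsg_V (hT : S.Ty d e) (he : e ≠ 1) : Nat.card V = Nat.card F ^ (2 * d + e) := by
  rw [← hT.finrank_eq, hT.o_of_ne he, Module.natCard_eq_pow_finrank (K := F)]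
  rfl

theorem nsg7 (hq : Nat.card F = 2) (hT : S.Ty 3 0) :
    ∃ ψ, IsIrrCharacter S.G ψ ∧ charDegree ψ = 7 ∧ S.SplV ψ := by
  have hZ := hT.zeros
  have hV := nsg_V hT (by decide)
  rw [hq] at hZ hV
  obtain ⟨χ, ξ, a, b, -, -, -, h, d1, d2⟩ := nsg_core hq (hT.o_of_ne (by decide)) (n := 64) (Z := 36) (k := 15)
    (l := 12) (μ := 10) hV (by omega) (by decide) rfl rfl rfl (by decide) (by decide) (r := 1) (s := -5)
    (by decide) (by decide) (by decide)
  have := Fintype.ofFinite S.Ns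
  obtain ⟨c, f, c0, h1, h2⟩ := spl_perm (X := S.Ns) b (const_three a b h).2
  exact ⟨ξ, b, by omega, S.Ns, this, c, f, fun x => x.1, c0, h1, fun x g s hs => h2 x g s (Subtype.ext hs)⟩

theorem nsg5 (hq : Nat.card F = 2) (hT : S.Ty 1 2) :
    ∃ ψ, IsIrrCharacter S.G ψ ∧ charDegree ψ = 5 ∧ IntV ψ := by
  have hZ := hT.zeros
  have hV := nsg_V hT (by decide)
  rw [hq] at hZ hV
  obtain ⟨χ, ξ, a, b, c, -, -, h, d1, d2⟩ := nsg_core hq (hT.o_of_ne (by decide)) (n := 16) (Z := 6) (k := 3)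
    (l := 6) (μ := 1) hV (by omega) (by decide) rfl rfl rfl (by decide) (by decide) (r := 1) (s := -2)
    (by decide) (by decide) (by decide)
  exact ⟨χ, a, by omega, intV_three a b c h (by omega)⟩

end Fm

end Cfsg.Agent.DG
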