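import Mathlib
import Cfsg.Agent.DG.AbsH2
import Cfsg.Agent.DG.ToolA
import Cfsg.Agent.DG.Nsg

/-! The field with two elements: constituents of the characters induced from the cuspidal character of `GL₂(2)`. -/

set_option autoImplicit false

namespace Cfsg.Agent.DG

open Module Matrix Finset Cfsg.Agent.Ch
open scoped ComplexConjugate

namespace Fm

variable {F V : Type} [Field F] [Finite F] [AddCommGroup V] [Module F V] [Finite V] {S : Fm F V} {k d e : ℕ}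

omit [Finite F] [Finite V] in
theorem n2_neg (hq : Nat.card F = 2) : S.neg = 1 := by
  have h : (2 : F) = 0 := by
    have := card_nsmul_eq_zero' (G := F) (x := 1)
    rwa [hq, nsmul_one, Nat.cast_ofNat] at this
  refine G_ext fun x => ?_
  rw [neg_app, one_app, neg_eq_iff_add_eq_zero, ← two_smul F, h, zero_smul]

theorem n2_NN_odd (hde : 1 ≤ d + e) : Odd (NN 2 e d 2) := by
  have h1 : ∀ a, a ≠ 0 → Odd (2 ^ a - 1) := fun a ha =>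
    Nat.Even.sub_odd Nat.one_le_two_pow ((Nat.even_pow' ha).2 even_two) odd_one
  have h2 : ∀ a, a ≠ 0 → Odd (2 ^ a + 1) := fun a ha => ((Nat.even_pow' ha).2 even_two).add_one
  simp only [NN, prod_range_succ, prod_range_zero, one_mul]
  exact ((h1 _ (by omega)).mul (h2 _ (by omega))).mul ((h1 _ (by omega)).mul (h2 _ (by omega)))

theorem n2_ho (hq : Nat.card F = 2) (hT : S.Ty d e) (hde : 1 ≤ d + e) {ψ : S.G → ℂ} (hψ : IsIrrCharacter S.G ψ)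
    (hm : Odd (charDegree ψ)) (h : d < 2 ∨ S.SplV ψ) {K : Subgroup (S.hyp 2).G} (hK : (S.hyp 2).EK K) :
    ∃ θ φ χ₁ χ₂ y₁ y₂ c, θ 1 = 1 ∧ S.IsPhi 2 θ ψ φ ∧ HS K (S.P 2) (S.U 2) (S.L 2) (S.nn 2) φ ∧
      HO K (S.P 2) (S.U 2) (S.nn 2) φ 2 (2 * (2 * d + e) + 1) χ₁ χ₂ y₁ y₂ c ∧ 0 < c ∧ (IntV ψ → Odd c) ∧
      charDegree χ₁ * (1 + 2 ^ c) * 3 = charDegree ψ * NN 2 e d 2 := by
  obtain ⟨θ, hθ, -⟩ := cusp_two (F := F)
  obtain ⟨h1, h2, h3⟩ := hθ.lin2 hq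
  obtain ⟨φ, hφ⟩ := exists_isPhi θ ψ
  have hs := hφ.hs two_pos hθ.irr hψ (fun a => by rw [h3, h1])
    (tri_of hT hθ hφ hK (h.imp_right fun h => ⟨le_rfl, h⟩))
  have hU : Nat.card (S.U 2) = 2 ^ (2 * (2 * d + e) + 1) := by rw [hT.card_U, hq, Nat.choose_self]
  obtain ⟨χ₁, χ₂, y₁, y₂, c, ho⟩ := hs.exists_HO Nat.prime_two hU
  have hd : charDegree χ₁ * (1 + 2 ^ c) * 3 = charDegree ψ * NN 2 e d 2 := by
    have e1 := ho.deg_sum
    rw [hφ.one, h1, one_mul, ← hψ.coe_charDegree] at e1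
    have e2 : charDegree χ₁ * (1 + 2 ^ c) = (S.P 2).index * charDegree ψ := by exact_mod_cast e1
    have e3 := hT.index_P two_pos
    rw [hq, show ∏ i ∈ Ico 1 2, (2 ^ i - 1) = 1 by decide, show 2 ^ 2 - 1 = 3 by norm_num] at e3
    rw [e2, ← e3]
    ring
  have hc : c ≠ 0 := by
    rintro rfl
    have := hm.mul (n2_NN_odd hde)
    rw [← hd, Nat.odd_iff] at this
    omega
  refine ⟨θ, φ, χ₁, χ₂, y₁, y₂, c, h1, hφ, hs, ho, Nat.pos_of_ne_zero hc, fun hi => ?_, hd⟩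
  have := ho.even_of_int hs Nat.prime_two hc (hφ.intV h2 hi)
  rw [Nat.even_iff] at this
  rw [Nat.odd_iff]
  omega

theorem n2_core (hq : Nat.card F = 2) (hT : S.Ty (d + 2) e) (hde : 1 ≤ d + e) {m : ℕ} (hm : Odd m) (I : Prop)
    (h : ∀ (V' : Type) [AddCommGroup V'] [Module F V'] [Finite V'] (S' : Fm F V'), S'.Ty d e → S'.o = S.o →
      ∃ ψ, IsIrrCharacter S'.G ψ ∧ charDegree ψ = m ∧ (d < 2 ∨ S'.SplV ψ) ∧ (I → IntV ψ)) :
    ∃ d₁ c, 0 < c ∧ (I → Odd c) ∧ d₁ * (1 + 2 ^ c) * 3 = m * NN 2 e d 2 ∧ S.OutN (2 ^ c * d₁) := by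
  obtain ⟨V', _, _, _, S', hT', ho, hI⟩ := hT.split
  obtain ⟨ψ, hψ, rfl, hs, hi⟩ := h V' S' hT' ho
  obtain ⟨K, hK, hε⟩ : ∃ K : Subgroup (S'.hyp 2).G, (S'.hyp 2).EK K ∧ (S'.o = true → ∃ ε : (S'.hyp 2).G →* ℂˣ,
      (∀ g ∈ K, ε g = 1) ∧ ∀ v, (S'.hyp 2).Q v ≠ 0 → ε ((S'.hyp 2).refl v) ≠ 1) := by
    by_cases h1 : S'.o = true
    · obtain ⟨ε, h2, h3⟩ := exists_eps (S := S'.hyp 2) h1
      exact ⟨ε.ker, h2, fun _ => ⟨ε, fun _ hg => hg, h3⟩⟩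
    · exact ⟨⊤, fun _ _ _ _ => Subgroup.mem_top _, fun h2 => absurd h2 h1⟩
  obtain ⟨θ, φ, χ₁, χ₂, y₁, y₂, c, h1, hφ, hH, hO, hc, hodd, hd⟩ := n2_ho hq hT' hde hψ hm hs hK
  refine ⟨charDegree χ₁, c, hc, fun i => hodd (hi i), hd,
    hI.outN ⟨χ₂, hO.h₂.irr, hO.deg, fun _ => by rw [n2_neg hq], fun h2 => ?_⟩⟩
  obtain ⟨ε, h3, h4⟩ := hε h2
  have h2' : S'.o = true := h2
  obtain ⟨v, hv⟩ := exists_Q_ne h2' (by
    have := hT'.finrank_eq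
    rw [if_pos h2'] at this
    omega)
  refine nv_of_eps ε (hH.nv ε h3 (l := S'.lev 2 (1, S'.refl v)) ⟨_, rfl⟩ ?_ ?_ hO.h₂.irr ?_)
  · rw [← refl_eq_lev]
    refine h4 _ ?_
    simpa [hyp_Q] using hv
  · rw [hφ.lev, h1, one_mul]
    refine hψ.isCharacter.apply_ne_zero_of_not_dvd Nat.prime_two (a := 1) ?_ hm.not_two_dvd_nat
    rw [pow_one, sq, refl_mul_self]
  · rw [hO.sum, classInner_add_left, hO.h₂.irr.classInner_self, hO.h₁.irr.classInner_eq_zero hO.h₂.irr hO.ne,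
      zero_add]
    exact one_ne_zero

theorem n2_bound {a c n b : ℕ} (h : a * (1 + 2 ^ c) * 3 = n) (h0 : 0 < n) (hb : n < 2 ^ b) : c < b := by
  have ha : 0 < a := Nat.pos_of_ne_zero (by rintro rfl; omega)
  refine (Nat.pow_lt_pow_iff_right one_lt_two).1 (lt_of_le_of_lt ?_ hb)
  rw [← h]
  nlinarith [Nat.zero_le (2 ^ c)]

theorem n2_C2 (hq : Nat.card F = 2) (hT : S.Ty 2 1) : ∃ n, 2 ∣ n ∧ S.Out n := by
  obtain ⟨d₁, c, hc, -, -, ho⟩ := n2_core (d := 0) hq hT le_rfl odd_one False fun V' _ _ _ S' _ _ =>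
    ⟨fun _ => 1, IsIrrCharacter.one, charDegree_one, Or.inl two_pos, False.elim⟩
  exact ⟨_, (dvd_pow_self 2 hc.ne').mul_right _, ho.out⟩

theorem n2_C4 (hq : Nat.card F = 2) (hT : S.Ty 4 1) : ∃ n, 14 ∣ n ∧ S.Out n := by
  obtain ⟨d₁, c, hc, -, hd, ho⟩ := n2_core (d := 2) hq hT (by norm_num) odd_one False fun V' _ _ _ S' _ _ =>
    ⟨fun _ => 1, IsIrrCharacter.one, charDegree_one, Or.inr splP_one.splV, False.elim⟩
  refine ⟨_, ?_, ho.out⟩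
  norm_num [NN, prod_range_succ] at hd
  have := n2_bound (b := 14) hd (by norm_num) (by norm_num)
  interval_cases c <;> omega

theorem n2_P5 (hq : Nat.card F = 2) (hT : S.Ty 5 0) : ∃ n, 14 ∣ n ∧ S.OutN n := by
  obtain ⟨d₁, c, hc, -, hd, ho⟩ := n2_core (d := 3) (m := 7) hq hT (by norm_num) (by decide) False
    fun V' _ _ _ S' hT' _ => by
      obtain ⟨ψ, h1, h2, h3⟩ := nsg7 hq hT'
      exact ⟨ψ, h1, h2, Or.inr h3, False.elim⟩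
  refine ⟨_, ?_, ho⟩
  norm_num [NN, prod_range_succ] at hd
  have := n2_bound (b := 19) hd (by norm_num) (by norm_num)
  interval_cases c <;> omega

theorem n2_M3 (hq : Nat.card F = 2) (hT : S.Ty 3 2) : ∃ n, 1190 ∣ n ∧ S.OutN n := by
  obtain ⟨d₁, c, hc, h0, hd, ho⟩ := n2_core (d := 1) (m := 5) hq hT (by norm_num) (by decide) True
    fun V' _ _ _ S' hT' _ => by
      obtain ⟨ψ, h1, h2, h3⟩ := nsg5 hq hT'
      exact ⟨ψ, h1, h2, Or.inl one_lt_two, fun _ => h3⟩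
  refine ⟨_, ?_, ho⟩
  norm_num [NN, prod_range_succ] at hd
  have := n2_bound (b := 14) hd (by norm_num) (by norm_num)
  have h1 := Nat.odd_iff.1 (h0 trivial)
  interval_cases c <;> omega

theorem toolA_ev (hq : Nat.card F = 2) (hT : S.Ty (2 + k) 1) (hk : 3 ≤ k) :
    ∃ m N, 2 ∣ m ∧ N * (2 ^ k - 1) = NN 2 1 2 k ∧ S.Out (m * N) := by
  have := toolA_gen hT (Or.inl hk) (2 ∣ ·) fun V' _ _ _ S' hT' _ => by
    obtain ⟨n, hn, χ, h1, rfl, -⟩ := n2_C2 hq hT'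
    exact ⟨χ, h1, hn, by rw [n2_neg hq], Or.inl (by omega)⟩
  rwa [hq] at this

end Fm

end Cfsg.Agent.DG
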