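import Mathlib
import Cfsg.Agent.DG.N2
import Cfsg.Agent.DG.N1a

/-! DG-N2c: a character of degree 210 of `Sp₆(2)`. -/

set_option autoImplicit false
set_option linter.unusedSectionVars false

namespace Cfsg.Agent.DG

open Module Matrix Finset Cfsg.Agent.Ch
open scoped ComplexConjugate

namespace Fm

variable {F V : Type} [Field F] [Finite F] [AddCommGroup V] [Module F V] [Finite V] {S : Fm F V} {k d e : ℕ}

open Classical in
theorem n2c_SE (ho : (S.hyp 2).o = false) {θ : GL (Fin 2) F → ℂ} {φ χ : (S.hyp 2).G → ℂ} {y : ℂ} (h1 : θ 1 = 1)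
    (hφ : S.IsPhi 2 θ (fun _ => 1) φ) (ht : Tri ⊤ (S.P 2) (S.nn 2) φ)
    (h : HC ⊤ (S.P 2) (S.U 2) (S.nn 2) φ χ y) (v : HV F 2 V) :
    SE (S.P 2) φ χ ((S.hyp 2).tv ho v 1) = if v.1.2 = 0 then 1 else 0 := by
  split_ifs with hv
  · have hU : (S.hyp 2).tv ho v 1 * (S.lev 2 (1, S.tv ho v.2 1))⁻¹ ∈ S.U 2 :=
      mem_U_of (fun x => by simp [tv_app, hyp_B, hv]) fun x => by rw [tv_app, S.tv_app ho]; simp [hyp_B]
    have hP := mul_mem ((isPar two_pos).UP hU) (lev_mem_P 1 (S.tv ho v.2 1))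
    have h2 := hφ _ hU 1 (S.tv ho v.2 1)
    rw [inv_mul_cancel_right] at hP h2
    rw [h.inP _ hP, h2, h1, one_mul]
  · rcases ht ((S.hyp 2).tv ho v 1) with k | k | k
    · obtain ⟨i, hi⟩ := Function.ne_iff.1 hv
      have := ((k ((Pi.single i 1, 0), 0)).1 ⟨rfl, rfl⟩).1
      simp [tv_app, hyp_B, hv] at this
      exact absurd this hi
    · refine absurd k (not_opp (w := ((![v.1.2 1, -v.1.2 0], 0), 0)) ⟨rfl, rfl⟩ (fun e => hv ?_) ?_)
      · have e0 := congrArg (fun z : HV F 2 V => z.1.1 0) e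
        have e1 := congrArg (fun z : HV F 2 V => z.1.1 1) e
        funext i
        fin_cases i
        · simpa using e1
        · simpa using e0
      · simp [tv_app, hyp_B, dotProduct, mul_comm]
    · exact h.van _ k

theorem n2_C3 (hq : Nat.card F = 2) (ho : S.o = false) (hT : S.Ty 3 1) : ∃ n, 210 ∣ n ∧ S.Out n := by
  classical
  obtain ⟨V', _, _, _, S', hT', ho', hI⟩ := Ty.split (d := 1) (k := 2) hT
  rw [ho] at ho'
  have i1 : IsIrrCharacter S'.G fun _ => 1 := IsIrrCharacter.one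
  have d1 : charDegree (fun _ : S'.G => (1 : ℂ)) = 1 := by simp [charDegree]
  obtain ⟨θ, φ, χ₁, χ₂, y₁, y₂, c, h1, hφ, hs, hO, -, hc, hd⟩ := n2_ho hq hT' (by norm_num) i1 (d1 ▸ odd_one)
    (Or.inl one_lt_two) (K := ⊤) fun _ _ _ _ => Subgroup.mem_top _
  have := Fintype.ofFinite F
  have := Fintype.ofFinite V'
  have h2 : (2 : F) = 0 := by simpa [← Nat.card_eq_fintype_card, hq] using FiniteField.cast_card_eq_zero F
  have cV : Fintype.card V' = 4 := by
    have := hT'.finrank_eq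
    rw [ho'] at this
    rw [← Nat.card_eq_fintype_card, Module.natCard_eq_pow_finrank (K := F), hq,
      show finrank F V' = 2 by simpa using this]
    rfl
  have cF : Fintype.card F = 2 := Nat.card_eq_fintype_card.symm.trans hq
  have hχ := hO.h₂.irr.isCharacter
  replace ho' : (S'.hyp 2).o = false := ho'
  have ks := hO.h₂.ksum (fun v => (S'.hyp 2).tv ho' v 1) fun g => ⟨g.1.toEquiv, fun v => (conj_tv ho' g v 1).symm⟩
  let v₀ : HV F 2 V' := ((1, 0), 0)
  have v0 : v₀ ≠ 0 := fun e => one_ne_zero (congrArg (fun z : HV F 2 V' => z.1.1 0) e)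
  have t0 : ∀ v : HV F 2 V', (S'.hyp 2).tv ho' v 0 = 1 := fun v => G_ext fun x => by simp [tv_app]
  obtain ⟨a, -, ha⟩ := hχ.exists_int_of_mul_self_eq_one (g := (S'.hyp 2).tv ho' v₀ 1)
    (by rw [← tv_add, one_add_one_eq_two, h2, t0])
  have s1 : ∑ v, χ₂ ((S'.hyp 2).tv ho' v 1) = charDegree χ₂ + 63 * (charDegree χ₂ - 2 * a : ℂ) := by
    rw [← add_sum_erase _ _ (mem_univ 0), sum_congr rfl (g := fun _ => (charDegree χ₂ - 2 * a : ℂ)) fun v hv => ?_,
      sum_const, card_erase_of_mem (mem_univ _), card_univ,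
      show (S'.hyp 2).tv ho' 0 1 = 1 from G_ext fun x => by simp [tv_app], ← hχ.coe_charDegree]
    · simp [cV, cF]
    · obtain ⟨g, hg⟩ := exists_map_vec (S := S'.hyp 2) ho' v0 (ne_of_mem_erase hv)
      rw [← hg, ← conj_tv, hχ.isClassFunction.conj_eq, ha]
  have s2 : ∑ v, SE (S'.P 2) φ χ₂ ((S'.hyp 2).tv ho' v 1) = 16 := by
    simp only [n2c_SE ho' h1 hφ hs.tri hO.h₂, Fintype.sum_prod_type]
    simp [cV, cF, apply_ite card]
    norm_num
  rw [s1, s2, hφ.one, h1, ← hχ.coe_charDegree] at ks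
  have k1 : 126 * a = 48 * charDegree χ₂ := by
    have : ((126 * a : ℕ) : ℂ) = (48 * charDegree χ₂ : ℕ) := by push_cast; linear_combination -ks
    exact_mod_cast this
  rw [d1, show NN 2 1 1 2 = 945 by decide] at hd
  have hc1 := hc fun _ => ⟨1, by simp⟩
  have hd2 := hO.deg
  have c8 : c < 9 := by
    by_contra hlt
    have := Nat.pow_le_pow_right two_pos (not_lt.1 hlt)
    rcases Nat.eq_zero_or_pos (charDegree χ₁) with e | e
    · simp [e] at hd
    · nlinarith
  refine ⟨210, dvd_rfl, hI.out ⟨χ₂, hO.h₂.irr, ?_, fun _ => ?_⟩⟩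
  · rw [Nat.odd_iff] at hc1
    interval_cases c <;> omega
  · rw [show (S'.hyp 2).neg = 1 from G_ext fun x => by
      rw [neg_app, one_app, neg_eq_iff_add_eq_zero, ← two_smul F, h2, zero_smul]]

end Fm

end Cfsg.Agent.DG
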