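import Mathlib
import Cfsg.Agent.DG.N2c
import Cfsg.Agent.DG.N1c
import Cfsg.Agent.DG.MainA

set_option autoImplicit false

namespace Cfsg.Agent.DG

open Module Matrix Finset
open scoped ComplexConjugate

namespace MainC

open MainA

variable {r q k c d N : ℕ}

/-- `r` divides `q ^ (2 j) - 1` for some `j ≤ d`. -/
def Sr (r q d : ℕ) : Prop := ∃ j, 1 ≤ j ∧ j ≤ d ∧ A r q (2 * j)

theorem d4 {j : ℕ} (h1 : 1 ≤ j) (h2 : j ≤ 2) : 2 * j ∣ 4 := by interval_cases j <;> decide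

theorem src (hr : r.Prime) (hq : ¬ r ∣ q) (h : r ∣ q * NN q 1 0 d) : Sr r q d := by
  rcases of_NN hr hq h with ⟨j, h1, h2, h⟩ | ⟨j, h1, h2, h⟩
  · exact ⟨j, h1, h2, h.dvd (Dvd.intro_left _ rfl)⟩
  · exact ⟨j, h1, by omega, h.dvd dvd_rfl⟩

theorem two (hr : r.Prime) (hq : 2 ≤ q) (hN : N * (q ^ k - 1) = NN q 1 c k) (hc : c < k) (j : ℕ) (h1 : c < j)
    (h2 : j ≤ c + k) (h3 : j ≠ k) (h : A r q (2 * j)) : r ∣ N :=
  (h.half hr rfl).elim (N_A hq hN hc j h1 h2 h3) (N_B hq hN hc j (by omega) (by omega))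

/-- `c ≤ 2`, `k` even and at least four. -/
theorem cov (hr : r.Prime) (hq : 2 ≤ q) (hN : N * (q ^ k - 1) = NN q 1 c k) (hc : c ≤ 2) (hk : 4 ≤ k)
    (h2 : 2 ∣ k) (h : Sr r q (c + k)) : r ∣ N := by
  have t := two hr hq hN (by omega)
  have t4 : A r q 4 → r ∣ N := fun h => by
    by_cases h1 : c = 2
    · exact t (c + k) (by omega) le_rfl (by omega) (h.dvd (by omega))
    · exact t 2 (by omega) (by omega) (by omega) h
  obtain ⟨j, h1, h3, h⟩ := h
  by_cases h4 : j ≤ 2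
  · exact t4 (h.dvd (d4 h1 h4))
  by_cases h5 : j = k
  · subst h5
    rcases h.half hr rfl with h | h
    · obtain ⟨i, rfl⟩ := h2
      by_cases h6 : i = 2
      · exact t4 (h6 ▸ h :)
      · exact t i (by omega) (by omega) (by omega) h
    · exact N_B hq hN (by omega) j (by omega) (by omega) h
  · exact t j (by omega) h3 h5 h

theorem e8 (hq : 2 ≤ q) (hN : N * (q ^ k - 1) = NN q 1 c k) (hc : c < k) (j : ℕ) (h1 : c < j)
    (h2 : j ≤ c + k) (h3 : j ≠ k) (h : ¬ 2 ∣ q) : 8 ∣ N := by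
  have := N_AB hq hN hc h1 h2 h3
  rw [show j - 1 + 1 = j by omega, ← sq_sub] at this
  exact (eight h (Dvd.intro _ rfl)).trans this

variable {F V : Type} [Field F] [Finite F] [AddCommGroup V] [Module F V] [Finite V] {S : Fm F V}

theorem aux (hT : S.Ty d 1)
    (h : (S.o = false ∧ 2 ≤ d ∧ (d = 2 → 3 ≤ Nat.card F)) ∨ (S.o = true ∧ 3 ≤ d ∧ (2 : F) ≠ 0 ∧ ¬ S.CZ))
    {r s : ℕ} (hr : r.Prime) (hs : s.Prime) (hrs : r ≠ s) (hr' : r ∣ Nat.card F * NN (Nat.card F) 1 0 d)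
    (hs' : s ∣ Nat.card F * NN (Nat.card F) 1 0 d) (hrq : ¬ r ∣ Nat.card F) : S.Tg (r * s) := by
  have hq := two_le F
  have h4 := four F
  have hd : S.o = true → 4 < finrank F V := rank hT fun ho => by
    rcases h with h | h
    · simp [ho] at h
    · omega
  have ho : S.o = true → ¬ 2 ∣ Nat.card F := fun ho k => by
    rcases h with h | h
    · simp [ho] at h
    · exact h.2.2.1 ((two_iff F).2 k)
  have ho' : ∀ n, S.o = true → 2 ∣ Nat.card F → 4 ∣ n := fun n h k => absurd k (ho h)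
  have R := src hr hrq hr'
  have R' := fun k => src hs k hs'
  have p1 : ∀ p, p.Prime → p ∣ Nat.card F → p ∣ Nat.card F ^ 1 := fun p _ k => by rwa [pow_one]
  have s2 : Nat.card F = 2 → s ∣ Nat.card F → s = 2 := fun e k =>
    (Nat.prime_dvd_prime_iff_eq hs Nat.prime_two).1 (e ▸ k)
  have hd2 : 2 ≤ d := by omega
  rcases (by omega : d = 2 ∨ d = 3 ∨ d = 4 ∨ (5 ≤ d ∧ d % 2 = 1) ∨ (6 ≤ d ∧ d % 2 = 0)) with
    rfl | rfl | rfl | ⟨h5, h6⟩ | ⟨h5, h6⟩
  · obtain ⟨hsp, -, h3⟩ := h.resolve_right (by omega)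
    have h3 := h3 rfl
    have no : ∀ {P : Prop}, S.o = true → P := fun k => by simp [hsp] at k
    have c4 : ∀ {r}, Sr r (Nat.card F) 2 → A r (Nat.card F) 4 := fun ⟨j, j1, j2, k⟩ => k.dvd (d4 j1 j2)
    by_cases hsq : s ∣ Nat.card F
    · obtain ⟨χ, ξ, k1, k2, -, -, -, e1, e2⟩ := Fm.p3 (c := 0) hT
      have s1 : s ∣ charDegree χ := dvd1 hq (h4 (by omega)) (e1.trans (mul_assoc _ _ _)) hs hsq
      have s2 : s ∣ charDegree ξ := dvd1 hq (h4 (by omega)) (e2.trans (mul_assoc _ _ _)) hs hsq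
      by_cases r2 : r = 2
      · refine tgN hd (k1.outN hd) hr hs hrs ?_ s1 no
        obtain ⟨t, ht⟩ : ∃ t, Nat.card F = 2 * t + 3 := ⟨(Nat.card F - 3) / 2, by subst r2; omega⟩
        rw [ht, show (2 * t + 3) ^ (0 + 2) - 1 = (2 * t + 2) * (2 * t + 4) from
          Nat.sub_eq_of_eq_add (by ring), show 2 * t + 3 - 1 = 2 * t + 2 from rfl] at e1
        refine ⟨(2 * t + 3) * (t + 2) ^ 2, ?_⟩
        subst r2
        refine Nat.eq_of_mul_eq_mul_right (by positivity : 0 < (2 * t + 2) * ((2 * t + 3) ^ 1 + (2 * t + 3))) ?_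
        rw [e1]
        ring
      by_cases a1 : A r (Nat.card F) 1
      · obtain ⟨⟨n, k, k3, k4⟩, -⟩ := Fm.n1s hsp hT
        exact tgO hd k hr hs hrs (k4 r hr r2 (by simpa [A] using a1)) (k3 s hs hsq) no
      rcases (c4 R).half hr (j := 2) rfl with a | a
      · exact tgN hd (k1.outN hd) hr hs hrs (dv1 hr hrq a1 (e1 ▸ (Dvd.dvd.mul_left a _).mul_right _)) s1 no
      · exact tgN hd (k2.outN hd) hr hs hrs (dv1 hr hrq a1 (e2 ▸ Dvd.dvd.mul_left a _)) s2 no
    by_cases q3 : Nat.card F = 3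
    · obtain ⟨n, k1, k2⟩ := (Fm.n1s hsp hT).2 q3
      have key : ∀ {r}, r.Prime → A r (Nat.card F) 4 → r ∣ n := fun {r} hr a => by
        have := mem_of hr a [2, 5] 4 (by decide) (by rw [q3]; decide)
        exact Dvd.dvd.trans (by revert this; simp only [List.mem_cons]; rintro (rfl | rfl | h) <;> simp_all) k2
      exact tgO hd k1 hr hs hrs (key hr (c4 R)) (key hs (c4 (R' hsq))) no
    · obtain ⟨N, hN, k⟩ := Fm.toolA_one (d := 0) (k := 2) hT (Or.inr (Or.inl ⟨le_rfl, by omega⟩))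
      have key : ∀ {r}, r.Prime → A r (Nat.card F) 4 → r ∣ N := fun hr a =>
        (a.half hr (j := 2) rfl).elim (two hr hq hN (by omega) 1 (by omega) (by omega) (by omega))
          (N_B hq hN (by omega) 2 (by omega) (by omega))
      exact tgO hd k hr hs hrs (key hr (c4 R)) (key hs (c4 (R' hsq))) no
  · by_cases q2 : Nat.card F = 2
    · have hsp : S.o = false := by
        by_contra k
        exact ho (by simpa using k) (q2 ▸ dvd_rfl)
      obtain ⟨n, k1, k2⟩ := Fm.n2_C3 q2 hsp hT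
      have key : ∀ {r}, r.Prime → r ∣ Nat.card F * NN (Nat.card F) 1 0 3 → r ∣ n := fun {r} hr a => by
        have := mem_of hr a [2, 3, 5, 7] 4 (by decide) (by rw [q2]; decide)
        exact Dvd.dvd.trans ((by decide : ∀ r ∈ [2, 3, 5, 7], r ∣ 210) r this) k1
      exact tgO hd k2 hr hs hrs (key hr hr') (key hs hs') fun k => by simp [hsp] at k
    by_cases q3 : Nat.card F = 3 ∧ S.o = false
    · have no : ∀ {P : Prop}, S.o = true → P := fun k => by simp [q3.2] at k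
      obtain ⟨χ, ξ, k1, k2, -, -, -, e1, e2⟩ := Fm.p3 (c := 1) hT
      obtain ⟨m, N, hN, k⟩ := Fm.toolA_sg (d := 1) (k := 2) hT (by omega) (by omega) (by omega)
      rw [q3.1] at e1 e2 hN hr' hs'
      have e1 : charDegree χ = 195 := by omega
      have e2 : charDegree ξ = 168 := by omega
      have e3 : N = 7280 := by
        rw [show NN 3 1 1 2 = 58240 by decide] at hN
        omega
      rcases (by decide : ∀ r ∈ [2, 3, 5, 7, 13], ∀ s ∈ [2, 3, 5, 7, 13], r ≠ s →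
        (r ∣ 195 ∧ s ∣ 195) ∨ (r ∣ 168 ∧ s ∣ 168) ∨ (r ∣ 7280 ∧ s ∣ 7280)) r
        (mem_of hr hr' _ 10 (by decide) (by decide)) s (mem_of hs hs' _ 10 (by decide) (by decide)) hrs with
        a | a | a
      · exact tgN hd (k1.outN hd) hr hs hrs (e1 ▸ a.1) (e1 ▸ a.2) no
      · exact tgN hd (k2.outN hd) hr hs hrs (e2 ▸ a.1) (e2 ▸ a.2) no
      · exact tgO hd k hr hs hrs (Dvd.dvd.mul_left (e3 ▸ a.1) _) (Dvd.dvd.mul_left (e3 ▸ a.2) _) no
    · obtain ⟨N, hN, k⟩ := Fm.toolA_p2 (k := 2) hT (Or.inr (by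
        rcases h with h | h
        · exact Or.inl ⟨le_rfl, by by_contra k; exact q3 ⟨by omega, h.1⟩⟩
        · exact Or.inr ⟨Or.inl h.2.2.2, Or.inl ⟨le_rfl, by omega⟩⟩))
      have t : ∀ {r}, r.Prime → A r (Nat.card F) 6 → r ∣ N := fun hr =>
        two hr hq hN (by omega) 3 (by omega) (by omega) (by omega)
      have key : ∀ {r}, r.Prime → Sr r (Nat.card F) 3 → r ∣ N := fun hr a => by
        obtain ⟨j, j1, j2, a⟩ := a
        interval_cases j
        · exact t hr (a.dvd (by decide))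
        · exact (a.half hr rfl).elim (fun a => t hr (a.dvd (by decide)))
            (N_B hq hN (by omega) 2 (by omega) (by omega))
        · exact t hr a
      exact tgA hd k hr hs hrs p1 (ho' _) (e8 hq hN (by omega) 3 (by omega) (by omega) (by omega))
        (fun _ => key hr R) fun k => key hs (R' k)
  · by_cases hsq : s ∣ Nat.card F
    · by_cases a3 : A r (Nat.card F) 3 ∧ ¬ A r (Nat.card F) 1
      · have r2 : r ≠ 2 := fun e => a3.2 (e ▸ A_two (e ▸ hrq) 1)
        by_cases q2 : Nat.card F = 2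
        · obtain ⟨n, k1, k2⟩ := Fm.n2_C4 q2 hT
          have r7 : r ∣ 7 := by simpa [A, q2] using a3.1
          exact tgO hd k2 hr hs hrs (r7.trans (Dvd.dvd.trans (by decide) k1))
            (s2 q2 hsq ▸ Dvd.dvd.trans (by decide) k1) fun k => absurd (q2 ▸ dvd_rfl) (ho k)
        · obtain ⟨χ, ξ, -, k2, -, -, -, -, e2⟩ := Fm.p3 (c := 2) hT
          exact tgN hd (k2.outN hd) hr hs hrs (dv1 hr hrq a3.2 (e2 ▸ (Dvd.dvd.mul_left a3.1 _).mul_right _))
            (dvd1 hq (h4 q2) (e2.trans (mul_assoc _ _ _)) hs hsq) fun _ k k' =>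
              (k.elim r2 fun k => k' (k ▸ hsq)).elim
      · obtain ⟨N, hN, k⟩ := Fm.toolA_p2 (k := 3) hT (Or.inl le_rfl)
        have t : A r (Nat.card F) 8 → r ∣ N := two hr hq hN (by omega) 4 (by omega) (by omega) (by omega)
        refine tgA hd k hr hs hrs p1 (ho' _) (e8 hq hN (by omega) 2 (by omega) (by omega) (by omega))
          (fun _ => ?_) fun k => absurd hsq k
        obtain ⟨j, j1, j2, a⟩ := R
        interval_cases j
        · exact t (a.dvd (by decide))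
        · exact t (a.dvd (by decide))
        · rcases a.half hr rfl with a | a
          · exact t ((not_not.1 fun k => a3 ⟨a, k⟩).dvd (one_dvd _))
          · exact N_B hq hN (by omega) 3 (by omega) (by omega) a
        · exact t a
    · obtain ⟨N, hN, k⟩ := Fm.toolA_one (d := 0) (k := 4) hT (Or.inl (by omega))
      exact tgB hd k hr hs hrs (e8 hq hN (by omega) 2 (by omega) (by omega) (by omega)) hrq hsq
        (cov hr hq hN (by omega) (by omega) (by omega) R) (cov hs hq hN (by omega) (by omega) (by omega) (R' hsq))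
  · obtain ⟨k, rfl⟩ : ∃ k, d = 1 + k := ⟨d - 1, by omega⟩
    obtain ⟨N, hN, o⟩ := Fm.toolA_p2 hT (Or.inl (by omega))
    exact tgA hd o hr hs hrs p1 (ho' _) (e8 hq hN (by omega) 2 (by omega) (by omega) (by omega))
      (fun _ => cov hr hq hN (by omega) (by omega) (by omega) R)
      fun k => cov hs hq hN (by omega) (by omega) (by omega) (R' k)
  · obtain ⟨k, rfl⟩ : ∃ k, d = 0 + 2 + k := ⟨d - 2, by omega⟩
    obtain ⟨m, N, hm, hN, o⟩ : ∃ m N, (∀ p, p.Prime → p ∣ Nat.card F → p ∣ m) ∧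
        N * (Nat.card F ^ k - 1) = NN (Nat.card F) 1 2 k ∧ S.Out (m * N) := by
      by_cases q2 : Nat.card F = 2
      · obtain ⟨m, N, k1, k2, k3⟩ := Fm.toolA_ev q2 hT (by omega)
        exact ⟨m, N, fun p hp k => (q2 ▸ k : p ∣ 2).trans k1, q2 ▸ k2, k3⟩
      · obtain ⟨m, N, k1, k2, k3⟩ := Fm.toolA_g hT (Or.inl (by omega))
        exact ⟨m, N, fun p hp k => dvd1 hq (h4 q2) (k1.trans (mul_assoc _ _ _)) hp k, k2, k3⟩
    exact tgA hd o hr hs hrs hm (ho' _) (e8 hq hN (by omega) (2 + k) (by omega) (by omega) (by omega))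
      (fun _ => cov hr hq hN (by omega) (by omega) (by omega) R)
      fun k => cov hs hq hN (by omega) (by omega) (by omega) (R' k)

end MainC

namespace Fm

variable {F V : Type} [Field F] [Finite F] [AddCommGroup V] [Module F V] [Finite V] {S : Fm F V} {k d e : ℕ}

theorem mainC (hT : S.Ty d 1)
    (h : (S.o = false ∧ 2 ≤ d ∧ (d = 2 → 3 ≤ Nat.card F)) ∨ (S.o = true ∧ 3 ≤ d ∧ (2 : F) ≠ 0 ∧ ¬ S.CZ))
    {r s : ℕ} (hr : r.Prime) (hs : s.Prime) (hrs : r ≠ s) (hr' : r ∣ Nat.card F * NN (Nat.card F) 1 0 d)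
    (hs' : s ∣ Nat.card F * NN (Nat.card F) 1 0 d) : S.Tg (r * s) := by
  by_cases hq : r ∣ Nat.card F
  · rw [mul_comm]
    exact MainC.aux hT h hs hr hrs.symm hs' hr' fun k => hrs (MainA.uniq hr hs hq k)
  · exact MainC.aux hT h hr hs hrs hr' hs' hq

end Fm

end Cfsg.Agent.DG
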