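import Mathlib
import Cfsg.Agent.DG.N2
import Cfsg.Agent.DG.MainA

set_option autoImplicit false

namespace Cfsg.Agent.DG

open Module Matrix Finset
open scoped ComplexConjugate

namespace MainP

open MainA

variable {r q k c d N : ℕ}

/-- The primes of the group order. -/
def Sr (r q d : ℕ) : Prop := (∃ j, 1 ≤ j ∧ j ≤ d ∧ A r q j) ∨ ∃ j, 1 ≤ j ∧ j < d ∧ B r q j

theorem src (hr : r.Prime) (hq : ¬ r ∣ q) (hd : 1 ≤ d) (h : r ∣ q * NN q 0 0 d) : Sr r q d := by
  rcases of_NN hr hq h with h | ⟨j, -, h2, h⟩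
  · exact Or.inl h
  · rcases Nat.eq_zero_or_pos j with rfl | h0
    · exact Or.inl ⟨1, le_rfl, hd, h.zero hr hq 1⟩
    · exact Or.inr ⟨j, h0, h2, h⟩

/-- A predicate which holds for the small exponents and the factors of `N` holds for all primes. -/
theorem cov (hr : r.Prime) {P : Prop} (hc : c ≤ 3) (hk : 4 ≤ k) (h2 : 2 ∣ k)
    (a2 : A r q 2 → P) (a3 : A r q 3 → P) (b2 : B r q 2 → P)
    (a : ∀ j, c < j → j ≤ c + k → j ≠ k → A r q j → P) (b : ∀ j, c ≤ j → j < c + k → B r q j → P)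
    (h : Sr r q (c + k)) : P := by
  have a' : ∀ j, 1 ≤ j → j ≤ c + k → j ≠ k → A r q j → P := fun j h1 h3 h4 h => by
    by_cases h5 : j ≤ 3
    · interval_cases j
      exacts [a2 (h.dvd (by decide)), a2 h, a3 h]
    · exact a j (by omega) h3 h4 h
  have b' : ∀ j, 1 ≤ j → j < c + k → B r q j → P := fun j h1 h3 h => by
    by_cases h5 : j ≤ 2
    · interval_cases j
      exacts [a2 (h.dvd (by decide)), b2 h]
    · exact b j (by omega) h3 h
  rcases h with ⟨j, h1, h3, h⟩ | ⟨j, h1, h3, h⟩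
  · by_cases h4 : j = k
    · obtain ⟨i, hi⟩ := h2
      exact (h.half hr (h4.trans hi)).elim (a' i (by omega) (by omega) (by omega)) (b' i (by omega) (by omega))
    · exact a' j h1 h3 h4 h
  · exact b' j h1 h3 h

theorem e8 {e : ℕ} (hq : 2 ≤ q) (hN : N * (q ^ k - 1) = NN q e c k) (hc : c < k) (j : ℕ) (h1 : c < j)
    (h2 : j ≤ c + k) (h3 : j ≠ k) (h4 : 2 ∣ j) (h : ¬ 2 ∣ q) : 8 ∣ N :=
  N_A hq hN hc j h1 h2 h3 (eight h h4)

/-- `c ≤ 1`, `k = 4`. -/
theorem cov4 (hr : r.Prime) (hq : 2 ≤ q) (hN : N * (q ^ 4 - 1) = NN q 0 c 4) (hc : c ≤ 1) (h : Sr r q (c + 4)) :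
    r ∣ N :=
  cov hr (by omega) le_rfl (by decide) (N_A hq hN (by omega) 2 (by omega) (by omega) (by omega))
    (N_A hq hN (by omega) 3 (by omega) (by omega) (by omega)) (N_B hq hN (by omega) 2 (by omega) (by omega))
    (N_A hq hN (by omega)) (N_B hq hN (by omega)) h

theorem sq4 {m : ℕ} (h : q ^ 2 ∣ m) (h2 : 2 ∣ q) : 4 ∣ m := (pow_dvd_pow_of_dvd h2 2).trans h

theorem sqp {m p : ℕ} (h : q ^ 2 ∣ m) (h2 : p ∣ q) : p ∣ m := (h2.trans (dvd_pow_self q two_ne_zero)).trans h

variable {F V : Type} [Field F] [Finite F] [AddCommGroup V] [Module F V] [Finite V] {S : Fm F V}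

theorem aux (hT : S.Ty d 0) (hd4 : 4 ≤ d) (hz : d = 5 → Nat.card F = 3 → ¬ S.CZ)
    {r s : ℕ} (hr : r.Prime) (hs : s.Prime) (hrs : r ≠ s) (hr' : r ∣ Nat.card F * NN (Nat.card F) 0 0 d)
    (hs' : s ∣ Nat.card F * NN (Nat.card F) 0 0 d) (hrq : ¬ r ∣ Nat.card F) : S.Tg (r * s) := by
  have hq := two_le F
  have h4 := four F
  have hd : S.o = true → 4 < finrank F V := rank hT fun _ => by omega
  have R := src hr hrq (by omega) hr'
  have R' := fun k => src hs k (by omega) hs'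
  rcases (by omega : d = 4 ∨ d = 5 ∨ (6 ≤ d ∧ d % 2 = 0) ∨ (7 ≤ d ∧ d % 2 = 1)) with
    rfl | rfl | ⟨h5, h6⟩ | ⟨h5, h6⟩
  · by_cases q4 : 4 ≤ Nat.card F
    · obtain ⟨m, N, hm, hN, o⟩ := Fm.toolA_g (c := 0) (k := 2) hT (Or.inr (Or.inl ⟨le_rfl, q4⟩))
      have hm := dvd0 hq (hm.trans (mul_assoc _ _ _))
      have e : N = (Nat.card F ^ 2 + 1) * ((Nat.card F ^ 6 - 1) * (Nat.card F ^ 2 + 1)) := by
        refine Nat.eq_of_mul_eq_mul_right (pos hq two_pos) ?_
        rw [hN, NN, prod_range_succ, prod_range_one, sq_sub _ 3, sq_sub _ 2]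
        ring
      have a6 : ∀ {r}, A r (Nat.card F) 6 → r ∣ N := fun a => e ▸ (Dvd.dvd.mul_right a _).mul_left _
      have b2 : ∀ {r}, B r (Nat.card F) 2 → r ∣ N := fun a => e ▸ Dvd.dvd.mul_right a _
      have key : ∀ {r}, r.Prime → Sr r (Nat.card F) 4 → r ∣ N := fun hr a => by
        rcases a with ⟨j, j1, j2, a⟩ | ⟨j, j1, j2, a⟩ <;> interval_cases j
        exacts [a6 (a.dvd (by decide)), a6 (a.dvd (by decide)), a6 (a.dvd (by decide)),
          (a.half hr (j := 2) rfl).elim (fun a => a6 (a.dvd (by decide))) b2, a6 (a.dvd (by decide)), b2 a,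
          a6 (a.dvd (by decide))]
      exact tgA hd o hr hs hrs (fun _ _ => sqp hm) (fun _ => sq4 hm) (fun k => a6 (eight k (by decide)))
        (fun _ => key hr R) fun k => key hs (R' k)
    by_cases hsq : s ∣ Nat.card F
    · obtain ⟨χ, ξ, k1, k2, -, -, -, e1, e2⟩ := Fm.p3 (c := 2) hT
      rcases (by omega : Nat.card F = 2 ∨ Nat.card F = 3) with q2 | q3
      · rw [q2] at e1 e2 hr' hsq hrq
        have e1 : charDegree χ = 50 := by omega
        have e2 : charDegree ξ = 84 := by omega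
        obtain rfl := (Nat.prime_dvd_prime_iff_eq hs Nat.prime_two).1 hsq
        rcases (by decide : ∀ r ∈ [2, 3, 5, 7], r ∣ 50 ∨ r ∣ 84) r (mem_of hr hr' _ 10 (by decide) (by decide))
          with a | a
        · exact tgN hd (k1.outN hd) hr hs hrs (e1 ▸ a) (e1 ▸ by decide) fun _ _ k => absurd (q2 ▸ dvd_rfl) k
        · exact tgN hd (k2.outN hd) hr hs hrs (e2 ▸ a) (e2 ▸ by decide) fun _ _ k => absurd (q2 ▸ dvd_rfl) k
      · rw [q3] at e1 e2 hr' hsq hrq
        have e1 : charDegree χ = 300 := by omega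
        have e2 : charDegree ξ = 819 := by omega
        obtain rfl := (Nat.prime_dvd_prime_iff_eq hs Nat.prime_three).1 hsq
        rcases (by decide : ∀ r ∈ [2, 3, 5, 7, 13], r ∣ 300 ∨ (r ∣ 819 ∧ r ≠ 2)) r
          (mem_of hr hr' _ 20 (by decide) (by decide)) with a | a
        · exact tgN hd (k1.outN hd) hr hs hrs (e1 ▸ a) (e1 ▸ by decide) fun _ _ _ => e1 ▸ by decide
        · exact tgN hd (k2.outN hd) hr hs hrs (e2 ▸ a.1) (e2 ▸ by decide) fun _ k _ =>
            (k.elim a.2 (by decide)).elim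
    · obtain ⟨N, hN, o⟩ := Fm.toolA_one (d := 0) (k := 4) hT (Or.inl (by omega))
      exact tgB hd o hr hs hrs (e8 hq hN (by omega) 2 (by omega) (by omega) (by omega) dvd_rfl) hrq hsq
        (cov4 hr hq hN (by omega) R) (cov4 hs hq hN (by omega) (R' hsq))
  · by_cases hsq : s ∣ Nat.card F
    · by_cases a3 : A r (Nat.card F) 3 ∧ ¬ A r (Nat.card F) 4
      · have r2 : r ≠ 2 := fun e => a3.2 (e ▸ A_two (e ▸ hrq) 4)
        by_cases q2 : Nat.card F = 2
        · obtain ⟨n, k1, k2⟩ := Fm.n2_P5 q2 hT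
          have r7 : r ∣ 7 := by simpa [A, q2] using a3.1
          exact tgN hd k2 hr hs hrs (r7.trans (Dvd.dvd.trans (by decide) k1))
            ((q2 ▸ hsq : s ∣ 2).trans (Dvd.dvd.trans (by decide) k1)) fun _ _ k => absurd (q2 ▸ dvd_rfl) k
        · obtain ⟨m, N, hm, -, o⟩ := Fm.toolA_f (c := 1) (k := 2) hT (Or.inr (by
            by_cases q3 : Nat.card F = 3
            · exact Or.inr ⟨Or.inl (hz rfl q3), Or.inl ⟨le_rfl, by omega⟩⟩
            · exact Or.inl ⟨le_rfl, by omega⟩))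
          have h1 : Nat.card F ∣ m := by simpa using dvd0 hq (hm.trans (mul_assoc _ _ _))
          exact tgO hd o hr hs hrs ((dv0 hr (fun a => a3.2 (a.dvd (by decide))) (fun a => a3.2 (a.dvd (by decide)))
            (hm ▸ (Dvd.dvd.mul_left a3.1 _).mul_right _)).mul_right _) ((hsq.trans h1).mul_right _) fun _ k =>
              ⟨fun k => ((h4 q2 k).trans h1).mul_right _, fun k' => (k.elim r2 fun k => k' (k ▸ hsq)).elim⟩
      · obtain ⟨m, N, hm, hN, o⟩ := Fm.toolA_g (c := 0) (k := 3) hT (Or.inl le_rfl)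
        have hm := dvd0 hq (hm.trans (mul_assoc _ _ _))
        have a4 : A r (Nat.card F) 4 → r ∣ N := N_A hq hN (by omega) 4 (by omega) (by omega) (by omega)
        refine tgA hd o hr hs hrs (fun _ _ => sqp hm) (fun _ => sq4 hm)
          (e8 hq hN (by omega) 4 (by omega) (by omega) (by omega) (by decide)) (fun _ => ?_) fun k => absurd hsq k
        rcases R with ⟨j, j1, j2, a⟩ | ⟨j, j1, j2, a⟩
        · interval_cases j
          exacts [a4 (a.dvd (by decide)), a4 (a.dvd (by decide)), a4 (not_not.1 fun k => a3 ⟨a, k⟩), a4 a,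
            N_A hq hN (by omega) 5 (by omega) (by omega) (by omega) a]
        · by_cases j3 : j = 1
          · exact a4 (a.dvd (by rw [j3]; decide))
          · exact N_B hq hN (by omega) j (by omega) (by omega) a
    · obtain ⟨N, hN, o⟩ := Fm.toolA_one (d := 1) (k := 4) hT (Or.inl (by omega))
      exact tgB hd o hr hs hrs (e8 hq hN (by omega) 2 (by omega) (by omega) (by omega) dvd_rfl) hrq hsq
        (cov4 hr hq hN (by omega) R) (cov4 hs hq hN (by omega) (R' hsq))
  · obtain ⟨k, rfl⟩ : ∃ k, d = 0 + 2 + k := ⟨d - 2, by omega⟩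
    obtain ⟨m, N, hm, hN, o⟩ := Fm.toolA_g hT (Or.inl (by omega))
    have hm := dvd0 hq (hm.trans (mul_assoc _ _ _))
    have key : ∀ {r}, r.Prime → Sr r (Nat.card F) (0 + 2 + k) → r ∣ N := fun hr =>
      cov hr (by omega) (by omega) (by omega)
        (fun a => N_A hq hN (by omega) (2 + k) (by omega) (by omega) (by omega) (a.dvd (by omega)))
        (N_A hq hN (by omega) 3 (by omega) (by omega) (by omega)) (N_B hq hN (by omega) 2 (by omega) (by omega))
        (N_A hq hN (by omega)) (N_B hq hN (by omega))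
    exact tgA hd o hr hs hrs (fun _ _ => sqp hm) (fun _ => sq4 hm)
      (e8 hq hN (by omega) (2 + k) (by omega) (by omega) (by omega) (by omega)) (fun _ => key hr R)
      fun k => key hs (R' k)
  · obtain ⟨k, rfl⟩ : ∃ k, d = 1 + 2 + k := ⟨d - 3, by omega⟩
    obtain ⟨m, N, hm, hN, o⟩ := Fm.toolA_g hT (Or.inl (by omega))
    have hm' := dvd0 hq (hm.trans (mul_assoc _ _ _))
    have a2 : ∀ {r}, A r (Nat.card F) 2 → r ∣ N := fun a =>
      N_A hq hN (by omega) (2 + k) (by omega) (by omega) (by omega) (a.dvd (by omega))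
    have key : ∀ {r}, r.Prime → (¬ r ∣ Nat.card F → Sr r (Nat.card F) (1 + 2 + k)) → r ∣ m * N := fun {r} hr a => by
      by_cases h : r ∣ Nat.card F
      · exact (sqp hm' h).mul_right _
      refine cov hr (by omega) (by omega) (by omega) (fun a => (a2 a).mul_left _) (fun a => Dvd.dvd.mul_left ?_ _)
        (fun a => ?_) (fun j j1 j2 j3 a => (N_A hq hN (by omega) j j1 j2 j3 a).mul_left _)
        (fun j j1 j2 a => (N_B hq hN (by omega) j j1 j2 a).mul_left _) (a h)
      · by_cases k6 : k = 6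
        · exact N_A hq hN (by omega) 9 (by omega) (by omega) (by omega) (a.dvd (by decide))
        · exact N_A hq hN (by omega) 6 (by omega) (by omega) (by omega) (a.dvd (by decide))
      · by_cases a' : A r (Nat.card F) 2
        · exact (a2 a').mul_left _
        · exact (dv0 hr (fun a => a' (a.dvd (by decide))) (fun a => a' (a.dvd (by decide)))
            (hm ▸ Dvd.dvd.mul_left a _)).mul_right _
    exact tgO hd o hr hs hrs (key hr fun _ => R) (key hs R') fun _ _ =>
      ⟨fun k => (sq4 hm' k).mul_right _, fun k => (a2 (eight k dvd_rfl)).mul_left _⟩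

end MainP

namespace Fm

variable {F V : Type} [Field F] [Finite F] [AddCommGroup V] [Module F V] [Finite V] {S : Fm F V} {k d e : ℕ}

theorem mainP (hT : S.Ty d 0) (hd : 4 ≤ d) (hz : d = 5 → Nat.card F = 3 → ¬ S.CZ)
    {r s : ℕ} (hr : r.Prime) (hs : s.Prime) (hrs : r ≠ s) (hr' : r ∣ Nat.card F * NN (Nat.card F) 0 0 d)
    (hs' : s ∣ Nat.card F * NN (Nat.card F) 0 0 d) : S.Tg (r * s) := by
  by_cases hq : r ∣ Nat.card F
  · rw [mul_comm]
    exact MainP.aux hT hd hz hs hr hrs.symm hs' hr' fun k => hrs (MainA.uniq hr hs hq k)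
  · exact MainP.aux hT hd hz hr hs hrs hr' hs' hq

end Fm

end Cfsg.Agent.DG
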