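import Mathlib
import Cfsg.Agent.DG.AbsH2
import Cfsg.Agent.DG.ToolA

/-! The group of minus type in dimension eight over the field with three elements. -/

set_option autoImplicit false
set_option linter.unusedSectionVars false

namespace Cfsg.Agent.DG

open Module Matrix Finset
open scoped ComplexConjugate

namespace Fm

variable {F V : Type} [Field F] [Finite F] [AddCommGroup V] [Module F V] [Finite V] {S : Fm F V} {k d e : ℕ}

theorem n1o_three (hq : Nat.card F = 3) : (3 : F) = 0 := by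
  let _ := Fintype.ofFinite F
  have h := FiniteField.cast_card_eq_zero F
  rw [← Nat.card_eq_fintype_card, hq] at h
  exact_mod_cast h

theorem n1o_sq (hq : Nat.card F = 3) {a : F} (ha : a ≠ 0) : a ^ 2 = 1 := by
  let _ := Fintype.ofFinite F
  have h := FiniteField.pow_card_sub_one_eq_one a ha
  rwa [← Nat.card_eq_fintype_card, hq] at h

theorem n1o_plane (hq : Nat.card F = 3) (ho : S.o = true) (h : ∀ v, S.Q v = 0 → v = 0)
    (h2 : finrank F V = 2) : ∃ σ : V ≃ₗ[F] V, ∀ x, S.Q (σ x) = -S.Q x := by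
  have : Module.Finite F V := Module.Finite.of_finite
  have h3 := n1o_three hq
  let b := Module.finBasisOfFinrankEq F V h2
  have li : ∀ s t : F, s • b 0 + t • b 1 = 0 → t = 0 := fun s t e => by
    simpa using congrArg (fun x => b.repr x 1) e
  obtain ⟨c, hc⟩ : ∃ c : F, S.B (b 0) (b 1 - c • b 0) = 0 := by
    have q0 : S.Q (b 0) ≠ 0 := fun e => b.ne_zero 0 (h _ e)
    refine ⟨-S.B (b 0) (b 1) * S.Q (b 0), ?_⟩
    rw [map_sub, map_smul, B_self, smul_eq_mul]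
    linear_combination (2 * S.B (b 0) (b 1)) * n1o_sq hq q0 + S.B (b 0) (b 1) * h3
  obtain ⟨w, hw⟩ : ∃ w, w = b 1 - c • b 0 := ⟨_, rfl⟩
  rw [← hw] at hc
  have key : ∀ s t : F, S.Q (s • b 0 + t • w) = s ^ 2 * S.Q (b 0) + t ^ 2 * S.Q w := fun s t => by
    simp [Q_add, Q_smul, hc]
  have ne : ∀ s : F, S.Q (s • b 0 + (1 : F) • w) ≠ 0 := fun s e => one_ne_zero (li (s - c) 1 (by
    rw [← h _ e, hw]; module))
  have e1 : S.Q w = S.Q (b 0) := by
    have q0 : S.Q (b 0) ≠ 0 := fun e => b.ne_zero 0 (h _ e)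
    have q1 : S.Q w ≠ 0 := by simpa using ne 0
    have q2 := ne 1
    rw [key] at q2
    have : (S.Q w - S.Q (b 0)) * (1 ^ 2 * S.Q (b 0) + 1 ^ 2 * S.Q w) = 0 := by
      linear_combination n1o_sq hq q1 - n1o_sq hq q0
    exact sub_eq_zero.1 ((mul_eq_zero.1 this).resolve_right q2)
  let f : V →ₗ[F] V := b.constr F ![b 0 + w, b 0 - w + c • (b 0 + w)]
  have hf : ∀ x, S.Q (f x) = -S.Q x := fun x => by
    obtain ⟨s, t, rfl⟩ : ∃ s t : F, x = s • b 0 + t • b 1 :=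
      ⟨b.repr x 0, b.repr x 1, by rw [← Fin.sum_univ_two (fun i => b.repr x i • b i), b.sum_repr]⟩
    have a1 : f (s • b 0 + t • b 1) = (s + t + t * c) • b 0 + (s - t + t * c) • w := by
      simp only [f, map_add, map_smul, Basis.constr_basis, cons_val_zero, cons_val_one]
      module
    have a2 : s • b 0 + t • b 1 = (s + t * c) • b 0 + t • w := by rw [hw]; module
    rw [a1, a2, key, key, e1]
    linear_combination ((s + t * c) ^ 2 + t ^ 2) * S.Q (b 0) * h3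
  exact ⟨LinearEquiv.ofBijective f (Finite.injective_iff_bijective.1
    ((injective_iff_map_eq_zero f).2 fun x hx => h x (by
      rw [← neg_eq_zero, ← hf, hx, map_zero]))), hf⟩

/-- The extension of a similarity to the hyperbolic extension. -/
def n1oExt (k : ℕ) (σ : V ≃ₗ[F] V) : HV F k V ≃ₗ[F] HV F k V :=
  ((LinearEquiv.refl F _).prodCongr (LinearEquiv.neg F)).prodCongr σ

theorem n1oExt_app (σ : V ≃ₗ[F] V) (z : HV F k V) : n1oExt k σ z = ((z.1.1, -z.1.2), σ z.2) := rfl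

theorem n1oExt_B {σ : V ≃ₗ[F] V} (h : ∀ x y, S.B (σ x) (σ y) = -S.B x y) (x y : HV F k V) :
    (S.hyp k).B (n1oExt k σ x) (n1oExt k σ y) = -(S.hyp k).B x y := by
  simp only [hyp_B, n1oExt_app, h, dotProduct_neg, neg_dotProduct]
  ring

theorem n1oExt_Q {σ : V ≃ₗ[F] V} (h : ∀ x, S.Q (σ x) = -S.Q x) (x : HV F k V) :
    (S.hyp k).Q (n1oExt k σ x) = -(S.hyp k).Q x := by
  simp only [hyp_Q, n1oExt_app, h, dotProduct_neg]
  ring

theorem exists_sim (hq : Nat.card F = 3) (hT : S.Ty d 2) :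
    ∃ σ : V ≃ₗ[F] V, (∀ x y, S.B (σ x) (σ y) = -S.B x y) ∧ ∀ x, S.Q (σ x) = -S.Q x := by
  have ho := hT.o_of_ne (by decide)
  obtain ⟨V₀, _, _, _, S₀, h1, h2, ho', f, fB, fQ⟩ := hT
  have o0 : S₀.o = true := ho'.symm.trans ho
  obtain ⟨σ, hσ⟩ := n1o_plane hq o0 h1 (by simpa [o0] using h2.symm)
  have hB : ∀ x y, S₀.B (σ x) (σ y) = -S₀.B x y := fun x y => by
    rw [S₀.ho o0, S₀.ho o0, QuadraticMap.polar, QuadraticMap.polar, ← map_add, hσ, hσ, hσ]
    ring
  refine ⟨f.trans ((n1oExt d σ).trans f.symm), fun x y => ?_, fun x => ?_⟩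
  · rw [← fB, ← fB x y, ← n1oExt_B hB]; simp
  · rw [← fQ, ← fQ x, ← n1oExt_Q hσ]; simp

theorem n1o_conj {σ : V ≃ₗ[F] V} (hB : ∀ x y, S.B (σ x) (σ y) = -S.B x y)
    (hQ : ∀ x, S.Q (σ x) = -S.Q x) : ∃ τ : S.G ≃* S.G, ∀ g x, (τ g).1 (σ x) = σ (g.1 x) := by
  have hB' : ∀ x y, S.B (σ.symm x) (σ.symm y) = -S.B x y := fun x y => by
    rw [← neg_eq_iff_eq_neg, ← hB, σ.apply_symm_apply, σ.apply_symm_apply]
  have hQ' : ∀ x, S.Q (σ.symm x) = -S.Q x := fun x => by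
    rw [← neg_eq_iff_eq_neg, ← hQ, σ.apply_symm_apply]
  exact ⟨
    { toFun := fun g => ⟨σ.symm.trans (g.1.trans σ), fun x y => by simp [hB, hB'],
        fun x => by simp [hQ, hQ']⟩
      invFun := fun g => ⟨σ.trans (g.1.trans σ.symm), fun x y => by simp [hB, hB'],
        fun x => by simp [hQ, hQ']⟩
      left_inv := fun g => G_ext fun x => by simp
      right_inv := fun g => G_ext fun x => by simp
      map_mul' := fun g g' => G_ext fun x => by simp }, fun g x => by simp⟩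

theorem n1o_perm {σ : V ≃ₗ[F] V} (hQ : ∀ x, S.Q (σ x) = -S.Q x) {τ : S.G ≃* S.G}
    (hτ : ∀ g x, (τ g).1 (σ x) = σ (g.1 x)) (g : S.G) :
    Perm.permChar S.G S.Pt (τ g) = Perm.permChar S.G S.Pt g := by
  classical
  let _ := Fintype.ofFinite S.Pt
  let E : S.Pt → S.Pt := fun x => ⟨x.1.map (σ : V →ₗ[F] V),
    by rw [LinearEquiv.finrank_map_eq]; exact x.2.1, by
      rintro _ ⟨v, hv, rfl⟩
      rw [LinearEquiv.coe_coe, hQ, x.2.2 v hv, neg_zero]⟩
  have inj : Function.Injective E := fun x y h =>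
    Subtype.ext (Submodule.map_injective_of_injective σ.injective (congrArg Subtype.val h))
  have hE : ∀ x, τ g • E x = E (g • x) := fun x => Subtype.ext (by
    change (x.1.map _).map _ = (x.1.map _).map _
    rw [← Submodule.map_comp, ← Submodule.map_comp]
    congr 1
    exact LinearMap.ext fun v => hτ g v)
  rw [r3_sum, r3_sum]
  exact (Fintype.sum_bijective E (Finite.injective_iff_bijective.1 inj) _ _ fun x => by
    rw [hE, inj.eq_iff]).symm

theorem n1o (hq : Nat.card F = 3) (hT : S.Ty 3 2) (hz : ¬ S.CZ) : ∃ n, 195 ∣ n ∧ S.Out n := by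
  obtain ⟨V', _, _, _, S', hT', -, hi⟩ := Ty.split (d := 2) (k := 1) hT
  obtain ⟨ψ, ξ, p1, p2, n1, -, hπ, d1, d2⟩ := p3 (c := 0) hT'
  rw [hq] at d1 d2
  have d1 : charDegree ψ = 90 := by omega
  have d2 : charDegree ξ = 21 := by omega
  obtain ⟨θ, hθ, t1, t2, t3⟩ := cusp_sgn hq
  obtain ⟨φ, hφ⟩ := exists_isPhi (S := S') θ ψ
  have hs := hφ.hs one_pos hθ.irr p1.1 (fun a => (t3 a).trans t1.symm) (K := ⊤) fun x => by
    rcases tri_base hθ hφ (K := ⊤) (fun _ _ _ _ => Subgroup.mem_top _) x with h | h | h | h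
    · exact .inl h
    · exact .inr (.inl h)
    · exact .inr (.inr h)
    · refine .inr (.inr (van_P hθ.irr (fun e => ?_) hφ p1.splP h))
      rw [e] at t2
      norm_num at t2
  obtain ⟨χ₁, χ₂, y₁, y₂, c, h⟩ := hs.exists_HO Nat.prime_three (by rw [hT'.card_U, hq])
  obtain ⟨σ, hB, hQ⟩ := exists_sim hq hT'
  obtain ⟨τ', hτ'⟩ := n1o_conj hB hQ
  obtain ⟨τ, hτ⟩ := n1o_conj (n1oExt_B (k := 1) hB) (n1oExt_Q hQ)
  have hW : ∀ z, n1oExt 1 σ z ∈ W F V' 1 ↔ z ∈ W F V' 1 := fun z => by simp [mem_W, n1oExt_app]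
  have hl : ∀ a g, τ (S'.lev 1 (a, g)) = S'.lev 1 (a, τ' g) := fun a g => G_ext fun z => by
    obtain ⟨z, rfl⟩ := (n1oExt 1 σ).surjective z
    rw [hτ]
    simp only [lev_app, n1oExt_app, mulVec_neg, hτ']
  have c0 : c = 0 := by
    refine h.tau hs Nat.prime_three τ (fun g => ?_) (fun g hg => ?_) (lev_mem_P (-1 : GL (Fin 1) F) 1)
      (G_ext fun z => ?_) ?_
    · rw [mem_St, mem_St, (n1oExt 1 σ).surjective.forall (p := fun z => z ∈ W F V' 1 ↔ (τ g).1 z ∈ _)]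
      simp only [hτ, hW]
    · obtain ⟨u, hu, a, g, rfl⟩ := exists_dec hg
      have hu' : τ u ∈ S'.U 1 := by
        refine ⟨fun z hz => ?_, fun z hz => ?_⟩ <;> obtain ⟨z, rfl⟩ := (n1oExt 1 σ).surjective z
        · rw [hτ, hu.1 z ((hW z).1 hz)]
        · rw [hτ, ← map_sub, hW]
          exact hu.2 z (perp_W.2 (neg_eq_zero.1 (perp_W.1 hz)))
      rw [map_mul, hl, hφ _ hu', hφ _ hu, aut_three p1.1 p2.1 n1 hπ (by omega) τ' (n1o_perm hQ hτ')]
    · obtain ⟨z, rfl⟩ := (n1oExt 1 σ).surjective z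
      rw [hτ, mul_app]
      simp [lev_app, nn_app, n1oExt_app, neg_mulVec, -GeneralLinearGroup.coe_inv, -coe_units_inv,
        inv_neg]
    · rw [hφ.lev, hφ.one, t1, t2]; ring
  have e1 := h.deg_sum
  have e2 := hT'.index_P one_pos
  rw [hq] at e2
  have e2 : (S'.P 1).index = 1066 := by
    simp [NN] at e2
    omega
  rw [c0, e2, hφ.one, t1, one_mul, p1.1.isCharacter.charDegree_eq_iff.1 d1] at e1
  have e3 : charDegree χ₁ * (1 + 3 ^ 0) = 1066 * 90 := by exact_mod_cast e1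
  exact ⟨charDegree χ₁, by omega, hi.out ⟨χ₁, h.h₁.irr, rfl, fun hc => absurd (hi.cz.2 hc) hz⟩⟩

end Fm

end Cfsg.Agent.DG
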