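import Mathlib
import Cfsg.Agent.DG.N2
import Cfsg.Agent.DG.N1o
import Cfsg.Agent.DG.MainP

set_option autoImplicit false

namespace Cfsg.Agent.DG

open Module Matrix Finset
open scoped ComplexConjugate

namespace MainM

open MainA MainP

variable {r q k c d N : ℕ}

/-- The primes of the group order. -/
def Sm (r q d : ℕ) : Prop := (∃ j, 1 ≤ j ∧ j ≤ d ∧ A r q j) ∨ ∃ j, 2 ≤ j ∧ j < d + 2 ∧ B r q j

theorem covm (hr : r.Prime) (hq : 2 ≤ q) (hN : N * (q ^ k - 1) = NN q 2 c k) (hc : c ≤ 2) (hk : 4 ≤ k)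
    (h2 : 2 ∣ k) (a2 : A r q 2 → r ∣ N) (h : Sm r q (c + k)) : r ∣ N := by
  have a := N_A (r := r) hq hN (by omega)
  have b := N_B (r := r) hq hN (by omega)
  have a' : ∀ j, 1 ≤ j → j ≤ c + k → j ≠ k → A r q j → r ∣ N := fun j h1 h3 h4 h => by
    by_cases h5 : j ≤ 2
    · interval_cases j
      exacts [a2 (h.dvd (by decide)), a2 h]
    · exact a j (by omega) h3 h4 h
  have b' : ∀ j, 2 ≤ j → j < c + k + 2 → B r q j → r ∣ N := fun j h1 h3 h => by
    by_cases h5 : c + 2 ≤ j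
    · exact b j h5 h3 h
    by_cases h6 : j = 2
    · subst h6
      exact b 6 (by omega) (by omega) (h.odd (m := 3) (by decide))
    obtain rfl : j = 3 := by omega
    by_cases k6 : k = 6
    · exact b 9 (by omega) (by omega) (h.odd (m := 3) (by decide))
    · exact a 6 (by omega) (by omega) (by omega) (h.dvd (by decide))
  rcases h with ⟨j, h1, h3, h⟩ | ⟨j, h1, h3, h⟩
  · by_cases h4 : j = k
    · obtain ⟨i, hi⟩ := h2
      exact (h.half hr (h4.trans hi)).elim (a' i (by omega) (by omega) (by omega)) (b' i (by omega) (by omega))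
    · exact a' j h1 h3 h4 h
  · exact b' j h1 h3 h

variable {F V : Type} [Field F] [Finite F] [AddCommGroup V] [Module F V] [Finite V] {S : Fm F V}

/-- The case `d = 3`, `q ≥ 3`, `r` an odd prime divisor of `q ^ 2 + 1`. -/
theorem three (hT : S.Ty 3 2) (hz : (2 : F) ≠ 0 → ¬ S.CZ) (q2 : Nat.card F ≠ 2)
    {r s : ℕ} (hr : r.Prime) (hs : s.Prime) (hrs : r ≠ s) (hrq : ¬ r ∣ Nat.card F)
    (R' : ¬ s ∣ Nat.card F → Sm s (Nat.card F) 3) (b2 : B r (Nat.card F) 2) (r2 : r ≠ 2) : S.Tg (r * s) := by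
  have hq := two_le F
  have hd : S.o = true → 4 < finrank F V := rank hT fun _ => by omega
  have a2 : ¬ A r (Nat.card F) 2 := fun a => r2 (a.two b2 hq hr)
  by_cases h : s ∣ Nat.card F ∨ (A s (Nat.card F) 3 ∧ ¬ A s (Nat.card F) 2)
  · have s2 : ¬ 2 ∣ Nat.card F → s ≠ 2 := fun k e => h.elim (fun h => k (e ▸ h)) fun h => h.2 (e ▸ A_two k 2)
    by_cases q3 : Nat.card F = 3
    · obtain ⟨n, k1, o⟩ := Fm.n1o q3 hT (hz fun k => absurd ((two_iff F).1 k) (by rw [q3]; decide))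
      have h1 := mem_of hr b2 [2, 5] 1 (by decide) (by rw [q3]; decide)
      have h2 : s ∈ [2, 3, 13] := h.elim (fun h => mem_of hs h _ 1 (by decide) (by rw [q3]; decide))
        fun h => mem_of hs h.1 _ 1 (by decide) (by rw [q3]; decide)
      have s2 := s2 (by rw [q3]; decide)
      exact tgO hd o hr hs hrs (((by decide : ∀ r ∈ [2, 5], r ≠ 2 → r ∣ 195) r h1 r2).trans k1)
        (((by decide : ∀ r ∈ [2, 3, 13], r ≠ 2 → r ∣ 195) s h2 s2).trans k1) fun _ k => (k.elim r2 s2).elim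
    · obtain ⟨m, N, hm, hN, o⟩ := Fm.toolA_f (c := 0) (k := 1) hT
        (Or.inr (Or.inr ⟨(em _).symm.imp_left hz, Or.inr ⟨le_rfl, by omega⟩⟩))
      have hm' := dvd2 hq (hm.trans (mul_assoc _ _ _))
      refine tgO hd o hr hs hrs ((dv2 hr hrq (fun a => a2 (a.dvd (by decide))) (fun a => a2 (a.dvd (by decide)))
        (hm ▸ Dvd.dvd.mul_left b2 _)).mul_right _) (h.elim (fun h => (sqp hm' h).mul_right _) fun h => ?_)
        fun _ k => ⟨fun k => (sq4 hm' k).mul_right _, fun k' => (k.elim r2 (s2 k')).elim⟩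
      have h1 : s ∣ N * (Nat.card F ^ 1 - 1) := by
        rw [hN, NN, prod_range_one]
        exact Dvd.dvd.mul_right h.1 _
      exact ((hs.dvd_mul.1 h1).resolve_right fun a => h.2 (A.dvd a (one_dvd _))).mul_left _
  · rw [not_or] at h
    obtain ⟨N, hN, o⟩ := Fm.toolA_one (d := 0) (k := 3) hT (Or.inl le_rfl)
    have t : A s (Nat.card F) 2 → s ∣ N := N_A hq hN (by omega) 2 (by omega) (by omega) (by omega)
    refine tgB hd o hr hs hrs (e8 hq hN (by omega) 2 (by omega) (by omega) (by omega) dvd_rfl) hrq h.1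
      (N_B hq hN (by omega) 2 (by omega) (by omega) b2) ?_
    rcases R' h.1 with ⟨j, j1, j2, a⟩ | ⟨j, j1, j2, a⟩
    · interval_cases j
      exacts [t (a.dvd (by decide)), t a, t (not_not.1 fun k => h.2 ⟨a, k⟩)]
    · exact N_B hq hN (by omega) j (by omega) (by omega) a

theorem aux (hT : S.Ty d 2) (hd3 : 3 ≤ d) (hz : d = 3 → (2 : F) ≠ 0 → ¬ S.CZ)
    {r s : ℕ} (hr : r.Prime) (hs : s.Prime) (hrs : r ≠ s) (hr' : r ∣ Nat.card F * NN (Nat.card F) 2 0 d)
    (hs' : s ∣ Nat.card F * NN (Nat.card F) 2 0 d) (hrq : ¬ r ∣ Nat.card F) : S.Tg (r * s) := by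
  have hq := two_le F
  have hd : S.o = true → 4 < finrank F V := rank hT fun _ => by omega
  have R : Sm r (Nat.card F) d := of_NN hr hrq hr'
  have R' : ¬ s ∣ Nat.card F → Sm s (Nat.card F) d := fun k => of_NN hs k hs'
  rcases (by omega : d = 3 ∨ d = 4 ∨ (5 ≤ d ∧ d % 2 = 1) ∨ (6 ≤ d ∧ d % 2 = 0)) with
    rfl | rfl | ⟨h5, h6⟩ | ⟨h5, h6⟩
  · by_cases q2 : Nat.card F = 2
    · obtain ⟨χ, ξ, k1, -, -, -, -, e1, -⟩ := Fm.p3 (c := 1) hT
      obtain ⟨N, hN, o⟩ := Fm.toolA_one (d := 0) (k := 3) hT (Or.inl le_rfl)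
      obtain ⟨n, k2, o'⟩ := Fm.n2_M3 q2 hT
      have no : ∀ {P : Prop}, ¬ 2 ∣ Nat.card F → P := fun k => absurd (q2 ▸ dvd_rfl) k
      rw [q2] at e1 hN hr' hs'
      have e1 : charDegree χ = 84 := by omega
      have e3 : N = 2295 := by
        rw [show NN 2 2 0 3 = 16065 by decide] at hN
        omega
      rcases (by decide : ∀ r ∈ [2, 3, 5, 7, 17], ∀ s ∈ [2, 3, 5, 7, 17], r ≠ s →
        (r ∣ 84 ∧ s ∣ 84) ∨ (r ∣ 1190 ∧ s ∣ 1190) ∨ (r ∣ 2295 ∧ s ∣ 2295 ∧ r ≠ 2 ∧ s ≠ 2)) r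
        (mem_of hr hr' _ 10 (by decide) (by decide)) s (mem_of hs hs' _ 10 (by decide) (by decide)) hrs with
        a | a | a
      · exact tgN hd (k1.outN hd) hr hs hrs (e1 ▸ a.1) (e1 ▸ a.2) fun _ _ => no
      · exact tgN hd o' hr hs hrs (a.1.trans k2) (a.2.trans k2) fun _ _ => no
      · exact tgO hd o hr hs hrs (e3 ▸ a.1) (e3 ▸ a.2.1) fun _ k => (k.elim a.2.2.1 a.2.2.2).elim
    by_cases b1 : B r (Nat.card F) 2 ∧ r ≠ 2
    · exact three hT (hz rfl) q2 hr hs hrs hrq R' b1.1 b1.2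
    by_cases b2 : ¬ s ∣ Nat.card F ∧ B s (Nat.card F) 2 ∧ s ≠ 2
    · rw [mul_comm]
      exact three hT (hz rfl) q2 hs hr hrs.symm b2.1 (fun _ => R) b2.2.1 b2.2.2
    obtain ⟨N, hN, o⟩ := Fm.toolA_p2 (k := 2) hT
      (Or.inr (Or.inr ⟨(em _).symm.imp_left (hz rfl), Or.inl ⟨le_rfl, by omega⟩⟩))
    have e : N = (Nat.card F ^ 6 - 1) * (Nat.card F ^ 4 + 1) := by
      refine Nat.eq_of_mul_eq_mul_right (pos hq two_pos) ?_
      rw [hN, NN, prod_range_succ, prod_range_one, sq_sub _ 3]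
      ring
    have a6 : ∀ {r}, A r (Nat.card F) 6 → r ∣ N := fun a => e ▸ Dvd.dvd.mul_right a _
    have key : ∀ {r}, ¬ r ∣ Nat.card F → ¬ (B r (Nat.card F) 2 ∧ r ≠ 2) → Sm r (Nat.card F) 3 → r ∣ N :=
      fun {r} h0 h1 a => by
        rcases a with ⟨j, j1, j2, a⟩ | ⟨j, j1, j2, a⟩ <;> interval_cases j
        · exact a6 (a.dvd (by decide))
        · exact a6 (a.dvd (by decide))
        · exact a6 (a.dvd (by decide))
        · obtain rfl : r = 2 := not_not.1 fun k => h1 ⟨a, k⟩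
          exact a6 (A_two h0 6)
        · exact a6 (a.dvd (by decide))
        · exact e ▸ Dvd.dvd.mul_left a _
    exact tgA hd o hr hs hrs (fun _ _ => sqp dvd_rfl) (fun _ => sq4 dvd_rfl) (fun k => a6 (eight k (by decide)))
      (fun _ => key hrq b1 R) fun k => key k (fun h => b2 ⟨k, h⟩) (R' k)
  · by_cases hsq : s ∣ Nat.card F
    · by_cases a3 : A r (Nat.card F) 3 ∧ ¬ A r (Nat.card F) 4
      · have r2 : r ≠ 2 := fun e => a3.2 (e ▸ A_two (e ▸ hrq) 4)
        obtain ⟨χ, ξ, -, k2, -, -, -, -, e2⟩ := Fm.p3 (c := 2) hT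
        have h1 : Nat.card F ∣ charDegree ξ := by simpa using dvd2 (j := 1) hq (e2.trans (mul_assoc _ _ _))
        exact tgN hd (k2.outN hd) hr hs hrs (dv2 hr hrq (fun a => a3.2 (a.dvd (by decide)))
          (fun a => a3.2 (a.dvd (by decide))) (e2 ▸ (Dvd.dvd.mul_left a3.1 _).mul_right _)) (hsq.trans h1)
          fun _ k k' => (k.elim r2 fun k => k' (k ▸ hsq)).elim
      · obtain ⟨N, hN, o⟩ := Fm.toolA_p2 (k := 3) hT (Or.inl le_rfl)
        have a4 : A r (Nat.card F) 4 → r ∣ N := N_A hq hN (by omega) 4 (by omega) (by omega) (by omega)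
        refine tgA hd o hr hs hrs (fun _ _ => sqp dvd_rfl) (fun _ => sq4 dvd_rfl)
          (e8 hq hN (by omega) 4 (by omega) (by omega) (by omega) (by decide)) (fun _ => ?_) fun k => absurd hsq k
        rcases R with ⟨j, j1, j2, a⟩ | ⟨j, j1, j2, a⟩
        · interval_cases j
          exacts [a4 (a.dvd (by decide)), a4 (a.dvd (by decide)), a4 (not_not.1 fun k => a3 ⟨a, k⟩), a4 a]
        · by_cases j3 : j = 2
          · exact a4 (a.dvd (by rw [j3]))
          · exact N_B hq hN (by omega) j (by omega) (by omega) a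
    · obtain ⟨N, hN, o⟩ := Fm.toolA_one (d := 0) (k := 4) hT (Or.inl (by omega))
      have key : ∀ {r}, r.Prime → Sm r (Nat.card F) 4 → r ∣ N := fun hr =>
        covm hr hq hN (by omega) le_rfl (by decide) (N_A hq hN (by omega) 2 (by omega) (by omega) (by omega))
      exact tgB hd o hr hs hrs (e8 hq hN (by omega) 2 (by omega) (by omega) (by omega) dvd_rfl) hrq hsq
        (key hr R) (key hs (R' hsq))
  · obtain ⟨k, rfl⟩ : ∃ k, d = 1 + k := ⟨d - 1, by omega⟩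
    obtain ⟨N, hN, o⟩ := Fm.toolA_p2 hT (Or.inl (by omega))
    have key : ∀ {r}, r.Prime → Sm r (Nat.card F) (1 + k) → r ∣ N := fun hr =>
      covm hr hq hN (by omega) (by omega) (by omega) (N_A hq hN (by omega) 2 (by omega) (by omega) (by omega))
    exact tgA hd o hr hs hrs (fun _ _ => sqp dvd_rfl) (fun _ => sq4 dvd_rfl)
      (e8 hq hN (by omega) 2 (by omega) (by omega) (by omega) dvd_rfl) (fun _ => key hr R) fun k => key hs (R' k)
  · obtain ⟨k, rfl⟩ : ∃ k, d = 0 + 2 + k := ⟨d - 2, by omega⟩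
    obtain ⟨m, N, hm, hN, o⟩ := Fm.toolA_f hT (Or.inl (by omega))
    have hm := dvd2 hq (hm.trans (mul_assoc _ _ _))
    have key : ∀ {r}, r.Prime → Sm r (Nat.card F) (0 + 2 + k) → r ∣ N := fun hr =>
      covm hr hq hN (by omega) (by omega) (by omega)
        fun a => N_A hq hN (by omega) (2 + k) (by omega) (by omega) (by omega) (a.dvd (by omega))
    exact tgA hd o hr hs hrs (fun _ _ => sqp hm) (fun _ => sq4 hm)
      (e8 hq hN (by omega) (2 + k) (by omega) (by omega) (by omega) (by omega)) (fun _ => key hr R)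
      fun k => key hs (R' k)

end MainM

namespace Fm

variable {F V : Type} [Field F] [Finite F] [AddCommGroup V] [Module F V] [Finite V] {S : Fm F V} {k d e : ℕ}

theorem mainM (hT : S.Ty d 2) (hd : 3 ≤ d) (hz : d = 3 → (2 : F) ≠ 0 → ¬ S.CZ)
    {r s : ℕ} (hr : r.Prime) (hs : s.Prime) (hrs : r ≠ s) (hr' : r ∣ Nat.card F * NN (Nat.card F) 2 0 d)
    (hs' : s ∣ Nat.card F * NN (Nat.card F) 2 0 d) : S.Tg (r * s) := by
  by_cases hq : r ∣ Nat.card F
  · rw [mul_comm]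
    exact MainM.aux hT hd hz hs hr hrs.symm hs' hr' fun k => hrs (MainA.uniq hr hs hq k)
  · exact MainM.aux hT hd hz hr hs hrs hr' hs' hq

end Fm

end Cfsg.Agent.DG
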